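import Mathlib

/-! Lagrangian compression data for isometries of a 4-dimensional symplectic space. -/

set_option autoImplicit false

namespace H7.CC

variable {F V : Type*} [Field F] [AddCommGroup V] [Module F V]

/-- Complementary Lagrangians `⟨w₁,w₂⟩`, `⟨y₁,y₂⟩` with the compression of `T` to the first equal to `l`. -/
def Dat (ω : V →ₗ[F] V →ₗ[F] F) (T : V →ₗ[F] V) (l : Matrix (Fin 2) (Fin 2) F) : Prop :=
  ∃ (w1 w2 y1 y2 : V) (δ : F), ω w1 w2 = 0 ∧ ω y1 y2 = 0 ∧
    ω w1 y1 * ω w2 y2 - ω w1 y2 * ω w2 y1 ≠ 0 ∧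
    T w1 = l 0 0 • w1 + l 1 0 • w2 + y1 ∧ T w2 = l 0 1 • w1 + l 1 1 • w2 + δ • y2

structure Ctx (ω : V →ₗ[F] V →ₗ[F] F) (T T' : V →ₗ[F] V) : Prop where
  alt : ∀ v, ω v v = 0
  nd : ∀ y, (∀ w, ω w y = 0) → y = 0
  iso : ∀ u v, ω (T u) (T v) = ω u v
  inv : ∀ v, T (T' v) = v
  ne1 : ¬ ∀ v, T v = v
  ne2 : ¬ ∀ v, T v = -v

variable {ω : V →ₗ[F] V →ₗ[F] F} {T T' : V →ₗ[F] V}

theorem Ctx.skew (h : Ctx ω T T') (u v : V) : ω u v = -ω v u := by
  have := h.alt (u + v)
  simp only [map_add, LinearMap.add_apply, h.alt] at this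
  linear_combination this

theorem Ctx.adj (h : Ctx ω T T') (u v : V) : ω u (T v) = ω (T' u) v := by
  rw [← h.iso (T' u) v, h.inv]

theorem Ctx.inj (h : Ctx ω T T') {v : V} (hv : T v = 0) : v = 0 :=
  h.nd v fun w => by rw [← h.iso, hv, map_zero]

theorem Ctx.sep (h : Ctx ω T T') {v y : V} (hy : ∀ w, ω w v = 0 → ω w y = 0) : ∃ c : F, y = c • v := by
  by_cases hv : v = 0
  · exact ⟨0, by rw [zero_smul]; exact h.nd y fun w => hy w (by rw [hv, map_zero])⟩
  obtain ⟨z, hz⟩ : ∃ z, ω z v ≠ 0 := by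
    by_contra hh; push Not at hh; exact hv (h.nd v hh)
  refine ⟨ω z y / ω z v, sub_eq_zero.1 (h.nd _ fun w => ?_)⟩
  have := hy (w - (ω w v / ω z v) • z) (by simp [hz])
  simp only [map_sub, map_smul, LinearMap.sub_apply, LinearMap.smul_apply, smul_eq_mul] at this ⊢
  field_simp at this ⊢
  linear_combination this

/-- Case A: the quadratic form `ω v (T v)` vanishes. -/
theorem Ctx.caseA (h : Ctx ω T T') (hq : ∀ v, ω v (T v) = 0) (l : Matrix (Fin 2) (Fin 2) F)
    (hl : l 0 0 + l 1 1 = 0) : Dat ω T l := by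
  have pol : ∀ u v, ω u (T v) = -ω v (T u) := fun u v => by
    have := hq (u + v)
    simp only [map_add, LinearMap.add_apply, hq] at this
    linear_combination this
  have hTT : ∀ v, T (T v) = v := fun v => sub_eq_zero.1 (h.nd _ fun w => by
    rw [map_sub, pol, h.iso, h.skew v w]; ring)
  obtain ⟨w2, w1, h0, hm⟩ : ∃ w2 w1, ω w1 w2 = 0 ∧ ω w1 (T w2) ≠ 0 := by
    by_contra hh
    push Not at hh
    have he : ∀ v, ∃ c : F, T v = c • v := fun v => h.sep (hh v)
    obtain ⟨c, hc⟩ := LinearMap.exists_eq_smul_id_of_forall_notLinearIndependent (f := T) (fun v hv => by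
      obtain ⟨c, hc⟩ := he v
      rw [LinearIndependent.pair_iff] at hv
      exact one_ne_zero (hv (-c) 1 (by rw [hc]; simp)).2)
    have hc' : ∀ v, T v = c • v := fun v => by rw [hc]; rfl
    by_cases h1 : c * c = 1
    · rcases mul_self_eq_one_iff.1 h1 with rfl | rfl
      · exact h.ne1 fun v => by rw [hc', one_smul]
      · exact h.ne2 fun v => by rw [hc', neg_one_smul]
    · refine h.ne1 fun v => ?_
      have := hTT v
      rw [hc', hc', smul_smul] at this
      have h2 : (c * c - 1) • v = 0 := by rw [sub_smul, this, one_smul, sub_self]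
      rw [(smul_eq_zero.1 h2).resolve_left (sub_ne_zero.2 h1), map_zero]
  have h0' : ω w2 w1 = 0 := by rw [h.skew, h0, neg_zero]
  have e1 : ω w2 (T w1) = -ω w1 (T w2) := pol _ _
  have e2 : ω (T w1) w2 = ω w1 (T w2) := by rw [h.skew, e1, neg_neg]
  have e3 : ω (T w1) w1 = 0 := by rw [h.skew, hq, neg_zero]
  refine ⟨w1, w2, T w1 - (l 0 0 • w1 + l 1 0 • w2), T w2 - (l 0 1 • w1 + l 1 1 • w2), 1, h0, ?_, ?_,
    by abel, by rw [one_smul]; abel⟩
  · simp only [map_sub, map_add, map_smul, LinearMap.sub_apply, LinearMap.add_apply, LinearMap.smul_apply,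
      smul_eq_mul, h.iso, h0, h0', h.alt, hq, e2, e3]
    linear_combination (-ω w1 (T w2)) * hl
  · simp only [map_sub, map_add, map_smul, smul_eq_mul, h0, h0', h.alt, hq, e1]
    simpa using hm

/-- Case C: an eigenvector for `±1` orthogonal to a vector with nonzero `q`. -/
theorem Ctx.caseC (h : Ctx ω T T') {ε : F} (hε : ε * ε = 1) {a w : V} (ha : a ≠ 0) (hTa : T a = ε • a)
    (hw : ω w a = 0) (hq : ω w (T w) ≠ 0) : Dat ω T (ε • 1) := by
  obtain ⟨z, hz⟩ : ∃ z, ω z a ≠ 0 := by
    by_contra hh; push Not at hh; exact ha (h.nd a hh)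
  have haw : ω a w = 0 := by rw [h.skew, hw, neg_zero]
  have haT : ω a (T w) = 0 := by
    have := h.iso a w
    rw [hTa, haw, map_smul, LinearMap.smul_apply, smul_eq_mul] at this
    have h2 : ε * (ε * ω a (T w)) = 0 := by rw [this, mul_zero]
    rwa [← mul_assoc, hε, one_mul] at h2
  have e3 : ω (T w) w = -ω w (T w) := h.skew _ _
  refine ⟨w, a, T w - ε • w, z + (ω (T w - ε • w) z / ω w (T w)) • w, 0, hw, ?_, ?_, by simp, by simp [hTa]⟩
  · rw [map_add, map_smul, smul_eq_mul]
    have : ω (T w - ε • w) w = -ω w (T w) := by simp [h.alt, e3]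
    rw [this]; field_simp; ring
  · simp only [map_sub, map_add, map_smul, smul_eq_mul, h.alt, haw, haT, h.skew a z]
    simpa using ⟨hq, hz⟩

/-- Case D. -/
theorem Ctx.caseD (h : Ctx ω T T') {ε s : F} (hε : ε * ε = 1)
    (hR : ∀ v, T (T v + T' v - s • v) = ε • (T v + T' v - s • v)) {u : V} (hu : T u + T' u - s • u ≠ 0)
    (hq : ∃ v, ω v (T v) ≠ 0) : Dat ω T (ε • 1) := by
  by_contra hn
  set R : V →ₗ[F] V := T + T' - s • LinearMap.id with hRd
  have hRv : ∀ v, R v = T v + T' v - s • v := fun v => rfl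
  simp only [← hRv] at hR hu
  have adjR : ∀ x y, ω x (R y) = ω (R x) y := fun x y => by
    simp only [hRv, map_sub, map_add, map_smul, LinearMap.sub_apply, LinearMap.add_apply, LinearMap.smul_apply]
    rw [h.adj x y, h.skew x (T' y), ← h.adj y x, h.skew (T x) y]; ring
  have altR : ∀ x, ω x (R x) = 0 := fun x => by
    simp only [hRv, map_sub, map_add, map_smul, h.alt, smul_zero]
    rw [h.skew x (T' x), ← h.adj x x]; ring
  obtain ⟨v, hv⟩ : ∃ v, ω v (R u) ≠ 0 := by
    by_contra hh; push Not at hh; exact hu (h.nd _ hh)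
  have e1 : ω u (R v) = -ω v (R u) := by rw [adjR, h.skew]
  have key : ∀ x, R x ≠ 0 → ∀ w, ω w (R x) = 0 → ω w (T w) = 0 := fun x hx w hw => by
    by_contra hq'; exact hn (h.caseC hε hx (hR x) hw hq')
  have ka := key u hu
  have kb := key v (fun e => hv (by have := e1; rw [e, map_zero] at this; exact neg_eq_zero.1 this.symm))
  have kc := key (u + v) (fun e => hv (by
    have := congrArg (ω v) e
    rwa [map_add, map_add, altR, add_zero, map_zero] at this))
  obtain ⟨z, hz⟩ := hq
  set m := ω v (R u)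
  set k := z - (ω z (R u) / m) • v + (ω z (R v) / m) • u with hk
  have k1 : ω k (R u) = 0 := by
    simp only [hk, map_sub, map_add, map_smul, LinearMap.sub_apply, LinearMap.add_apply, LinearMap.smul_apply,
      smul_eq_mul, altR]
    field_simp; ring
  have k2 : ω k (R v) = 0 := by
    simp only [hk, map_sub, map_add, map_smul, LinearMap.sub_apply, LinearMap.add_apply, LinearMap.smul_apply,
      smul_eq_mul, altR, e1]
    field_simp; ring
  have q1 := ka k k1
  have q2 := ka u (altR u)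
  have q3 := kb v (altR v)
  have q4 := ka (k + u) (by rw [map_add, LinearMap.add_apply, k1, altR, add_zero])
  have q5 := kb (k + v) (by rw [map_add, LinearMap.add_apply, k2, altR, add_zero])
  have q6 := kc (u + v) (altR _)
  have hz' : z = k + (ω z (R u) / m) • v - (ω z (R v) / m) • u := by rw [hk]; abel
  generalize ω z (R u) / m = α at hz'
  generalize ω z (R v) / m = β at hz'
  apply hz
  rw [hz']
  simp only [map_sub, map_add, map_smul, LinearMap.sub_apply, LinearMap.add_apply, LinearMap.smul_apply,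
      smul_eq_mul, q1, q2, q3] at q4 q5 q6 ⊢
  linear_combination (-β) * q4 + α * q5 - α * β * q6

theorem Ctx.yy (h : Ctx ω T T') {w1 w2 : V} (h0 : ω w1 w2 = 0) (h1 : ω (T w1 + T' w1) w2 = 0) :
    ω (T w1 - w1) (T w2 - w2) = 0 := by
  simp only [map_sub, map_add, LinearMap.sub_apply, LinearMap.add_apply, h.iso, h0, h.adj w1 w2] at h1 ⊢
  linear_combination -h1

/-- Case B: `T + T⁻¹` is a scalar. -/
theorem Ctx.caseB [FiniteDimensional F V] (hd : Module.finrank F V = 4) (h : Ctx ω T T') {s : F}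
    (hS : ∀ v, T v + T' v = s • v) {w1 : V} (hq : ω w1 (T w1) ≠ 0) :
    ∃ ε : F, ε * ε = 1 ∧ Dat ω T (ε • 1) := by
  have hT' : ∀ v, T' v = s • v - T v := fun v => by rw [← hS]; abel
  have inv1 : ∀ v, ω w1 v = 0 → ω (T w1) v = 0 → ω w1 (T v) = 0 := fun v a b => by
    rw [h.adj, hT']; simp [a, b]
  by_cases hw2 : ∃ w2, ω w1 w2 = 0 ∧ ω (T w1) w2 = 0 ∧ ω w2 (T w2) ≠ 0
  · obtain ⟨w2, a, b, c⟩ := hw2
    refine ⟨1, one_mul _, w1, w2, T w1 - w1, T w2 - w2, 1, a, h.yy a (by rw [hS]; simp [a]), ?_, by simp, by simp⟩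
    simp only [map_sub, h.alt, a, inv1 w2 a b]
    simpa using ⟨hq, c⟩
  push Not at hw2
  obtain ⟨v, hv0, a, b⟩ : ∃ v, v ≠ 0 ∧ ω w1 v = 0 ∧ ω (T w1) v = 0 := by
    have := LinearMap.ker_ne_bot_of_finrank_lt (f := (ω w1).prod (ω (T w1))) (by simp [hd])
    obtain ⟨v, hv, hv0⟩ := (Submodule.ne_bot_iff _).1 this
    exact ⟨v, hv0, congrArg Prod.fst hv, congrArg Prod.snd hv⟩
  have a' : ω w1 (T v) = 0 := inv1 v a b
  have b' : ω (T w1) (T v) = 0 := by rw [h.iso, a]
  have hx : T v - T' v = 0 := h.nd _ fun z => by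
    set z' := z + (ω (T w1) z / ω w1 (T w1)) • w1 - (ω w1 z / ω w1 (T w1)) • T w1 with hz'
    have z1 : ω w1 z' = 0 := by simp [hz', h.alt, hq]
    have z2 : ω (T w1) z' = 0 := by
      simp only [hz', map_sub, map_add, map_smul, smul_eq_mul, h.alt, h.skew (T w1) w1]
      field_simp; ring
    have p1 := hw2 (z' + v) (by rw [map_add, z1, a, add_zero]) (by rw [map_add, z2, b, add_zero])
    simp only [map_add, LinearMap.add_apply, hw2 z' z1 z2, hw2 v a b] at p1
    rw [h.adj v z', h.skew (T' v)] at p1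
    have hz : z = z' - (ω (T w1) z / ω w1 (T w1)) • w1 + (ω w1 z / ω w1 (T w1)) • T w1 := by rw [hz']; abel
    generalize ω (T w1) z / ω w1 (T w1) = α at hz
    generalize ω w1 z / ω w1 (T w1) = β at hz
    rw [hz]
    have c1 : ω w1 (T' v) = 0 := by rw [hT']; simp [a, a']
    have c2 : ω (T w1) (T' v) = 0 := by rw [hT']; simp [b, b']
    simp only [map_sub, map_add, map_smul, LinearMap.sub_apply, LinearMap.add_apply, LinearMap.smul_apply,
      smul_eq_mul, a', b', c1, c2]
    linear_combination p1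
  have hTT : T (T v) = v := by rw [sub_eq_zero.1 hx, h.inv]
  by_cases ha : T v + v = 0
  · exact ⟨-1, by ring, h.caseC (by ring) hv0 (by rw [neg_one_smul]; exact eq_neg_of_add_eq_zero_left ha) a hq⟩
  · exact ⟨1, one_mul _, h.caseC (one_mul _) ha (by rw [map_add, hTT, one_smul, add_comm])
      (by rw [map_add, a, a', add_zero]) hq⟩

/-- Case E: a cyclic vector. -/
theorem Ctx.caseE [FiniteDimensional F V] (hd : Module.finrank F V = 4) (h : Ctx ω T T') {w : V}
    (hw : ∀ a b c d : F, a • w + b • T w + c • T (T w) + d • T (T (T w)) = 0 → a = 0 ∧ b = 0 ∧ c = 0 ∧ d = 0) :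
    Dat ω T 1 := by
  have li : LinearIndependent F ![w, T w, T (T w), T (T (T w))] := by
    rw [Fintype.linearIndependent_iff]
    intro g hg
    simp only [Fin.sum_univ_four, Matrix.cons_val] at hg
    obtain ⟨a, b, c, d⟩ := hw _ _ _ _ hg
    intro i; fin_cases i <;> assumption
  have sp := li.span_eq_top_of_card_eq_finrank' (by simp [hd])
  have perp : ∀ y, ω w y = 0 → ω (T w) y = 0 → ω (T (T w)) y = 0 → ω (T (T (T w))) y = 0 → y = 0 :=
    fun y a b c d => h.nd y fun z => by
      have hz : z ∈ Submodule.span F (Set.range ![w, T w, T (T w), T (T (T w))]) := by rw [sp]; trivial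
      have : Submodule.span F (Set.range ![w, T w, T (T w), T (T (T w))]) ≤ LinearMap.ker (ω.flip y) := by
        rw [Submodule.span_le]
        rintro _ ⟨i, rfl⟩
        fin_cases i <;> assumption
      exact this hz
  have hT'T : T' (T w) = w := sub_eq_zero.1 (h.inj (by rw [map_sub, h.inv, sub_self]))
  have h0 : ω (T w) (T (T w) + w) = 0 := by rw [map_add, h.iso, h.skew (T w)]; ring
  have hy := h.yy h0 (by rw [hT'T, h.alt])
  set y1 := T (T w) - T w with hy1
  set y2 := T (T (T w) + w) - (T (T w) + w) with hy2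
  have hy' : ω y2 y1 = 0 := by rw [h.skew, hy, neg_zero]
  have key : ∀ α β : F, ω (T w) (α • y1 + β • y2) = 0 → ω (T (T w) + w) (α • y1 + β • y2) = 0 → α = 0 ∧ β = 0 := by
    intro α β a b
    have c : ω y1 (α • y1 + β • y2) = 0 := by simp [h.alt, hy]
    have d : ω y2 (α • y1 + β • y2) = 0 := by simp [h.alt, hy']
    generalize hyy : α • y1 + β • y2 = y at a b c d
    rw [hy1] at c
    rw [hy2] at d
    simp only [map_sub, map_add, LinearMap.sub_apply, LinearMap.add_apply] at a b c d
    have := perp y (by linear_combination b - c - a) a (by linear_combination c + a) (by linear_combination d - a + b)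
    have := hw (-β) (β - α) (α - β) β (by
      rw [← this, ← hyy, hy1, hy2, map_add]; module)
    exact ⟨by linear_combination this.2.2.1 + this.2.2.2, this.2.2.2⟩
  refine ⟨T w, T (T w) + w, y1, y2, 1, h0, hy, fun hdet => ?_, by simp [hy1], by simp [hy2]⟩
  have k1 := key (ω (T (T w) + w) y2) (-ω (T (T w) + w) y1)
    (by simp only [map_add (ω _), map_smul, smul_eq_mul]; linear_combination hdet)
    (by simp only [map_add (ω _), map_smul, smul_eq_mul]; ring)
  have k2 := key (ω (T w) y2) (-ω (T w) y1)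
    (by simp only [map_add (ω _), map_smul, smul_eq_mul]; ring)
    (by simp only [map_add (ω _), map_smul, smul_eq_mul]; linear_combination -hdet)
  exact one_ne_zero (key 1 0 (by simpa using k2.2) (by rw [one_smul, zero_smul, add_zero]; exact neg_eq_zero.1 k1.2)).1

theorem Ctx.caseF (h : Ctx ω T T') {a b c d : F} (hne : ¬ (a = 0 ∧ b = 0 ∧ c = 0 ∧ d = 0))
    (hr : ∀ v, a • v + b • T v + c • T (T v) + d • T (T (T v)) = 0) :
    ∃ ε s : F, ε * ε = 1 ∧ ∀ v, T (T v + T' v - s • v) = ε • (T v + T' v - s • v) := by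
  have hr' : ∀ v, d • v + c • T v + b • T (T v) + a • T (T (T v)) = 0 := fun v => h.nd _ fun w => by
    have := congrArg (fun x => ω x (T (T (T v)))) (hr w)
    simp only [map_add, map_smul, LinearMap.add_apply, LinearMap.smul_apply, h.iso, map_zero,
      LinearMap.zero_apply, smul_eq_mul] at this ⊢
    linear_combination this
  have gen : ∀ ε α β : F, ε * ε = 1 → ¬ (α = 0 ∧ β = 0) →
      (∀ v, α • v + β • T v + (-ε * β) • T (T v) + (-ε * α) • T (T (T v)) = 0) →
      ∃ ε s : F, ε * ε = 1 ∧ ∀ v, T (T v + T' v - s • v) = ε • (T v + T' v - s • v) := by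
    intro ε α β hε hne hr
    have hr2 : ∀ v, α • T' v + β • v + (-ε * β) • T v + (-ε * α) • T (T v) = 0 := fun v => by
      simpa only [h.inv] using hr (T' v)
    by_cases hα : α = 0
    · have hβ : β ≠ 0 := fun e => hne ⟨hα, e⟩
      have : ∀ v, T v = ε • v := fun v => by
        have := hr2 v
        rw [hα] at this
        apply smul_right_injective V hβ
        linear_combination (norm := skip) (exp := 1) (-ε) • this
        have e2 : ε * (ε * β) = β := by rw [← mul_assoc, hε, one_mul]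
        match_scalars <;> first | ring1 | linear_combination -e2
      rcases mul_self_eq_one_iff.1 hε with rfl | rfl
      · exact absurd (fun v => by rw [this, one_smul]) h.ne1
      · exact absurd (fun v => by rw [this, neg_one_smul]) h.ne2
    refine ⟨ε, -ε - β / α, hε, fun v => ?_⟩
    apply smul_right_injective V hα
    simp only [map_sub, map_add, map_smul, h.inv]
    linear_combination (norm := skip) (exp := 1) (-ε) • hr2 v
    rcases mul_self_eq_one_iff.1 hε with rfl | rfl <;> match_scalars <;> field_simp <;> ring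
  by_cases hp : a - d = 0 ∧ b - c = 0
  · have e1 : d = a := by linear_combination -hp.1
    have e2 : c = b := by linear_combination -hp.2
    subst e1 e2
    exact gen (-1) d c (by ring) (fun e => hne ⟨e.1, e.2, e.2, e.1⟩) (fun v => by simpa using hr v)
  · exact gen 1 (a - d) (b - c) (by ring) hp (fun v => by
      linear_combination (norm := module) (exp := 1) hr v - hr' v)

open Polynomial Module in
theorem cyclic_or [FiniteDimensional F V] (T : V →ₗ[F] V) :
    ∃ w : V, ∀ a b c d : F, a • w + b • T w + c • T (T w) + d • T (T (T w)) = 0 →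
      ∀ v, a • v + b • T v + c • T (T v) + d • T (T (T v)) = 0 := by
  obtain ⟨x, hx⟩ := exists_ker_toSpanSingleton_eq_annihilator F[X] (AEval' T)
  obtain ⟨x, rfl⟩ := (AEval'.of T).surjective x
  have ev : ∀ (a b c d : F) (v : V), (C a + C b * X + C c * X ^ 2 + C d * X ^ 3 : F[X]) • AEval'.of T v =
      AEval'.of T (a • v + b • T v + c • T (T v) + d • T (T (T v))) := fun a b c d v => by
    rw [← AEval.of_aeval_smul]
    simp [pow_succ, Module.algebraMap_end_apply]
  refine ⟨x, fun a b c d e v => ?_⟩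
  have : (C a + C b * X + C c * X ^ 2 + C d * X ^ 3 : F[X]) ∈ annihilator F[X] (AEval' T) := by
    rw [← hx, LinearMap.mem_ker, LinearMap.toSpanSingleton_apply, ev, e, map_zero]
  have := mem_annihilator.1 this (AEval'.of T v)
  rwa [ev, (AEval'.of T).map_eq_zero_iff] at this

theorem Ctx.main [FiniteDimensional F V] (hd : Module.finrank F V = 4) (h : Ctx ω T T')
    (l : Matrix (Fin 2) (Fin 2) F) (hl : l 0 0 + l 1 1 = 0) :
    Dat ω T l ∨ ∃ ε : F, ε * ε = 1 ∧ Dat ω T (ε • 1) := by
  by_cases hq : ∀ v, ω v (T v) = 0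
  · exact .inl (h.caseA hq l hl)
  push Not at hq
  right
  obtain ⟨w, hw⟩ := cyclic_or T
  by_cases hc : ∀ a b c d : F, a • w + b • T w + c • T (T w) + d • T (T (T w)) = 0 → a = 0 ∧ b = 0 ∧ c = 0 ∧ d = 0
  · exact ⟨1, one_mul _, by rw [one_smul]; exact h.caseE hd hc⟩
  simp only [not_forall] at hc
  obtain ⟨a, b, c, d, e, hne⟩ := hc
  obtain ⟨ε, s, hε, hR⟩ := h.caseF hne (hw a b c d e)
  by_cases hu : ∀ u, T u + T' u - s • u = 0
  · obtain ⟨w1, hw1⟩ := hq
    exact h.caseB hd (fun v => sub_eq_zero.1 (hu v)) hw1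
  · push Not at hu
    obtain ⟨u, hu⟩ := hu
    exact ⟨ε, hε, h.caseD hε hR hu hq⟩

end H7.CC
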