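import Cfsg.Agent.H7.CC1

/-! Every non-central element of `Sp₄(F)` is, up to sign, a product of two conjugates of a Siegel Levi element. -/

set_option autoImplicit false

namespace H7.CC

open Matrix Sum

variable {F : Type*} [Field F]

abbrev Sp4 (F : Type*) [Field F] := Matrix.symplecticGroup (Fin 2) F

/-- Siegel Levi embedding. -/
noncomputable def hG : GL (Fin 2) F →* Sp4 F where
  toFun g := ⟨fromBlocks g.val 0 0 (g⁻¹).valᵀ, by
    rw [SymplecticGroup.fromBlocks_mem_iff]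
    refine ⟨by simp, by simp, ?_⟩
    rw [← transpose_mul, Units.inv_mul]; simp⟩
  map_one' := Subtype.ext (by simp)
  map_mul' g h := Subtype.ext (by
    simp only [Submonoid.coe_mul, fromBlocks_multiply, _root_.mul_inv_rev, Units.val_mul, transpose_mul]
    simp)

theorem hG_val (g : GL (Fin 2) F) : (hG g).val = fromBlocks g.val 0 0 (g⁻¹).valᵀ := rfl

def uM (b : Matrix (Fin 2) (Fin 2) F) (hb : bᵀ = b) : Sp4 F :=
  ⟨fromBlocks 1 b 0 1, by rw [SymplecticGroup.fromBlocks_mem_iff]; simp [hb]⟩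

def vM (b : Matrix (Fin 2) (Fin 2) F) (hb : bᵀ = b) : Sp4 F :=
  ⟨fromBlocks 1 0 b 1, by rw [SymplecticGroup.fromBlocks_mem_iff]; simp [hb]⟩

theorem sym_solve (B c : Matrix (Fin 2) (Fin 2) F) (h1 : B.det ≠ 1) (h2 : (B.det + 1) ^ 2 ≠ B.trace ^ 2)
    (hc : cᵀ = c) : ∃ X : Matrix (Fin 2) (Fin 2) F, Xᵀ = X ∧ X - Bᵀ * X * B = c := by
  let Φ : Matrix (Fin 3) (Fin 3) F := !![1 - B 0 0 ^ 2, -(2 * B 0 0 * B 1 0), -B 1 0 ^ 2;
    -(B 0 0 * B 0 1), 1 - (B 0 0 * B 1 1 + B 0 1 * B 1 0), -(B 1 0 * B 1 1);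
    -B 0 1 ^ 2, -(2 * B 0 1 * B 1 1), 1 - B 1 1 ^ 2]
  have hd : Φ.det = (1 - B.det) * ((B.det + 1) ^ 2 - B.trace ^ 2) := by
    simp [Φ, det_fin_three, det_fin_two, trace_fin_two]; ring
  have hu : IsUnit Φ := (isUnit_iff_isUnit_det _).2 (isUnit_iff_ne_zero.2 (by
    rw [hd]; exact mul_ne_zero (sub_ne_zero.2 h1.symm) (sub_ne_zero.2 h2)))
  obtain ⟨x, hx⟩ := mulVec_surjective_iff_isUnit.2 hu ![c 0 0, c 0 1, c 1 1]
  have e0 := congrFun hx 0
  have e1 := congrFun hx 1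
  have e2 := congrFun hx 2
  have e3 : c 1 0 = c 0 1 := congrFun (congrFun hc 0) 1
  simp [Φ, mulVec, dotProduct, Fin.sum_univ_three] at e0 e1 e2
  refine ⟨!![x 0, x 1; x 1, x 2], by ext i j; fin_cases i <;> fin_cases j <;> rfl, ?_⟩
  ext i j
  fin_cases i <;> fin_cases j <;> simp [Matrix.mul_apply, Fin.sum_univ_two, vecMul, dotProduct]
  · linear_combination e0
  · linear_combination e1
  · linear_combination e1 - e3
  · linear_combination e2

/-- The regularity condition on the Levi element. -/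
def Reg (A : GL (Fin 2) F) : Prop := A.val.det ≠ 1 ∧ (A.val.det + 1) ^ 2 ≠ A.val.trace ^ 2

theorem Reg.inv {A : GL (Fin 2) F} (h : Reg A) : Reg A⁻¹ := by
  have hd : A.val.det * (A⁻¹).val.det = 1 := by rw [← det_mul, Units.mul_inv, det_one]
  have ht : A.val.det * (A⁻¹).val.trace = A.val.trace := by
    have h0 : A.val.det ≠ 0 := left_ne_zero_of_mul_eq_one hd
    rw [Matrix.coe_units_inv, Matrix.inv_def, adjugate_fin_two, trace_smul]
    simp [trace_fin_two, h0, add_comm]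
  refine ⟨fun e => h.1 (by rwa [e, mul_one] at hd), fun e => h.2 ?_⟩
  rw [← ht]
  linear_combination A.val.det ^ 2 * e - (A.val.det * (A⁻¹).val.det + 2 * A.val.det + 1) * hd

theorem Reg.conj {A : GL (Fin 2) F} (h : Reg A) (g : GL (Fin 2) F) : Reg (g * A * g⁻¹) := by
  have e1 : (g * A * g⁻¹).val.det = A.val.det := det_units_conj g A.val
  have e2 : (g * A * g⁻¹).val.trace = A.val.trace := trace_units_conj g A.val
  unfold Reg
  rw [e1, e2]; exact h

theorem conj_v {A : GL (Fin 2) F} (h : Reg A) (c : Matrix (Fin 2) (Fin 2) F) (hc : cᵀ = c) :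
    IsConj (hG A) (vM c hc * hG A) := by
  obtain ⟨X, hX, e⟩ := sym_solve (A⁻¹).val c h.inv.1 h.inv.2 hc
  refine isConj_iff.2 ⟨vM X hX, mul_inv_eq_iff_eq_mul.2 (Subtype.ext ?_)⟩
  simp only [Submonoid.coe_mul, hG_val, vM, fromBlocks_multiply]
  simp only [← e, sub_mul, Matrix.mul_assoc, Units.inv_mul]
  simp

theorem conj_u {A : GL (Fin 2) F} (h : Reg A) (c : Matrix (Fin 2) (Fin 2) F) (hc : cᵀ = c) :
    IsConj (hG A) (hG A * uM c hc) := by
  obtain ⟨X, hX, e⟩ := sym_solve (A⁻¹).valᵀ c (by rw [det_transpose]; exact h.inv.1)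
    (by rw [det_transpose, trace_transpose]; exact h.inv.2) hc
  refine IsConj.symm (isConj_iff.2 ⟨uM X hX, mul_inv_eq_iff_eq_mul.2 (Subtype.ext ?_)⟩)
  simp only [Submonoid.coe_mul, hG_val, uM, fromBlocks_multiply]
  simp only [← e, mul_sub, ← Matrix.mul_assoc, Units.mul_inv, transpose_transpose, Matrix.one_mul,
    Matrix.mul_one, Matrix.mul_zero, Matrix.zero_mul, add_zero, zero_add]
  simp

theorem conj_inv {A s : GL (Fin 2) F} (hs : s.val * A.val = A.valᵀ * s.val) : IsConj (hG A) (hG A⁻¹) := by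
  refine isConj_iff.2 ⟨SymplecticGroup.symJ _ _ * hG s, mul_inv_eq_iff_eq_mul.2 (Subtype.ext ?_)⟩
  have e1 : (s.val⁻¹)ᵀ * (A.val⁻¹)ᵀ = A.val⁻¹ * (s.val⁻¹)ᵀ := by
    have h1 : A.valᵀ * s.valᵀ = s.valᵀ * A.val := by simpa using congrArg transpose hs
    rw [transpose_nonsing_inv, transpose_nonsing_inv, ← Matrix.mul_inv_rev, h1, Matrix.mul_inv_rev]
  simp only [Submonoid.coe_mul, hG_val, SymplecticGroup.coe_J, J, fromBlocks_multiply, inv_inv]
  simp [hs, e1]

theorem blk {A s : GL (Fin 2) F} (h : Reg A) (hs : s.val * A.val = A.valᵀ * s.val) (g : GL (Fin 2) F) (γ : Sp4 F)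
    (hγ : γ.val.toBlocks₁₁ = (A * (g * A⁻¹ * g⁻¹)).val) :
    ∃ x y : Sp4 F, IsConj (hG A) x ∧ IsConj (hG A) y ∧ γ = x * y := by
  obtain ⟨γ, hm⟩ := γ
  rw [← fromBlocks_toBlocks γ] at hm
  have hm' := SymplecticGroup.transpose_mem hm
  set C := g * A⁻¹ * g⁻¹ with hC
  simp only at hγ
  rw [fromBlocks_transpose, SymplecticGroup.fromBlocks_mem_iff] at hm'
  have hm2 := SymplecticGroup.fromBlocks_mem_iff.1 hm
  set l := A * C with hl
  rw [hγ] at hm' hm2
  set b := γ.toBlocks₁₂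
  set c := γ.toBlocks₂₁
  set d := γ.toBlocks₂₂
  have i1 : l.val * (l⁻¹).val = 1 := Units.mul_inv l
  have i2 : (l⁻¹).val * l.val = 1 := Units.inv_mul l
  have i3 : (l⁻¹).valᵀ * l.valᵀ = 1 := by rw [← transpose_mul, i1, transpose_one]
  have i4 : l.valᵀ * (l⁻¹).valᵀ = 1 := by rw [← transpose_mul, i2, transpose_one]
  have hc : (c * (l⁻¹).val)ᵀ = c * (l⁻¹).val := by
    rw [transpose_mul]
    calc _ = (l⁻¹).valᵀ * (cᵀ * l.val) * (l⁻¹).val := by simp only [Matrix.mul_assoc, i1, Matrix.mul_one]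
      _ = _ := by rw [← hm2.1, ← Matrix.mul_assoc, i3, Matrix.one_mul]
  have hb : ((l⁻¹).val * b)ᵀ = (l⁻¹).val * b := by
    have := hm'.1
    rw [transpose_transpose, transpose_transpose] at this
    rw [transpose_mul]
    calc _ = (l⁻¹).val * (l.val * bᵀ) * (l⁻¹).valᵀ := by rw [← Matrix.mul_assoc, i2, Matrix.one_mul]
      _ = _ := by rw [this]; simp only [Matrix.mul_assoc, i4, Matrix.mul_one]
  refine ⟨vM _ hc * hG A, hG C * uM _ hb, conj_v h _ hc, ?_, Subtype.ext ?_⟩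
  · refine IsConj.trans ?_ (conj_u (h.inv.conj g) _ hb)
    refine (conj_inv hs).trans (isConj_iff.2 ⟨hG g, ?_⟩)
    rw [map_mul, map_mul, map_inv hG g]
  · rw [← mul_assoc, mul_assoc (vM _ hc), ← map_mul, ← hl]
    simp only [Submonoid.coe_mul, hG_val, uM, vM, fromBlocks_multiply, Matrix.one_mul,
      Matrix.mul_one, Matrix.mul_zero, Matrix.zero_mul, add_zero, zero_add]
    rw [← Matrix.mul_assoc, i1, Matrix.one_mul, Matrix.mul_assoc c, i2, Matrix.mul_one, ← Matrix.mul_assoc, ← hc,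
      transpose_mul, ← fromBlocks_toBlocks γ, hγ]
    congr 1
    calc d = (l⁻¹).valᵀ * (l.valᵀ * d - cᵀ * b) + (l⁻¹).valᵀ * cᵀ * b := by
          rw [Matrix.mul_sub, ← Matrix.mul_assoc, i3, Matrix.one_mul, Matrix.mul_assoc]; abel
      _ = _ := by rw [hm2.2.2, Matrix.mul_one, add_comm]

noncomputable def om (F : Type*) [Field F] : (Fin 2 ⊕ Fin 2 → F) →ₗ[F] (Fin 2 ⊕ Fin 2 → F) →ₗ[F] F :=
  Matrix.toLinearMap₂' F (J (Fin 2) F)

theorem om_apply (u v : Fin 2 ⊕ Fin 2 → F) : om F u v = u ⬝ᵥ (J (Fin 2) F *ᵥ v) := Matrix.toLinearMap₂'_apply' _ _ _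

theorem om_mul (P Q : Matrix (Fin 2 ⊕ Fin 2) (Fin 2 ⊕ Fin 2) F) (i j : Fin 2 ⊕ Fin 2) :
    (Pᵀ * J (Fin 2) F * Q) i j = om F (fun r => P r i) (fun r => Q r j) := by
  rw [om_apply, Matrix.mul_assoc, Matrix.mul_apply]
  rfl

theorem ctx (γ : Sp4 F) (h1 : γ.val ≠ 1) (h2 : γ.val ≠ -1) :
    Ctx (om F) (toLin' γ.val) (toLin' (γ⁻¹).val) where
  alt v := by
    rw [om_apply]
    simp [J, mulVec, dotProduct, Fintype.sum_sum_type, Fin.sum_univ_two, one_apply]; ring
  nd y hy := by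
    have : J (Fin 2) F *ᵥ y = 0 := funext fun i => by
      simpa [om_apply] using hy (Pi.single i 1)
    have h3 := congrArg (J (Fin 2) F *ᵥ ·) this
    simpa [mulVec_mulVec, J_squared, neg_mulVec] using h3
  iso u v := by
    simp only [om_apply, toLin'_apply]
    conv_rhs => rw [← SymplecticGroup.mem_iff'.1 γ.2]
    rw [← mulVec_mulVec, ← mulVec_mulVec, dotProduct_mulVec u, vecMul_transpose]
  inv v := by
    rw [toLin'_apply, toLin'_apply, mulVec_mulVec, ← Submonoid.coe_mul, mul_inv_cancel]; simp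
  ne1 h := h1 (toLin'.injective (LinearMap.ext fun v => by rw [h]; simp))
  ne2 h := h2 (toLin'.injective (LinearMap.ext fun v => by rw [h]; simp [neg_mulVec]))

theorem dat_conj (γ : Sp4 F) (h1 : γ.val ≠ 1) (h2 : γ.val ≠ -1) {l : Matrix (Fin 2) (Fin 2) F}
    (hd : Dat (om F) (toLin' γ.val) l) : ∃ P : Sp4 F, (P⁻¹ * γ * P).val.toBlocks₁₁ = l := by
  have h := ctx γ h1 h2
  obtain ⟨w1, w2, y1, y2, δ, h0, hy, hD, e1, e2⟩ := hd
  have h0' : om F w2 w1 = 0 := by rw [h.skew, h0, neg_zero]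
  have hy' : om F y2 y1 = 0 := by rw [h.skew, hy, neg_zero]
  obtain ⟨z1, z2, a1, a2, a3, a4, a5, a6, a7, a8, a9⟩ : ∃ z1 z2, om F z1 z2 = 0 ∧ om F z1 w1 = 1 ∧ om F z1 w2 = 0 ∧
      om F z2 w1 = 0 ∧ om F z2 w2 = 1 ∧ om F z1 y1 = 0 ∧ om F z1 y2 = 0 ∧ om F z2 y1 = 0 ∧ om F z2 y2 = 0 := by
    set D := om F w1 y1 * om F w2 y2 - om F w1 y2 * om F w2 y1 with hDd
    refine ⟨(-om F w2 y2 / D) • y1 + (om F w2 y1 / D) • y2, (om F w1 y2 / D) • y1 + (-om F w1 y1 / D) • y2, ?_⟩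
    simp only [map_add, map_smul, LinearMap.add_apply, LinearMap.smul_apply, smul_eq_mul, h.alt, hy, hy',
      h.skew y1 w1, h.skew y2 w1, h.skew y1 w2, h.skew y2 w2]
    refine ⟨by ring, ?_, by ring, by ring, ?_, by ring, by ring, by ring, by ring⟩ <;> field_simp <;> rw [hDd] <;> ring
  let P : Matrix (Fin 2 ⊕ Fin 2) (Fin 2 ⊕ Fin 2) F := Matrix.of fun r c => Sum.elim ![w1, w2] ![z1, z2] c r
  have c1 : (fun r => P r (inl 0)) = w1 := rfl
  have c2 : (fun r => P r (inl 1)) = w2 := rfl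
  have c3 : (fun r => P r (inr 0)) = z1 := rfl
  have c4 : (fun r => P r (inr 1)) = z2 := rfl
  have hP : P ∈ symplecticGroup (Fin 2) F := by
    rw [SymplecticGroup.mem_iff']
    ext i j
    rw [om_mul]
    rcases i with i | i <;> rcases j with j | j <;> fin_cases i <;> fin_cases j <;>
      simp [c1, c2, c3, c4, J, h.alt, h0, h0', a1, a2, a3, a4, a5, h.skew z2 z1, h.skew w1 z1, h.skew w1 z2,
        h.skew w2 z1, h.skew w2 z2]
  refine ⟨⟨P, hP⟩, ?_⟩
  have key : ∀ i j, ((⟨P, hP⟩ : Sp4 F)⁻¹ * γ * ⟨P, hP⟩).val (inl i) (inl j) =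
      om F (fun r => P r (inr i)) (toLin' γ.val (fun r => P r (inl j))) := fun i j => by
    have : toLin' γ.val (fun r => P r (inl j)) = fun r => (γ.val * P) r (inl j) := rfl
    rw [this, ← om_mul]
    simp only [Submonoid.coe_mul, SymplecticGroup.coe_inv, Matrix.mul_assoc]
    generalize Pᵀ * (J (Fin 2) F * (γ.val * P)) = X
    fin_cases i <;> simp [J, Matrix.mul_apply, Fintype.sum_sum_type, Fin.sum_univ_two, one_apply]
  ext i j
  rw [toBlocks₁₁, of_apply, key]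
  fin_cases i <;> fin_cases j <;> simp [c1, c2, c3, c4, -toLin'_apply, e1, e2, a2, a3, a4, a5, a6, a7, a8, a9]

theorem cover {A s g0 : GL (Fin 2) F} (h : Reg A) (hs : s.val * A.val = A.valᵀ * s.val)
    (h0 : (A * (g0 * A⁻¹ * g0⁻¹)).val.trace = 0) (γ : Sp4 F) (h1 : γ.val ≠ 1) (h2 : γ.val ≠ -1) :
    ∃ z x y : Sp4 F, z ∈ Subgroup.center (Sp4 F) ∧ IsConj (hG A) x ∧ IsConj (hG A) y ∧ γ = z * (x * y) := by
  have fin : ∀ (z P : Sp4 F) (g : GL (Fin 2) F), z ∈ Subgroup.center (Sp4 F) →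
      (z * (P⁻¹ * γ * P)).val.toBlocks₁₁ = (A * (g * A⁻¹ * g⁻¹)).val →
      ∃ z x y : Sp4 F, z ∈ Subgroup.center (Sp4 F) ∧ IsConj (hG A) x ∧ IsConj (hG A) y ∧ γ = z * (x * y) := by
    intro z P g hz hb
    obtain ⟨x, y, hx, hy, e⟩ := blk h hs g _ hb
    refine ⟨z⁻¹, P * x * P⁻¹, P * y * P⁻¹, inv_mem hz, hx.trans (isConj_iff.2 ⟨P, rfl⟩),
      hy.trans (isConj_iff.2 ⟨P, rfl⟩), ?_⟩
    have hz' := Subgroup.mem_center_iff.1 hz P
    calc γ = z⁻¹ * (P * (z * (P⁻¹ * γ * P)) * P⁻¹) := by rw [← mul_assoc P z, hz']; group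
      _ = _ := by rw [e]; group
  rcases (ctx γ h1 h2).main (by simp) (A * (g0 * A⁻¹ * g0⁻¹)).val (by rwa [trace_fin_two] at h0) with
    hd | ⟨ε, hε, hd⟩
  · obtain ⟨P, hP⟩ := dat_conj γ h1 h2 hd
    exact fin 1 P g0 (one_mem _) (by rwa [one_mul])
  · obtain ⟨P, hP⟩ := dat_conj γ h1 h2 hd
    have hm : ε • (1 : Matrix (Fin 2 ⊕ Fin 2) (Fin 2 ⊕ Fin 2) F) ∈ symplecticGroup (Fin 2) F := by
      rw [SymplecticGroup.mem_iff]; simp [smul_smul, hε]
    refine fin ⟨_, hm⟩ P 1 (Subgroup.mem_center_iff.2 fun g => Subtype.ext (by simp)) ?_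
    rw [Submonoid.coe_mul]
    generalize (P⁻¹ * γ * P).val = X at hP
    ext i j
    have := congrFun (congrFun hP i) j
    simp only [toBlocks₁₁, of_apply, Matrix.smul_apply, smul_eq_mul] at this
    simp [toBlocks₁₁, this, ← mul_assoc, hε]

open Polynomial in
theorem exists_A [Fintype F] (h3 : 3 ≤ Fintype.card F) : ∃ A s g0 : GL (Fin 2) F, Reg A ∧
    s.val * A.val = A.valᵀ * s.val ∧ (A * (g0 * A⁻¹ * g0⁻¹)).val.trace = 0 ∧ A ^ (Fintype.card F ^ 2 - 1) = 1 := by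
  classical
  obtain ⟨d, hd⟩ : ∃ d : F, d ∉ ({0, 1} : Finset F) := by
    by_contra h'
    push Not at h'
    exact absurd ((Finset.card_le_card fun x _ => h' x).trans Finset.card_le_two) (by
      rw [Finset.card_univ]; omega)
  simp only [Finset.mem_insert, Finset.mem_singleton, not_or] at hd
  obtain ⟨t, ht⟩ : ∃ t : F, ∀ a : F, a ^ 2 - t * a + d ≠ 0 := by
    by_contra h'
    push Not at h'
    have : Function.Surjective fun a : Fˣ => (a : F) + d / a := fun t => by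
      obtain ⟨a, ha⟩ := h' t
      have ha0 : a ≠ 0 := by rintro rfl; exact hd.1 (by simpa using ha)
      exact ⟨Units.mk0 a ha0, by simp only [Units.val_mk0]; field_simp; linear_combination ha⟩
    have := Fintype.card_le_of_surjective _ this
    rw [Fintype.card_units] at this
    omega
  have hA : (!![0, -d; 1, t] : Matrix (Fin 2) (Fin 2) F).det ≠ 0 := by simp [det_fin_two, hd.1]
  have hAi : ((GeneralLinearGroup.mkOfDetNeZero _ hA)⁻¹).val = !![t / d, 1; -1 / d, 0] := by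
    rw [Matrix.coe_units_inv]
    refine Matrix.inv_eq_right_inv ?_
    ext i j
    have := hd.1
    fin_cases i <;> fin_cases j <;> simp [Matrix.mul_apply, Fin.sum_univ_two, hd.1] <;> field_simp <;> ring
  obtain ⟨g0, hg0⟩ : ∃ g0 : GL (Fin 2) F, (GeneralLinearGroup.mkOfDetNeZero _ hA *
      (g0 * (GeneralLinearGroup.mkOfDetNeZero _ hA)⁻¹ * g0⁻¹)).val.trace = 0 := by
    by_cases h2 : (2 : F) = 0
    · exact ⟨1, by simpa using h2⟩
    have hodd : Fintype.card F % 2 = 1 := FiniteField.odd_card_of_char_ne_two fun e =>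
      h2 (by exact_mod_cast (e ▸ ringChar.Nat.cast_ringChar : ((2 : ℕ) : F) = 0))
    have hne : d - (t / 2) ^ 2 ≠ 0 := fun e => ht (t / 2) (by field_simp at e ⊢; linear_combination e)
    obtain ⟨a, b, hab⟩ := FiniteField.exists_root_sum_quadratic (f := (X ^ 2 : F[X]))
      (g := C (d - (t / 2) ^ 2) * X ^ 2 + C (2 * (t / 2) ^ 2) * X + C (d - (t / 2) ^ 2)) (by simp)
      (degree_quadratic hne) hodd
    simp only [eval_add, eval_mul, eval_pow, eval_C, eval_X] at hab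
    set z := a - t / 2 * (b - 1) with hz
    have hq : z ^ 2 + t * z * (b - 1) + d * b ^ 2 + d = 0 := by
      rw [hz]; field_simp at hab ⊢; linear_combination hab
    have hb : b ≠ 0 := by rintro rfl; exact ht z (by linear_combination hq)
    have hg : (!![1, z; 0, b] : Matrix (Fin 2) (Fin 2) F).det ≠ 0 := by simp [det_fin_two, hb]
    have hgi : ((GeneralLinearGroup.mkOfDetNeZero _ hg)⁻¹).val = !![1, -z / b; 0, 1 / b] := by
      rw [Matrix.coe_units_inv]
      refine Matrix.inv_eq_right_inv ?_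
      ext i j
      fin_cases i <;> fin_cases j <;> simp [Matrix.mul_apply, Fin.sum_univ_two, hb] <;> field_simp <;> ring
    refine ⟨GeneralLinearGroup.mkOfDetNeZero _ hg, ?_⟩
    rw [Units.val_mul, Units.val_mul, Units.val_mul, hAi, hgi]
    have := hd.1
    simp [trace_fin_two]
    field_simp
    linear_combination hq
  refine ⟨GeneralLinearGroup.mkOfDetNeZero _ hA,
    GeneralLinearGroup.mkOfDetNeZero !![0, 1; 1, t] (by simp [det_fin_two]), g0, ⟨?_, ?_⟩, ?_, hg0, ?_⟩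
  · simpa [det_fin_two] using hd.2
  · intro e
    simp [det_fin_two, trace_fin_two] at e
    rcases sq_eq_sq_iff_eq_or_eq_neg.1 e with e | e
    · exact ht 1 (by linear_combination e)
    · exact ht (-1) (by linear_combination e)
  · ext i j
    fin_cases i <;> fin_cases j <;> simp [Matrix.mul_apply, Fin.sum_univ_two] <;> ring
  · set f : F[X] := C 1 * X ^ 2 + C (-t) * X + C d with hf
    have hdeg : f.natDegree = 2 := natDegree_quadratic one_ne_zero
    have hf0 : f ≠ 0 := by rintro e; rw [e] at hdeg; simp at hdeg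
    have hirr : Irreducible f := (irreducible_iff_roots_eq_zero_of_degree_le_three hdeg.ge (by omega)).2 (by
      rw [Multiset.eq_zero_iff_forall_notMem]
      intro a ha
      rw [mem_roots hf0, IsRoot, hf] at ha
      simp at ha
      exact ht a (by linear_combination ha))
    haveI := Fact.mk hirr
    haveI : Module.Finite F (AdjoinRoot f) := (AdjoinRoot.powerBasis hf0).finite
    haveI : Finite (AdjoinRoot f) := Module.finite_of_finite F
    haveI := Fintype.ofFinite (AdjoinRoot f)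
    have hc : Fintype.card (AdjoinRoot f) = Fintype.card F ^ 2 := by
      rw [Module.card_eq_pow_finrank (K := F), (AdjoinRoot.powerBasis hf0).finrank, AdjoinRoot.powerBasis_dim, hdeg]
    have hdv : f ∣ X ^ (Fintype.card F ^ 2) - X := by
      rw [← AdjoinRoot.mk_eq_zero, map_sub, map_pow, ← hc, FiniteField.pow_card, sub_self]
    obtain ⟨k, hk⟩ := hdv
    have hfa : aeval (!![0, -d; 1, t] : Matrix (Fin 2) (Fin 2) F) f = 0 := by
      simp only [hf, map_add, map_mul, aeval_C, map_pow, aeval_X]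
      ext i j
      fin_cases i <;> fin_cases j <;> simp [pow_two, Matrix.algebraMap_matrix_apply, Matrix.mul_apply, Fin.sum_univ_two]
      ring
    have := congrArg (aeval (!![0, -d; 1, t] : Matrix (Fin 2) (Fin 2) F)) hk
    rw [map_mul, hfa, zero_mul, map_sub, map_pow, aeval_X, sub_eq_zero] at this
    have h1 : 1 ≤ Fintype.card F ^ 2 := Nat.one_le_pow _ _ (by omega)
    apply mul_right_cancel (b := GeneralLinearGroup.mkOfDetNeZero _ hA)
    rw [← pow_succ, Nat.sub_add_cancel h1, one_mul]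
    exact Units.ext (by rw [Units.val_pow_eq_pow_val]; exact this)

end H7.CC
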