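import Cfsg.Agent.H24.Ree1

/-! Two by two matrices over finite fields: products of two conjugates. -/

set_option autoImplicit false
set_option linter.unusedSimpArgs false

namespace H7.CC

open Matrix H4 H24
open scoped MatrixGroups

variable {F : Type*} [Field F]

/-- non-scalar -/
def NS (M : Matrix (Fin 2) (Fin 2) F) : Prop := M 0 1 ≠ 0 ∨ M 1 0 ≠ 0 ∨ M 0 0 ≠ M 1 1

theorem comp (M : Matrix (Fin 2) (Fin 2) F) (h : NS M) :
    ∃ P : Matrix (Fin 2) (Fin 2) F, P.det ≠ 0 ∧ M * P = P * !![0, -M.det; 1, M.trace] := by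
  by_cases h1 : M 1 0 = 0
  · by_cases h2 : M 0 1 = 0
    · have h3 : M 0 0 ≠ M 1 1 := (h.resolve_left (not_not.2 h2)).resolve_left (not_not.2 h1)
      refine ⟨!![1, M 0 0; 1, M 1 1], by simpa [det_fin_two, sub_eq_zero] using h3.symm, ?_⟩
      ext i j
      fin_cases i <;> fin_cases j <;> simp [Matrix.mul_apply, Fin.sum_univ_two, det_fin_two, trace_fin_two, h1, h2] <;> ring
    · refine ⟨!![0, M 0 1; 1, M 1 1], by simpa [det_fin_two] using h2, ?_⟩
      ext i j
      fin_cases i <;> fin_cases j <;> simp [Matrix.mul_apply, Fin.sum_univ_two, det_fin_two, trace_fin_two] <;> ring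
  · refine ⟨!![1, M 0 0; 0, M 1 0], by simpa [det_fin_two] using h1, ?_⟩
    ext i j
    fin_cases i <;> fin_cases j <;> simp [Matrix.mul_apply, Fin.sum_univ_two, det_fin_two, trace_fin_two] <;> ring

open Polynomial in
theorem univ_form [Finite F] (τ δ κ : F) (h : τ ^ 2 - 4 * δ ≠ 0 ∨ (2 : F) = 0) :
    ∃ α β : F, α ^ 2 + τ * α * β + δ * β ^ 2 = κ := by
  have := Fintype.ofFinite F
  by_cases h2 : (2 : F) = 0
  · have : Function.Injective fun a : F => a ^ 2 := fun a b e => by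
      have : (a - b) ^ 2 = 0 := by simp only at e; linear_combination e + (b ^ 2 - a * b) * h2
      exact sub_eq_zero.1 (pow_eq_zero_iff two_ne_zero |>.1 this)
    obtain ⟨a, ha⟩ := Finite.injective_iff_surjective.1 this κ
    exact ⟨a, 0, by simpa using ha⟩
  have hodd : Fintype.card F % 2 = 1 := FiniteField.odd_card_of_char_ne_two fun e =>
    h2 (by exact_mod_cast (e ▸ ringChar.Nat.cast_ringChar : ((2 : ℕ) : F) = 0))
  have hne : δ - (τ / 2) ^ 2 ≠ 0 := fun e => (h.resolve_right h2) (by field_simp at e; linear_combination -e)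
  obtain ⟨a, b, hab⟩ := FiniteField.exists_root_sum_quadratic (f := (X ^ 2 : F[X]))
    (g := C (δ - (τ / 2) ^ 2) * X ^ 2 + C 0 * X + C (-κ)) (by simp) (degree_quadratic hne) hodd
  simp only [eval_add, eval_mul, eval_pow, eval_C, eval_X] at hab
  refine ⟨a - τ / 2 * b, b, ?_⟩
  field_simp at hab ⊢
  linear_combination hab

theorem conj_SL [Finite F] {M N : Matrix (Fin 2) (Fin 2) F} (hM : NS M) (hN : NS N) (ht : M.trace = N.trace)
    (hd : M.det = N.det) (h : M.trace ^ 2 - 4 * M.det ≠ 0 ∨ (2 : F) = 0) : ∃ g : SL(2, F), g.1 * M = N * g.1 := by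
  obtain ⟨P, hP, e1⟩ := comp M hM
  obtain ⟨Q, hQ, e2⟩ := comp N hN
  rw [← ht, ← hd] at e2
  obtain ⟨α, β, e⟩ := univ_form M.trace M.det (P.det / Q.det) h
  set Cp : Matrix (Fin 2) (Fin 2) F := !![0, -M.det; 1, M.trace] with hC
  have hu : IsUnit P.det := isUnit_iff_ne_zero.2 hP
  have hD : (α • (1 : Matrix (Fin 2) (Fin 2) F) + β • Cp).det = P.det / Q.det := by
    rw [← e, det_fin_two]; simp [hC]; ring
  refine ⟨⟨Q * (α • 1 + β • Cp) * P⁻¹, ?_⟩, ?_⟩
  · rw [det_mul, det_mul, hD, det_nonsing_inv, Ring.inverse_eq_inv']; field_simp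
  · have e3 : P⁻¹ * M = Cp * P⁻¹ := by
      calc _ = P⁻¹ * (M * P) * P⁻¹ := by simp only [Matrix.mul_assoc, mul_nonsing_inv _ hu, Matrix.mul_one]
        _ = _ := by rw [e1, ← Matrix.mul_assoc, nonsing_inv_mul _ hu, Matrix.one_mul]
    simp only
    rw [Matrix.mul_assoc, e3, ← Matrix.mul_assoc N, ← Matrix.mul_assoc N, e2]
    simp [Matrix.mul_add, Matrix.add_mul, Matrix.mul_assoc]

/-- no eigenvalue -/
def Irr (t d : F) : Prop := ∀ a : F, a ^ 2 - t * a + d ≠ 0

theorem Irr.ns {t d : F} (h : Irr t d) {M : Matrix (Fin 2) (Fin 2) F} (ht : M.trace = t) (hd : M.det = d) : NS M := by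
  by_contra hn
  simp only [NS, not_or, not_not] at hn
  refine h (M 0 0) ?_
  rw [← ht, ← hd, det_fin_two, trace_fin_two, hn.1, hn.2.2]; ring

theorem Irr.disc {t d : F} (h : Irr t d) : t ^ 2 - 4 * d ≠ 0 ∨ (2 : F) = 0 := by
  by_cases h2 : (2 : F) = 0
  · exact .inr h2
  · exact .inl fun e => h (t / 2) (by field_simp; linear_combination -e)

theorem Irr.conj [Finite F] {t d : F} (h : Irr t d) {M N : Matrix (Fin 2) (Fin 2) F} (ht : M.trace = t) (hd : M.det = d)
    (ht' : N.trace = t) (hd' : N.det = d) : ∃ g : SL(2, F), g.1 * M = N * g.1 :=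
  conj_SL (h.ns ht hd) (h.ns ht' hd') (ht.trans ht'.symm) (hd.trans hd'.symm) (ht ▸ hd ▸ h.disc)

/-- the elements of `SL₂` that are commutators with an irreducible element -/
def Gd (C : SL(2, F)) : Prop := C = 1 ∨ (C.1.trace ≠ 2 ∧ NS C.1)

theorem Gd.fact [Finite F] {t d : F} (h : Irr t d) (ht0 : t ≠ 0) {A : GL (Fin 2) F} (ht : A.1.trace = t)
    (hd : A.1.det = d) {C : SL(2, F)} (hC : Gd C) :
    ∃ g1 g2 : SL(2, F), C = g1 * conjSL A (g1⁻¹ * g2) * g2⁻¹ := by
  rcases hC with rfl | ⟨h2, hC⟩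
  · exact ⟨1, 1, by simp⟩
  obtain ⟨P, hP, e1⟩ := comp C.1 hC
  rw [C.2] at e1
  set τ := C.1.trace
  obtain ⟨w, z, e⟩ : ∃ w z : F, w ^ 2 - τ * z * w + z ^ 2 - t * w + t * z + d = 0 := by
    by_cases h3 : 2 + τ = 0
    · have h4 : (2 : F) ≠ 0 := fun e => h2 (by linear_combination h3 - 2 * e)
      have : τ = -2 := by linear_combination h3
      exact ⟨d / (2 * t), -(d / (2 * t)), by rw [this]; field_simp; ring⟩
    · obtain ⟨α, β, e⟩ := univ_form (-τ) 1 (t * (t / (2 + τ)) - d) (.inl (by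
        intro e
        have : (τ - 2) * (2 + τ) = 0 := by linear_combination e
        exact (mul_eq_zero.1 this).elim (fun e => h2 (sub_eq_zero.1 e)) h3))
      refine ⟨t / (2 + τ) + α, -(t / (2 + τ)) + β, ?_⟩
      have e2 : (2 + τ) * (t / (2 + τ)) = t := by field_simp
      generalize t / (2 + τ) = w0 at e e2
      linear_combination e + (w0 + α - β) * e2
  have hu : IsUnit P.det := isUnit_iff_ne_zero.2 hP
  set Z0 : Matrix (Fin 2) (Fin 2) F := !![t - w, t + z - τ * w; z, w] with hZ0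
  have tc : ∀ Y : Matrix (Fin 2) (Fin 2) F, (P * Y * P⁻¹).trace = Y.trace := fun Y => by
    rw [trace_mul_comm, ← Matrix.mul_assoc, nonsing_inv_mul _ hu, Matrix.one_mul]
  have dc : ∀ Y : Matrix (Fin 2) (Fin 2) F, (P * Y * P⁻¹).det = Y.det := fun Y => by
    rw [det_mul, det_mul, det_nonsing_inv, Ring.inverse_eq_inv']; field_simp
  have d0 : Z0.det = d := by rw [det_fin_two]; simp [hZ0]; linear_combination -e
  obtain ⟨g2, e2⟩ := h.conj ht hd (N := P * Z0 * P⁻¹) (by rw [tc]; simp [hZ0, trace_fin_two]) (by rw [dc, d0])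
  obtain ⟨g1, e3⟩ := h.conj ht hd (N := C.1 * (P * Z0 * P⁻¹)) (by
    rw [← Matrix.mul_assoc, ← Matrix.mul_assoc, e1, Matrix.mul_assoc P, tc]
    simp [hZ0, trace_fin_two]) (by rw [det_mul, dc, d0, C.2, one_mul])
  refine ⟨g1, g2, ?_⟩
  have : conjSL A (g1⁻¹ * g2) = g1⁻¹ * C * g2 := by
    rw [conjSL_eq_iff]
    have i1 : (g1⁻¹).1 * g1.1 = 1 := congrArg Subtype.val (inv_mul_cancel g1)
    have i2 : g1.1 * (g1⁻¹).1 = 1 := congrArg Subtype.val (mul_inv_cancel g1)
    change A.1 * ((g1⁻¹).1 * g2.1) = (g1⁻¹).1 * C.1 * g2.1 * A.1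
    calc _ = (g1⁻¹).1 * (g1.1 * A.1) * ((g1⁻¹).1 * g2.1) := by rw [← Matrix.mul_assoc _ g1.1, i1, Matrix.one_mul]
      _ = _ := by
        rw [e3, Matrix.mul_assoc _ g2.1, e2]
        simp only [Matrix.mul_assoc]
        rw [← Matrix.mul_assoc g1.1, i2, Matrix.one_mul]
  rw [this]; group

theorem gd_up (C : SL(2, F)) : ∃ s, Gd (C * upT s) := by
  have hd := C.2
  rw [det_fin_two] at hd
  by_cases h : C.1 1 0 = 0
  · by_cases h1 : C.1 0 0 = 1
    · refine ⟨-C.1 0 1, .inl (sl2_ext ?_ ?_ ?_ ?_)⟩ <;> simp [sl2_mul_apply, coe_upT, h, h1]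
      simpa [h, h1] using hd
    · have h0 : C.1 0 0 ≠ 0 := fun e => by simp [e, h] at hd
      refine ⟨(1 - C.1 0 1) / C.1 0 0, .inr ⟨fun e => h1 ?_, .inl ?_⟩⟩
      · simp [trace_fin_two, coe_upT, Matrix.mul_apply, Fin.sum_univ_two, h] at e
        have : (C.1 0 0 - 1) ^ 2 = 0 := by
          linear_combination C.1 0 0 * e - hd - C.1 0 1 * h
        exact sub_eq_zero.1 (pow_eq_zero_iff two_ne_zero |>.1 this)
      · simp [sl2_mul_apply, coe_upT]
        field_simp; simp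
  · refine ⟨(3 - C.1 0 0 - C.1 1 1) / C.1 1 0, .inr ⟨fun e => one_ne_zero (α := F) ?_, .inr (.inl ?_)⟩⟩
    · simp [trace_fin_two, coe_upT, Matrix.mul_apply, Fin.sum_univ_two] at e
      field_simp at e
      linear_combination e
    · simpa [sl2_mul_apply, coe_upT] using h

theorem adj_props (K : Matrix (Fin 2) (Fin 2) F) : K.adjugate.trace = K.trace ∧ K.adjugate.det = K.det ∧
    (NS K → NS K.adjugate) := by
  rw [adjugate_fin_two]
  refine ⟨by simp [trace_fin_two, add_comm], by simp [det_fin_two]; ring, fun h => ?_⟩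
  simpa [NS, eq_comm] using h

theorem ns_of_trace {M : Matrix (Fin 2) (Fin 2) F} (h2 : (2 : F) ≠ 0) (ht : M.trace = 0) (hd : M.det ≠ 0) : NS M := by
  by_contra hn
  simp only [NS, not_or, not_not] at hn
  rw [trace_fin_two, hn.2.2, ← two_mul, mul_eq_zero] at ht
  exact hd (by rw [det_fin_two, ht.resolve_left h2, hn.1]; ring)

theorem gd_odd [Finite F] (h2 : (2 : F) ≠ 0) (E : GL (Fin 2) F) (hE : E.1.trace = 0) (C : SL(2, F)) :
    ∃ g : SL(2, F), Gd (g * conjSL E g⁻¹ * C) := by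
  have hd : E.1.det ≠ 0 := (E.isUnit.map detMonoidHom).ne_zero
  have h4 : E.1.trace ^ 2 - 4 * E.1.det ≠ 0 ∨ (2 : F) = 0 := .inl (by
    rw [hE]; simpa using ⟨fun e => h2 (by have : (2 : F) * 2 = 0 := by linear_combination e
                                          simpa using this), hd⟩)
  have key : ∀ N : Matrix (Fin 2) (Fin 2) F, N.trace = 0 → N.det = E.1.det →
      ∃ g : SL(2, F), (g * conjSL E g⁻¹ * C).1 = N * (E⁻¹).1 * C.1 := fun N h1 h3 => by
    obtain ⟨g, e⟩ := conj_SL (ns_of_trace h2 hE hd) (ns_of_trace h2 h1 (h3 ▸ hd)) (hE.trans h1.symm) h3.symm h4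
    refine ⟨g, ?_⟩
    have i2 : g.1 * (g⁻¹).1 = 1 := congrArg Subtype.val (mul_inv_cancel g)
    change g.1 * (E.1 * (g⁻¹).1 * (E⁻¹).1) * C.1 = _
    rw [← Matrix.mul_assoc g.1, ← Matrix.mul_assoc g.1, e, Matrix.mul_assoc N, i2, Matrix.mul_one]
  have i1 : (C⁻¹).1 * C.1 = 1 := congrArg Subtype.val (inv_mul_cancel C)
  by_cases ht : ((C⁻¹).1 * E.1).trace = 0
  · obtain ⟨g, e⟩ := key _ ht (by rw [det_mul, (C⁻¹).2, one_mul])
    exact ⟨g, .inl (Subtype.ext (by rw [e, Matrix.mul_assoc (C⁻¹).1, Units.mul_inv, Matrix.mul_one, i1]; rfl))⟩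
  have ns : NS C.1 := by
    by_contra hn
    simp only [NS, not_or, not_not] at hn
    apply ht
    rw [trace_fin_two] at hE
    simp [SpecialLinearGroup.coe_inv, adjugate_fin_two, trace_fin_two, Matrix.mul_apply, Fin.sum_univ_two, hn.1,
      hn.2.1, hn.2.2, vecMul, dotProduct]
    linear_combination C.1 1 1 * hE
  by_cases h3 : C.1.trace = 2
  · obtain ⟨g, e⟩ := key (-E.1) (by rw [trace_neg, hE, neg_zero]) (by simp [det_neg])
    rw [Matrix.neg_mul, Units.mul_inv, Matrix.neg_mul, Matrix.one_mul] at e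
    refine ⟨g, .inr ⟨?_, ?_⟩⟩ <;> rw [e]
    · rw [trace_neg, h3]
      intro e
      have : (2 : F) * 2 = 0 := by linear_combination -e
      exact h2 (by simpa using this)
    · simpa [NS] using ns
  · exact ⟨1, .inr (by simpa using ⟨h3, ns⟩)⟩

theorem gd_even [Finite F] (h2 : (2 : F) = 0) (E : SL(2, F)) (hE : E.1.trace = 0) (hE' : NS E.1) (C : SL(2, F)) :
    Gd C ∨ ∃ g : SL(2, F), Gd (g * E * g⁻¹ * C) := by
  by_cases ns : NS C.1
  · by_cases ht : C.1.trace = 2
    · right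
      have a := adj_props C.1
      obtain ⟨g, e⟩ := conj_SL hE' (a.2.2 ns) (by rw [hE, a.1, ht, h2]) (by rw [a.2.1, C.2, E.2]) (.inr h2)
      refine ⟨g, .inl ?_⟩
      have : g * E = C⁻¹ * g := Subtype.ext e
      rw [this]; group
    · exact .inl (.inr ⟨ht, ns⟩)
  · simp only [NS, not_or, not_not] at ns
    have hd := C.2
    rw [det_fin_two, ns.1, ns.2.2] at hd
    have : C.1 1 1 = 1 := by
      have : (C.1 1 1 - 1) ^ 2 = 0 := by linear_combination hd + (1 - C.1 1 1) * h2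
      exact sub_eq_zero.1 (pow_eq_zero_iff two_ne_zero |>.1 this)
    exact .inl (.inl (sl2_ext (by simp [ns.2.2, this]) (by simp [ns.1]) (by simp [ns.2.1]) (by simp [this])))

theorem exists_irr [Finite F] {d : F} (hd : d ≠ 0) (h : d ≠ 1 ∨ (2 : F) = 0) : ∃ t, t ≠ 0 ∧ Irr t d := by
  classical
  have := Fintype.ofFinite F
  by_contra hn
  push Not at hn
  have h1 : ∀ t : Fˣ, ∃ a : Fˣ, (a : F) + d / a = t := fun t => by
    have := hn t t.ne_zero
    simp only [Irr, not_forall, not_not] at this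
    obtain ⟨a, ha⟩ := this
    have ha0 : a ≠ 0 := by rintro rfl; exact hd (by simpa using ha)
    exact ⟨Units.mk0 a ha0, by simp only [Units.val_mk0]; field_simp; linear_combination ha⟩
  choose φ hφ using h1
  have inj : Function.Injective φ := fun s t e => Units.ext (by rw [← hφ s, ← hφ t, e])
  have sur := Finite.injective_iff_surjective.1 inj
  obtain ⟨s, hs⟩ := sur 1
  obtain ⟨t, ht⟩ := sur (Units.mk0 d hd)
  have e1 := hφ s
  have e2 := hφ t
  rw [hs] at e1
  rw [ht] at e2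
  simp only [Units.val_one, div_one, Units.val_mk0, div_self hd] at e1 e2
  have : s = t := Units.ext (by rw [← e1, ← e2, add_comm])
  have e4 : Units.mk0 d hd = 1 := by rw [← ht, ← this, hs]
  have e3 : d = 1 := congrArg Units.val e4
  rcases h with h | h
  · exact h e3
  · exact s.ne_zero (by rw [← e1, e3]; linear_combination h)

end H7.CC
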