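import Cfsg.Agent.H7.CC3
import Cfsg.Agent.H24.St0

/-! Groups of type `G₂` (abstract form): squares of semisimple classes. -/

set_option autoImplicit false
set_option linter.unusedSimpArgs false
set_option linter.unusedSectionVars false

namespace H7.CC

open Matrix H4 H24
open scoped MatrixGroups

variable {G F K : Type*} [Group G] [Field F] [Field K]

def dG (e : Fˣ) : GL (Fin 2) F := GeneralLinearGroup.mkOfDetNeZero !![(e : F), 0; 0, 1] (by simp [det_fin_two])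
def aG (e : Fˣ) : GL (Fin 2) F := GeneralLinearGroup.mkOfDetNeZero !![0, 1; (e : F), 0] (by simp [det_fin_two])
theorem coe_dG (e : Fˣ) : (dG e).1 = !![(e : F), 0; 0, 1] := rfl
theorem coe_aG (e : Fˣ) : (aG e).1 = !![0, 1; (e : F), 0] := rfl

/-- `k` acts on the image of `φ` like the matrix `P` -/
def Ad (φ : SL(2, F) →* G) (k : G) (P : GL (Fin 2) F) : Prop := ∀ g, k * φ g * k⁻¹ = φ (conjSL P g)

theorem conjSL_mul (P Q : GL (Fin 2) F) (g : SL(2, F)) : conjSL (P * Q) g = conjSL P (conjSL Q g) :=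
  Subtype.ext (show (P * Q).1 * g.1 * ((P * Q)⁻¹).1 = P.1 * (Q.1 * g.1 * (Q⁻¹).1) * (P⁻¹).1 by
    simp only [_root_.mul_inv_rev, Units.val_mul, Matrix.mul_assoc])

theorem conjSL_coe (m g : SL(2, F)) : conjSL (SpecialLinearGroup.toGL m) g = m * g * m⁻¹ :=
  conjSL_eq_iff.2 (congrArg Subtype.val (show m * g = m * g * m⁻¹ * m by group))

theorem Ad.mul {φ : SL(2, F) →* G} {k k' : G} {P Q : GL (Fin 2) F} (h : Ad φ k P) (h' : Ad φ k' Q) :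
    Ad φ (k * k') (P * Q) := fun g => by rw [conjSL_mul, ← h, ← h']; group

theorem Ad.inv {φ : SL(2, F) →* G} {k : G} {P : GL (Fin 2) F} (h : Ad φ k P) : Ad φ k⁻¹ P⁻¹ := fun g => by
  have := h (conjSL P⁻¹ g)
  rw [← conjSL_mul, mul_inv_cancel, show conjSL 1 g = g from conjSL_eq_iff.2 (by simp)] at this
  rw [← this]; group

theorem ad_self (φ : SL(2, F) →* G) (m : SL(2, F)) : Ad φ (φ m) (SpecialLinearGroup.toGL m) := fun g => by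
  rw [conjSL_coe]; simp

theorem ad_of {φ : SL(2, F) →* G} {k : G} {P : GL (Fin 2) F} (h1 : ∀ s, k * φ (upT s) * k⁻¹ = φ (conjSL P (upT s)))
    (h2 : ∀ s, k * φ (loT s) * k⁻¹ = φ (conjSL P (loT s))) : Ad φ k P := fun g => by
  have := sl2_eq_top_of_upT_loT (H := ((MulAut.conj k).toMonoidHom.comp φ).eqLocus (φ.comp (conjSL P))) h1 h2
  exact (this ▸ Subgroup.mem_top g : g ∈ ((MulAut.conj k).toMonoidHom.comp φ).eqLocus (φ.comp (conjSL P)))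

theorem ad_d {φ : SL(2, F) →* G} {k : G} {e : Fˣ}
    (h : ∀ s, k * φ (upT s) * k⁻¹ = φ (upT (e * s)) ∧ k * φ (loT s) * k⁻¹ = φ (loT ((e : F)⁻¹ * s))) : Ad φ k (dG e) :=
  ad_of (fun s => (h s).1.trans (congrArg φ (conjSL_eq_iff.2 (by
      apply H22.fin2_ext <;> simp [coe_dG, coe_upT])).symm))
    fun s => (h s).2.trans (congrArg φ (conjSL_eq_iff.2 (by apply H22.fin2_ext <;> simp [coe_dG, coe_loT, mul_comm])).symm)

theorem ad_a {φ : SL(2, F) →* G} {k : G} {e : Fˣ}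
    (h : ∀ s, k * φ (upT s) * k⁻¹ = φ (loT (e * s)) ∧ k * φ (loT s) * k⁻¹ = φ (upT ((e : F)⁻¹ * s))) : Ad φ k (aG e) :=
  ad_of (fun s => (h s).1.trans (congrArg φ (conjSL_eq_iff.2 (by
      apply H22.fin2_ext <;> simp [coe_aG, coe_upT, coe_loT])).symm))
    fun s => (h s).2.trans (congrArg φ (conjSL_eq_iff.2 (by
      apply H22.fin2_ext <;> simp [coe_aG, coe_loT, coe_upT, mul_comm])).symm)

theorem dS_mul (a b : Kˣ) : dS (a * b) = dS a * dS b := by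
  apply sl2_ext <;> simp [coe_dS, mul_comm]

theorem dS_one : dS (1 : Kˣ) = 1 := by apply sl2_ext <;> simp [coe_dS]

theorem up_w (t : Kˣ) : upT (t : K) * wS = loT (t : K)⁻¹ * dS (-t) * upT (-(t : K)⁻¹) := by
  apply sl2_ext <;> simp [coe_dS, coe_wS, coe_upT, coe_loT]

theorem up_eq (t : Kˣ) : upT (t : K) = loT (t : K)⁻¹ * (dS t * wS) * loT (t : K)⁻¹ := by
  apply sl2_ext <;> simp [coe_dS, coe_wS, coe_upT, coe_loT]

theorem up_lo (κ : Kˣ) (c : K) (h : (κ : K) = 1 + c) : upT c * loT 1 = loT (κ : K)⁻¹ * dS κ * upT (c / κ) := by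
  have := κ.ne_zero
  apply sl2_ext <;> simp [coe_dS, coe_upT, coe_loT, ← h] <;> field_simp <;> first | rfl | linear_combination h

theorem fpf [Finite G] {W : Subgroup G} {x : G} (h1 : ∀ w ∈ W, x⁻¹ * w * x ∈ W)
    (h2 : ∀ w ∈ W, x * w * x⁻¹ = w → w = 1) {w : G} (hw : w ∈ W) : ∃ y ∈ W, x * w = y * x * y⁻¹ := by
  let f : W → W := fun y => ⟨x⁻¹ * y * x * (y : G)⁻¹, W.mul_mem (h1 _ y.2) (W.inv_mem y.2)⟩
  have : Function.Injective f := fun y z e => by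
    have e' : x⁻¹ * y * x * (y : G)⁻¹ = x⁻¹ * z * x * (z : G)⁻¹ := congrArg Subtype.val e
    have := h2 ((z : G)⁻¹ * y) (W.mul_mem (W.inv_mem z.2) y.2) (by
      calc _ = x * (z : G)⁻¹ * (y * x * (y : G)⁻¹)⁻¹ * y := by group
        _ = x * (z : G)⁻¹ * (x * (x⁻¹ * y * x * (y : G)⁻¹))⁻¹ * y := by group
        _ = _ := by rw [e']; group)
    exact Subtype.ext (inv_mul_eq_one.1 this).symm
  obtain ⟨y, hy⟩ := Finite.injective_iff_surjective.1 this ⟨w, hw⟩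
  refine ⟨y, y.2, ?_⟩
  rw [← show x⁻¹ * y * x * (y : G)⁻¹ = w from congrArg Subtype.val hy]; group

def n2 (φ : SL(2, F) →* G) (ψ : SL(2, K) →* G) : G := ψ wS * φ wS
def n3 (φ : SL(2, F) →* G) (ψ : SL(2, K) →* G) : G := ψ wS * φ wS * ψ wS
def n0 (φ : SL(2, F) →* G) (ψ : SL(2, K) →* G) : G := n3 φ ψ * φ wS * (n3 φ ψ)⁻¹ * ψ wS

structure Hex (M U V T : Subgroup G) (φ : SL(2, F) →* G) (ψ : SL(2, K) →* G) : Prop where
  UM : U ≤ M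
  VM : V ≤ M
  TM : T ≤ M
  φM : ∀ g, φ g ∈ M
  ψM : ∀ g, ψ g ∈ M
  φU : ∀ g, ∀ u ∈ U, φ g * u * (φ g)⁻¹ ∈ U
  φV : ∀ g, ∀ u ∈ V, φ g * u * (φ g)⁻¹ ∈ V
  TU : ∀ h ∈ T, ∀ u ∈ U, h * u * h⁻¹ ∈ U
  TV : ∀ h ∈ T, ∀ u ∈ V, h * u * h⁻¹ ∈ V
  Tact : ∀ h ∈ T, ∃ e : Fˣ, Ad φ h (dG e)
  Tgen : ∀ h ∈ T, ∃ t : Kˣ, h * ψ (dS t) ∈ φ.range
  ψT : ∀ t, ψ (dS t) ∈ T
  aU : ∀ t, ψ (upT t) ∈ U
  aV : ∀ t, ψ (loT t) ∈ V
  c1 : ∀ t s, Commute (ψ (upT t)) (φ (loT s))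
  c2 : ∀ t s, Commute (ψ (loT t)) (φ (upT s))
  r1 : ∀ s, ψ wS * φ (upT s) * (ψ wS)⁻¹ ∈ U ∧ ψ wS * φ (loT s) * (ψ wS)⁻¹ ∈ V
  r2 : ∀ t, n2 φ ψ * ψ (upT t) * (n2 φ ψ)⁻¹ ∈ U ∧ n2 φ ψ * ψ (loT t) * (n2 φ ψ)⁻¹ ∈ V
  r3 : ∀ s, n3 φ ψ * φ (upT s) * (n3 φ ψ)⁻¹ ∈ U ∧ n3 φ ψ * φ (loT s) * (n3 φ ψ)⁻¹ ∈ V
  c3 : ∀ g g', Commute (n3 φ ψ * φ g * (n3 φ ψ)⁻¹) (ψ g')
  c4 : ∀ g g', Commute (n2 φ ψ * ψ g' * (n2 φ ψ)⁻¹) (φ g)
  w0V : ∀ v ∈ V, n0 φ ψ * v * (n0 φ ψ)⁻¹ ∈ U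
  w0φ : ∃ e : Fˣ, Ad φ (n0 φ ψ) (aG e)
  w0T : ∀ h ∈ T, n0 φ ψ * h * (n0 φ ψ)⁻¹ = h⁻¹
  b1 : ∃ h ∈ T, n2 φ ψ * ψ wS * (n2 φ ψ)⁻¹ * (n0 φ ψ)⁻¹ = φ wS * h
  b2 : ∀ t, n2 φ ψ * ψ (dS t) * (n2 φ ψ)⁻¹ ∈ T
  inj : Function.Injective φ
  ψi : (2 : F) = 0 → ∀ t, ψ (dS t) = 1 → t = 1
  bru : ∀ γ ∈ M, γ ≠ 1 → ∃ g ∈ M, ∃ n, (n = ψ wS ∨ n = n3 φ ψ ∨ n = (n0 φ ψ)⁻¹) ∧
    ∃ m, ∃ h ∈ T, ∃ u ∈ U, g * γ * g⁻¹ = n * (φ m * h) * u

namespace Hex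
variable {M U V T : Subgroup G} {φ : SL(2, F) →* G} {ψ : SL(2, K) →* G} (H : Hex M U V T φ ψ)
include H

theorem LU {l : G} (hl : l ∈ φ.range ⊔ T) {u : G} (hu : u ∈ U) : l * u * l⁻¹ ∈ U := by
  have : φ.range ⊔ T ≤ Subgroup.normalizer (U : Set G) := sup_le
    (by rintro _ ⟨g, rfl⟩; exact mem_normalizer_of_conj (H.φU g) (by simpa using H.φU g⁻¹))
    fun h hh => mem_normalizer_of_conj (H.TU h hh) (by simpa using H.TU h⁻¹ (T.inv_mem hh))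
  exact (Subgroup.mem_normalizer_iff.1 (this hl) u).1 hu

theorem LV {l : G} (hl : l ∈ φ.range ⊔ T) {u : G} (hu : u ∈ V) : l * u * l⁻¹ ∈ V := by
  have : φ.range ⊔ T ≤ Subgroup.normalizer (V : Set G) := sup_le
    (by rintro _ ⟨g, rfl⟩; exact mem_normalizer_of_conj (H.φV g) (by simpa using H.φV g⁻¹))
    fun h hh => mem_normalizer_of_conj (H.TV h hh) (by simpa using H.TV h⁻¹ (T.inv_mem hh))
  exact (Subgroup.mem_normalizer_iff.1 (this hl) u).1 hu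

theorem LM : φ.range ⊔ T ≤ M := sup_le (by rintro _ ⟨g, rfl⟩; exact H.φM g) H.TM

omit H in
theorem φL (g : SL(2, F)) : φ g ∈ φ.range ⊔ T := Subgroup.mem_sup_left ⟨g, rfl⟩

theorem Tr {h : G} (hh : h ∈ T) {a : G} (ha : a ∈ φ.range) : h * a * h⁻¹ ∈ φ.range := by
  obtain ⟨g, rfl⟩ := ha
  obtain ⟨e, he⟩ := H.Tact h hh
  exact ⟨_, (he g).symm⟩

theorem n0M : n0 φ ψ ∈ M := by
  have := H.φM wS
  have := H.ψM wS
  unfold n0 n3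
  repeat first | assumption | apply M.mul_mem | apply M.inv_mem

/-- conjugate into the big cell -/
def R (_ : Hex M U V T φ ψ) (γ : G) (C : SL(2, F)) : Prop := ∃ g ∈ M, ∃ v ∈ V, ∃ u ∈ U, g * γ * g⁻¹ = v * φ C * u

theorem R.conj {γ g : G} {C : SL(2, F)} (hg : g ∈ M) (h : H.R (g * γ * g⁻¹) C) : H.R γ C := by
  obtain ⟨k, hk, v, hv, u, hu, e⟩ := h
  exact ⟨k * g, M.mul_mem hk hg, v, hv, u, hu, by rw [← e]; group⟩

theorem typeI {n l0 u : G} (hl0 : l0 ∈ φ.range ⊔ T) (hu : u ∈ U) (hn : ∀ s, n * φ (upT s) * n⁻¹ ∈ U)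
    {y v l1 u1 : G} (hy : y ∈ U) (hv : v ∈ V) (hu1 : u1 ∈ U) (e : y * n = v * l1 * u1) (h : l0 * l1 ∈ φ.range) :
    ∃ C, Gd C ∧ H.R (n * l0 * u) C := by
  obtain ⟨C0, hC⟩ := h
  obtain ⟨s, hs⟩ := gd_up C0
  have hy' := U.mul_mem hy (hn s)
  refine ⟨_, hs, l0 * (y * (n * φ (upT s) * n⁻¹)), M.mul_mem (H.LM hl0) (H.UM hy'), _, H.LV hl0 hv, _,
    U.mul_mem (H.φU (upT s)⁻¹ _ hu1) (H.LU hl0 (U.mul_mem hu (U.inv_mem hy'))), ?_⟩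
  rw [map_mul, hC, map_inv]
  calc _ = l0 * (y * n) * φ (upT s) * l0 * u * (y * (n * φ (upT s) * n⁻¹))⁻¹ * l0⁻¹ := by group
    _ = _ := by rw [e]; group

theorem case2 {m : SL(2, F)} {h u : G} (hh : h ∈ T) (hu : u ∈ U) : ∃ C, Gd C ∧ H.R (ψ wS * (φ m * h) * u) C := by
  obtain ⟨τ, hτ⟩ := H.Tgen h hh
  refine H.typeI (mul_mem (φL m) (Subgroup.mem_sup_right hh)) hu (fun s => (H.r1 s).1) (H.aU ((-τ : Kˣ) : K)) (H.aV _)
    (H.aU _) (by rw [← map_mul, up_w, map_mul, map_mul]) ?_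
  rw [neg_neg, mul_assoc]
  exact mul_mem ⟨m, rfl⟩ hτ

theorem case4 {m : SL(2, F)} {h u : G} (hh : h ∈ T) (hu : u ∈ U) : ∃ C, Gd C ∧ H.R (n3 φ ψ * (φ m * h) * u) C := by
  obtain ⟨τ, hτ⟩ := H.Tgen h hh
  have hl := mul_mem (φL (φ := φ) m) (Subgroup.mem_sup_right hh)
  have e1 : φ (upT (-1)) * φ wS = φ (loT (-1)) * φ (upT 1) := by
    rw [← map_mul, ← map_mul]; congr 1; apply sl2_ext <;> simp [coe_wS, coe_upT, coe_loT]
  by_cases h1 : τ = -1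
  · subst h1
    have hT := H.ψT (-1)
    refine H.typeI hl hu (fun s => (H.r3 s).1) (H.r1 (-1)).1 (H.r1 (-1)).2
      (H.TU _ (T.inv_mem hT) _ (H.r1 1).1) (l1 := ψ (dS (-1))) ?_ (by rw [mul_assoc]; exact mul_mem ⟨m, rfl⟩ hτ)
    calc _ = ψ wS * (φ (upT (-1)) * φ wS) * (ψ wS)⁻¹ * (ψ wS * ψ wS) := by rw [n3]; group
      _ = _ := by rw [e1, ← map_mul ψ, wS_sq]; group
  have h2 : (τ : K) + 1 ≠ 0 := fun e => h1 (Units.ext (eq_neg_of_add_eq_zero_left e))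
  set t : Kˣ := Units.mk0 _ h2 with ht
  have e2 := congrArg ψ (up_w t)
  have e3 := congrArg ψ (up_w (1 : Kˣ))
  have e4 := congrArg ψ (up_lo (τ * t⁻¹) (-(t : K)⁻¹) (by
    simp only [Units.val_mul, Units.val_inv_eq_inv_val, ht, Units.val_mk0]; field_simp; ring))
  simp only [map_mul, Units.val_one, inv_one] at e2 e3 e4
  have la : ψ (dS (-t)) * φ (loT (-1)) ∈ φ.range ⊔ T := mul_mem (Subgroup.mem_sup_right (H.ψT _)) (φL _)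
  have lb : φ (upT 1) * ψ (dS (-1)) ∈ φ.range ⊔ T := mul_mem (φL _) (Subgroup.mem_sup_right (H.ψT _))
  refine H.typeI hl hu (fun s => (H.r3 s).1) (mul_mem (mul_mem (H.aU t) (H.r1 (-1)).1) (H.r2 1).1)
    (mul_mem (H.aV (t : K)⁻¹) (H.LV la (H.aV ((τ * t⁻¹ : Kˣ) : K)⁻¹)))
    (mul_mem (H.LU (inv_mem lb) (H.aU (-(t : K)⁻¹ / (τ * t⁻¹ : Kˣ)))) (H.aU (-1)))
    (l1 := ψ (dS (-t)) * φ (loT (-1)) * ψ (dS (τ * t⁻¹)) * (φ (upT 1) * ψ (dS (-1)))) ?_ ?_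
  · calc _ = ψ (upT t) * ψ wS * (φ (upT (-1)) * φ wS) * (ψ (upT 1) * ψ wS) := by rw [n3, n2]; group
      _ = ψ (loT (t : K)⁻¹) * ψ (dS (-t)) * (ψ (upT (-(t : K)⁻¹)) * φ (loT (-1))) * (φ (upT 1) * ψ (loT 1)) *
          ψ (dS (-1)) * ψ (upT (-1)) := by rw [e1, e2, e3]; group
      _ = ψ (loT (t : K)⁻¹) * ψ (dS (-t)) * φ (loT (-1)) * (ψ (upT (-(t : K)⁻¹)) * ψ (loT 1)) * φ (upT 1) *
          ψ (dS (-1)) * ψ (upT (-1)) := by rw [(H.c1 _ _).eq, ← (H.c2 _ _).eq]; group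
      _ = _ := by rw [e4]; group
  · have e5 : ψ (dS τ) = ψ (dS (-t)) * ψ (dS (τ * t⁻¹)) * ψ (dS (-1)) := by
      rw [← map_mul, ← map_mul, ← dS_mul, ← dS_mul]; congr 2
      rw [mul_neg, mul_one, neg_mul, neg_neg, mul_comm τ, mul_inv_cancel_left]
    have a1 := H.Tr (mul_mem hh (H.ψT (-t))) ⟨loT (-1), rfl⟩
    have a2 := H.Tr (mul_mem (mul_mem hh (H.ψT (-t))) (H.ψT (τ * t⁻¹))) ⟨upT 1, rfl⟩
    convert mul_mem (mul_mem (mul_mem (⟨m, rfl⟩ : φ m ∈ φ.range) a1) a2) hτ using 1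
    rw [e5]; group

theorem typeII {k u y v p v' : G} (hk : ∀ v ∈ V, k⁻¹ * v * k ∈ U) (hu : u ∈ U) (hy : y ∈ U) (hv : v ∈ V) (hv' : v' ∈ V)
    (e : y = v * p * v') (g : SL(2, F)) {C : SL(2, F)} (h : φ g * p * (φ g)⁻¹ * k = φ C) : H.R (k * u) C := by
  have hy' := H.φU g y hy
  refine ⟨_, H.UM hy', _, H.φV g v hv, _, mul_mem (mul_mem (hk _ (H.φV g v' hv')) hu) (inv_mem hy'), ?_⟩
  rw [← h]
  generalize hw : (φ g * y * (φ g)⁻¹)⁻¹ = w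
  rw [e]; group

theorem surjβ [Finite K] (h2 : (2 : F) = 0) {h : G} (hh : h ∈ T) :
    ∃ t, n2 φ ψ * ψ (dS t) * (n2 φ ψ)⁻¹ * h ∈ φ.range := by
  choose τ hτ using fun t => H.Tgen _ (H.b2 t)
  have inj : Function.Injective τ := fun s t e => by
    obtain ⟨g, hg⟩ : n2 φ ψ * ψ (dS (s * t⁻¹)) * (n2 φ ψ)⁻¹ ∈ φ.range := by
      have := mul_mem (hτ s) (inv_mem (hτ t))
      rw [e] at this
      convert this using 1
      rw [dS_mul, map_mul, show dS t⁻¹ = (dS t)⁻¹ from eq_inv_of_mul_eq_one_left (by rw [← dS_mul, inv_mul_cancel, dS_one]),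
        map_inv]
      group
    have hc : g ∈ Subgroup.center SL(2, F) := Subgroup.mem_center_iff.2 fun g' => H.inj (by
      rw [map_mul, map_mul, hg, (H.c4 g' _).eq])
    obtain ⟨l, hl, rfl⟩ := mem_center_SL.1 hc
    have : l = 1 := by
      have e1 : (l : F) ^ 2 = 1 := by simpa using congrArg Units.val hl
      have : ((l : F) - 1) ^ 2 = 0 := by linear_combination e1 + (1 - l) * h2
      exact Units.ext (sub_eq_zero.1 (pow_eq_zero_iff two_ne_zero |>.1 this))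
    rw [this, dS_one, map_one, eq_comm, mul_inv_eq_one, mul_eq_left] at hg
    exact mul_inv_eq_one.1 (H.ψi h2 _ hg)
  obtain ⟨σ, hσ⟩ := H.Tgen _ (T.inv_mem hh)
  obtain ⟨t, rfl⟩ := Finite.injective_iff_surjective.1 inj σ
  exact ⟨t, by convert mul_mem (hτ t) (inv_mem hσ) using 1; group⟩

theorem case6 [Finite F] [Finite K] {m : SL(2, F)} {h u : G} (hh : h ∈ T) (hu : u ∈ U) :
    ∃ C, Gd C ∧ H.R ((n0 φ ψ)⁻¹ * (φ m * h) * u) C := by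
  have hl := mul_mem (φL (φ := φ) m) (Subgroup.mem_sup_right hh)
  have hk : ∀ v ∈ V, ((n0 φ ψ)⁻¹ * (φ m * h))⁻¹ * v * ((n0 φ ψ)⁻¹ * (φ m * h)) ∈ U := fun v hv => by
    convert H.LU (inv_mem hl) (H.w0V v hv) using 1; group
  obtain ⟨s, hs⟩ := H.Tgen h hh
  obtain ⟨C0, hC0⟩ : ψ (dS s) * n0 φ ψ * ((n0 φ ψ)⁻¹ * (φ m * h)) ∈ φ.range := by
    convert mul_mem (H.Tr (H.ψT s) ⟨m, rfl⟩) (H.Tr (inv_mem hh) hs) using 1; group
  have hy := mul_mem (H.r3 1).1 (H.aU s)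
  have hv := mul_mem (H.r3 1).2 (H.aV (s : K)⁻¹)
  have ey : n3 φ ψ * φ (upT 1) * (n3 φ ψ)⁻¹ * ψ (upT s) = n3 φ ψ * φ (loT 1) * (n3 φ ψ)⁻¹ * ψ (loT (s : K)⁻¹) *
      (ψ (dS s) * n0 φ ψ) * (n3 φ ψ * φ (loT 1) * (n3 φ ψ)⁻¹ * ψ (loT (s : K)⁻¹)) := by
    have e1 := congrArg φ (up_eq (1 : Fˣ))
    have e2 := congrArg ψ (up_eq s)
    simp only [map_mul, Units.val_one, inv_one, dS_one, one_mul] at e1 e2
    have e3 : n3 φ ψ * φ (upT 1) * (n3 φ ψ)⁻¹ = n3 φ ψ * φ (loT 1) * (n3 φ ψ)⁻¹ * (n3 φ ψ * φ wS * (n3 φ ψ)⁻¹) *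
      (n3 φ ψ * φ (loT 1) * (n3 φ ψ)⁻¹) := by rw [e1]; group
    rw [e3, e2, n0]
    have a1 := (H.c3 (loT 1) (loT (s : K)⁻¹ * (dS s * wS))).eq
    have a2 := (H.c3 wS (loT (s : K)⁻¹ * dS s)).eq
    simp only [map_mul] at a1 a2
    generalize n3 φ ψ * φ (loT 1) * (n3 φ ψ)⁻¹ = a at *
    generalize n3 φ ψ * φ wS * (n3 φ ψ)⁻¹ = w at *
    calc _ = a * w * (a * (ψ (loT (s : K)⁻¹) * (ψ (dS s) * ψ wS))) * ψ (loT (s : K)⁻¹) := by group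
      _ = a * (w * (ψ (loT (s : K)⁻¹) * ψ (dS s))) * ψ wS * a * ψ (loT (s : K)⁻¹) := by rw [a1]; group
      _ = _ := by rw [a2]; group
  obtain ⟨e1, h1⟩ := H.Tact _ (H.ψT s)
  obtain ⟨e, h0⟩ := H.w0φ
  have hA := h1.mul h0
  generalize ψ (dS s) * n0 φ ψ = p at hC0 ey hA
  by_cases h2 : (2 : F) = 0
  swap
  · obtain ⟨g, hg⟩ := gd_odd h2 (dG e1 * aG e) (by simp [coe_dG, coe_aG, trace_fin_two]) C0
    refine ⟨_, hg, H.typeII hk hu hy hv hv ey g ?_⟩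
    rw [map_mul, map_mul, ← hA, hC0, map_inv]; group
  obtain ⟨h1, hh1, e1'⟩ := H.b1
  obtain ⟨t, ht⟩ := H.surjβ h2 (mul_mem hh1 hh)
  have ez : n2 φ ψ * ψ (upT t) * (n2 φ ψ)⁻¹ = n2 φ ψ * ψ (loT (t : K)⁻¹) * (n2 φ ψ)⁻¹ *
      (n2 φ ψ * ψ (dS t * wS) * (n2 φ ψ)⁻¹) * (n2 φ ψ * ψ (loT (t : K)⁻¹) * (n2 φ ψ)⁻¹) := by
    rw [up_eq t, map_mul, map_mul]; group
  obtain ⟨C1, hC1⟩ : n2 φ ψ * ψ (dS t * wS) * (n2 φ ψ)⁻¹ * ((n0 φ ψ)⁻¹ * (φ m * h)) ∈ φ.range := by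
    convert mul_mem (H.Tr (H.b2 t) (mul_mem ⟨wS, rfl⟩ (H.Tr hh1 ⟨m, rfl⟩))) ht using 1
    calc _ = n2 φ ψ * ψ (dS t) * (n2 φ ψ)⁻¹ * (n2 φ ψ * ψ wS * (n2 φ ψ)⁻¹ * (n0 φ ψ)⁻¹) * (φ m * h) := by
          rw [map_mul]; group
      _ = _ := by rw [e1']; group
  have hc := fun g => (H.c4 g (dS t * wS)).eq
  generalize n2 φ ψ * ψ (dS t * wS) * (n2 φ ψ)⁻¹ = p' at hC1 ez hc
  have eE : φ (C0 * C1⁻¹) * p' = p := by rw [map_mul, map_inv, hC0, hC1]; group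
  have key : ∀ g, C0 * C1⁻¹ * g = conjSL (dG e1 * aG e) g * (C0 * C1⁻¹) := fun g => H.inj (by
    rw [map_mul φ _ g, map_mul φ _ (C0 * C1⁻¹), ← hA, ← eE, mul_assoc _ p', hc]; group)
  generalize C0 * C1⁻¹ = E at eE key
  have k1 := key (upT 1)
  have k2 := key (loT 1)
  rw [show conjSL (dG e1 * aG e) (upT 1) = loT ((e1 : F)⁻¹ * e) from conjSL_eq_iff.2 (by
    apply H22.fin2_ext <;> simp [coe_dG, coe_aG, coe_upT, coe_loT, mul_comm])] at k1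
  rw [show conjSL (dG e1 * aG e) (loT 1) = upT ((e : F)⁻¹ * e1) from conjSL_eq_iff.2 (by
    apply H22.fin2_ext <;> simp [coe_dG, coe_aG, coe_upT, coe_loT, mul_comm])] at k2
  have z0 : E.1 0 0 = 0 := by
    simpa [coe_upT, coe_loT, Matrix.mul_apply, Fin.sum_univ_two] using congrArg (fun g : SL(2, F) => g.1 0 1) k1
  have z1 : E.1 1 1 = 0 := by
    simpa [coe_upT, coe_loT, Matrix.mul_apply, Fin.sum_univ_two] using congrArg (fun g : SL(2, F) => g.1 1 0) k2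
  rcases gd_even h2 E (by rw [trace_fin_two, z0, z1, add_zero]) (.inl fun e => by
    have := E.2
    rw [det_fin_two, z0, e] at this
    simp at this) C1 with hg | ⟨g, hg⟩
  · exact ⟨_, hg, H.typeII hk hu (H.r2 t).1 (H.r2 _).2 (H.r2 _).2 ez 1 (by simpa using hC1.symm)⟩
  · refine ⟨_, hg, H.typeII hk hu hy hv hv ey g ?_⟩
    rw [map_mul, map_mul, map_mul, hC1, ← eE, ← map_inv, mul_assoc (φ g), mul_assoc (φ E), hc]; group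

theorem exists_R [Finite F] [Finite K] {γ : G} (hγ : γ ∈ M) (h1 : γ ≠ 1) : ∃ C, Gd C ∧ H.R γ C := by
  obtain ⟨g, hg, n, hn, m, h, hh, u, hu, e⟩ := H.bru γ hγ h1
  have : ∃ C, Gd C ∧ H.R (g * γ * g⁻¹) C := by
    rw [e]
    rcases hn with rfl | rfl | rfl
    exacts [H.case2 hh hu, H.case4 hh hu, H.case6 hh hu]
  exact this.imp fun C hC => ⟨hC.1, R.conj H hg hC.2⟩

/-- the companion-type element -/
def mS (e : Fˣ) (t : F) : SL(2, F) := ⟨!![0, -(e : F); (e : F)⁻¹, t], by simp [det_fin_two]⟩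

theorem main [Finite G] [Finite F] [Finite K] {h0 : G} (hh : h0 ∈ T) {e : Fˣ} (he : Ad φ h0 (dG e)) {t : F} (ht : t ≠ 0)
    (hi : Irr t e) (fU : ∀ u ∈ U, φ (mS e t) * h0 * u * (φ (mS e t) * h0)⁻¹ = u → u = 1)
    (fV : ∀ u ∈ V, φ (mS e t) * h0 * u * (φ (mS e t) * h0)⁻¹ = u → u = 1) {γ : G} (hγ : γ ∈ M) (h1 : γ ≠ 1) :
    ∃ a ∈ M, ∃ b ∈ M, γ = a * (φ (mS e t) * h0) * a⁻¹ * (b * (φ (mS e t) * h0) * b⁻¹) := by
  have hA := (ad_self φ (mS e t)).mul he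
  have hx : φ (mS e t) * h0 ∈ φ.range ⊔ T := mul_mem (φL _) (Subgroup.mem_sup_right hh)
  have cA : (SpecialLinearGroup.toGL (mS e t) * dG e).1 = !![0, -(e : F); 1, t] := by
    change (mS e t).1 * (dG e).1 = _
    apply H22.fin2_ext <;> simp [mS, coe_dG]
  obtain ⟨r, hr, er⟩ : ∃ r ∈ M, (φ (mS e t) * h0)⁻¹ = r * (φ (mS e t) * h0) * r⁻¹ := by
    obtain ⟨e', h'⟩ := H.w0φ
    have he0 := e.ne_zero
    have he1 := e'.ne_zero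
    have hi' : Irr (t / e) (e : F)⁻¹ := fun a ha => hi (e * a) (by
      have : (e : F) * (e : F)⁻¹ = 1 := mul_inv_cancel₀ he0
      rw [div_eq_mul_inv] at ha
      linear_combination (e : F) ^ 2 * ha + (t * e * a - e) * this)
    have i1 : ((dG e)⁻¹).1 = !![(e : F)⁻¹, 0; 0, 1] := by
      rw [Matrix.coe_units_inv]; exact Matrix.inv_eq_right_inv (by apply H22.fin2_ext <;> simp [coe_dG])
    have i2 : ((aG e')⁻¹).1 = !![0, (e' : F)⁻¹; 1, 0] := by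
      rw [Matrix.coe_units_inv]; exact Matrix.inv_eq_right_inv (by apply H22.fin2_ext <;> simp [coe_aG])
    have i3 : ((SpecialLinearGroup.toGL (mS e t) * dG e)⁻¹).1 = !![t / e, 1; -(e : F)⁻¹, 0] := by
      rw [Matrix.coe_units_inv, cA]
      exact Matrix.inv_eq_right_inv (by apply H22.fin2_ext <;> simp <;> field_simp <;> ring)
    have i4 : (aG e' * SpecialLinearGroup.toGL (mS e t) * (aG e')⁻¹ * (dG e)⁻¹).1 =
        !![t / e, ((e : F) * e')⁻¹; -(e' : F), 0] := by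
      change (aG e').1 * (mS e t).1 * ((aG e')⁻¹).1 * ((dG e)⁻¹).1 = _
      rw [i1, i2]
      apply H22.fin2_ext <;> simp [mS, coe_aG] <;> field_simp
    obtain ⟨g, hg⟩ := hi'.conj (M := !![t / e, ((e : F) * e')⁻¹; -(e' : F), 0]) (N := !![t / e, 1; -(e : F)⁻¹, 0])
      (by simp [trace_fin_two]) (by simp [det_fin_two]; field_simp) (by simp [trace_fin_two]) (by simp [det_fin_two])
    rw [← i3, ← i4] at hg
    have hg' : SpecialLinearGroup.toGL g * (aG e' * SpecialLinearGroup.toGL (mS e t) * (aG e')⁻¹ * (dG e)⁻¹) =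
      (SpecialLinearGroup.toGL (mS e t) * dG e)⁻¹ * SpecialLinearGroup.toGL g := Units.ext hg
    refine ⟨φ g * n0 φ ψ, mul_mem (H.φM g) H.n0M, ?_⟩
    have a1 := h' (mS e t)
    have a2 := H.w0T h0 hh
    have a3 := he.inv g⁻¹
    have a4 := he.inv (mS e t)⁻¹
    have a5 : conjSL (dG e)⁻¹ (mS e t)⁻¹ = g * conjSL (aG e') (mS e t) * conjSL (dG e)⁻¹ g⁻¹ := by
      have tg : ∀ (P : GL (Fin 2) F) (y : SL(2, F)),
        SpecialLinearGroup.toGL (conjSL P y) = P * SpecialLinearGroup.toGL y * P⁻¹ := fun _ _ => Units.ext rfl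
      apply SpecialLinearGroup.toGL_injective
      rw [map_mul, map_mul, tg, tg, tg, map_inv, map_inv]
      calc _ = (SpecialLinearGroup.toGL (mS e t) * dG e)⁻¹ * SpecialLinearGroup.toGL g *
          (SpecialLinearGroup.toGL g)⁻¹ * dG e := by group
        _ = _ := by rw [← hg']; group
    calc _ = h0⁻¹ * φ (mS e t)⁻¹ * h0⁻¹⁻¹ * h0⁻¹ := by rw [map_inv]; group
      _ = φ g * (n0 φ ψ * φ (mS e t) * (n0 φ ψ)⁻¹) * (h0⁻¹ * φ g⁻¹ * h0⁻¹⁻¹) * h0⁻¹ := by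
        rw [a4, a5, a1, a3, map_mul, map_mul]
      _ = φ g * (n0 φ ψ * φ (mS e t) * (n0 φ ψ)⁻¹) * (n0 φ ψ * h0 * (n0 φ ψ)⁻¹) * (φ g)⁻¹ := by
        rw [a2, map_inv]; group
      _ = _ := by group
  generalize φ (mS e t) * h0 = x at *
  obtain ⟨C, hC, g, hg, v, hv, u, hu, eg⟩ := H.exists_R hγ h1
  obtain ⟨g1, g2, rfl⟩ := hC.fact hi ht (A := SpecialLinearGroup.toGL (mS e t) * dG e) (by rw [cA]; simp [trace_fin_two])
    (by rw [cA]; simp [det_fin_two])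
  obtain ⟨y, hy, ey⟩ := fpf (W := V) (x := x) (fun w hw => by simpa using H.LV (inv_mem hx) hw) fV
    (H.LV (inv_mem hx) (H.φV g1⁻¹ v hv))
  obtain ⟨z, hz, ez⟩ := fpf (W := U) (x := x⁻¹) (fun w hw => by simpa using H.LU hx hw)
    (fun w hw e => fU w hw (by conv_lhs => rw [← e]
                               group)) (H.φU g2⁻¹ u hu)
  refine ⟨g⁻¹ * φ g1 * y, mul_mem (mul_mem (inv_mem hg) (H.φM _)) (H.VM hy), g⁻¹ * φ g2 * z * r,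
    mul_mem (mul_mem (mul_mem (inv_mem hg) (H.φM _)) (H.UM hz)) hr, ?_⟩
  rw [map_mul, map_mul, ← hA, map_mul] at eg
  simp only [map_inv] at eg ey ez
  calc γ = g⁻¹ * (g * γ * g⁻¹) * g := by group
    _ = g⁻¹ * φ g1 * (x * (x⁻¹ * ((φ g1)⁻¹ * v * (φ g1)⁻¹⁻¹) * x⁻¹⁻¹)) * (φ g1)⁻¹ * φ g2 *
      (x⁻¹ * ((φ g2)⁻¹ * u * (φ g2)⁻¹⁻¹)) * (φ g2)⁻¹ * g := by rw [eg]; group
    _ = _ := by rw [ey, ez, er]; group

end Hex

end H7.CC
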