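import Cfsg.Agent.H7.CC4
import Cfsg.Agent.H24.ReeG
import Cfsg.Agent.H24.TwP
import Cfsg.Agent.H24.LT2

/-! Twisted groups with Weyl group of type `G₂` satisfy `Hex`. -/

set_option autoImplicit false
set_option linter.unusedSimpArgs false
set_option linter.unusedSectionVars false

namespace H7.CC

open Matrix H4 H24 H24.St0
open scoped MatrixGroups

variable {ι Φ : Type} [Fintype ι] [DecidableEq ι] [Fintype Φ] [DecidableEq Φ] {R : CD ι Φ}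
  {F K G : Type*} [Field F] [Field K] [Group G]

def fL (i : ι) : (ι → ℤ) →ₗ[ℤ] ℤ := RS.htv - LinearMap.proj i

def lv (R : CD ι Φ) (i : ι) (r : Φ) : ℤ := (∑ k, R.rt r k) - R.rt r i

theorem fL_rt (i : ι) (r : Φ) : fL i (R.rt r) = lv R i r := rfl

theorem lv_neg (i : ι) (r : Φ) : lv R i (R.neg r) = -lv R i r := by
  rw [← fL_rt, R.rt_neg, map_neg, fL_rt]

theorem lv_sim (i : ι) : lv R i (R.sim i) = 0 := by simp [lv, R.rt_sim]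

def Cm (R : CD ι Φ) (r s : Φ) : Prop := s ≠ r ∧ s ≠ R.neg r ∧ R.terms r s = []

instance (r s : Φ) : Decidable (Cm R r s) := by unfold Cm; infer_instance

theorem Cm.commute {r s : Φ} (h : Cm R r s) (S : St0 R K G) (t u : K) : Commute (S.x r t) (S.x s u) :=
  S.commute_of_nil h.1 h.2.1 h.2.2 t u

/-- combinatorial data -/
def Comb (R : CD ι Φ) (i : ι) (wa : Equiv.Perm Φ) : Prop :=
  (∀ r, (R.Pos r ∧ ¬ ∀ k, k ≠ i → R.rt r k = 0) ↔ 0 < lv R i r) ∧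
  (∀ r, R.rt r i = 0 → R.Pos r → 0 < lv R i r ∧ 0 < lv R i (wa (R.s i r)) ∧ Cm R r (R.neg (R.sim i)) ∧
    Cm R (R.neg r) (R.sim i)) ∧
  (0 < lv R i (wa (R.sim i)) ∧ 0 < lv R i (wa (R.s i (wa (R.sim i))))) ∧
  (∀ r, R.rt r i = 0 → Cm R (wa (R.s i (wa (R.sim i)))) r ∧ Cm R (wa (R.s i (wa (R.neg (R.sim i))))) r ∧
    Cm R (wa (R.s i r)) (R.sim i) ∧ Cm R (wa (R.s i r)) (R.neg (R.sim i))) ∧
  (∀ r, wa (R.s i (wa (R.s i (wa (R.s i r))))) = R.neg r) ∧ (∃ r, R.A (R.sim i) r = -1) ∧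
  ∀ r, lv R i r ≠ 0 → R.A (R.sim i) r = 0 ∨ R.A (R.sim i) r = 1 ∨ R.A (R.sim i) r = -1

instance (i : ι) (wa : Equiv.Perm Φ) : Decidable (Comb R i wa) := by unfold Comb; infer_instance

abbrev ps (R : CD ι Φ) (f : (ι → ℤ) →ₗ[ℤ] ℤ) : Set Φ := {r | 0 < f (R.rt r)}

theorem nml_zero {f : (ι → ℤ) →ₗ[ℤ] ℤ} {p : Φ} (h : f (R.rt p) = 0) : R.Nml p {r | 0 < f (R.rt r)} := fun s hs =>
  ⟨by rintro rfl; simp [R.rt_neg, h] at hs, fun u i j _ hj e => by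
    simp only [Set.mem_setOf_eq, RS.f_comb e, h, mul_zero, zero_add] at hs ⊢
    exact mul_pos (by exact_mod_cast hj) hs⟩

theorem sl_mem {φ : SL(2, F) →* G} {A : Subgroup G} (h1 : ∀ t, φ (upT t) ∈ A) (h2 : ∀ t, φ (loT t) ∈ A) (g : SL(2, F)) :
    φ g ∈ A := (sl2_eq_top_of_upT_loT (H := A.comap φ) h1 h2).ge (Subgroup.mem_top g)

theorem sl_norm (S : St R K G) {φ : SL(2, F) →* G} {j : F → K} {b : Φ} (h1 : ∀ t, φ (upT t) = S.x b (j t))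
    (h2 : ∀ t, φ (loT t) = S.x (R.neg b) (j t)) {f : (ι → ℤ) →ₗ[ℤ] ℤ} (h : f (R.rt b) = 0) (g : SL(2, F)) {u : G}
    (hu : u ∈ S.XS {r | 0 < f (R.rt r)}) : φ g * u * (φ g)⁻¹ ∈ S.XS {r | 0 < f (R.rt r)} :=
  (Subgroup.mem_normalizer_iff.1 (sl_mem (A := Subgroup.normalizer (S.XS {r | 0 < f (R.rt r)} : Set G))
    (fun t => h1 t ▸ S.x_mem_normalizer (nml_zero h) _)
    (fun t => h2 t ▸ S.x_mem_normalizer (nml_zero (by simp [R.rt_neg, h])) _) g) u).1 hu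

theorem sl_inj (S : St R K G) {φ : SL(2, K) →* G} {b : Φ} (h1 : ∀ t, φ (upT t) = S.x b t)
    (h2 : ∀ t, φ (loT t) = S.x (R.neg b) t) (hb : R.Pos b) {r : Φ} (hr : R.A b r = -1) : Function.Injective φ := by
  rw [injective_iff_map_eq_one]
  intro g hg
  have w := St.sl2_w h1 h2
  rcases sl2_bruhat g with ⟨c, l, rfl⟩ | ⟨a, l, c, rfl⟩
  · rw [map_mul, h1, w.2] at hg
    have e1 : S.x b c = 1 := S.eq_one_of_mem_U_H (S.x_mem_U hb c) (by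
      rw [eq_inv_of_mul_eq_one_left hg]; exact inv_mem (S.h_mem l.ne_zero))
    rw [e1, one_mul] at hg
    have e2 := S.h_conj b r l.ne_zero 1
    rw [hg, hr, one_mul, inv_one, mul_one, mul_one] at e2
    have e3 : l = 1 := Units.ext (by simpa using (S.x_inj r e2).symm)
    rw [S.x_eq_one_iff.1 e1, e3, dS_one, upT_zero, one_mul]
  · rw [map_mul, map_mul, map_mul, h1, h1, w.1, w.2] at hg
    refine absurd ?_ (S.n_not_mem_B b one_ne_zero)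
    rw [show S.n b 1 = (S.x b a)⁻¹ * (S.x b a * S.n b 1 * S.h b l * S.x b c) * (S.x b c)⁻¹ * (S.h b l)⁻¹ by group, hg]
    exact mul_mem (mul_mem (mul_mem (inv_mem (S.x_mem_B hb a)) (one_mem _)) (inv_mem (S.x_mem_B hb c)))
      (inv_mem (S.H_le_B (S.h_mem l.ne_zero)))

theorem map_wS (j : F →+* K) : SpecialLinearGroup.map j wS = wS := by apply sl2_ext <;> simp [coe_wS]

theorem map_dS (j : F →+* K) (l : Fˣ) : SpecialLinearGroup.map j (dS l) = dS (Units.map j.toMonoidHom l) := by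
  apply sl2_ext <;> simp [coe_dS]

variable {S : St R K G} {z : Tw S} {κ : Type} {O : z.sym.Orb κ} {M : Subgroup G}

structure HD (O : z.sym.Orb κ) (M : Subgroup G) (kb ka : κ) (i : ι) (j : F →+* K) (φ : SL(2, F) →* G)
    (ψ : SL(2, K) →* G) : Prop where
  hM : z.Sub O M
  ha : S.Adj
  sim : IsSimpleGroup M
  hk : ∀ k, k = kb ∨ k = ka
  hne : ka ≠ kb
  hJ : O.J kb = {i}
  hc : Comb R i (O.wk ka)
  a1 : ∀ t, φ (upT t) = S.x (R.sim i) (j t)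
  a2 : ∀ t, φ (loT t) = S.x (R.neg (R.sim i)) (j t)
  inj : Function.Injective φ
  hb1 : ∀ s, S.x (R.sim i) (j s) ∈ M
  hb2 : ∀ s, S.x (R.neg (R.sim i)) (j s) ∈ M
  hb3 : ∀ c, S.x (R.sim i) c ∈ M → ∃ s, c = j s
  p1 : ∀ t, ψ (upT t) ∈ S.UK (O.J ka) ⊓ M
  p2 : ∀ t, ψ (loT t) ∈ S.VK (O.J ka) ⊓ M
  p3 : ψ wS ∈ S.N
  p4 : S.Rep (ψ wS) (O.wk ka)
  p5 : ∀ t, ψ (dS t) ∈ S.H
  p6 : (2 : F) = 0 → ∀ t, ψ (dS t) = 1 → t = 1
  p7 : ∀ h ∈ S.H ⊓ M, ∃ (t : Kˣ) (s : Fˣ), h * ψ (dS t) = S.h (R.sim i) (j s)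

theorem cj {n g : G} (a : n ∈ M) (b : g ∈ M) : n * g * n⁻¹ ∈ M := mul_mem (mul_mem a b) (inv_mem a)

namespace HD
variable {kb ka : κ} {i : ι} {j : F →+* K} {φ : SL(2, F) →* G} {ψ : SL(2, K) →* G} (D : HD O M kb ka i j φ ψ)
include D

local notation "wa" => O.wk ka
local notation "wb" => R.s i
local notation "bb" => R.sim i
local notation "UU" => S.XS (ps R (fL i)) ⊓ M
local notation "VV" => S.XS (ps R (-fL i)) ⊓ M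

theorem a3 : φ wS = S.n bb 1 := by simp [wS_eq, D.a1, D.a2, St0.n]

theorem a4 (l : Fˣ) : φ (dS l) = S.h bb (j l) := by
  rw [S.h_eq, ← D.a3, eq_mul_inv_iff_mul_eq, ← map_mul, dS_eq]
  simp [D.a1, D.a2, St0.n]

theorem φM (g : SL(2, F)) : φ g ∈ M := sl_mem (fun t => D.a1 t ▸ D.hb1 t) (fun t => D.a2 t ▸ D.hb2 t) g
theorem ψM (g : SL(2, K)) : ψ g ∈ M := sl_mem (fun t => (D.p1 t).2) (fun t => (D.p2 t).2) g
theorem hi : i ∉ O.J ka := fun h => D.hne (h.symm.trans (D.hJ.ge rfl : i ∈ O.J kb))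
theorem rb : S.Rep (φ wS) wb := D.a3 ▸ S.n_rep_s i one_ne_zero
theorem nb : φ wS ∈ S.N := D.a3 ▸ S.n_mem one_ne_zero
theorem q2 : S.Rep (n2 φ ψ) (wa * wb) := D.p4.mul D.rb
theorem q3 : S.Rep (n3 φ ψ) (wa * wb * wa) := D.q2.mul D.p4
theorem m2 : n2 φ ψ ∈ M := mul_mem (D.ψM _) (D.φM _)
theorem m3 : n3 φ ψ ∈ M := mul_mem D.m2 (D.ψM _)
theorem m0 : n0 φ ψ ∈ M := mul_mem (cj D.m3 (D.φM _)) (D.ψM _)
theorem N2 : n2 φ ψ ∈ S.N := mul_mem D.p3 D.nb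
theorem N3 : n3 φ ψ ∈ S.N := mul_mem D.N2 D.p3
theorem N0 : n0 φ ψ ∈ S.N := mul_mem (mul_mem (mul_mem D.N3 D.nb) (inv_mem D.N3)) D.p3
omit D in
theorem ia : (wa)⁻¹ = wa := inv_eq_of_mul_eq_one_left (O.wk_sq ka)
omit D in
theorem sa (w : Equiv.Perm Φ) : wa * (wa * w) = w := by rw [← mul_assoc, O.wk_sq ka, one_mul]
omit D in
theorem sb (w : Equiv.Perm Φ) : wb * (wb * w) = w := by rw [← mul_assoc, R.s_mul_s i, one_mul]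

theorem q0 : S.Rep (n0 φ ψ) ((wa * wb) ^ 3) := by
  have : (wa * wb) ^ 3 = wa * wb * wa * wb * (wa * wb * wa)⁻¹ * wa := by
    simp [pow_succ, ia, R.s_inv, mul_assoc, O.wk_sq ka]
  exact this ▸ ((D.q3.mul D.rb).mul D.q3.inv).mul D.p4

theorem k5 (r : Φ) : ((wa * wb) ^ 3) r = R.neg r := by simpa [pow_succ] using D.hc.2.2.2.2.1 r

theorem h6 : (wa * wb) ^ 6 = 1 := Equiv.ext fun r => by
  rw [show 6 = 3 + 3 from rfl, pow_add, Equiv.Perm.mul_apply, D.k5, D.k5, R.neg_neg']; rfl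

theorem xU {n : G} {w : Equiv.Perm Φ} (hn : S.Rep n w) (hn' : n ∈ M) (h : 0 < lv R i (w bb)) (s : F) :
    n * φ (upT s) * n⁻¹ ∈ UU ∧ n * φ (loT s) * n⁻¹ ∈ VV :=
  ⟨⟨hn.conj_mem (T := {bb}) (by rintro _ rfl; exact h) _ (by rw [D.a1]; exact S.x_mem (Set.mem_singleton _) _), cj hn' (D.φM _)⟩,
    hn.conj_mem (T := {R.neg bb}) (by
      rintro _ rfl
      rw [RS.Aut.neg hn.1, Set.mem_setOf_eq, LinearMap.neg_apply, fL_rt, lv_neg, neg_neg]; exact h) _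
      (by rw [D.a2]; exact S.x_mem (Set.mem_singleton _) _), cj hn' (D.φM _)⟩

theorem yU {n : G} {w : Equiv.Perm Φ} (hn : S.Rep n w) (hn' : n ∈ M)
    (h : ∀ r, R.rt r i = 0 → R.Pos r → 0 < lv R i (w r)) (s : K) :
    n * ψ (upT s) * n⁻¹ ∈ UU ∧ n * ψ (loT s) * n⁻¹ ∈ VV :=
  ⟨⟨hn.conj_mem (fun r hr => h r (hr.2 i D.hi) hr.1) _ (D.p1 s).1, cj hn' (D.ψM _)⟩,
    hn.conj_mem (fun r hr => by
      have := h (R.neg r) (by rw [R.rt_neg, Pi.neg_apply, hr.2 i D.hi, neg_zero]) ((R.pos_neg_iff r).2 hr.1)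
      rwa [RS.Aut.neg hn.1, lv_neg] at this) _ (D.p2 s).1, cj hn' (D.ψM _)⟩

theorem φX (g : SL(2, F)) : φ g ∈ S.XS {bb, R.neg bb} :=
  sl_mem (fun t => D.a1 t ▸ S.x_mem (by simp) _) (fun t => D.a2 t ▸ S.x_mem (by simp) _) g

theorem ψX (g : SL(2, K)) : ψ g ∈ S.XS {r | R.rt r i = 0} :=
  sl_mem (fun t => S.XS_mono (fun r hr => hr.2 i D.hi) (D.p1 t).1)
    (fun t => S.XS_mono (fun r hr => hr.2 i D.hi) (D.p2 t).1) g

theorem unit (c : Kˣ) (h : S.x bb (c * j 1) ∈ M) : ∃ e : Fˣ, (c : K) = j e := by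
  obtain ⟨s, hs⟩ := D.hb3 _ h
  rw [map_one, mul_one] at hs
  exact ⟨Units.mk0 s (by rintro rfl; exact c.ne_zero (hs.trans j.map_zero)), hs⟩

theorem ad_of_acts {h : G} {c : Φ → Kˣ} (c1 : ∀ r, c (R.neg r) = (c r)⁻¹) (c2 : S.Acts h 1 c) {e : Fˣ}
    (he : (c bb : K) = j e) : Ad φ h (dG e) :=
  ad_d fun s => ⟨by rw [D.a1, D.a1, c2, he, map_mul]; rfl, by
    rw [D.a2, D.a2, c2, c1, Units.val_inv_eq_inv_val, he, map_mul, map_inv₀]; rfl⟩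

theorem Tact {h : G} (hh : h ∈ S.H ⊓ M) : ∃ e : Fˣ, Ad φ h (dG e) := by
  obtain ⟨-, c, c1, c2⟩ := S.rep_of_mem_H hh.1
  obtain ⟨e, he⟩ := D.unit (c bb) (by have := cj hh.2 (D.hb1 1); rwa [c2] at this)
  exact ⟨e, D.ad_of_acts c1 c2 he⟩

theorem c1 (t : K) (s : F) : Commute (ψ (upT t)) (φ (loT s)) :=
  Tw.commute_XS (S := S) (T := {r | R.Pos r ∧ R.InJ (O.J ka) r}) (T' := {R.neg bb}) (fun r hr => by
    rintro _ rfl; exact (D.hc.2.1 r (hr.2 i D.hi) hr.1).2.2.1.commute _) _ (D.p1 t).1 _ (by rw [D.a2]; exact S.x_mem (Set.mem_singleton _) _)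

theorem c2 (t : K) (s : F) : Commute (ψ (loT t)) (φ (upT s)) :=
  Tw.commute_XS (S := S) (T := {r | ¬ R.Pos r ∧ R.InJ (O.J ka) r}) (T' := {bb}) (fun r hr => by
    rintro _ rfl
    have := (D.hc.2.1 (R.neg r) (by rw [R.rt_neg, Pi.neg_apply, hr.2 i D.hi, neg_zero])
      ((R.pos_neg_iff r).2 hr.1)).2.2.2
    rw [R.neg_neg'] at this
    exact this.commute _) _ (D.p2 t).1 _ (by rw [D.a1]; exact S.x_mem (Set.mem_singleton _) _)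

theorem c3 (g : SL(2, F)) (g' : SL(2, K)) : Commute (n3 φ ψ * φ g * (n3 φ ψ)⁻¹) (ψ g') :=
  Tw.commute_XS (S := S) (T := {wa (wb (wa bb)), wa (wb (wa (R.neg bb)))}) (by
    rintro _ (rfl | rfl) s hs
    exacts [(D.hc.2.2.2.1 s hs).1.commute _, (D.hc.2.2.2.1 s hs).2.1.commute _]) _
    (D.q3.conj_mem (by
      rintro _ (rfl | rfl)
      exacts [Or.inl rfl, Or.inr rfl]) _ (D.φX g)) _ (D.ψX g')

theorem c4 (g : SL(2, F)) (g' : SL(2, K)) : Commute (n2 φ ψ * ψ g' * (n2 φ ψ)⁻¹) (φ g) :=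
  Tw.commute_XS (S := S) (T := {r | ∃ s, R.rt s i = 0 ∧ r = wa (wb s)}) (by
    rintro _ ⟨s, hs, rfl⟩ _ (rfl | rfl)
    exacts [(D.hc.2.2.2.1 s hs).2.2.1.commute _, (D.hc.2.2.2.1 s hs).2.2.2.commute _]) _
    (D.q2.conj_mem (fun r hr => by exact ⟨r, hr, rfl⟩) _ (D.ψX g')) _ (D.φX g)

theorem w0φ : ∃ e : Fˣ, Ad φ (n0 φ ψ) (aG e) := by
  obtain ⟨-, c, c1, c2⟩ := D.q0
  obtain ⟨e, he⟩ := D.unit (c (R.neg bb)) (by have := cj D.m0 (D.hb2 1); rwa [c2, D.k5, R.neg_neg'] at this)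
  refine ⟨e⁻¹, ad_a fun s => ⟨?_, ?_⟩⟩
  · rw [D.a1, D.a2, c2, D.k5, map_mul, Units.val_inv_eq_inv_val, map_inv₀, ← he, c1, Units.val_inv_eq_inv_val, inv_inv]
  · rw [D.a1, D.a2, c2, D.k5, R.neg_neg', he, Units.val_inv_eq_inv_val, inv_inv, map_mul]

theorem w0T {h : G} (hh : h ∈ S.H) : n0 φ ψ * h * (n0 φ ψ)⁻¹ = h⁻¹ := by
  obtain ⟨-, c, c1, c2⟩ := S.rep_of_mem_H hh
  obtain ⟨-, d, -, d2⟩ := D.q0
  refine eq_inv_of_mul_eq_one_left (D.ha _ (mul_mem (S.conj_mem_H D.N0 hh) hh) fun r t => ?_)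
  have : ((wa * wb) ^ 3)⁻¹ r = R.neg r := by rw [Equiv.Perm.inv_eq_iff_eq, D.k5, R.neg_neg']
  rw [((d2.mul c2).mul d2.inv).mul c2 r t]
  simp [this, c1]

theorem i3 : ((wa * wb) ^ 3)⁻¹ = (wa * wb) ^ 3 := inv_eq_of_mul_eq_one_left (by rw [← pow_add]; exact D.h6)

theorem b1 : ∃ h ∈ S.H ⊓ M, n2 φ ψ * ψ wS * (n2 φ ψ)⁻¹ * (n0 φ ψ)⁻¹ = φ wS * h := by
  have : wa * wb * wa * (wa * wb)⁻¹ * ((wa * wb) ^ 3)⁻¹ = wb := by
    rw [D.i3]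
    simp only [pow_succ, pow_zero, one_mul, _root_.mul_inv_rev, ia, R.s_inv, mul_assoc, sa, sb]
  have h := ((D.q2.mul D.p4).mul D.q2.inv).mul D.q0.inv
  rw [this] at h
  refine ⟨(φ wS)⁻¹ * (n2 φ ψ * ψ wS * (n2 φ ψ)⁻¹ * (n0 φ ψ)⁻¹), ⟨S.mem_H_of_rep D.nb
    (mul_mem (mul_mem (mul_mem D.N2 D.p3) (S.N.inv_mem D.N2)) (S.N.inv_mem D.N0)) D.rb h, ?_⟩, by group⟩
  exact M.mul_mem (M.inv_mem (D.φM _)) (M.mul_mem (cj D.m2 (D.ψM _)) (M.inv_mem D.m0))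

theorem wk_b : O.wk kb = wb := by
  rw [RS.Sym.Orb.wk, D.hJ]
  refine (RS.eq_wL (w := wb) (Subgroup.subset_closure ⟨i, Set.mem_singleton _, rfl⟩) fun k hk => ?_).symm
  rw [Set.mem_singleton_iff.1 hk, R.s_sim]; exact R.not_pos_neg_sim _

theorem enum {w : Equiv.Perm Φ} (hw : w ∈ z.sym.W1) : w ∈ R.WJ {i} ∨ ∃ (m m' : SL(2, F)) (n : G),
    (n = ψ wS ∨ n = n3 φ ψ ∨ n = (n0 φ ψ)⁻¹) ∧ φ m * n * φ m' ∈ S.N ∧ S.Rep (φ m * n * φ m') w := by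
  have h1 : ∃ k : ℕ, w = (wa * wb) ^ k ∨ w = (wa * wb) ^ k * wb := by
    refine O.W1_induction (fun w => ∃ k : ℕ, w = (wa * wb) ^ k ∨ w = (wa * wb) ^ k * wb) ⟨0, .inl rfl⟩ ?_ w hw
    rintro k w - - ⟨n, rfl | rfl⟩ <;> rcases D.hk k with rfl | rfl
    · exact ⟨n, .inr (by rw [D.wk_b])⟩
    · exact ⟨n + 1, .inr (by rw [pow_succ]; simp only [mul_assoc, R.s_mul_s, mul_one])⟩
    · exact ⟨n, .inl (by rw [D.wk_b, mul_assoc, R.s_mul_s, mul_one])⟩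
    · refine ⟨n + 5, .inl ?_⟩
      rw [pow_add, mul_assoc, eq_inv_of_mul_eq_one_left (show _ ^ 5 * _ = 1 from D.h6)]
      simp only [_root_.mul_inv_rev, ia, R.s_inv]
  obtain ⟨k, hk⟩ := h1
  rw [pow_eq_pow_mod k D.h6] at hk
  have hlt := Nat.mod_lt k (show 0 < 6 by norm_num)
  generalize k % 6 = k at hk hlt
  have o : S.Rep (φ 1) 1 := by rw [map_one]; exact rep_one
  have oN : φ 1 ∈ S.N := by rw [map_one]; exact one_mem _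
  have e4 : (wa * wb) ^ 4 = wb * (wa * wb * wa) := by
    rw [eq_inv_of_mul_eq_one_left (show _ ^ 4 * _ ^ 2 = 1 from (pow_add _ _ _).symm.trans D.h6)]
    simp only [pow_two, _root_.mul_inv_rev, ia, R.s_inv, mul_assoc]
  have e5 : (wa * wb) ^ 5 = wb * wa := by
    rw [eq_inv_of_mul_eq_one_left (show _ ^ 5 * _ = 1 from D.h6)]
    simp only [_root_.mul_inv_rev, ia, R.s_inv]
  have q0 := D.q0.inv
  rw [D.i3] at q0
  have N0 := S.N.inv_mem D.N0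
  have mk : ∀ {m m' : SL(2, F)} {n : G} {x y v : Equiv.Perm Φ}, (n = ψ wS ∨ n = n3 φ ψ ∨ n = (n0 φ ψ)⁻¹) → φ m ∈ S.N →
      n ∈ S.N → φ m' ∈ S.N → S.Rep (φ m) x → S.Rep n y → S.Rep (φ m') v → w = x * y * v →
      w ∈ R.WJ {i} ∨ ∃ (m m' : SL(2, F)) (n : G),
      (n = ψ wS ∨ n = n3 φ ψ ∨ n = (n0 φ ψ)⁻¹) ∧ φ m * n * φ m' ∈ S.N ∧ S.Rep (φ m * n * φ m') w :=
    fun a b c d e f g h => .inr ⟨_, _, _, a, mul_mem (mul_mem b c) d, h ▸ (e.mul f).mul g⟩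
  interval_cases k <;> rcases hk with hk | hk
  · exact .inl (hk ▸ one_mem _)
  · exact .inl (hk ▸ mul_mem (one_mem _) (Subgroup.subset_closure ⟨i, rfl, rfl⟩))
  · exact mk (.inl rfl) oN D.p3 D.nb o D.p4 D.rb (by rw [hk]; simp)
  · exact mk (.inl rfl) oN D.p3 oN o D.p4 o (by rw [hk]; simp [mul_assoc, R.s_mul_s])
  · exact mk (.inr (.inl rfl)) oN D.N3 D.nb o D.q3 D.rb (by rw [hk]; simp [pow_two, mul_assoc])
  · exact mk (.inr (.inl rfl)) oN D.N3 oN o D.q3 o (by rw [hk]; simp [pow_two, mul_assoc, R.s_mul_s])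
  · exact mk (.inr (.inr rfl)) oN N0 oN o q0 o (by rw [hk]; simp)
  · exact mk (.inr (.inr rfl)) oN N0 D.nb o q0 D.rb (by rw [hk]; simp)
  · exact mk (.inr (.inl rfl)) D.nb D.N3 oN D.rb D.q3 o (by rw [hk, e4]; simp)
  · exact mk (.inr (.inl rfl)) D.nb D.N3 D.nb D.rb D.q3 D.rb (by rw [hk, e4])
  · exact mk (.inl rfl) D.nb D.p3 oN D.rb D.p4 o (by rw [hk, e5]; simp)
  · exact mk (.inl rfl) D.nb D.p3 D.nb D.rb D.p4 D.rb (by rw [hk, e5])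

theorem exists_not {γ : G} (hγ : γ ∈ M) (h1 : γ ≠ 1) : ∃ g ∈ M, g * γ * g⁻¹ ∉ S.PJ {i} := by
  by_contra hn
  push Not at hn
  have := D.sim
  have hm : (⟨γ, hγ⟩ : M) ∈ ((S.PJ {i}).subgroupOf M).normalCore := fun g => hn g g.2
  rcases (Subgroup.normalCore_normal ((S.PJ {i}).subgroupOf M)).eq_bot_or_eq_top with h | h
  · rw [h] at hm
    exact h1 (congrArg Subtype.val (Subgroup.mem_bot.1 hm))
  · have : ψ wS ∈ S.PJ {i} :=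
      Subgroup.normalCore_le ((S.PJ {i}).subgroupOf M) (h.ge (Subgroup.mem_top (⟨_, D.ψM wS⟩ : M)))
    obtain ⟨w, hw, hc⟩ := S.mem_PJ_iff.1 this
    rw [S.cell_unique hc (mem_cell_of_rep _ D.p3 D.p4), ← D.hJ] at hw
    rcases O.eq_one_or (O.wk_mem ka) hw with h | h
    exacts [O.wk_ne_one _ h, D.hne (O.wk_inj h)]

theorem φU (g : SL(2, F)) {u : G} (hu : u ∈ UU) : φ g * u * (φ g)⁻¹ ∈ UU :=
  ⟨sl_norm S D.a1 D.a2 (lv_sim i) g hu.1, cj (D.φM g) hu.2⟩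

theorem bru {γ : G} (hγ : γ ∈ M) (h1 : γ ≠ 1) : ∃ g ∈ M, ∃ n, (n = ψ wS ∨ n = n3 φ ψ ∨ n = (n0 φ ψ)⁻¹) ∧
    ∃ m, ∃ h ∈ S.H ⊓ M, ∃ u ∈ UU, g * γ * g⁻¹ = n * (φ m * h) * u := by
  obtain ⟨g, hg, hP⟩ := D.exists_not hγ h1
  obtain ⟨w, hw, u, hu, n, hn, hr, u', hu', e⟩ := D.hM.exists_decomp (cj hg hγ)
  have hu'' : u' ∈ S.U := S.Um_le_U _ hu'.1
  rcases D.enum hw with h | ⟨m, m', n1, hn1, hN, hr'⟩
  · exact absurd (S.mem_PJ_iff.2 ⟨w, h, e ▸ S.canon_mem_cell hn.1 hr (S.U_le_B hu.1) (S.U_le_B hu'')⟩) hP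
  have m1 : n1 ∈ M := by
    rcases hn1 with rfl | rfl | rfl
    exacts [D.ψM _, D.m3, M.inv_mem D.m0]
  have hh : (φ m * n1 * φ m')⁻¹ * n ∈ S.H ⊓ M := ⟨S.mem_H_of_rep hN hn.1 hr' hr,
    M.mul_mem (M.inv_mem (M.mul_mem (M.mul_mem (D.φM _) m1) (D.φM _))) hn.2⟩
  obtain ⟨a, ha, b, hb, e'⟩ := z.exists_UK_UJ (O.π_mem kb) (u := u' * u)
    ⟨S.U.mul_mem hu'' hu.1, D.hM.le_Fx (M.mul_mem hu'.2 hu.2)⟩
  have aM := D.hM.UK_le kb ha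
  have bM : b ∈ M := D.hM.U_le ⟨S.UJ_le_U _ hb.1, hb.2⟩
  rw [D.hJ] at ha hb
  obtain ⟨c, rfl⟩ : ∃ c, a = S.x bb c := S.mem_XS_singleton.1 (S.XS_mono (fun r hr =>
    (RS.InJ_singleton.1 hr.2).resolve_right fun e => R.not_pos_neg_sim i (e ▸ hr.1)) ha.1)
  obtain ⟨s, rfl⟩ := D.hb3 c aM
  have bU : b ∈ UU := ⟨S.XS_mono (fun r hr => (D.hc.1 r).1 hr) hb.1, bM⟩
  obtain ⟨ε, hε⟩ := D.Tact hh
  generalize hh' : (φ m * n1 * φ m')⁻¹ * n = h at hh hε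
  refine ⟨(φ m)⁻¹ * u⁻¹ * g, M.mul_mem (M.mul_mem (M.inv_mem (D.φM _)) (M.inv_mem hu.2)) hg, n1, hn1,
    m' * conjSL (dG ε) (upT s * m), h, hh, _, D.φU m⁻¹ bU, ?_⟩
  rw [map_mul, ← hε, map_mul, D.a1, map_inv, ← hh']
  calc _ = (φ m)⁻¹ * u⁻¹ * (g * γ * g⁻¹) * u * φ m := by group
    _ = (φ m)⁻¹ * n * (u' * u) * φ m := by rw [e]; group
    _ = _ := by rw [e']; group

theorem hex : Hex M UU VV (S.H ⊓ M) φ ψ where
  UM := inf_le_right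
  VM := inf_le_right
  TM := inf_le_right
  φM := D.φM
  ψM := D.ψM
  φU g _ hu := D.φU g hu
  φV g _ hu := ⟨sl_norm S D.a1 D.a2 (by rw [LinearMap.neg_apply, fL_rt, lv_sim, neg_zero]) g hu.1, cj (D.φM g) hu.2⟩
  TU _ hh u hu := ⟨(Subgroup.mem_normalizer_iff.1 (S.H_le_normalizer _ hh.1) u).1 hu.1, cj hh.2 hu.2⟩
  TV _ hh u hu := ⟨(Subgroup.mem_normalizer_iff.1 (S.H_le_normalizer _ hh.1) u).1 hu.1, cj hh.2 hu.2⟩
  Tact _ hh := D.Tact hh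
  Tgen h hh := by
    obtain ⟨t, s, e⟩ := D.p7 h hh
    exact ⟨t, dS s, (D.a4 s).trans e.symm⟩
  ψT t := ⟨D.p5 t, D.ψM _⟩
  aU t := by simpa only [one_mul, inv_one, mul_one] using (D.yU rep_one (one_mem M) (fun r a b => (D.hc.2.1 r a b).1) t).1
  aV t := by simpa only [one_mul, inv_one, mul_one] using (D.yU rep_one (one_mem M) (fun r a b => (D.hc.2.1 r a b).1) t).2
  c1 := D.c1
  c2 := D.c2
  r1 := D.xU D.p4 (D.ψM _) D.hc.2.2.1.1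
  r2 := D.yU D.q2 D.m2 fun r a b => (D.hc.2.1 r a b).2.1
  r3 := D.xU D.q3 D.m3 D.hc.2.2.1.2
  c3 := D.c3
  c4 := D.c4
  w0V v hv := ⟨D.q0.conj_mem (fun r hr => by
    rw [D.k5, Set.mem_setOf_eq, fL_rt, lv_neg]; exact hr) _ hv.1, cj D.m0 hv.2⟩
  w0φ := D.w0φ
  w0T _ hh := D.w0T hh.1
  b1 := D.b1
  b2 t := ⟨S.conj_mem_H D.N2 (D.p5 t), cj D.m2 (D.ψM _)⟩
  inj := D.inj
  ψi := D.p6
  bru _ a b := D.bru a b

end HD

end H7.CC
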