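import Cfsg.Agent.H7.CC5
import Cfsg.Agent.H24.Lang2

/-! Fixed-point-free action of the Levi element; the final covering theorem. -/

set_option autoImplicit false
set_option linter.unusedSimpArgs false
set_option linter.unusedSectionVars false

namespace H7.CC

open Matrix H4 H24 H24.St0
open scoped MatrixGroups

universe u

open Polynomial in
theorem exists_ext {K : Type u} [Field K] [Finite K] {τ δ : K} (h : Irr τ δ) : ∃ (L : Type u) (_ : Field L) (_ : Finite L)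
    (ι0 : K →+* L) (μ : L), μ ^ 2 - ι0 τ * μ + ι0 δ = 0 ∧ μ ∉ Set.range ι0 := by
  set f : K[X] := C 1 * X ^ 2 + C (-τ) * X + C δ with hf
  have hdeg : f.natDegree = 2 := natDegree_quadratic one_ne_zero
  have hf0 : f ≠ 0 := by rintro e; rw [e] at hdeg; simp at hdeg
  have hirr : Irreducible f := (irreducible_iff_roots_eq_zero_of_degree_le_three hdeg.ge (by omega)).2 (by
    rw [Multiset.eq_zero_iff_forall_notMem]
    intro a ha
    rw [mem_roots hf0, IsRoot, hf] at ha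
    simp at ha
    exact h a (by linear_combination ha))
  haveI := Fact.mk hirr
  haveI : Module.Finite K (AdjoinRoot f) := (AdjoinRoot.powerBasis hf0).finite
  have e : AdjoinRoot.root f ^ 2 - AdjoinRoot.of f τ * AdjoinRoot.root f + AdjoinRoot.of f δ = 0 := by
    have := AdjoinRoot.eval₂_root f
    simp only [hf, eval₂_add, eval₂_mul, eval₂_C, eval₂_pow, eval₂_X, map_one, map_neg, one_mul, eval₂_X_pow,
      eval₂_neg, eval₂_one] at this ⊢
    linear_combination this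
  refine ⟨AdjoinRoot f, inferInstance, Module.finite_of_finite K, AdjoinRoot.of f, AdjoinRoot.root f, e, ?_⟩
  rintro ⟨a, ha⟩
  rw [← ha, ← map_pow, ← map_mul, ← map_sub, ← map_add, map_eq_zero] at e
  exact h a e

variable {ι Φ : Type} [Fintype ι] [DecidableEq ι] [Fintype Φ] [DecidableEq Φ] {R : CD ι Φ}
  {F K G : Type*} [Field F] [Field K] [Group G]

theorem diag_ext {L G' : Type*} [Field L] [Group G'] {S : St R K G} {S' : St R L G'} (θ : G →* G') (ι0 : K →+* L)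
    (hθ : ∀ r t, θ (S.x r t) = S'.x r (ι0 t)) (h3 : S'.R3) {φ : SL(2, F) →* G} {j : F →+* K} {b : Φ}
    (a1 : ∀ t, φ (upT t) = S.x b (j t)) (a2 : ∀ t, φ (loT t) = S.x (R.neg b) (j t)) {h0 : G} (hh : h0 ∈ S.H)
    {c : Φ → Kˣ} (c2 : S.Acts h0 1 c) {e : Fˣ} (he : (c b : K) = j e) {t : F} (ht : t ≠ 0) {μ : L}
    (hμ : μ ^ 2 - ι0 (j t) * μ + ι0 (j e) = 0) (hμ' : μ ∉ Set.range ι0) :
    ∃ k : G', (∀ f : (ι → ℤ) →ₗ[ℤ] ℤ, f (R.rt b) = 0 → ∀ u ∈ S'.XS (ps R f), k * u * k⁻¹ ∈ S'.XS (ps R f)) ∧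
      k * θ (φ (Hex.mS e t) * h0) * k⁻¹ ∈ S'.H ∧ ∃ c' : Φ → Lˣ, S'.Acts (k * θ (φ (Hex.mS e t) * h0) * k⁻¹) 1 c' ∧
      ∀ r, (c' r : L) = μ⁻¹ ^ R.A b r * ι0 (c r) := by
  obtain ⟨φ', -, b1, b2⟩ := S'.exists_sl2 h3 b
  have e1 : ∀ g, θ (φ g) = φ' (SpecialLinearGroup.map (ι0.comp j) g) := fun g =>
    (sl2_eq_top_of_upT_loT (H := (θ.comp φ).eqLocus (φ'.comp (SpecialLinearGroup.map (ι0.comp j))))
      (fun t => show θ (φ _) = φ' _ by rw [a1, hθ, map_upT, b1]; rfl)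
      (fun t => show θ (φ _) = φ' _ by rw [a2, hθ, map_loT, b2]; rfl)).ge (Subgroup.mem_top g)
  have hH : θ h0 ∈ S'.H := (S.H_le (M := S'.H.comap θ)).2 (fun r t ht => by
    have : θ (S.h r t) = S'.h r (ι0 t) := by simp [St0.h, St0.n, hθ]
    rw [Subgroup.mem_comap, this]
    exact S'.h_mem (by simpa using ht)) hh
  obtain ⟨-, d, d1, d2⟩ := S'.rep_of_mem_H hH
  have hd : ∀ r, (d r : L) = ι0 (c r) := fun r => by
    have := congrArg θ (c2 r 1)
    rw [map_mul, map_mul, map_inv, hθ, hθ, d2] at this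
    simpa using S'.x_inj r this
  have hA : Ad φ' (θ h0) (dG (d b)) := ad_d fun s => ⟨by rw [b1, b1, d2]; rfl, by
    rw [b2, b2, d2, d1, Units.val_inv_eq_inv_val]; rfl⟩
  have μ0 : μ ≠ 0 := fun e => hμ' ⟨0, by rw [e, map_zero]⟩
  set τ := ι0 (j t) with hτ
  have hde : (d b : L) = ι0 (j e) := by rw [hd, he]
  have hν : μ - (τ - μ) ≠ 0 := fun e => by
    by_cases h2 : (2 : K) = 0
    · have : (2 : L) = 0 := by rw [← map_ofNat ι0 2, h2, map_zero]
      exact ht (by simpa [hτ] using show τ = 0 by linear_combination -e + μ * this)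
    · have : (2 : L) ≠ 0 := fun e => h2 (ι0.injective (by rw [map_ofNat, e, map_zero]))
      refine hμ' ⟨j t / 2, ?_⟩
      rw [map_div₀, ← hτ, map_ofNat]; field_simp; linear_combination -e
  let g : SL(2, L) := ⟨!![(μ - (τ - μ))⁻¹, (τ - μ) * (μ - (τ - μ))⁻¹; 1, μ], by
    simp only [det_fin_two_of]; field_simp⟩
  have e0 := (d b).ne_zero
  have key : g * SpecialLinearGroup.map (ι0.comp j) (Hex.mS e t) * conjSL (dG (d b)) g⁻¹ = dS (Units.mk0 μ μ0)⁻¹ := by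
    rw [map_inv, mul_inv_eq_iff_eq_mul, show conjSL (dG (d b)) g = ⟨!![(μ - (τ - μ))⁻¹, d b * ((τ - μ) * (μ - (τ - μ))⁻¹);
      (d b : L)⁻¹, μ], by simp only [det_fin_two_of]; field_simp⟩ from
      conjSL_eq_iff.2 (by apply H22.fin2_ext <;> simp [g, coe_dG] <;> field_simp)]
    rw [← hde] at hμ
    have hm : (SpecialLinearGroup.map (ι0.comp j) (Hex.mS e t)).1 = !![0, -(d b : L); (d b : L)⁻¹, τ] := by
      change (Hex.mS e t).1.map (ι0.comp j) = _
      apply H22.fin2_ext <;> simp [Hex.mS, hde, hτ]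
    refine Subtype.ext ?_
    change g.1 * (SpecialLinearGroup.map (ι0.comp j) (Hex.mS e t)).1 = (dS (Units.mk0 μ μ0)⁻¹).1 *
      !![(μ - (τ - μ))⁻¹, d b * ((τ - μ) * (μ - (τ - μ))⁻¹); (d b : L)⁻¹, μ]
    rw [hm, coe_dS]
    apply H22.fin2_ext <;> simp [g, Matrix.mul_apply, Fin.sum_univ_two] <;> field_simp <;>
      first | ring1 | linear_combination hμ | linear_combination -hμ | linear_combination μ * hμ | linear_combination -τ * hμ | linear_combination -μ * hμ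
  have e2 : φ' g * θ (φ (Hex.mS e t) * h0) * (φ' g)⁻¹ = S'.h b ((Units.mk0 μ μ0)⁻¹ : Lˣ) * θ h0 := by
    rw [← (St.sl2_w b1 b2).2, ← key, map_mul θ, e1, map_mul, map_mul, ← hA, map_inv]; group
  refine ⟨φ' g, fun f hf u hu => sl_norm S' (j := id) b1 b2 hf g hu, e2 ▸ mul_mem (S'.h_mem (Units.ne_zero _)) hH,
    fun r => (Units.mk0 μ μ0)⁻¹ ^ R.A b r * d r, by rw [e2]; simpa using (S'.h_acts b (Units.mk0 μ μ0)⁻¹).mul d2,
    fun r => by simp [hd]⟩

open Cfsg.Lie in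
theorem final {D : ChevalleyDatum} {T : Tab} (h : T.Chk D) {K : Type u} [Field K] [Finite F] [Finite K]
    {z : Tw (h.grp K)} {κ : Type} {O : z.sym.Orb κ} {M : Subgroup (D.group K)} {kb ka : κ} {i : Fin D.rank}
    {j : F →+* K} {φ : SL(2, F) →* D.group K} {ψ : SL(2, K) →* D.group K} (E : HD O M kb ka i j φ ψ)
    (p : ℕ) [Fact p.Prime] [CharP K p] {h0 : D.group K} (hh : h0 ∈ (h.grp K).H ⊓ M) {c : Fin D.nroots → Kˣ}
    (c2 : (h.grp K).Acts h0 1 c) {e : Fˣ} (he : (c (h.cd.sim i) : K) = j e) (h1 : (e : F) ≠ 1 ∨ (2 : F) = 0)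
    (hc : ∀ r, lv h.cd i r ≠ 0 → h.cd.A (h.cd.sim i) r = 0 → c r ≠ 1) (hi : ∀ t, Irr t (e : F) → Irr (j t) (j e)) :
    ∃ x ∈ M, ¬ p ∣ orderOf x ∧ ∀ γ ∈ M, γ ≠ 1 → ∃ a ∈ M, ∃ b ∈ M, γ = a * x * a⁻¹ * (b * x * b⁻¹) := by
  obtain ⟨t, ht, hI⟩ := exists_irr e.ne_zero h1
  obtain ⟨L, _, _, ι0, μ, hμ, hμ'⟩ := exists_ext (hi t hI)
  let θ : D.group K →* D.group L := ((Matrix.GeneralLinearGroup.map ι0).comp (D.group K).subtype).codRestrict _ fun g => by
    have := (((h.st K).XS_le (T := Set.univ) (M := (D.group L).comap (Matrix.GeneralLinearGroup.map ι0))).2 fun r _ t => by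
      rw [Subgroup.mem_comap, h.map_x, h.group_eq]; exact (h.st L).x_mem_Gr _ _) (h.group_eq K ▸ g.2 : g.1 ∈ (h.st K).Gr)
    exact this
  have hθ : ∀ r t, θ ((h.grp K).x r t) = (h.grp L).x r (ι0 t) := fun r t => Subtype.ext (h.map_x ι0 r t)
  have hθi : Function.Injective θ := fun a b e => Subtype.ext (Units.ext (Matrix.map_injective ι0.injective
    (congrArg (fun z : D.group L => (z.1 : Matrix D.Idx D.Idx L)) e)))
  obtain ⟨k, k1, k2, c', k3, k4⟩ := diag_ext θ ι0 hθ (h.grp_r3 L) E.a1 E.a2 hh.1 c2 he ht hμ hμ'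
  have c1 : ∀ r, c (h.cd.neg r) = (c r)⁻¹ := by
    obtain ⟨-, d, d1, d2⟩ := (h.grp K).rep_of_mem_H hh.1
    rwa [(h.grp K).acts_unique c2 d2]
  have fp : ∀ f : (Fin D.rank → ℤ) →ₗ[ℤ] ℤ, f (h.cd.rt (h.cd.sim i)) = 0 → (∀ r ∈ ps h.cd f, lv h.cd i r ≠ 0) →
      ∀ u ∈ (h.grp K).XS (ps h.cd f), φ (Hex.mS e t) * h0 * u * (φ (Hex.mS e t) * h0)⁻¹ = u → u = 1 := by
    intro f hf hf' u hu e
    have hu' : θ u ∈ (h.grp L).XS (ps h.cd f) := ((h.grp K).XS_le (M := ((h.grp L).XS (ps h.cd f)).comap θ)).2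
      (fun r hr t => by rw [Subgroup.mem_comap, hθ]; exact (h.grp L).x_mem hr _) hu
    have := (h.grp L).eq_one_of_fpf (RS.closed_f_pos f) (fun _ a => a) k3 (fun r hr e => by
      have e := (k4 r).symm.trans (congrArg Units.val e)
      have c0 : ι0 (c r) ≠ 0 := by simp
      rcases E.hc.2.2.2.2.2.2 r (hf' r hr) with a | a | a
      · rw [a, zpow_zero, one_mul, Units.val_one, map_eq_one_iff _ ι0.injective] at e
        exact hc r (hf' r hr) a (Units.ext e)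
      · rw [a, zpow_one, Units.val_one, inv_mul_eq_one₀ fun e => hμ' ⟨0, by rw [e, map_zero]⟩] at e
        exact hμ' ⟨_, e.symm⟩
      · rw [a, _root_.zpow_neg_one, inv_inv, Units.val_one] at e
        exact hμ' ⟨(c r : K)⁻¹, by rw [map_inv₀]; exact (eq_inv_of_mul_eq_one_left e).symm⟩) (k1 f hf _ hu') (by
      conv_rhs => rw [← e]
      simp only [map_mul, map_inv]; group)
    exact hθi (by simpa using this)
  haveI := Fintype.ofFinite K
  have := (h.grp K).finite (h.grp_Gr K) (h.grp_r3 K)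
  refine ⟨φ (Hex.mS e t) * h0, mul_mem (E.φM _) hh.2, fun hd => ?_, fun γ hγ hγ1 =>
    E.hex.main hh (E.ad_of_acts c1 c2 he) ht hI (fun u hu => fp (fL i) (lv_sim i) (fun r hr => (show 0 < lv h.cd i r from hr).ne') u hu.1)
      (fun u hu => fp (-fL i) (by rw [LinearMap.neg_apply, fL_rt, lv_sim, neg_zero])
        (fun r hr => neg_ne_zero.1 (show 0 < -lv h.cd i r from hr).ne') u hu.1) hγ hγ1⟩
  have e1 := (h.grp L).pow_card_Ha k2 (h.grp_adj L)
  rw [conj_pow, ← map_pow, mul_inv_eq_one, mul_eq_left, map_eq_one_iff _ hθi] at e1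
  haveI : CharP L p := (RingHom.charP_iff ι0 ι0.injective p).1 inferInstance
  have := (St.coprime_card (F := L) p 1).eq_one_of_dvd (by rw [pow_one]; exact hd.trans (orderOf_dvd_of_pow_eq_one e1))
  exact (Fact.out : p.Prime).one_lt.ne' (by simpa using this)

end H7.CC
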