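import Cfsg.Agent.H7.CC6
import Cfsg.Agent.S1055
import Cfsg.Agent.S1071

/-! The covering theorem for `G₂(q)` and `³D₄(q)`. -/

set_option autoImplicit false
set_option linter.unusedSimpArgs false
set_option linter.unusedSectionVars false
set_option maxRecDepth 100000

namespace H7.CC

open Matrix H4 H24 H24.St0 Cfsg.Lie
open scoped MatrixGroups

theorem dS_inj {K : Type*} [Field K] {t : Kˣ} (h : dS t = 1) : t = 1 :=
  Units.ext (by simpa [coe_dS] using congrArg (fun m : SL(2, K) => m.1 0 0) h)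

namespace G2
variable {K : Type*} [Field K]

local notation "hT" => tabG2_chk
local notation "SS" => Tab.Chk.grp tabG2_chk K

def g0 : Fin chevG2.rank := (0 : Fin 2)
def g1 : Fin chevG2.rank := (1 : Fin 2)

theorem comb : Comb (hT).cd g1 ((hT).cd.s g0) := by decide +kernel

theorem hd (hF : ∃ a : K, a ≠ 0 ∧ a ≠ 1) : ∃ φ ψ, HD (SS).oid ⊤ g1 g0 g1 (RingHom.id K) φ ψ := by
  obtain ⟨φ, -, a1, a2⟩ := (SS).exists_sl2 ((hT).grp_r3 K) ((hT).cd.sim g1)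
  obtain ⟨ψ, -, b1, b2⟩ := (SS).exists_sl2 ((hT).grp_r3 K) ((hT).cd.sim g0)
  have hM : (SS).tid.G1 (SS).oid = ⊤ := (SS).tid_G1.trans ((hT).grp_Gr K)
  have hw : (SS).oid.wk g0 = (hT).cd.s g0 := by
    refine (RS.eq_wL (J := (SS).oid.J g0) (w := (hT).cd.s g0) (Subgroup.subset_closure ⟨g0, rfl, rfl⟩) fun k hk => ?_).symm
    rw [show k = g0 from hk, RS.s_sim]; exact RS.not_pos_neg_sim _ _
  have w := St.sl2_w b1 b2
  obtain ⟨r, hr⟩ := comb.2.2.2.2.2.1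
  obtain ⟨r', hr'⟩ : ∃ r, (hT).cd.A ((hT).cd.sim g0) r = -1 := by decide +kernel
  have := (Cfsg.Agent.S1055.result hF).1
  refine ⟨φ, ψ, hM ▸ (SS).tid_sub, (hT).grp_adj K, Subgroup.topEquiv.isSimpleGroup, by decide, by decide, rfl, hw ▸ comb,
    a1, a2, sl_inj _ a1 a2 (RS.pos_sim _ _) hr, fun _ => trivial, fun _ => trivial, fun c _ => ⟨c, rfl⟩,
    fun t => ⟨b1 t ▸ (SS).x_mem (And.intro (RS.pos_sim _ _) (RS.InJ_singleton.2 (.inl rfl))) _, trivial⟩,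
    fun t => ⟨b2 t ▸ (SS).x_mem (And.intro (RS.not_pos_neg_sim _ _) (RS.InJ_singleton.2 (.inr rfl))) _, trivial⟩,
    w.1 ▸ (SS).n_mem one_ne_zero, by rw [hw, w.1]; exact (SS).n_rep_s _ one_ne_zero,
    fun t => w.2 t ▸ (SS).h_mem t.ne_zero,
    fun _ t ht => dS_inj (sl_inj _ b1 b2 (RS.pos_sim _ _) hr' (ht.trans (map_one ψ).symm)), fun h hh => ?_⟩
  obtain ⟨c, rfl⟩ := ((SS).range_hh ((hT).grp_r3 K)).ge hh.1
  refine ⟨(c g0)⁻¹, c g1, ?_⟩
  rw [w.2, ← (SS).hh_single ((hT).grp_r3 K), ← map_mul, RingHom.id_apply, ← (SS).hh_single ((hT).grp_r3 K)]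
  refine congrArg _ (funext fun i => ?_)
  rcases (by decide : ∀ i, i = g0 ∨ i = g1) i with rfl | rfl
  · simp [Pi.mulSingle_eq_of_ne (show g0 ≠ g1 by decide)]
  · simp [Pi.mulSingle_eq_of_ne (show g1 ≠ g0 by decide)]

theorem main [Fintype K] (p : ℕ) [Fact p.Prime] [CharP K p] (h3 : 3 ≤ Fintype.card K) :
    ∃ x : chevG2.group K, ¬ p ∣ orderOf x ∧ ∀ g : chevG2.group K, g ≠ 1 →
      ∃ u v : chevG2.group K, g = (u * x * u⁻¹) * (v * x * v⁻¹) := by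
  have hF : ∃ a : K, a ≠ 0 ∧ a ≠ 1 := by
    classical
    by_contra! h
    have : (Finset.univ : Finset K) ⊆ {0, 1} := fun a _ => by by_cases e : a = 0 <;> simp [e, h]
    have := (Finset.card_le_card this).trans Finset.card_le_two
    rw [Finset.card_univ] at this; omega
  obtain ⟨φ, ψ, E⟩ := hd hF
  obtain ⟨ζ, h1, h2⟩ : ∃ ζ : Kˣ, ζ ≠ 1 ∧ (((ζ ^ (-3 : ℤ) : Kˣ) : K) ≠ 1 ∨ (2 : K) = 0) := by
    by_cases h2 : (2 : K) = 0
    · obtain ⟨a, a0, a1⟩ := hF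
      exact ⟨Units.mk0 a a0, fun e => a1 (congrArg Units.val e), .inr h2⟩
    · have : (-1 : K) ≠ 1 := fun e => h2 (by linear_combination -e)
      exact ⟨-1, fun e => this (congrArg Units.val e), .inl (by rwa [Odd.neg_one_zpow (by decide)])⟩
  obtain ⟨x, -, hx, H⟩ := final (hT) E p (h0 := (SS).h ((hT).cd.sim g0) ζ) ⟨(SS).h_mem ζ.ne_zero, trivial⟩
    ((SS).h_acts _ ζ) (e := ζ ^ (-3 : ℤ))
    (by rw [show (hT).cd.A ((hT).cd.sim g0) ((hT).cd.sim g1) = -3 by decide +kernel]; rfl) h2 (fun r a b => by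
      rcases (by decide +kernel : ∀ r, lv (hT).cd g1 r ≠ 0 → (hT).cd.A ((hT).cd.sim g1) r = 0 →
        (hT).cd.A ((hT).cd.sim g0) r = 1 ∨ (hT).cd.A ((hT).cd.sim g0) r = -1) r a b with e | e <;> simpa [e] using h1)
    fun _ h => h
  exact ⟨x, hx, fun g hg => let ⟨a, _, b, _, e⟩ := H g trivial hg; ⟨a, b, e⟩⟩

end G2

namespace D4
open H24.D4
variable {K : Type*} [Field K] (f : K →+* K) (hf : ∀ t, f (f (f t)) = t)

local notation "hT" => tabD4_chk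
local notation "SS" => Tab.Chk.grp tabD4_chk K
local notation "MM" => Tw.G1 (z f hf) (O f hf)
local notation "FF" => RingHom.eqLocusField f (RingHom.id K)

def d0 : Fin chevD4.rank := (0 : Fin 4)
def d1 : Fin chevD4.rank := (1 : Fin 4)
def d2 : Fin chevD4.rank := (2 : Fin 4)
def d3 : Fin chevD4.rank := (3 : Fin 4)

theorem comb : Comb (hT).cd d1 ((hT).cd.wd (ws 1)) := by decide +kernel

theorem sims : (hT).cd.sim d0 = (hT).fin 18 ∧ (hT).cd.sim d1 = (hT).fin 14 ∧ (hT).cd.sim d2 = (hT).fin 13 ∧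
    (hT).cd.sim d3 = (hT).fin 12 ∧ (hT).cd.neg ((hT).fin 18) = (hT).fin 5 ∧ (hT).cd.neg ((hT).fin 14) = (hT).fin 9 ∧
    (hT).cd.neg ((hT).fin 13) = (hT).fin 10 ∧ (hT).cd.neg ((hT).fin 12) = (hT).fin 11 := by decide +kernel

def tu (t : Kˣ) : Kˣ := Units.map f.toMonoidHom t

theorem exists_psi : ∃ ψ : SL(2, K) →* chevD4.group K,
    (∀ t, ψ (upT t) = (SS).x ((hT).fin 18) t * ((SS).x ((hT).fin 13) (f t) * (SS).x ((hT).fin 12) (f (f t)))) ∧
    (∀ t, ψ (loT t) = (SS).x ((hT).fin 5) t * ((SS).x ((hT).fin 10) (f t) * (SS).x ((hT).fin 11) (f (f t)))) ∧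
    ψ wS = (SS).n ((hT).cd.sim d0) 1 * ((SS).n ((hT).cd.sim d2) 1 * (SS).n ((hT).cd.sim d3) 1) ∧
    ∀ l : Kˣ, ψ (dS l) = (SS).h ((hT).cd.sim d0) l * ((SS).h ((hT).cd.sim d2) (tu f l) *
      (SS).h ((hT).cd.sim d3) (tu f (tu f l))) := by
  obtain ⟨s0, -, s2, s3, n0, -, n2, n3⟩ := sims
  rw [s0, s2, s3]
  obtain ⟨φ, a1, a2, a3⟩ := (SS).exists_sl2 ((hT).grp_r3 K) ((hT).fin 18)
  obtain ⟨φ', b1, b2, b3⟩ := (SS).exists_sl2 ((hT).grp_r3 K) ((hT).fin 13)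
  obtain ⟨φ'', c1, c2, c3⟩ := (SS).exists_sl2 ((hT).grp_r3 K) ((hT).fin 12)
  have hc : ∀ {a b : ℕ} {φ φ' : SL(2, K) →* chevD4.group K}, tabD4.Cm4 a b →
      φ.range = (SS).XS {(hT).fin a} ⊔ (SS).XS {(hT).cd.neg ((hT).fin a)} →
      φ'.range = (SS).XS {(hT).fin b} ⊔ (SS).XS {(hT).cd.neg ((hT).fin b)} → ∀ g g', Commute (φ g) (φ' g') :=
    fun {a b φ φ'} H a1 b1 g g' => Tw.commute_XS (S := SS) ((hT).commute4 _ H) _
      ((a1.le.trans (sup_le ((SS).XS_mono (by simp)) ((SS).XS_mono (by simp)))) ⟨g, rfl⟩) _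
      ((b1.le.trans (sup_le ((SS).XS_mono (by simp)) ((SS).XS_mono (by simp)))) ⟨g', rfl⟩)
  have H : tabD4.Cm4 18 13 ∧ tabD4.Cm4 18 12 ∧ tabD4.Cm4 13 12 := by decide +kernel
  let χ : SL(2, K) →* chevD4.group K := (φ'.noncommCoprod (φ''.comp (SpecialLinearGroup.map f))
    fun g g' => hc H.2.2 b1 c1 _ _).comp ((MonoidHom.id _).prod (MonoidHom.id _))
  let ψ : SL(2, K) →* chevD4.group K := (φ.noncommCoprod (χ.comp (SpecialLinearGroup.map f))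
    fun g g' => (hc H.1 a1 b1 _ _).mul_right (hc H.2.1 a1 c1 _ _)).comp ((MonoidHom.id _).prod (MonoidHom.id _))
  have e : ∀ g, ψ g = φ g * (φ' (SpecialLinearGroup.map f g) *
    φ'' (SpecialLinearGroup.map f (SpecialLinearGroup.map f g))) := fun _ => rfl
  refine ⟨ψ, fun t => by rw [e, map_upT, map_upT, a2, b2, c2], fun t => by rw [e, map_loT, map_loT, a3, b3, c3, n0, n2, n3],
    by rw [e, map_wS, map_wS, (St.sl2_w a2 a3).1, (St.sl2_w b2 b3).1, (St.sl2_w c2 c3).1], fun l => by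
      rw [e, map_dS, map_dS, (St.sl2_w a2 a3).2, (St.sl2_w b2 b3).2, (St.sl2_w c2 c3).2]; rfl⟩

theorem hd (hs : IsSimpleGroup MM) : ∃ φ ψ, HD (O f hf) MM 0 1 d1 (FF).subtype φ ψ ∧
    ∀ l : Kˣ, ψ (dS l) = (SS).h ((hT).cd.sim d0) l * ((SS).h ((hT).cd.sim d2) (tu f l) *
      (SS).h ((hT).cd.sim d3) (tu f (tu f l))) := by
  obtain ⟨φ, -, a1, a2⟩ := (SS).exists_sl2 ((hT).grp_r3 K) ((hT).cd.sim d1)
  obtain ⟨ψ, b1, b2, b3, b4⟩ := exists_psi f
  obtain ⟨r, hr⟩ := comb.2.2.2.2.2.1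
  obtain ⟨s0, s1, s2, s3, n0, n1, n2, n3⟩ := sims
  have hh : ∀ l : Kˣ, ψ (dS l) = (SS).hh ((hT).grp_r3 K)
      (Pi.mulSingle d0 l * (Pi.mulSingle d2 (tu f l) * Pi.mulSingle d3 (tu f (tu f l)))) := fun l => by
    rw [b4, map_mul, map_mul, (SS).hh_single, (SS).hh_single, (SS).hh_single]
  refine ⟨φ.comp (SpecialLinearGroup.map (FF).subtype), ψ, ⟨sub f hf, (hT).grp_adj K, hs, by decide, by decide,
    Set.ext fun i => (by decide : ∀ i, o i = 0 ↔ i = d1) i, wk_eq f hf 1 ▸ comb,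
    fun t => by rw [MonoidHom.comp_apply, map_upT, a1], fun t => by rw [MonoidHom.comp_apply, map_loT, a2],
    (sl_inj _ a1 a2 (RS.pos_sim _ _) hr).comp fun a b e =>
      Subtype.ext (Matrix.map_injective (FF).subtype.injective (congrArg Subtype.val e)),
    fun s => (sub f hf).UK_le 0 ((U0 f hf _).2 ⟨s, s.2, by rw [s1]; rfl⟩),
    fun s => (sub f hf).VK_le 0 ((V0 f hf _).2 ⟨s, s.2, by rw [s1, n1]; rfl⟩), fun c hc => ?_,
    fun t => (fun h => ⟨h.1, (sub f hf).UK_le 1 h⟩) ((U1 f hf _).2 ⟨t, b1 t⟩),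
    fun t => (fun h => ⟨h.1, (sub f hf).VK_le 1 h⟩) ((V1 f hf _).2 ⟨t, b2 t⟩),
    b3 ▸ mul_mem ((SS).n_mem one_ne_zero) (mul_mem ((SS).n_mem one_ne_zero) ((SS).n_mem one_ne_zero)), ?_,
    fun t => hh t ▸ (SS).hh_mem _ _, fun h2 t ht => ?_, fun h hh' => ?_⟩, b4⟩
  · obtain ⟨t, ht, e⟩ := (U0 f hf _).1 ⟨(SS).x_mem (And.intro (RS.pos_sim _ d1)
      (fun k hk => RS.InJ_singleton.2 (.inl rfl) k (by rintro rfl; exact hk rfl))) c, (sub f hf).le_Fx hc⟩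
    exact ⟨⟨t, ht⟩, (SS).x_inj _ (e.trans (by rw [s1]; rfl))⟩
  · rw [← wk_eq, b3]
    have := ((SS).n_rep_s d0 one_ne_zero).mul (((SS).n_rep_s d2 one_ne_zero).mul
      (((SS).n_rep_s d3 one_ne_zero).mul rep_one))
    rw [mul_one ((SS).n _ _)] at this
    exact this
  · have h2' : (2 : K) = 0 := by rw [← map_ofNat (FF).subtype 2, h2, map_zero]
    have := ((SS).h_acts ((hT).cd.sim d0) t).mul (((SS).h_acts ((hT).cd.sim d2) (tu f t)).mul
      ((SS).h_acts ((hT).cd.sim d3) (tu f (tu f t)))) ((hT).cd.sim d0) 1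
    rw [← b4, ht] at this
    have e := (SS).x_inj _ ((by simp : (SS).x ((hT).cd.sim d0) 1 = _).trans this)
    have H : (hT).cd.A ((hT).cd.sim d0) ((hT).cd.sim d0) = 2 ∧ (hT).cd.A ((hT).cd.sim d2) ((hT).cd.sim d0) = 0 ∧
      (hT).cd.A ((hT).cd.sim d3) ((hT).cd.sim d0) = 0 := by decide +kernel
    simp [H, zpow_ofNat] at e
    refine Units.ext (sub_eq_zero.1 (pow_eq_zero_iff two_ne_zero |>.1 ?_))
    rw [Units.val_one]
    linear_combination -e + (1 - (t : K)) * h2'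
  · obtain ⟨c, hc, rfl⟩ := ((td f hf).card_H ((hT).grp_Gr K) ((hT).grp_adj K) ((hT).stb_Gr K) (scD4 K) ((hT).grp_r3 K)
      (O f hf) (hT_mem f hf)).1.le hh'
    obtain ⟨c1, c2, c3⟩ := (mem_T f hf).1 hc
    refine ⟨(c d0)⁻¹, Units.mk0 ⟨c d1, c1⟩ (fun e => (c d1).ne_zero (congrArg Subtype.val e)), ?_⟩
    rw [hh, ← map_mul]
    refine Eq.trans (congrArg _ (funext fun i => ?_)) ((SS).hh_single ((hT).grp_r3 K) d1 (c d1))
    have c2 : c d2 = tu f (c d0) := Units.ext c2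
    have c3 : c d3 = tu f (tu f (c d0)) := Units.ext c3
    have hne : d0 ≠ d1 ∧ d0 ≠ d2 ∧ d0 ≠ d3 ∧ d1 ≠ d0 ∧ d1 ≠ d2 ∧ d1 ≠ d3 ∧ d2 ≠ d0 ∧ d2 ≠ d1 ∧ d2 ≠ d3 ∧
      d3 ≠ d0 ∧ d3 ≠ d1 ∧ d3 ≠ d2 := by decide
    rcases (by decide : ∀ i, i = d0 ∨ i = d1 ∨ i = d2 ∨ i = d3) i with rfl | rfl | rfl | rfl <;>
      simp [Pi.mulSingle_apply, hne, c2, c3, tu]

include hf in
theorem irr {t e : FF} (h : Irr t e) : Irr ((FF).subtype t) ((FF).subtype e) := fun a ha => by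
  have ht : f t = t := t.2
  have he : f e = e := e.2
  have h1 := congrArg f ha
  simp only [Subfield.coe_subtype, map_add, map_sub, map_mul, map_pow, ht, he, map_zero] at h1 ha
  have h2 : f a = a := by
    rcases mul_eq_zero.1 (show (f a - a) * (f a + a - t) = 0 by linear_combination h1 - ha) with h2 | h2
    · exact sub_eq_zero.1 h2
    · have h3 := congrArg f h2
      rw [map_sub, map_add, ht, map_zero] at h3
      have h4 : f (f a) = a := by linear_combination h3 - h2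
      rw [← hf (f a), h4, h4]
  exact h ⟨a, h2⟩ (Subtype.ext ha)

theorem main [Fintype K] (p : ℕ) [Fact p.Prime] [CharP K p] (q : ℕ) (hq : IsPrimePow q) (hK : Fintype.card K = q ^ 3) :
    ∃ x : twistedD4 K q, ¬ p ∣ orderOf x ∧ ∀ g : twistedD4 K q, g ≠ 1 →
      ∃ u v : twistedD4 K q, g = (u * x * u⁻¹) * (v * x * v⁻¹) := by
  obtain ⟨f, hf, hq'⟩ := exists_f hq hK
  have := (Cfsg.Agent.S1071.result hq hK).1
  let ε : Tw.G1 (z f hf) (O f hf) ≃* twistedD4 K q := (Subgroup.equivMapOfInjective _ _ (chevD4.group K).subtype_injective).trans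
    (MulEquiv.subgroupCongr (gen_eq f hf hq').symm)
  obtain ⟨φ, ψ, E, hψ⟩ := hd f hf ε.isSimpleGroup
  obtain ⟨ζ, h1, h2⟩ : ∃ ζ : Kˣ, (ζ : K) ^ 2 ≠ 1 ∧ ((ζ : K) * (f ζ * f (f ζ)) ≠ 1 ∨ (2 : K) = 0) := by
    obtain ⟨a, a0, a1⟩ := exists_sq hq.one_lt hK
    by_cases h : a * (f a * f (f a)) = 1
    · refine ⟨-Units.mk0 a a0, by simpa using a1, or_iff_not_imp_right.2 fun h2 e => h2 ?_⟩
      simp only [Units.val_neg, Units.val_mk0, map_neg] at e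
      linear_combination -e - h
    · exact ⟨Units.mk0 a a0, a1, .inl h⟩
  have z0 := ζ.ne_zero
  have z1 : f ζ ≠ 0 := (map_ne_zero f).2 z0
  have z2 : f (f ζ) ≠ 0 := (map_ne_zero f).2 z1
  have k : ∀ a : K, a ≠ 0 → a ^ 2 ≠ 1 → a * f a ≠ f (f a) := fun a a0 a1 e => by
    have e' := congrArg f e
    rw [map_mul, hf, ← e] at e'
    refine a1 (f.injective (mul_left_cancel₀ a0 ?_))
    rw [map_pow, map_one]; linear_combination e'
  have k' : ∀ a : K, a ^ 2 ≠ 1 → f a ^ 2 ≠ 1 := fun a a1 e => a1 (f.injective (by rw [map_pow, e, map_one]))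
  have k0 := k _ z0 h1
  have k1 := k _ z1 (k' _ h1)
  have k2 := k _ z2 (k' _ (k' _ h1))
  rw [hf] at k1 k2
  have hA := ((SS).h_acts ((hT).cd.sim d0) ζ).mul (((SS).h_acts ((hT).cd.sim d2) (tu f ζ)).mul
      ((SS).h_acts ((hT).cd.sim d3) (tu f (tu f ζ))))
  simp only [mul_one, Equiv.Perm.coe_one, id] at hA
  rw [← hψ] at hA
  have hN : ((ζ : K) * (f ζ * f (f ζ)))⁻¹ ∈ RingHom.eqLocusField f (RingHom.id K) := inv_mem (by
    change f _ = _
    rw [map_mul, map_mul, hf, RingHom.id_apply]; ring)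
  have N0 : ((ζ : K) * (f ζ * f (f ζ)))⁻¹ ≠ 0 := by simp
  obtain ⟨x, hx, hp, H⟩ := final (hT) E p ⟨E.p5 ζ, E.ψM _⟩ hA
    (e := Units.mk0 ⟨_, hN⟩ fun e => N0 (congrArg Subtype.val e)) (by
      have H : (hT).cd.A ((hT).cd.sim d0) ((hT).cd.sim d1) = -1 ∧ (hT).cd.A ((hT).cd.sim d2) ((hT).cd.sim d1) = -1 ∧
        (hT).cd.A ((hT).cd.sim d3) ((hT).cd.sim d1) = -1 := by decide +kernel
      simp [H, tu, mul_comm])
    (h2.imp (fun a e => a (inv_eq_one.1 (congrArg Subtype.val e))) fun a => Subtype.ext a) (fun r a b e => by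
      have e := congrArg Units.val e
      obtain ⟨s, hs, H⟩ := (by decide +kernel : ∀ r, lv (hT).cd d1 r ≠ 0 → (hT).cd.A ((hT).cd.sim d1) r = 0 →
        ∃ s ∈ [1, -1], ((hT).cd.A ((hT).cd.sim d0) r, (hT).cd.A ((hT).cd.sim d2) r, (hT).cd.A ((hT).cd.sim d3) r) ∈
          [(s, s, -s), (s, -s, s), (-s, s, s)]) r a b
      simp only [List.mem_cons, List.not_mem_nil, or_false, Prod.mk.injEq] at hs H
      rcases hs with rfl | rfl <;> rcases H with H | H | H <;> simp [H, tu] at e <;> field_simp at e <;>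
        first | exact k0 (by linear_combination e) | exact k0 (by linear_combination -e) |
          exact k1 (by linear_combination e) | exact k1 (by linear_combination -e) |
          exact k2 (by linear_combination e) | exact k2 (by linear_combination -e))
    fun _ h => irr f hf h
  refine ⟨ε ⟨x, hx⟩, by rwa [MulEquiv.orderOf_eq, ← Subgroup.orderOf_coe], fun g hg => ?_⟩
  obtain ⟨g, rfl⟩ := ε.surjective g
  obtain ⟨a, ha, b, hb, e⟩ := H g g.2 fun e => hg (by rw [show g = 1 from Subtype.ext e, map_one])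
  exact ⟨ε ⟨a, ha⟩, ε ⟨b, hb⟩, by simp only [← map_mul, ← map_inv]; exact congrArg ε (Subtype.ext e)⟩

end D4

end H7.CC
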