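import Cfsg.Agent.H19.BS3
import Cfsg.Agent.H1.Coprime2
import Cfsg.Agent.H1.CycSyl
import Cfsg.Agent.H3.PComp
import Cfsg.Agent.H7.Basic
import Cfsg.Agent.H7.PGrp

/-! Abelian 2-subgroups `H` such that `⟨H, H^g⟩` is always `H` times a group of odd order. -/

set_option autoImplicit false

namespace H7

open Subgroup Cfsg

universe u

variable {G : Type*} [Group G]

/-- Every conjugate of `H` lies in `H N` for some `H`-invariant `N` of odd order. -/
def XP (H : Subgroup G) : Prop :=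
  ∀ g : G, ∃ N : Subgroup G, Odd (Nat.card N) ∧ H ≤ normalizer (N : Set G) ∧
    ∀ h ∈ H, ∃ c ∈ H, c * (g * h * g⁻¹) ∈ N

/-- Conjugates of elements of `A`. -/
def XD (A : Subgroup G) (b : G) : Prop := ∃ g : G, ∃ a ∈ A, b = g * a * g⁻¹

theorem XD.conj {A : Subgroup G} {b : G} (h : XD A b) (y : G) : XD A (y * b * y⁻¹) := by
  obtain ⟨g, a, ha, rfl⟩ := h
  exact ⟨y * g, a, ha, by group⟩

theorem XD.sq {A : Subgroup G} (h2 : ∀ a ∈ A, a * a = 1) {b : G} (h : XD A b) : b * b = 1 := by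
  obtain ⟨g, a, ha, rfl⟩ := h
  calc _ = g * (a * a) * g⁻¹ := by group
    _ = 1 := by rw [h2 a ha]; group

theorem odd_orderOf_of_mem {N : Subgroup G} (hN : Odd (Nat.card N)) {x : G} (hx : x ∈ N) :
    Odd (orderOf x) := hN.of_dvd_nat (N.orderOf_dvd_natCard hx)

theorem eq_one_of_odd_of_sq {x : G} (h : Odd (orderOf x)) (h2 : x * x = 1) : x = 1 := by
  have h1 : orderOf x ∣ 2 := orderOf_dvd_of_pow_eq_one (by rw [pow_two, h2])
  rcases (Nat.dvd_prime Nat.prime_two).1 h1 with h3 | h3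
  · exact orderOf_eq_one_iff.1 h3
  · rw [h3] at h; exact absurd h (by decide)

theorem eq_one_of_odd_of_two {S : Subgroup G} (hS : IsPGroup 2 S) {x : G} (hx : x ∈ S)
    (h : Odd (orderOf x)) : x = 1 := by
  haveI : Fact (Nat.Prime 2) := ⟨Nat.prime_two⟩
  obtain ⟨k, hk⟩ := hS ⟨x, hx⟩
  have h1 : orderOf x ∣ 2 ^ k := orderOf_dvd_of_pow_eq_one (congrArg Subtype.val hk)
  exact orderOf_eq_one_iff.1
    ((Nat.Coprime.pow_right k (Nat.coprime_two_right.2 h)).eq_one_of_dvd h1)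

theorem mem_of_odd_of_sq_mem {N : Subgroup G} {x : G} (h : Odd (orderOf x)) (h2 : x * x ∈ N) :
    x ∈ N := by
  obtain ⟨k, hk⟩ := h
  have : x * (x * x) ^ k = 1 := by
    rw [← pow_two, ← pow_mul, ← pow_succ', ← hk, pow_orderOf_eq_one]
  rw [eq_inv_of_mul_eq_one_left this]
  exact inv_mem (pow_mem h2 k)

theorem orderOf_conj' (y x : G) : orderOf (y * x * y⁻¹) = orderOf x :=
  (MulAut.conj y).orderOf_eq x

section Elem

variable {A : Subgroup G} (h2 : ∀ a ∈ A, a * a = 1)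
include h2

theorem comm_of_sq {a b : G} (ha : a ∈ A) (hb : b ∈ A) : a * b = b * a := by
  calc a * b = a * (a * b * (a * b)) * b := by rw [h2 _ (mul_mem ha hb), mul_one]
    _ = (a * a) * (b * a) * (b * b) := by group
    _ = b * a := by rw [h2 a ha, h2 b hb]; group

theorem isPGroup_of_sq : IsPGroup 2 A := fun a => ⟨1, Subtype.ext (by simpa [pow_two] using h2 a a.2)⟩

theorem mem_of_mul_mem_of_odd {N : Subgroup G} (hA : A ≤ normalizer (N : Set G)) {c x : G}
    (hc : c ∈ A) (h : c * x ∈ N) (hx : Odd (orderOf x)) : x ∈ N := by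
  apply mem_of_odd_of_sq_mem hx
  have := mul_mem (conj_mem_of_mem_normalizer (hA (inv_mem hc)) h) h
  have e : c⁻¹ * (c * x) * c⁻¹⁻¹ * (c * x) = x * (c * c) * x := by group
  rwa [e, h2 c hc, mul_one] at this

theorem xuniq {N : Subgroup G} (hN : Odd (Nat.card N)) (hA : A ≤ normalizer (N : Set G))
    {c c' x : G} (hc : c ∈ A) (hc' : c' ∈ A) (h : c * x ∈ N) (hx : Odd (orderOf (c' * x))) :
    c' = c := by
  have h1 : c' * x ∈ N := mem_of_mul_mem_of_odd h2 hA (mul_mem hc hc')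
    (by rw [mul_assoc, ← mul_assoc c', h2 c' hc', one_mul]; exact h) hx
  have h3 : c' * c⁻¹ ∈ N := by
    have := mul_mem h1 (inv_mem h)
    simpa [mul_assoc] using this
  exact mul_inv_eq_one.1 (eq_one_of_odd_of_sq (odd_orderOf_of_mem hN h3)
    (h2 _ (mul_mem hc' (inv_mem hc))))

theorem xmul {N : Subgroup G} (hA : A ≤ normalizer (N : Set G)) {c d x y : G} (hc : c ∈ A)
    (hd : d ∈ A) (h : c * x ∈ N) (h' : d * y ∈ N) : c * d * (x * y) ∈ N := by
  have := mul_mem (conj_mem_of_mem_normalizer (hA hd) h) h'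
  have e : d * (c * x) * d⁻¹ * (d * y) = (d * c) * (x * y) := by group
  rwa [e, comm_of_sq h2 hd hc] at this

theorem xpow {N : Subgroup G} (hA : A ≤ normalizer (N : Set G)) {c x : G} (hc : c ∈ A)
    (h : c * x ∈ N) (k : ℕ) : c ^ k * x ^ k ∈ N := by
  induction k with
  | zero => simp
  | succ k ih => rw [pow_succ, pow_succ]; exact xmul h2 hA (pow_mem hc k) hc ih h

omit h2 in
theorem pow_odd_of_sq {c : G} (h : c * c = 1) {m : ℕ} (hm : Odd m) : c ^ m = c := by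
  obtain ⟨k, rfl⟩ := hm
  rw [pow_succ, pow_mul, pow_two, h, one_pow, one_mul]

omit h2 in
theorem XP.exists_N (hP : XP A) {b : G} (hb : XD A b) : ∃ N : Subgroup G, Odd (Nat.card N) ∧
    A ≤ normalizer (N : Set G) ∧ ∃ c ∈ A, c * b ∈ N := by
  obtain ⟨g, a, ha, rfl⟩ := hb
  obtain ⟨N, h1, h3, h4⟩ := hP g
  exact ⟨N, h1, h3, h4 a ha⟩

omit h2 in
theorem XP.exists_odd (hP : XP A) {b : G} (hb : XD A b) : ∃ c ∈ A, Odd (orderOf (c * b)) := by
  obtain ⟨N, h1, -, c, hc, h⟩ := hP.exists_N hb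
  exact ⟨c, hc, odd_orderOf_of_mem h1 h⟩

theorem XP.uniq (hP : XP A) {b c c' : G} (hb : XD A b) (hc : c ∈ A) (hc' : c' ∈ A)
    (h : Odd (orderOf (c * b))) (h' : Odd (orderOf (c' * b))) : c = c' := by
  obtain ⟨N, h1, h3, d, hd, h4⟩ := hP.exists_N hb
  rw [xuniq h2 h1 h3 hd hc h4 h, xuniq h2 h1 h3 hd hc' h4 h']

theorem XP.exists_z [Finite G] (hP : XP A) {a b c : G} (hb : XD A b) (ha : a ∈ A) (hc : c ∈ A)
    (h : Odd (orderOf (c * b))) : ∃ m, Odd m ∧ (a * b) ^ m * (a * b) ^ m = 1 ∧ XD A ((a * b) ^ m) ∧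
      Odd (orderOf (a * c * (a * b) ^ m)) := by
  haveI : Fact (Nat.Prime 2) := ⟨Nat.prime_two⟩
  obtain ⟨N, h1, h3, d, hd, h4⟩ := hP.exists_N hb
  obtain rfl := xuniq h2 h1 h3 hd hc h4 h
  have hac := mul_mem ha hc
  have h5 : a * c * (a * b) ∈ N := xmul h2 h3 ha hc (by rw [h2 a ha]; exact one_mem _) h4
  have h6 := xpow h2 h3 hac h5 2
  rw [pow_two (a * c), h2 _ hac, one_mul] at h6
  have hm := odd_orderOf_of_mem h1 h6
  have h7 := xpow h2 h3 hac h5 (orderOf ((a * b) ^ 2))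
  rw [pow_odd_of_sq (h2 _ hac) hm] at h7
  have h8 : (a * b) ^ orderOf ((a * b) ^ 2) * (a * b) ^ orderOf ((a * b) ^ 2) = 1 := by
    rw [← pow_two, ← pow_mul, mul_comm, pow_mul, pow_orderOf_eq_one]
  refine ⟨_, hm, h8, ?_, odd_orderOf_of_mem h1 h7⟩
  generalize (a * b) ^ orderOf ((a * b) ^ 2) = z at h7 h8
  have hS : H10.IsSylowIn 2 A (A ⊔ N) := by
    refine ⟨le_sup_left, isPGroup_of_sq h2, fun Q hQ hAQ hQ' => le_antisymm (fun q hq => ?_) hAQ⟩
    obtain ⟨x, hx, n, hn, rfl⟩ := (mem_sup_of_le_normalizer h3).1 (hQ' hq)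
    have := eq_one_of_odd_of_two hQ ((mul_mem_cancel_left (hAQ hx)).1 hq) (odd_orderOf_of_mem h1 hn)
    rw [this, mul_one]; exact hx
  obtain ⟨g, -, hg⟩ := hS.exists_cj_le (P := zpowers z)
    (H10.isPGroup_zpowers (k := 1) (by rw [pow_one, pow_two, h8])) (zpowers_le.2 (by
      have := mul_mem (mem_sup_left (T := N) (inv_mem hac)) (mem_sup_right (S := A) h7)
      simpa [mul_assoc] using this))
  exact ⟨g⁻¹, _, hg (conj_mem_cj (mem_zpowers z)), by group⟩

/-- The local hypothesis at `a`. -/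
def XL (A : Subgroup G) (a : G) : Prop :=
  ∃ O : Subgroup G, Odd (Nat.card O) ∧ centralizer {a} ≤ normalizer (O : Set G) ∧
    ∀ x ∈ centralizer ({a} : Set G), ∀ h ∈ A, ∃ c ∈ A, c * (x * h * x⁻¹) ∈ O

theorem XP.step [Finite G] (hP : XP A) {a : G} (ha : a ∈ A) (hL : XL A a) {N : Subgroup G}
    (hN : Odd (Nat.card N)) (hAN : A ≤ normalizer (N : Set G)) {y : G} (hy : y ∈ N)
    (hya : y ∈ centralizer ({a} : Set G)) {b c : G} (hb : XD A b) (hc : c ∈ A)
    (h : Odd (orderOf (c * b))) : Odd (orderOf (c * (y * b * y⁻¹))) := by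
  haveI : Fact (Nat.Prime 2) := ⟨Nat.prime_two⟩
  have hya' : y * a * y⁻¹ = a := by rw [mem_centralizer_singleton_iff.1 hya]; group
  have hab : a * (y * b * y⁻¹) = y * (a * b) * y⁻¹ := by
    nth_rewrite 1 [← hya']; group
  obtain ⟨O, hO, hCO, hL⟩ := hL
  have hAC : A ≤ centralizer {a} := fun x hx =>
    mem_centralizer_singleton_iff.2 (comm_of_sq h2 hx ha)
  have hAO := hAC.trans hCO
  obtain ⟨c', hc', h'⟩ := hP.exists_odd (hb.conj y)
  obtain ⟨m, hm, z1, z2, z3⟩ := hP.exists_z h2 hb ha hc h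
  obtain ⟨m', hm', w1, w2, w3⟩ := hP.exists_z h2 (hb.conj y) ha hc' h'
  have e : (a * (y * b * y⁻¹)) ^ m' = y * (a * b) ^ m * y⁻¹ := by
    rw [← pow_odd_of_sq w1 hm, ← pow_mul, mul_comm m', pow_mul, hab, conj_pow, conj_pow,
      pow_odd_of_sq z1 hm']
  rw [e] at w2 w3
  have hzC : (a * b) ^ m ∈ centralizer ({a} : Set G) := by
    rw [mem_centralizer_singleton_iff]
    have e1 : a * (a * b) * a⁻¹ = (a * b)⁻¹ := by
      rw [← mul_assoc, h2 a ha, one_mul, mul_inv_rev, inv_eq_of_mul_eq_one_right (hb.sq h2)]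
    have e2 : a * (a * b) ^ m * a⁻¹ = (a * b) ^ m := by
      rw [← conj_pow, e1, inv_pow, inv_eq_of_mul_eq_one_right z1]
    exact (mul_inv_eq_iff_eq_mul.1 e2).symm
  generalize (a * b) ^ m = z at *
  obtain ⟨S, hS, hAS⟩ := H10.exists_isSylowIn_ge (isPGroup_of_sq h2) hAC
  obtain ⟨x, hx, hxS⟩ := hS.exists_cj_le (P := zpowers z)
    (H10.isPGroup_zpowers (k := 1) (by rw [pow_one, pow_two, z1])) (zpowers_le.2 hzC)
  have hxz : x * z * x⁻¹ ∈ S := hxS (conj_mem_cj (mem_zpowers z))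
  obtain ⟨d, hd, hdo⟩ := hP.exists_odd (z2.conj x)
  have hd1 := eq_one_of_odd_of_two hS.isPGroup (mul_mem (hAS hd) hxz) hdo
  obtain ⟨f, hf, hfO⟩ := hL x⁻¹ (inv_mem hx) d⁻¹ (inv_mem hd)
  rw [inv_eq_of_mul_eq_one_right hd1,
    show x⁻¹ * (x * z * x⁻¹) * x⁻¹⁻¹ = z by group] at hfO
  have hac := mul_mem ha hc
  obtain rfl := xuniq h2 hO hAO hf hac hfO z3
  obtain ⟨f', hf', hfO'⟩ := hL y hya _ hac
  have h5 : a * c * (y * (a * c) * y⁻¹) ∈ N := by
    have := mul_mem (conj_mem_of_mem_normalizer (hAN hac) hy) (inv_mem hy)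
    rw [inv_eq_of_mul_eq_one_right (h2 _ hac)] at this
    simpa [mul_assoc] using this
  obtain rfl := xuniq h2 hO hAO hf' hac hfO' (odd_orderOf_of_mem hN h5)
  have h6 := mul_mem hfO' (conj_mem_of_mem_normalizer (hCO hya) hfO)
  have e3 : a * c * (y * (a * c) * y⁻¹) * (y * (a * c * z) * y⁻¹) =
      a * c * (y * (a * c * (a * c)) * z * y⁻¹) := by group
  rw [e3, h2 _ hac, mul_one] at h6
  have h7 := hP.uniq h2 w2 hac (mul_mem ha hc') (odd_orderOf_of_mem hO h6) w3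
  rw [mul_left_cancel h7]
  exact h'

/-- The stabilizer of the set of conjugates `b` with `c b` of odd order. -/
def xstab (A : Subgroup G) (c : G) : Subgroup G where
  carrier := {w | ∀ b, XD A b → (Odd (orderOf (c * b)) ↔ Odd (orderOf (c * (w * b * w⁻¹))))}
  one_mem' := fun b _ => by simp
  mul_mem' := by
    intro u v hu hv b hb
    rw [hv b hb, hu _ (hb.conj v)]
    simp [mul_assoc]
  inv_mem' := by
    intro u hu b hb
    rw [hu _ (hb.conj u⁻¹)]
    simp [mul_assoc]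

theorem XP.normal_of_local [Finite G] (hP : XP A) (hO : pPrimeCore 2 G = ⊥) (hnc : ¬ IsCyclic A)
    (hL : ∀ a ∈ A, a ≠ 1 → XL A a) : A.Normal := by
  haveI : Fact (Nat.Prime 2) := ⟨Nat.prime_two⟩
  haveI : IsMulCommutative A := ⟨⟨fun a b => Subtype.ext (comm_of_sq h2 a.2 b.2)⟩⟩
  have key : ∀ c ∈ A, normalClosure (A : Set G) ≤ xstab A c := by
    intro c hc
    have hA : A ≤ xstab A c := by
      intro w hw b _
      rw [← orderOf_conj' w (c * b), ← mul_assoc, ← comm_of_sq h2 hc hw]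
      simp [mul_assoc]
    rw [normalClosure, closure_le]
    intro x hx
    obtain ⟨a, ha, hx⟩ := Group.mem_conjugatesOfSet_iff.1 hx
    obtain ⟨g, rfl⟩ := isConj_iff.1 hx
    obtain ⟨N, hN, hAN, h⟩ := hP g
    obtain ⟨d, hd, hdN⟩ := h a ha
    have hNs : N ≤ xstab A c := by
      obtain ⟨k, hk⟩ := (isPGroup_of_sq h2).exists_card_eq
      refine H1.le_of_forall_centralizer_le hnc hAN
        (hk ▸ (Nat.coprime_two_left.2 hN).pow_left k) fun a ha ha1 y hy b hb => ⟨fun h => ?_, fun h => ?_⟩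
      · exact hP.step h2 ha (hL a ha ha1) hN hAN hy.1 hy.2 hb hc h
      · have := hP.step h2 ha (hL a ha ha1) hN hAN (inv_mem hy.1) (inv_mem hy.2) (hb.conj y) hc h
        simpa [mul_assoc] using this
    exact (mul_mem_cancel_left (hA hd)).1 (hNs hdN)
  set W := normalClosure (A : Set G) with hW
  have hAW : A ≤ W := le_normalClosure
  have hcen : ∀ c ∈ A, ∀ w ∈ W, c * w = w * c := by
    intro c hc w hw
    by_cases hc1 : c = 1
    · simp [hc1]
    have hiso : IsIsolatedInvolution (⟨c, hAW hc⟩ : W) := by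
      refine ⟨?_, fun g hg => Subtype.ext ?_⟩
      · rw [← Subgroup.orderOf_coe]
        exact orderOf_eq_prime (by rw [pow_two, h2 c hc]) hc1
      · have h3 := (key c hc g.2 c ⟨1, c, hc, by simp⟩).1 (by rw [h2 c hc]; simp)
        have h4 : c * (g * c * (g : G)⁻¹) = (g * c * (g : G)⁻¹) * c := congrArg Subtype.val hg.eq
        have h5 := XD.sq h2 (⟨g, c, hc, rfl⟩ : XD A (g * c * (g : G)⁻¹))
        have h6 := eq_one_of_odd_of_sq h3 (by
          rw [mul_assoc, ← mul_assoc (g * c * (g : G)⁻¹), ← h4, mul_assoc, h5, mul_one, h2 c hc])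
        change (g : G) * c * (g : G)⁻¹ = c
        rw [← inv_eq_of_mul_eq_one_right h6, inv_eq_of_mul_eq_one_right (h2 c hc)]
    have := mem_center_iff.1 (H19.zstar_center hiso (H19.pPrimeCore_normal_eq_bot hO W)) ⟨w, hw⟩
    exact (congrArg Subtype.val this).symm
  refine ⟨fun a ha g => ?_⟩
  have hb : XD A (g * a * g⁻¹) := ⟨g, a, ha, rfl⟩
  obtain ⟨c, hc, h⟩ := hP.exists_odd hb
  have h4 := hcen c hc _ (Normal.conj_mem inferInstance _ (hAW ha) g)
  have h6 := eq_one_of_odd_of_sq h (by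
    rw [mul_assoc, ← mul_assoc (g * a * g⁻¹), ← h4, mul_assoc, hb.sq h2, mul_one, h2 c hc])
  rw [← inv_eq_of_mul_eq_one_right h6]
  exact inv_mem hc

end Elem

theorem XP.map [Finite G] {G' : Type*} [Group G'] {H : Subgroup G} (h : XP H) {f : G →* G'}
    (hf : Function.Surjective f) : XP (H.map f) := by
  intro g
  obtain ⟨g, rfl⟩ := hf g
  obtain ⟨N, h1, h2, h3⟩ := h g
  refine ⟨N.map f, h1.of_dvd_nat (card_map_dvd _ _), (map_mono h2).trans (le_normalizer_map f), ?_⟩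
  rintro _ ⟨x, hx, rfl⟩
  obtain ⟨c, hc, h4⟩ := h3 x hx
  exact ⟨f c, mem_map_of_mem f hc, ⟨_, h4, by simp⟩⟩

theorem XP.subgroupOf [Finite G] {H : Subgroup G} (h : XP H) {C : Subgroup G} (hC : H ≤ C) :
    XP (H.subgroupOf C) := by
  intro g
  obtain ⟨N, h1, h2, h3⟩ := h g
  refine ⟨N.subgroupOf C, ?_, ?_, ?_⟩
  · rw [card_subgroupOf]
    exact h1.of_dvd_nat (card_dvd_of_le inf_le_left)
  · intro x hx
    exact mem_normalizer_of_finite fun y hy =>
      conj_mem_of_mem_normalizer (H := N) (x := (y : G)) (h2 hx) hy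
  · intro x hx
    obtain ⟨c, hc, h4⟩ := h3 x hx
    exact ⟨⟨c, hC hc⟩, hc, h4⟩

theorem xp_aux (n : ℕ) : ∀ (G : Type u) [Group G] [Finite G], Nat.card G = n →
    ∀ H : Subgroup G, IsPGroup 2 H → IsMulCommutative H → XP H →
      ∀ g : G, ∀ h ∈ H, ∃ c ∈ H, c * (g * h * g⁻¹) ∈ pPrimeCore 2 G := by
  induction n using Nat.strong_induction_on with
  | _ n ih =>
  intro G _ _ hn
  haveI : Fact (Nat.Prime 2) := ⟨Nat.prime_two⟩
  have hq : ∀ (N : Subgroup G) [N.Normal], N ≠ ⊥ → ∀ H : Subgroup G, IsPGroup 2 H →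
      IsMulCommutative H → XP H → ∀ g : G, ∀ h ∈ H, ∃ c ∈ H, c * (g * h * g⁻¹) ∈
        (pPrimeCore 2 (G ⧸ N)).comap (QuotientGroup.mk' N) := by
    intro N _ hN H h1 h2 h3 g h hh
    obtain ⟨_, ⟨c, hc, rfl⟩, h4⟩ := ih _ (by
        rw [← hn, ← N.index_mul_card]
        exact lt_mul_of_one_lt_right Nat.card_pos ((one_lt_card_iff_ne_bot N).2 hN)) (G ⧸ N) rfl
      (H.map (QuotientGroup.mk' N)) (h1.map _) inferInstance
      (h3.map (QuotientGroup.mk'_surjective N)) (QuotientGroup.mk' N g) _ (mem_map_of_mem _ hh)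
    exact ⟨c, hc, by simpa using h4⟩
  by_cases hO : pPrimeCore 2 G = ⊥
  swap
  · intro H h1 h2 h3 g h hh
    obtain ⟨c, hc, h4⟩ := hq _ hO H h1 h2 h3 g h hh
    rw [H1.comap_pPrimeCore_mk' 2 _ (H1.coprime_card_pPrimeCore 2)] at h4
    exact ⟨c, hc, h4⟩
  have L1 : ∀ H : Subgroup G, IsPGroup 2 H → IsMulCommutative H → XP H →
      ∀ (A : Subgroup G) [A.Normal], A ≠ ⊥ → A ≤ H → H.Normal := by
    intro H h1 h2 h3 A _ hA hAH
    set M := (pPrimeCore 2 (G ⧸ A)).comap (QuotientGroup.mk' A) ⊓ centralizer (A : Set G) with hM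
    have hM2 : IsPGroup 2 M := by
      apply H1.isPGroup_of_hasNormalPComplement hO M
      apply H3.hasNormalPComplement_of_quotient_central ((QuotientGroup.mk' A).comp M.subtype).ker
      · intro z hz
        have hz' : (z : G) ∈ A := (QuotientGroup.eq_one_iff _).1 hz
        exact mem_center_iff.2 fun m => Subtype.ext (m.2.2 _ hz').symm
      · apply H3.hasNormalPComplement_of_coprime
        rw [Nat.card_congr (QuotientGroup.quotientKerEquivRange _).toEquiv]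
        refine (H1.coprime_card_pPrimeCore (G := G ⧸ A) 2).coprime_dvd_left (card_dvd_of_le ?_)
        rintro _ ⟨m, rfl⟩
        exact m.2.1
    have hHC : H ≤ centralizer (A : Set G) := fun x hx a ha =>
      H1.isMulCommutative_iff'.1 h2 a (hAH ha) x hx
    refine ⟨fun h hh g => ?_⟩
    obtain ⟨c, hc, h4⟩ := hq A hA H h1 h2 h3 g h hh
    obtain ⟨N, hN, -, h5⟩ := h3 g
    obtain ⟨d, hd, h6⟩ := h5 h hh
    have h7 : c * (g * h * g⁻¹) ∈ M :=
      ⟨h4, mul_mem (hHC hc) (Normal.conj_mem inferInstance _ (hHC hh) g)⟩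
    have h8 := eq_one_of_odd_of_two (h1.to_sup_of_normal_right hM2) (x := d * (g * h * g⁻¹)) (by
      have := mul_mem (mem_sup_left (T := M) (mul_mem hd (inv_mem hc))) (mem_sup_right (S := H) h7)
      simpa [mul_assoc] using this) (odd_orderOf_of_mem hN h6)
    rw [← inv_eq_of_mul_eq_one_right h8]
    exact inv_mem hd
  intro H h1 h2 h3
  suffices hN : H.Normal from fun g h hh =>
    ⟨(g * h * g⁻¹)⁻¹, inv_mem (hN.conj_mem h hh g), by
      rw [inv_mul_cancel]; exact one_mem _⟩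
  by_cases hH : H = ⊥
  · rw [hH]; exact normal_bot
  by_cases hz : ∃ a ∈ H, a ≠ 1 ∧ a ∈ center G
  · obtain ⟨a, ha, ha1, haz⟩ := hz
    haveI : (zpowers a).Normal := ⟨fun x hx g => by
      rw [mem_center_iff.1 (zpowers_le.2 haz hx) g]; simpa using hx⟩
    exact L1 H h1 h2 h3 (zpowers a) (by simpa using ha1) (zpowers_le.2 ha)
  push Not at hz
  let A : Subgroup G :=
    { carrier := {a | a ∈ H ∧ a * a = 1}
      one_mem' := ⟨one_mem _, mul_one _⟩
      mul_mem' := by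
        rintro a b ⟨ha, ha'⟩ ⟨hb, hb'⟩
        refine ⟨mul_mem ha hb, ?_⟩
        rw [mul_assoc, ← mul_assoc b, H1.isMulCommutative_iff'.1 h2 b hb a ha, mul_assoc, hb',
          mul_one, ha']
      inv_mem' := by
        rintro a ⟨ha, ha'⟩
        exact ⟨inv_mem ha, by rw [← mul_inv_rev, ha', inv_one]⟩ }
  have hAH : A ≤ H := fun a ha => ha.1
  have hA2 : ∀ a ∈ A, a * a = 1 := fun a ha => ha.2
  obtain ⟨t, htH, ht⟩ := H10.exists_orderOf_eq_of_ne_bot h1 hH
  have htA : t ∈ A := ⟨htH, by rw [← pow_two, ← ht, pow_orderOf_eq_one]⟩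
  have ht1 := H10.ne_one_of_orderOf_eq ht
  have hAP : XP A := by
    intro g
    obtain ⟨N, hN, hHN, h⟩ := h3 g
    refine ⟨N, hN, hAH.trans hHN, fun a ha => ?_⟩
    obtain ⟨c, hc, h4⟩ := h a ha.1
    refine ⟨c, ⟨hc, eq_one_of_odd_of_two h1 (mul_mem hc hc) (odd_orderOf_of_mem hN ?_)⟩, h4⟩
    have := mul_mem (conj_mem_of_mem_normalizer (hHN hc) h4) h4
    have e : c * (c * (g * a * g⁻¹)) * c⁻¹ * (c * (g * a * g⁻¹)) =
      c * c * (g * (a * a) * g⁻¹) := by group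
    rwa [e, ha.2, mul_one, mul_inv_cancel, mul_one] at this
  have hnc : ¬ IsCyclic A := by
    intro hc
    have hu : ∀ a ∈ A, a ≠ 1 → a = t := by
      obtain ⟨s, hs⟩ := IsCyclic.exists_generator (α := A)
      have : ∀ a ∈ A, a ≠ 1 → a = s := by
        intro a ha ha1
        obtain ⟨k, hk⟩ := mem_powers_iff_mem_zpowers.2 (hs ⟨a, ha⟩)
        have hk' : (s : G) ^ k = a := congrArg Subtype.val hk
        rcases Nat.even_or_odd k with ⟨j, hj⟩ | hj
        · rw [hj, ← two_mul, pow_mul, pow_two, hA2 s s.2, one_pow] at hk'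
          exact absurd hk'.symm ha1
        · rw [← hk', pow_odd_of_sq (hA2 s s.2) hj]
      intro a ha ha1
      rw [this a ha ha1, this t htA ht1]
    refine hz t htH ht1 (H19.zstar_center ⟨ht, fun g hg => ?_⟩ hO)
    have hb : XD A (g * t * g⁻¹) := ⟨g, t, htA, rfl⟩
    obtain ⟨c, hc, h⟩ := hAP.exists_odd hb
    by_cases hc1 : c = 1
    · rw [hc1, one_mul, orderOf_conj', ht] at h
      exact absurd h (by decide)
    · rw [hu c hc hc1] at h
      have h6 := eq_one_of_odd_of_sq h (by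
        rw [mul_assoc, ← mul_assoc (g * t * g⁻¹), ← hg.eq, mul_assoc, hb.sq hA2, mul_one, hA2 t htA])
      rw [← inv_eq_of_mul_eq_one_right h6, inv_eq_of_mul_eq_one_right (hA2 t htA)]
  haveI : A.Normal := by
    refine hAP.normal_of_local hA2 hO hnc fun a ha ha1 => ?_
    have hC : centralizer ({a} : Set G) ≠ ⊤ := fun h => hz a ha.1 ha1 (mem_center_iff.2 fun g =>
      mem_centralizer_singleton_iff.1 (h ▸ mem_top g))
    have hAC : A ≤ centralizer {a} := fun x hx =>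
      mem_centralizer_singleton_iff.2 (comm_of_sq hA2 hx ha)
    have := ih _ (by
        rw [← hn, ← card_top (G := G)]
        exact card_lt_of_lt (lt_top_iff_ne_top.2 hC)) (centralizer ({a} : Set G)) rfl
      (A.subgroupOf _) (isPGroup_of_sq fun x hx => Subtype.ext (hA2 _ hx))
      ⟨⟨fun x y => Subtype.ext (Subtype.ext (comm_of_sq hA2 x.2 y.2))⟩⟩ (hAP.subgroupOf hAC)
    refine ⟨(pPrimeCore 2 (centralizer ({a} : Set G))).map (centralizer ({a} : Set G)).subtype,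
      ?_, ?_, fun x hx h hh => ?_⟩
    · rw [card_map_of_injective (subtype_injective _)]
      exact Nat.coprime_two_right.1 (H1.coprime_card_pPrimeCore 2)
    · intro x hx
      apply mem_normalizer_of_finite
      rintro _ ⟨y, hy, rfl⟩
      exact ⟨_, Normal.conj_mem inferInstance y hy ⟨x, hx⟩, rfl⟩
    · obtain ⟨c, hc, h4⟩ := this ⟨x, hx⟩ ⟨h, hAC hh⟩ hh
      exact ⟨c, hc, _, h4, rfl⟩
  exact L1 H h1 h2 h3 A (fun h => ht1 (by simpa [h] using htA)) hAH

/-- If every conjugate of the abelian 2-group `H` lies in `H N` with `N` of odd order and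
`H`-invariant, then `H O(G)` is normal. -/
theorem XP.exists_mul_mem [Finite G] {H : Subgroup G} (h1 : IsPGroup 2 H)
    (h2 : IsMulCommutative H) (h3 : XP H) (g : G) :
    ∀ h ∈ H, ∃ c ∈ H, c * (g * h * g⁻¹) ∈ pPrimeCore 2 G :=
  xp_aux _ G rfl H h1 h2 h3 g

end H7
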