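import Cfsg.Agent.H7.GWA
import Cfsg.Agent.H8.GWQ3
import Cfsg.Agent.H18.Small

/-! Corollaries of the Gorenstein-Walter theorem. -/

set_option autoImplicit false
set_option linter.unusedSectionVars false

namespace GW
open Subgroup Cfsg H5

universe u

theorem min_of (H : Q8.GWH.{u}) {G : Type u} [Group G] [Finite G] [h : IsSimpleGroup G]
    (hG : ¬ IsMulCommutative G) (hd : Dih (⊤ : Subgroup G)) : Min G :=
  ⟨h, hG, hd, fun _ _ => Q8.dk_of_dih H (hd.mono le_top)⟩

theorem s3287 (H : Q8.GWH.{u}) {G : Type u} [Group G] [Finite G] [IsSimpleGroup G] (S : Sylow 2 G)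
    (m : ℕ) (eS : ↥(S : Subgroup G) ≃* DihedralGroup m) (t : G) (ht : orderOf t = 2)
    (K : Subgroup G) (hlt : Subgroup.centralizer ({t} : Set G) < K)
    (hK : Cfsg.generalizedFittingSubgroup ↥K = Cfsg.fittingSubgroup ↥K) :
    Nonempty (G ≃* ↥(alternatingGroup (Fin 5))) ∨ Nonempty (G ≃* ↥(alternatingGroup (Fin 7))) ∨
      (∃ (F : Type) (_ : Field F) (_ : Fintype F), Fintype.card F = 2 ∧
        Nonempty (G ≃* Matrix.ProjectiveSpecialLinearGroup (Fin 3) F)) ∨
      (∃ (F : Type) (_ : Field F) (_ : Fintype F), Fintype.card F = 9 ∧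
        Nonempty (G ≃* Matrix.ProjectiveSpecialLinearGroup (Fin 2) F)) := by
  have hG : ¬ IsMulCommutative G := fun h => hlt.not_ge fun g _ =>
    mem_centralizer_singleton_iff.2 (h.1.1 g t)
  have hM := min_of H hG (dih_of_sylow S eS)
  have hK' : K ≠ ⊤ := by
    rintro rfl
    have h1 : fstarOf (⊤ : Subgroup G) = fitOf ⊤ := congrArg (Subgroup.map (⊤ : Subgroup G).subtype) hK
    have hn : (fitOf (⊤ : Subgroup G)).Normal := by rw [← h1, fstarOf_top]; infer_instance
    rcases IsSimpleGroup.eq_bot_or_eq_top_of_normal _ hn with e | e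
    · exact top_ne_bot (eq_bot_of_fstarOf_eq_bot (h1.trans e))
    · have := isNilpotent_fitOf (⊤ : Subgroup G)
      rw [e] at this
      have := Group.nilpotent_of_surjective (topEquiv (G := G)).toMonoidHom topEquiv.surjective
      exact hG ⟨⟨IsSimpleGroup.comm_iff_isSolvable.2 inferInstance⟩⟩
  rcases hM.thmA ht fun hc => hK' (hc.2 K hlt) with h | h | ⟨F, _, _, h | h, ⟨e⟩⟩
  · exact Or.inl h
  · exact Or.inr (Or.inl h)
  · obtain ⟨e1⟩ := H18.psl_sl3 h
    obtain ⟨e2⟩ := H18.sl3_psl3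
    exact Or.inr (Or.inr (Or.inl ⟨ZMod 2, _, _, ZMod.card 2, ⟨e.trans (e1.trans e2)⟩⟩))
  · exact Or.inr (Or.inr (Or.inr ⟨F, _, _, h, ⟨e⟩⟩))

end GW
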