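import Cfsg.Agent.H7.SpP3

/-! Short presentations of `Ω⁺_{2n}(q)`: group theoretic preliminaries. -/

set_option autoImplicit false
set_option linter.unusedSectionVars false
set_option linter.unusedSimpArgs false

namespace H7.OP

open H24 H4 Finset Matrix Sum Equiv
open scoped commutatorElement MatrixGroups

variable {F : Type*} [Field F] {J : Type*} [Group J]

local notation "𝐜" => MulAut.conj

theorem cm_iff {g x : J} : Commute g x ↔ 𝐜 g x = x := by rw [MulAut.conj_apply, mul_inv_eq_iff_eq_mul]; rfl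

theorem q8 {p σ n δ : J} (h3 : σ * (σ * σ) = 1) (hn : n * σ * n = σ * σ) (c1 : Commute n p) (c2 : Commute δ p)
    (c3 : Commute n δ) (d2 : δ * δ = 1) (c4 : Commute (𝐜 σ δ) δ) (n2 : n * n = 𝐜 σ δ * 𝐜 σ (𝐜 σ δ))
    (R : p * 𝐜 σ (𝐜 σ p) = 𝐜 δ (𝐜 σ p)) :
    Commute σ (p * p) ∧ p * p * (p * p) = 1 ∧ (δ = 1 → p * p = 1) ∧ (p * p = 1 → Commute (𝐜 σ δ) p) := by
  have t3 : ∀ x, 𝐜 σ (𝐜 σ (𝐜 σ x)) = x := fun x => by rw [conj_conj, conj_conj, mul_assoc, h3]; simp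
  have dd : ∀ x, 𝐜 δ (𝐜 δ x) = x := fun x => by rw [conj_conj, d2]; simp
  have ns : 𝐜 n (𝐜 σ p) = 𝐜 σ (𝐜 σ p) := by
    rw [conj_conj, conj_conj, ← hn, ← conj_conj _ n, conj_of_commute c1]
  have a0 := conj_of_commute c2
  have a1 : 𝐜 (𝐜 σ δ) (𝐜 σ p) = 𝐜 σ p := by rw [← conj_conj', a0]
  have d1 : ∀ x, 𝐜 (𝐜 σ δ) (𝐜 (𝐜 σ δ) x) = x := fun x => by rw [conj_conj, ← map_mul, d2]; simp
  have b0 : 𝐜 (𝐜 σ (𝐜 σ δ)) p = 𝐜 (𝐜 σ δ) p := by
    rw [← d1 (𝐜 (𝐜 σ (𝐜 σ δ)) p), conj_conj _ _ p, ← n2, conj_of_commute (c1.mul_left c1)]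
  have b1 : 𝐜 (𝐜 σ (𝐜 σ δ)) (𝐜 σ p) = 𝐜 δ (𝐜 σ p) := by
    rw [← conj_conj', ← b0, conj_conj', t3]
  have b2 : 𝐜 (𝐜 σ δ) (𝐜 σ (𝐜 σ p)) = 𝐜 δ (𝐜 σ (𝐜 σ p)) := by
    rw [← conj_conj', ← b1, conj_conj' σ (𝐜 σ (𝐜 σ δ)), t3]
  have nr : 𝐜 n (𝐜 σ (𝐜 σ p)) = 𝐜 δ (𝐜 σ p) := by
    rw [← ns, conj_conj n n, n2, ← conj_conj (𝐜 σ δ), b1, conj_swap c4, a1]
  have R1 := congrArg (𝐜 σ) R
  rw [map_mul, t3, conj_conj' σ δ, b2] at R1
  have R2 := congrArg (𝐜 δ) R
  rw [map_mul, a0, dd] at R2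
  have R3 := congrArg (𝐜 δ) R1
  rw [map_mul, a0, dd] at R3
  have R4 := congrArg (𝐜 n) R2
  rw [map_mul, conj_of_commute c1, conj_swap c3, nr, dd, ns] at R4
  have e2 : p * (𝐜 σ p * p) = 𝐜 σ p := by rw [R1, R2]
  have e3 := congrArg (fun x => 𝐜 σ (𝐜 σ x)) e2
  simp only [map_mul (𝐜 σ), t3] at e3
  rw [← R] at R3
  have e4 : p * p = 𝐜 σ (𝐜 σ p) * 𝐜 σ (𝐜 σ p) := by
    generalize 𝐜 σ (𝐜 σ p) = r at e3 R3
    calc _ = p * (r * (p * r)) := by rw [e3]
      _ = p * r * p * r := by group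
      _ = _ := by rw [R3]
  refine ⟨cm_iff.2 ?_, ?_, fun h => ?_, fun h => cm_iff.2 ?_⟩
  · have := congrArg (𝐜 σ) e4
    rwa [map_mul (𝐜 σ) (𝐜 σ _), t3] at this
  · generalize 𝐜 σ (𝐜 σ p) = r at e4 R3
    refine mul_eq_left.1 (show r * _ = r from ?_)
    calc _ = r * r * r * (p * p) := by nth_rw 1 [e4]; group
      _ = p * (p * r * p) * p := by rw [← e4]; group
      _ = r := by rw [R3, R3]
  · rw [h, map_one, MulAut.one_apply] at R
    generalize 𝐜 σ (𝐜 σ p) = r at R R4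
    rwa [← R, ← mul_assoc, mul_eq_right] at R4
  · have : 𝐜 σ p * p = p * 𝐜 σ p := by
      conv_rhs => rw [← e2, ← mul_assoc, h, one_mul]
    rw [this, R4] at R1
    have := congrArg (𝐜 σ) R1
    rw [t3, conj_conj', t3] at this
    exact this.symm

theorem eq_top_of_dih {M : Type*} [Group M] (hM : commutator M = ⊤) {u v : M} (h : Subgroup.closure {u, v} = ⊤)
    (N : Subgroup M) [N.Normal] (hN : v * u * v⁻¹ * u ∈ N) : N = ⊤ := by
  let Z := Subgroup.zpowers u ⊔ N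
  have hZ : Z.Normal := by
    rw [← Subgroup.normalizer_eq_top_iff, eq_top_iff, ← h, Subgroup.closure_le]
    have k : ∀ g : M, g * u * g⁻¹ ∈ Z → g⁻¹ * u * g⁻¹⁻¹ ∈ Z → g ∈ Subgroup.normalizer (Z : Set M) := fun g h1 h2 => by
      have : ∀ g : M, g * u * g⁻¹ ∈ Z → ∀ x ∈ Z, g * x * g⁻¹ ∈ Z := fun g h1 =>
        show Z ≤ Z.comap (𝐜 g).toMonoidHom from sup_le (Subgroup.zpowers_le.2 h1) fun x hx =>
          Subgroup.mem_sup_right (‹N.Normal›.conj_mem x hx g)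
      exact Subgroup.mem_normalizer_iff.2 fun x => ⟨this g h1 x, fun hx => by simpa [mul_assoc] using this _ h2 _ hx⟩
    have hu : u ∈ Z := Subgroup.mem_sup_left (Subgroup.mem_zpowers u)
    rintro g (e | e) <;> rw [e]
    · exact k _ (by simpa using hu) (by simpa using hu)
    · refine k _ (by simpa using mul_mem (Subgroup.mem_sup_right hN : _ ∈ Z) (inv_mem hu)) ?_
      have := mul_mem (inv_mem hu) (Subgroup.mem_sup_right (‹N.Normal›.conj_mem _ hN v⁻¹) : _ ∈ Z)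
      simpa [mul_assoc] using this
  have k : ∀ (K : Subgroup M) [K.Normal] (g : M), Subgroup.zpowers g ⊔ K = ⊤ → K = ⊤ := fun K _ g hg => by
    have : IsCyclic (M ⧸ K) := ⟨⟨QuotientGroup.mk' K g, fun x => by
      have := congrArg (Subgroup.map (QuotientGroup.mk' K)) hg
      rw [Subgroup.map_sup, QuotientGroup.map_mk'_self, sup_bot_eq, MonoidHom.map_zpowers,
        Subgroup.map_top_of_surjective _ (QuotientGroup.mk'_surjective _)] at this
      exact this.ge (Subgroup.mem_top x)⟩⟩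
    exact top_unique (hM.ge.trans (Subgroup.Normal.quotient_commutative_iff_commutator_le.1 inferInstance))
  refine k N u (k Z v (top_unique (h.ge.trans ((Subgroup.closure_le _).2 ?_))))
  rintro _ (rfl | rfl)
  exacts [Subgroup.mem_sup_right (Subgroup.mem_sup_left (Subgroup.mem_zpowers _)),
    Subgroup.mem_sup_left (Subgroup.mem_zpowers _)]

theorem sl_gen2 [Fintype F] {n : ℕ} (hn : 2 ≤ n) : ∃ u v : SL(n, F), Subgroup.closure {u, v} = ⊤ := by
  by_cases h : n = 2 → 4 ≤ Fintype.card F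
  · obtain ⟨u, v, e⟩ := psl_two_gen (F := F) hn
    obtain ⟨u, rfl⟩ := QuotientGroup.mk_surjective u
    obtain ⟨v, rfl⟩ := QuotientGroup.mk_surjective v
    refine ⟨u, v, ?_⟩
    have h1 : ∀ g, ∃ x ∈ Subgroup.closure {u, v}, ∃ z ∈ Subgroup.center SL(n, F), g = x * z := fun g => by
      have : (QuotientGroup.mk' _ g : _ ⧸ Subgroup.center SL(n, F)) ∈ (Subgroup.closure {u, v}).map (QuotientGroup.mk' _) := by
        rw [MonoidHom.map_closure, Set.image_pair]; exact e.ge (Subgroup.mem_top _)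
      obtain ⟨x, hx, e'⟩ := this
      exact ⟨x, hx, _, QuotientGroup.eq.1 e', by group⟩
    refine top_unique ((H22.commutator_SL_fin_eq_top n h).ge.trans (Subgroup.commutator_le.2 fun g _ g' _ => ?_))
    obtain ⟨x, hx, z, hz, rfl⟩ := h1 g
    obtain ⟨x', hx', z', hz', rfl⟩ := h1 g'
    have : ⁅x * z, x' * z'⁆ = ⁅x, x'⁆ := by
      have a := Subgroup.mem_center_iff.1 hz
      have b := Subgroup.mem_center_iff.1 hz'
      calc _ = x * (z * (x' * z') * z⁻¹) * x⁻¹ * z'⁻¹ * x'⁻¹ := by rw [commutatorElement_def]; group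
        _ = x * x' * (z' * x⁻¹ * z'⁻¹) * x'⁻¹ := by rw [← a]; group
        _ = _ := by rw [← b, commutatorElement_def]; group
    rw [this]
    exact mul_mem (mul_mem (mul_mem hx hx') (inv_mem hx)) (inv_mem hx')
  · push Not at h
    obtain ⟨rfl, h⟩ := h
    have : ∀ {K : Subgroup SL(2, F)} {x : F → SL(2, F)}, (∀ s t, x (s + t) = x s * x t) → x 1 ∈ K → ∀ t, x t ∈ K := by
      intro K x ha h1 t
      have h0 : x 0 = 1 := by simpa using ha 0 0
      by_cases e0 : t = 0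
      · rw [e0, h0]; exact one_mem _
      have : t ^ 2 = 1 := by
        have h2 := FiniteField.pow_card_sub_one_eq_one t e0
        have := Fintype.one_lt_card (α := F)
        obtain e | e : Fintype.card F - 1 = 1 ∨ Fintype.card F - 1 = 2 := by omega
        · rw [e, pow_one] at h2; rw [h2, one_pow]
        · rwa [e] at h2
      rcases sq_eq_one_iff.1 this with rfl | rfl
      · exact h1
      · rw [eq_inv_of_mul_eq_one_left (by rw [← ha, neg_add_cancel, h0] : x (-1) * x 1 = 1)]; exact inv_mem h1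
    exact ⟨upT 1, loT 1, sl2_eq_top_of_upT_loT (this upT_add (Subgroup.subset_closure (by simp)))
      (this loT_add (Subgroup.subset_closure (by simp)))⟩

variable {κ : Type*} [Fintype κ] [DecidableEq κ]

theorem cmem {K : Subgroup J} {x y : J} (h : x ∈ K) (h' : y ∈ K) : ⁅x, y⁆ ∈ K :=
  mul_mem (mul_mem (mul_mem h h') (inv_mem h)) (inv_mem h')

theorem hub {K : Subgroup (SpecialLinearGroup κ F)} (d : κ) (h : ∀ x, x ≠ d → ∀ t, tv x d t ∈ K ∧ tv d x t ∈ K) : K = ⊤ :=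
  eq_top_of_tv fun x y e t => by
    by_cases h1 : x = d
    · subst h1; exact (h y e.symm t).2
    by_cases h2 : y = d
    · subst h2; exact (h x e t).1
    rw [← mul_one t, ← tv_comm h1 (Ne.symm h2) e]
    exact cmem (h x h1 t).1 (h y h2 1).2

theorem hS_eq {x y : κ} (h : x ≠ y) (z : Fˣ) : hS z x y * nS F x y = tv x y (z : F) * tv y x (-(z : F)⁻¹) * tv x y (z : F) :=
  slM_inj (by
    ext i j
    have := h.symm
    rw [map_mul, coe_hS, diagonal_mul, coe_nS h, coe_n h z.ne_zero]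
    split_ifs with h1 h2 h3 <;> simp_all [dz, sg, swap_apply_def])

theorem nS_mem {K : Subgroup (SpecialLinearGroup κ F)} {x y : κ} (h : ∀ t, tv x y t ∈ K ∧ tv y x t ∈ K) : nS F x y ∈ K :=
  mul_mem (mul_mem (h _).1 (h _).2) (h _).1

theorem hS_mem {K : Subgroup (SpecialLinearGroup κ F)} {x y : κ} (e : x ≠ y) (h : ∀ t, tv x y t ∈ K ∧ tv y x t ∈ K)
    (z : Fˣ) : hS z x y ∈ K := by
  rw [eq_mul_inv_of_mul_eq (hS_eq e z)]
  exact mul_mem (mul_mem (mul_mem (h _).1 (h _).2) (h _).1) (inv_mem (nS_mem h))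

theorem hS_inv (z : Fˣ) (x y : κ) : (hS z x y)⁻¹ = hS z y x := inv_eq_of_mul_eq_one_right (by rw [hS_mul, hS_self])

theorem hS_symm (x y : κ) : hS (-1 : Fˣ) x y = hS (-1) y x := by rw [← hS_inv, inv_eq_of_mul_eq_one_right (hS_sq _ _)]

variable (F) in
/-- the 3-cycle `a ↦ c ↦ b ↦ a` -/
def sig {a b c : κ} (ab : a ≠ b) (ca : c ≠ a) : SpecialLinearGroup κ F := pmS F ⟨c3 a b c, sign_c3 ab ca⟩

section
variable {a b c : κ} (ab : a ≠ b) (ca : c ≠ a) (cb : c ≠ b)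
include ab ca cb

theorem c3_val : c3 a b c a = c ∧ c3 a b c c = b ∧ c3 a b c b = a ∧ ∀ x, x ≠ a → x ≠ b → x ≠ c → c3 a b c x = x := by
  refine ⟨?_, ?_, ?_, fun x h1 h2 h3 => ?_⟩ <;> simp [c3, swap_apply_def, *, ab.symm, cb.symm, ca.symm]

theorem sig_eq : sig F ab ca = nS F a b * nS F c a := by
  rw [sig, pmS_c3 ab ca cb _ rfl, nS, nS, tv_neg ab.symm, tv_neg ca.symm]

theorem sig_rot : sig F ab ca = sig F ca cb.symm := congrArg (pmS F) (Subtype.ext (by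
  ext x
  simp only [c3, Perm.mul_apply, swap_apply_def]
  split_ifs <;> simp_all))

theorem sig_cube : sig F ab ca * (sig F ab ca * sig F ab ca) = 1 := by
  rw [sig, ← map_mul, ← map_mul, ← map_one (pmS F)]
  refine congrArg _ (Subtype.ext (Equiv.ext fun x => ?_))
  obtain ⟨h1, h2, h3, h4⟩ := c3_val ab ca cb
  change c3 a b c (c3 a b c (c3 a b c x)) = x
  by_cases e1 : x = a
  · rw [e1, h1, h2, h3]
  by_cases e2 : x = b
  · rw [e2, h3, h1, h2]
  by_cases e3 : x = c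
  · rw [e3, h2, h3, h1]
  simp only [h4 x e1 e2 e3]

theorem sig_n : nS F a b * sig F ab ca * nS F a b = sig F ab ca * sig F ab ca := by
  have e1 := sig_eq (F := F) ab ca cb
  have e2 := (sig_rot (F := F) ab ca cb).trans (sig_eq ca cb.symm ab.symm)
  have e3 := ((sig_rot (F := F) ab ca cb).trans (sig_rot ca cb.symm ab.symm)).trans (sig_eq cb.symm ab ca.symm)
  conv_lhs => rw [e2]
  nth_rw 2 [e3]
  rw [e1]; group

end

end H7.OP
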