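import Cfsg.Agent.H7.OP1

/-! Short presentations of `Ω⁺_{2n}(q)`: consequences of the relations. -/

set_option autoImplicit false
set_option linter.unusedSectionVars false
set_option linter.unusedSimpArgs false

namespace H7.OP

open H24 H4 Finset Matrix Sum Equiv
open scoped commutatorElement MatrixGroups

variable {F : Type*} [Field F] {J : Type*} [Group J] {κ : Type*} [Fintype κ] [DecidableEq κ]

local notation "𝐜" => MulAut.conj

theorem itr_hS' (l : Fˣ) (x y : κ) : itr (hS l x y) = hS l y x :=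
  slM_inj (by rw [coe_itr, hS_inv, coe_hS, diagonal_transpose])

theorem itr_nS {x y : κ} (h : x ≠ y) : itr (nS F x y) = nS F x y := by
  have e : (nS F x y)⁻¹ = hS (-1) x y * nS F x y := by
    rw [inv_eq_iff_mul_eq_one, ← nS_sq h, ← mul_assoc, ← mul_assoc, mul_assoc (_ * _), nS_sq h, hS_sq]
  refine slM_inj ?_
  ext i j
  have := h.symm
  rw [coe_itr, transpose_apply, e, map_mul, coe_hS, diagonal_mul, coe_nS h, coe_nS h]
  by_cases h1 : i = swap x y j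
  · subst h1
    by_cases h2 : j = x
    · simp [h2, dz, sg, *]
    by_cases h3 : j = y <;> simp [h3, dz, sg, swap_apply_of_ne_of_ne, *]
  · rw [if_neg h1, if_neg (by rintro rfl; simp at h1), mul_zero]

theorem tv_pow {x y : κ} (h : x ≠ y) (k : ℕ) : tv x y (1 : F) ^ k = tv x y (k : F) := by
  induction k with
  | zero => simp [tv_zero]
  | succ k ih => rw [pow_succ, ih, ← tv_add h]; simp

/-- commutation of the two copies of `SL_n` -/
def CM (ψ : SpecialLinearGroup κ F →* J) (w : J) (g g' : SpecialLinearGroup κ F) : Prop := Commute (ψ g) (𝐜 w (ψ g'))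

/-- the commutation relations needed for the Curtis–Tits theorem -/
def A8 (ψ : SpecialLinearGroup κ F →* J) (w : J) (a b c d : κ) : Prop := ∀ s t : F,
  (CM ψ w (tv a c s) (tv d b t) ∧ CM ψ w (tv a c s) (tv b d t) ∧ CM ψ w (tv c a s) (tv d b t) ∧
    CM ψ w (tv c a s) (tv b d t)) ∧ CM ψ w (tv d b s) (tv d b t) ∧ CM ψ w (tv d b s) (tv b d t) ∧
    CM ψ w (tv b d s) (tv d b t) ∧ CM ψ w (tv b d s) (tv b d t)

structure Base (ψ : SpecialLinearGroup κ F →* J) (w : J) (a b c d : κ) : Prop where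
  ab : a ≠ b
  ca : c ≠ a
  cb : c ≠ b
  da : d ≠ a
  db : d ≠ b
  cd : c ≠ d
  h1 : ∀ x y, x ≠ a → x ≠ b → y ≠ a → y ≠ b → x ≠ y → ∀ t, Commute (ψ (tv x y t)) w
  hn : Commute (ψ (nS F a b)) w
  hh : ∀ l : Fˣ, 𝐜 w (ψ (hS l b a)) = ψ (hS l a b)
  r0 : w * 𝐜 (ψ (sig F ab ca)) (𝐜 (ψ (sig F ab ca)) w) = 𝐜 (ψ (hS (-1) c d)) (𝐜 (ψ (sig F ab ca)) w)

variable {ψ : SpecialLinearGroup κ F →* J} {w : J} {a b c d : κ}

theorem mem_C {y : J} {g : SpecialLinearGroup κ F} : g ∈ (Subgroup.centralizer {y}).comap ψ ↔ Commute (ψ g) y :=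
  Subgroup.mem_centralizer_singleton_iff

theorem CM.conj {g g' m m' : SpecialLinearGroup κ F} (h : CM ψ w g g') (e : 𝐜 w (ψ m') = ψ m) :
    CM ψ w (m * g * m⁻¹) (m' * g' * m'⁻¹) := by
  have := h.map (𝐜 (ψ m))
  nth_rw 2 [← e] at this
  rw [← conj_conj'] at this
  rw [CM, map_mul ψ, map_mul ψ, map_inv ψ, map_mul ψ, map_mul ψ, map_inv ψ]
  exact this

theorem CM.of {g g' : SpecialLinearGroup κ F} (h : Commute (ψ g) w) (e : Commute g g') : CM ψ w g g' := by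
  have := (e.map ψ).map (𝐜 w)
  rwa [conj_of_commute h.symm] at this

theorem hI (h1 : ∀ t, Commute (ψ (tv c d t)) w ∧ Commute (ψ (tv d c t)) w) (cd : c ≠ d) :
    Commute (ψ (nS F c d)) w ∧ ∀ l : Fˣ, Commute (ψ (hS l c d)) w :=
  ⟨mem_C.1 (nS_mem fun t => ⟨mem_C.2 (h1 t).1, mem_C.2 (h1 t).2⟩),
    fun l => mem_C.1 (hS_mem cd (fun t => ⟨mem_C.2 (h1 t).1, mem_C.2 (h1 t).2⟩) l)⟩

namespace Base
variable (B : Base ψ w a b c d)
include B

theorem hcd : Commute (ψ (nS F c d)) w ∧ ∀ l : Fˣ, Commute (ψ (hS l c d)) w :=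
  hI (fun t => ⟨B.h1 _ _ B.ca B.cb B.da B.db B.cd t, B.h1 _ _ B.da B.db B.ca B.cb B.cd.symm t⟩) B.cd

theorem q : Commute (ψ (sig F B.ab B.ca)) (w * w) ∧ w * w * (w * w) = 1 ∧ ((-1 : Fˣ) = 1 → w * w = 1) ∧
    (w * w = 1 → Commute (ψ (hS (-1) b d)) w) := by
  obtain ⟨v1, v2, v3, v4⟩ := c3_val B.ab B.ca B.cb
  have v5 := v4 d B.da B.db B.cd.symm
  have e1 : 𝐜 (ψ (sig F B.ab B.ca)) (ψ (hS (-1) c d)) = ψ (hS (-1) b d) := by
    rw [← map_cj, MulAut.conj_apply, sig, pmS_hS, v2, v5]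
  have e2 : 𝐜 (ψ (sig F B.ab B.ca)) (ψ (hS (-1) b d)) = ψ (hS (-1) a d) := by
    rw [← map_cj, MulAut.conj_apply, sig, pmS_hS, v3, v5]
  have := q8 (by rw [← map_mul, ← map_mul, sig_cube _ _ B.cb, map_one])
    (by rw [← map_mul, ← map_mul, sig_n _ _ B.cb, map_mul]) B.hn (B.hcd.2 (-1))
    (Commute.map (cm_iff.2 (by
      rw [MulAut.conj_apply, nS_hS B.ab, swap_apply_of_ne_of_ne B.ca B.cb, swap_apply_of_ne_of_ne B.da B.db])) ψ)
    (by rw [← map_mul, hS_sq, map_one]) (by rw [e1]; exact (hS_commute _ _ _ _ _).map ψ)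
    (by rw [e1, e2, ← map_mul, ← map_mul, nS_sq B.ab, hS_symm a d, hS_mul, hS_symm]) B.r0
  rw [e1] at this
  exact ⟨this.1, this.2.1, fun h => this.2.2.1 (by
    rw [h, show hS (1 : Fˣ) c d = 1 from slM_inj (by simp [coe_hS, dz]), map_one]), this.2.2.2⟩

theorem zc (g : SpecialLinearGroup κ F) : Commute (ψ g) (w * w) := by
  obtain ⟨v1, v2, v3, v4⟩ := c3_val B.ab B.ca B.cb
  have v5 := v4 d B.da B.db B.cd.symm
  have k : ∀ x y, x ≠ a → x ≠ b → y ≠ a → y ≠ b → x ≠ y → ∀ t, tv x y t ∈ (Subgroup.centralizer {w * w}).comap ψ :=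
    fun x y h1 h2 h3 h4 h5 t => mem_C.2 ((B.h1 x y h1 h2 h3 h4 h5 t).mul_right (B.h1 x y h1 h2 h3 h4 h5 t))
  have k1 : ∀ x y, x ≠ y → ∀ t, tv x y t ∈ (Subgroup.centralizer {w * w}).comap ψ →
      tv (c3 a b c x) (c3 a b c y) t ∈ (Subgroup.centralizer {w * w}).comap ψ := fun x y h t H => by
    have := mul_mem (mul_mem (mem_C.2 B.q.1) H) (inv_mem (mem_C.2 B.q.1))
    rwa [sig, pmS_conj _ h] at this
  have k2 := fun t => k1 _ _ B.cd t (k _ _ B.ca B.cb B.da B.db B.cd t)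
  have k3 := fun t => k1 _ _ B.cd.symm t (k _ _ B.da B.db B.ca B.cb B.cd.symm t)
  rw [v2, v5] at k2 k3
  refine mem_C.1 ((hub d fun x hx t => ?_).ge (Subgroup.mem_top g))
  by_cases h1 : x = a
  · have k4 := k1 _ _ B.db.symm t (k2 t)
    have k5 := k1 _ _ B.db t (k3 t)
    rw [v3, v5] at k4 k5
    exact h1 ▸ ⟨k4, k5⟩
  by_cases h2 : x = b
  · exact h2 ▸ ⟨k2 t, k3 t⟩
  exact ⟨k _ _ h1 h2 B.da B.db hx t, k _ _ B.da B.db h1 h2 (Ne.symm hx) t⟩

theorem kill [Finite F] {x : SpecialLinearGroup κ F} (hx : ∀ k : ℕ, (k : F) = 0 → x ^ k = 1) {y : J}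
    (h : ⁅ψ x, y⁆ = w * w) : w * w = 1 := by
  obtain ⟨p, hp⟩ := CharP.exists F
  rcases (CharP.char_is_prime F p).eq_two_or_odd' with rfl | ⟨k, hk⟩
  · exact B.q.2.2.1 (Units.ext (CharTwo.neg_eq 1))
  have e : ∀ k : ℕ, 𝐜 (ψ x ^ k) y = (w * w) ^ k * y := fun k => by
    induction k with
    | zero => simp
    | succ k ih =>
      rw [pow_succ', ← conj_conj, ih, map_mul, conj_of_commute ((B.zc x).pow_right k), pow_succ, mul_assoc, ← h,
        commutatorElement_def, inv_mul_cancel_right]; rfl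
  have := e p
  rwa [← map_pow, hx p (CharP.cast_eq_zero F p), map_one, map_one, MulAut.one_apply, right_eq_mul, hk, pow_succ, pow_mul,
    _root_.sq, B.q.2.1, one_pow, one_mul] at this

theorem swap {g g' : SpecialLinearGroup κ F} (h : CM ψ w g g') : CM ψ w g' g := by
  have := h.map (𝐜 w)
  rw [conj_conj, conj_of_commute (B.zc _).symm] at this
  exact this.symm

theorem bi [Finite F] {e f g k : κ} (ef : e ≠ f) (gk : g ≠ k) (h : CM ψ w (tv e f 1) (tv g k 1))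
    (h1 : ∀ z : Fˣ, ∃ l m : Fˣ, wz l a b e f * wz m c d e f = z ^ 2 ∧ wz l b a g k * wz m c d g k = 1)
    (h2 : ∀ z : Fˣ, ∃ m : Fˣ, wz m c d g k = z) (s t : F) : CM ψ w (tv e f s) (tv g k t) := by
  obtain ⟨z, hz⟩ := IsCyclic.exists_generator (α := Fˣ)
  have sc : ∀ (l m : Fˣ) {s t}, CM ψ w (tv e f s) (tv g k t) →
      CM ψ w (tv e f ((wz l a b e f * wz m c d e f : Fˣ) * s)) (tv g k ((wz l b a g k * wz m c d g k : Fˣ) * t)) :=
    fun l m s t H => by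
      have := (H.conj (conj_of_commute (B.hcd.2 m).symm)).conj (B.hh l)
      rwa [hS_conj _ _ _ ef, hS_conj _ _ _ ef, hS_conj _ _ _ gk, hS_conj _ _ _ gk, ← mul_assoc, ← mul_assoc,
        ← Units.val_mul, ← Units.val_mul] at this
  have k1 : ∀ s, CM ψ w (tv e f s) (tv g k 1) := aeval_ind (exists_aeval_sq hz) h (fun s t h1 h2 => by
    rw [CM, tv_add ef, map_mul]; exact h1.mul_left h2) fun s H => by
      obtain ⟨l, m, e1, e2⟩ := h1 z
      have := sc l m H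
      rwa [e1, e2, Units.val_one, one_mul, Units.val_pow_eq_pow_val] at this
  by_cases ht : t = 0
  · rw [ht, tv_zero, CM, map_one, map_one]; exact Commute.one_right _
  obtain ⟨m, e1⟩ := h2 (Units.mk0 t ht)
  have := sc 1 m (k1 ((wz 1 a b e f * wz m c d e f : Fˣ)⁻¹ * s))
  rwa [Units.mul_inv_cancel_left, e1, show wz (1 : Fˣ) b a g k = 1 by simp [wz, dz], one_mul, mul_one] at this

theorem five [Finite F] {k : κ} (ka : k ≠ a) (kb : k ≠ b) (kc : k ≠ c) (kd : k ≠ d)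
    (K1 : ⁅ψ (tv a c 1 * tv b d 1), 𝐜 w (ψ (tv d b 1))⁆ = w * w) (K2 : CM ψ w (tv a c 1 * tv b d 1) (tv b d 1))
    (K3 : CM ψ w (tv c a 1 * tv d b 1) (tv d b 1)) : w * w = 1 ∧ A8 ψ w a b c d := by
  obtain ⟨ab, ca, cb, da, db, cd, h1, -⟩ := id B
  have ba := ab.symm
  have ac := ca.symm
  have bc := cb.symm
  have ad := da.symm
  have bd := db.symm
  have dc := cd.symm
  have ww : w * w = 1 := B.kill (fun n hn => by
    rw [(tv_commute ac bd cb ad 1 1).mul_pow, tv_pow ac, tv_pow bd, hn, tv_zero, tv_zero, mul_one]) K1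
  rw [ww, commutatorElement_eq_one_iff_commute] at K1
  have k1 : ∀ {g}, (∀ t, Commute (tv c k t) g ∧ Commute (tv k c t) g) → ∀ t, CM ψ w (tv c k t) g ∧ CM ψ w (tv k c t) g :=
    fun H t => ⟨.of (h1 _ _ ca cb ka kb kc.symm t) (H t).1, .of (h1 _ _ ka kb ca cb kc t) (H t).2⟩
  have x1 : ∀ {g}, (∀ t, Commute (tv c k t) g ∧ Commute (tv k c t) g) → CM ψ w (tv a c 1 * tv b d 1) g →
      CM ψ w (tv a c 1) g ∧ CM ψ w (tv b d 1) g := fun {g} H H' => by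
    have e1 := cmem (mem_C.2 H') (mem_C.2 (k1 H 1).1)
    rw [commutatorElement_mul_left_eq_conj_mul, commutatorElement_eq_one_iff_commute.2 (tv_commute bd kc.symm dc kb.symm 1 1),
      mul_one, mul_inv_cancel, one_mul, tv_comm ac kc.symm ka.symm] at e1
    have e2 := cmem e1 (mem_C.2 (k1 H 1).2)
    rw [tv_comm ka.symm kc ac, mul_one, mul_one] at e2
    exact ⟨mem_C.1 e2, mem_C.1 (by simpa using mul_mem (inv_mem e2) (mem_C.2 H'))⟩
  have x2 : ∀ {g}, (∀ t, Commute (tv c k t) g ∧ Commute (tv k c t) g) → CM ψ w (tv c a 1 * tv d b 1) g →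
      CM ψ w (tv c a 1) g ∧ CM ψ w (tv d b 1) g := fun {g} H H' => by
    have e1 := cmem (mem_C.2 (k1 H 1).2) (mem_C.2 H')
    rw [commutatorElement_mul_right_eq_mul_conj, commutatorElement_eq_one_iff_commute.2 (tv_commute kc db cd kb 1 1),
      mul_one, mul_assoc, mul_inv_cancel, mul_one, tv_comm kc ca ka] at e1
    have e2 := cmem (mem_C.2 (k1 H 1).1) e1
    rw [tv_comm kc.symm ka ca, mul_one, mul_one] at e2
    exact ⟨mem_C.1 e2, mem_C.1 (by simpa using mul_mem (inv_mem e2) (mem_C.2 H'))⟩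
  have y1 : ∀ t : F, Commute (tv c k t) (tv d b 1) ∧ Commute (tv k c t) (tv d b 1) :=
    fun t => ⟨tv_commute kc.symm db kd cb _ _, tv_commute kc db cd kb _ _⟩
  obtain ⟨p1, p2⟩ := x1 y1 K1
  obtain ⟨p3, p4⟩ := x1 (fun t => ⟨tv_commute kc.symm bd kb cd _ _, tv_commute kc bd cb kd _ _⟩) K2
  obtain ⟨p5, p6⟩ := x2 y1 K3
  have q1 := B.bi ac db p1 (fun z => ⟨z, z⁻¹, by simp [wz, dz, _root_.sq, *]⟩) fun z => ⟨z⁻¹, by simp [wz, dz, *]⟩
  have q2 := B.bi bd db p2 (fun z => ⟨z⁻¹, z, by simp [wz, dz, _root_.sq, *]⟩) fun z => ⟨z⁻¹, by simp [wz, dz, *]⟩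
  have q3 := B.bi ac bd p3 (fun z => ⟨z, z⁻¹, by simp [wz, dz, _root_.sq, *]⟩) fun z => ⟨z, by simp [wz, dz, *]⟩
  have q4 := B.bi bd bd p4 (fun z => ⟨z⁻¹, z, by simp [wz, dz, _root_.sq, *]⟩) fun z => ⟨z, by simp [wz, dz, *]⟩
  have q5 := B.bi ca db p5 (fun z => ⟨z⁻¹, z, by simp [wz, dz, _root_.sq, *]⟩) fun z => ⟨z⁻¹, by simp [wz, dz, *]⟩
  have q6 := B.bi db db p6 (fun z => ⟨z, z⁻¹, by simp [wz, dz, _root_.sq, *]⟩) fun z => ⟨z⁻¹, by simp [wz, dz, *]⟩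
  refine ⟨ww, fun s t => ⟨⟨q1 s t, q3 s t, q5 s t, ?_⟩, q6 s t, B.swap (q2 t s), q2 s t, q4 s t⟩⟩
  have := ((B.swap (q1 t s)).conj (conj_of_commute B.hn.symm)).conj (conj_of_commute B.hcd.1.symm)
  rw [nS_conj ab db, nS_conj ab ac, swap_apply_of_ne_of_ne da db, swap_apply_of_ne_of_ne ca cb, swap_apply_left,
    swap_apply_right, nS_conj cd da, nS_conj cd bc, swap_apply_of_ne_of_ne ac ad, swap_apply_of_ne_of_ne bc bd,
    swap_apply_left, swap_apply_right] at this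
  simpa [sg, *] using this

theorem four [Finite F] {π : alternatingGroup κ} (hπ : π.1 a = c ∧ π.1 c = a ∧ π.1 b = d ∧ π.1 d = b)
    (H : ∀ g, 𝐜 (w * 𝐜 (ψ (pmS F π)) w) (ψ g) = ψ (itr g))
    (K1 : ⁅ψ (tv a c 1), 𝐜 w (ψ (tv b d 1))⁆ = w * w) (K2 : CM ψ w (tv b d 1) (tv b d 1)) :
    w * w = 1 ∧ A8 ψ w a b c d := by
  obtain ⟨ab, ca, cb, da, db, cd, h1, -⟩ := id B
  have ba := ab.symm
  have ac := ca.symm
  have bc := cb.symm
  have ad := da.symm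
  have bd := db.symm
  have dc := cd.symm
  have ww : w * w = 1 := B.kill (fun n hn => by rw [tv_pow ac, hn, tv_zero]) K1
  rw [ww, commutatorElement_eq_one_iff_commute] at K1
  have q3 := B.bi ac bd K1 (fun z => ⟨z, z⁻¹, by simp [wz, dz, _root_.sq, *]⟩) fun z => ⟨z, by simp [wz, dz, *]⟩
  have q4 := B.bi bd bd K2 (fun z => ⟨z⁻¹, z, by simp [wz, dz, _root_.sq, *]⟩) fun z => ⟨z, by simp [wz, dz, *]⟩
  have mv : ∀ {e f g k : κ}, e ≠ f → g ≠ k → (∀ s t, CM ψ w (tv e f s) (tv g k t)) →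
      ∀ s t, CM ψ w (tv (π.1 k) (π.1 g) s) (tv (π.1 e) (π.1 f) t) := fun {e f g k} ef gk h s t => by
    have := (h t (-s)).map (𝐜 (ψ (pmS F π)))
    rw [conj_conj' _ w, ← map_cj, ← map_cj, MulAut.conj_apply (pmS F π), MulAut.conj_apply (pmS F π), pmS_conj _ ef,
      pmS_conj _ gk] at this
    have e := (this.map (𝐜 w)).symm
    rwa [conj_conj w (𝐜 _ _), H, itr_tv (π.1.injective.ne gk), neg_neg] at e
  obtain ⟨π1, π2, π3, π4⟩ := hπ
  have q5 := mv ac bd q3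
  have q6 := mv bd ac fun s t => B.swap (q3 t s)
  have q7 := mv bd bd q4
  rw [π1, π2, π3, π4] at q5 q6
  rw [π3, π4] at q7
  have q8 := mv bd ca q5
  have q9 := mv bd db q7
  rw [π1, π2, π3, π4] at q8
  rw [π3, π4] at q9
  exact ⟨ww, fun s t => ⟨⟨q6 s t, q3 s t, q8 s t, B.swap (q5 t s)⟩, q9 s t, B.swap (q7 t s), q7 s t, q4 s t⟩⟩

end Base

end H7.OP
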