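import Cfsg.Agent.H7.OP2

/-! Short presentations of `Ω⁺_{2n}(q)`: the matrix model and the Curtis–Tits theorem. -/

set_option autoImplicit false
set_option linter.unusedSectionVars false
set_option linter.unusedSimpArgs false

namespace H7.OP

open H24 H4 Finset Matrix Sum Equiv
open scoped commutatorElement MatrixGroups

variable {F : Type*} [Field F] {J : Type*} [Group J] {n m : ℕ}

local notation "𝐜" => MulAut.conj

theorem bl_tv' {x y : Fin n} (h : x ≠ y) (t : F) : bl F n (tv x y t) = tv (inl x) (inl y) t * tv (inr y) (inr x) (-t) := by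
  rw [bl, MonoidHom.comp_apply, MonoidHom.prod_apply, itr_tv h, ← Prod.fst_mul_snd (_, _), map_mul,
    MonoidHom.id_apply, blk_tv _ h, blk_tv' _ h.symm]
  rfl

theorem cj_bl (τ : alternatingGroup (JJ n)) {x y : Fin n} (h : x ≠ y) (t : F) : 𝐜 (pmS F τ) (bl F n (tv x y t)) =
    tv (τ.1 (inl x)) (τ.1 (inl y)) t * tv (τ.1 (inr y)) (τ.1 (inr x)) (-t) := by
  rw [bl_tv' h, map_mul, MulAut.conj_apply, MulAut.conj_apply, pmS_conj _ (by simpa), pmS_conj _ (by simpa using h.symm)]

theorem sw_bl (τ : alternatingGroup (JJ n)) {x y : Fin n} (h : x ≠ y) (hx : ∀ p, ix p = x ∨ ix p = y → τ.1 p = p.swap)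
    (t : F) : 𝐜 (pmS F τ) (bl F n (tv x y t)) = bl F n (itr (tv x y t)) := by
  rw [cj_bl τ h, itr_tv h, bl_tv' h.symm, neg_neg, hx (inl x) (.inl rfl), hx (inl y) (.inr rfl),
    hx (inr x) (.inl rfl), hx (inr y) (.inr rfl)]
  exact tv_commute (by simpa) (by simpa using h.symm) (by simp) (by simp) _ _

/-- the sign change on two coordinates -/
def tau {x y : Fin n} : alternatingGroup (JJ n) := ⟨swap (inl x) (inr x) * swap (inl y) (inr y), by simp⟩

theorem tau_eq {x y : Fin n} (h : x ≠ y) (p : JJ n) :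
    (tau (x := x) (y := y)).1 p = if ix p = x ∨ ix p = y then p.swap else p := by
  have := h.symm
  rcases p with p | p <;> simp only [tau, Perm.mul_apply, swap_apply_def, ix_inl, ix_inr] <;> split_ifs <;> simp_all

/-- a permutation acting on both halves -/
def db (σ : alternatingGroup (Fin n)) : alternatingGroup (JJ n) := ⟨Perm.sumCongr σ.1 σ.1, by simp⟩

theorem bl_pmS (σ : alternatingGroup (Fin n)) : bl F n (pmS F σ) = pmS F (db σ) := by
  have : itr (pmS F σ) = pmS F σ := slM_inj (by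
    ext i j
    rw [coe_itr, ← map_inv, transpose_apply, coe_pmS, coe_pmS]
    simp [Equiv.eq_symm_apply, eq_comm (a := i)])
  refine slM_inj ?_
  rw [bl, MonoidHom.comp_apply, MonoidHom.prod_apply, this, coe_blk]
  ext (i | i) (j | j) <;> simp [coe_pmS, db]

theorem cj_tau (σ : alternatingGroup (Fin n)) (x y : Fin n) :
    𝐜 (bl F n (pmS F σ)) (pmS F (tau (x := x) (y := y))) = pmS F (tau (x := σ.1 x) (y := σ.1 y)) := by
  rw [bl_pmS, ← map_cj]
  refine congrArg _ (Subtype.ext ?_)
  change (db σ).1 * (Equiv.swap _ _ * Equiv.swap _ _) * (db σ).1⁻¹ = _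
  rw [← conj_mul, ← swap_apply_apply, ← swap_apply_apply]; rfl

theorem bl_hS (τ : alternatingGroup (JJ n)) (hτ : ∀ p, ix (τ.1 p) = ix p) (x y : Fin n) :
    Commute (bl F n (hS (-1) x y)) (pmS F τ) := by
  have : slM _ F (bl F n (hS (-1) x y)) = diagonal fun p => ((dz (-1) x (ix p) / dz (-1) y (ix p) : Fˣ) : F) := by
    rw [bl, MonoidHom.comp_apply, MonoidHom.prod_apply, itr_hS, coe_blk, MonoidHom.id_apply, coe_hS]
    ext (i | i) (j | j) <;> simp [diagonal_apply]
  refine slM_inj ?_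
  ext i j
  rw [map_mul, map_mul, this, diagonal_mul, mul_diagonal, coe_pmS]
  split_ifs with h
  · rw [h, hτ, mul_comm]
  · simp

section
variable {a b c d : Fin n} (ab : a ≠ b) (ca : c ≠ a) (cb : c ≠ b) (da : d ≠ a) (db : d ≠ b) (cd : c ≠ d)

local notation "w0" => pmS F (tau (x := a) (y := b))

include ab in
theorem w0_sq : w0 * w0 = 1 := by
  rw [← map_mul, ← map_one (pmS F)]
  refine congrArg _ (Subtype.ext (Equiv.ext fun p => ?_))
  change tau.1 (tau.1 p) = p
  rw [tau_eq ab p]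
  split_ifs with h <;> simp [tau_eq ab, h]

include ab ca cb da db cd

theorem base_model : Base (bl F n) w0 a b c d := by
  have k : ∀ t, tv a b t ∈ ((𝐜 w0).toMonoidHom.comp (bl F n)).eqLocus ((bl F n).comp itr) ∧
      tv b a t ∈ ((𝐜 w0).toMonoidHom.comp (bl F n)).eqLocus ((bl F n).comp itr) := fun t =>
    ⟨sw_bl _ ab (fun p hp => by rw [tau_eq ab, if_pos hp]) t,
      sw_bl _ ab.symm (fun p hp => by rw [tau_eq ab, if_pos hp.symm]) t⟩
  obtain ⟨v1, v2, v3, -⟩ := c3_val ab ca cb
  refine ⟨ab, ca, cb, da, db, cd, fun x y h1 h2 h3 h4 h5 t => (cm_iff.2 ?_).symm, (cm_iff.2 ?_).symm, fun l => ?_, ?_⟩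
  · rw [cj_bl _ h5, bl_tv' h5]; simp [tau_eq ab, *]
  · have e : 𝐜 w0 (bl F n (nS F a b)) = bl F n (itr (nS F a b)) := nS_mem k
    rwa [itr_nS ab] at e
  · have e : 𝐜 w0 (bl F n (hS l b a)) = bl F n (itr (hS l b a)) := hS_mem ab.symm (fun t => (k t).symm) l
    rwa [itr_hS'] at e
  · rw [sig, cj_tau, cj_tau, v1, v2, v3, v1, conj_of_commute (bl_hS _ (fun p => by
      rw [tau_eq ca]; split_ifs <;> simp) _ _), ← map_mul]
    refine congrArg _ (Subtype.ext (Equiv.ext fun p => ?_))
    change tau.1 (tau.1 p) = _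
    have := ab.symm
    have := ca.symm
    have := cb.symm
    rw [tau_eq cb.symm, tau_eq ca, tau_eq ab]
    by_cases h1 : ix p = a
    · simp [*]
    by_cases h2 : ix p = b
    · simp [*]
    by_cases h3 : ix p = c <;> simp [*]

theorem a8_model : A8 (bl F n) w0 a b c d := fun s t => by
  have := ab.symm
  have := ca.symm
  have := cb.symm
  have := da.symm
  have := db.symm
  have := cd.symm
  simp only [CM, cj_bl _ db, cj_bl _ db.symm]
  simp only [bl_tv', tau_eq ab, ne_eq, not_false_iff, ix_inl, ix_inr, or_false, or_true, if_true, if_false,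
    swap_inl, swap_inr, *]
  refine ⟨?_, ?_, ?_, ?_, ?_⟩
  · refine ⟨?_, ?_, ?_, ?_⟩ <;> refine Commute.mul_left (Commute.mul_right ?_ ?_) (Commute.mul_right ?_ ?_) <;>
      refine tv_commute ?_ ?_ ?_ ?_ _ _ <;> simp [*]
  all_goals
    refine slM_inj ?_
    simp only [map_mul]
    repeat rw [coe_tv' (by simp [*])]
    simp [mul_add, add_mul, Eu_mul, smul_smul, *]
    module

end

end H7.OP
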