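import Cfsg.Agent.H7.OP3

/-! Short presentations of `Ω⁺_{2n}(q)`: the Curtis–Tits step. -/

set_option autoImplicit false
set_option linter.unusedSectionVars false
set_option linter.unusedSimpArgs false

namespace H7.OP

open H24 H4 Finset Matrix Sum Equiv
open scoped commutatorElement MatrixGroups

variable {F : Type*} [Field F] {J : Type*} [Group J] {n m : ℕ}

local notation "𝐜" => MulAut.conj

theorem h_of {ι Φ : Type} [Fintype ι] [DecidableEq ι] {R : CD ι Φ} (S : St0 R F J) {r : Φ} (f : SL(n, F) →* J)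
    {x y : Fin n} (e : x ≠ y) (h : ∀ t, S.x r t = f (tv x y t) ∧ S.x (R.neg r) t = f (tv y x t)) (l : Fˣ) :
    S.h r l = f (hS l x y) := by
  rw [S.h_eq, eq_mul_inv_of_mul_eq (hS_eq e l), St0.n, St0.n, nS]
  simp [h]

/-- the index `m` -/
abbrev pl (m : ℕ) : Fin (m + 2) := (Fin.last m).castSucc

theorem idx (hm : 2 ≤ m) : (0 : Fin (m + 2)) ≠ Fin.last _ ∧ (1 : Fin (m + 2)) ≠ 0 ∧ (1 : Fin (m + 2)) ≠ Fin.last _ ∧
    pl m ≠ 0 ∧ pl m ≠ Fin.last _ ∧ 1 ≠ pl m := by
  simp only [ne_eq, Fin.ext_iff, Fin.val_zero, Fin.val_last, Fin.val_one, Fin.val_castSucc]; omega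

local notation "w0" => pmS F (tau (x := 0) (y := Fin.last (m + 1)))

/-- the Chevalley data of type `D` -/
noncomputable abbrev cdD (hm : 1 ≤ m) : CD (Fin (m + 2)) (PC (m + 2) 0) := cdC m (k := 0) (Or.inl rfl) fun _ => hm

theorem sim_D (hm : 2 ≤ m) (hm' : 1 ≤ m) : (∀ (i : Fin (m + 1)) t,
    (stD m F hm').x ((cdD hm').sim i.castSucc) t = bl F _ (tv i.castSucc i.succ t) ∧
      (stD m F hm').x ((cdD hm').neg ((cdD hm').sim i.castSucc)) t = bl F _ (tv i.succ i.castSucc t)) ∧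
    ∀ t, (stD m F hm').x ((cdD hm').sim (Fin.last _)) t = 𝐜 w0 (bl F _ (tv (pl m) (Fin.last _) t)) ∧
      (stD m F hm').x ((cdD hm').neg ((cdD hm').sim (Fin.last _))) t = 𝐜 w0 (bl F _ (tv (Fin.last _) (pl m) t)) := by
  have hk : K3 0 := .inl rfl
  have xD : ∀ a c h, (stD m F hm').x (rD a c h) = xM 0 (.refl _) a c := st0M_rD (hz := fun h => absurd h (by decide))
  have xs := (famM (F := F) (j := .refl (JJ (m + 2))) (z := inl 0) hk nofun).xs
  obtain ⟨ab, -, -, da, db, -⟩ := idx hm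
  refine ⟨fun i t => ?_, fun t => ?_⟩
  · have n : i.castSucc ≠ i.succ := Fin.castSucc_lt_succ.ne
    rw [show (cdD hm').sim i.castSucc = rD _ _ (ne_cs i) from simC_cs i,
      show (cdD hm').neg _ = _ from neg_rD hk _ _ _, bl_tv (k := 0) n, bl_tv (k := 0) n.symm, xD, xD]
    exact ⟨rfl, congrFun (xs (inl i.succ) (inr i.castSucc) n.symm) t⟩
  · have l : pl m < Fin.last (m + 1) := Fin.castSucc_lt_last _
    rw [show (cdD hm').sim (Fin.last _) = rD _ _ (ne_ll m) from (by simp [simC] : simC m 0 _ = _),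
      show (cdD hm').neg _ = _ from neg_rD hk _ _ _, xD, xD, cj_bl _ db, cj_bl _ db.symm]
    simp only [tau_eq ab, xM, kp, ix_inl, ix_inr, swap_inl, swap_inr, l, l.not_gt, da, db, or_true, or_false, if_true, if_false]
    refine ⟨by simp, ?_⟩
    simpa using (tv_commute (by simp) (by simp) (by simp) (by simp) _ _).eq

end H7.OP
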