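import Cfsg.Agent.H7.OP4

/-! Short presentations of `Ω⁺_{2n}(q)`: the Curtis–Tits step, main part. -/

set_option autoImplicit false
set_option linter.unusedSectionVars false
set_option linter.unusedSimpArgs false

namespace H7.OP

open H24 H4 Finset Matrix Sum Equiv
open scoped commutatorElement MatrixGroups

variable {F : Type*} [Field F] {J : Type*} [Group J] {n m : ℕ}

local notation "𝐜" => MulAut.conj

local notation "w0" => pmS F (tau (x := 0) (y := Fin.last (m + 1)))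

theorem core [Finite F] (hm : 2 ≤ m) (hm' : 1 ≤ m) {ψ : SL(m + 2, F) →* J} {w : J}
    (B : Base ψ w 0 (Fin.last _) 1 (pl m)) (ww : w * w = 1) (A : A8 ψ w 0 (Fin.last _) 1 (pl m)) :
    ∃ Γ : Subgroup (SpecialLinearGroup (JJ (m + 2)) F × J), (∀ g, (bl F _ g, ψ g) ∈ Γ) ∧ (w0, w) ∈ Γ ∧
      (∀ y, (1, y) ∈ Γ → y = 1) ∧ ∀ g ∈ Γ, g.1 ∈ (stD m F hm').Gr := by
  obtain ⟨s1, s2⟩ := sim_D (F := F) hm hm'
  obtain ⟨ab, ca, cb, da, db, cd⟩ := idx hm
  have B0 := base_model (F := F) ab ca cb da db cd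
  have c : ∀ i : Fin (m + 1), i.castSucc ≠ i.succ := fun _ => Fin.castSucc_lt_succ.ne
  let W : SpecialLinearGroup (JJ (m + 2)) F × J := (w0, w)
  let ψ2 := (bl F _).prod ψ
  have hI : ∀ x y, x ≠ 0 → x ≠ Fin.last _ → y ≠ 0 → y ≠ Fin.last _ → x ≠ y → ∀ t, 𝐜 W (ψ2 (tv x y t)) = ψ2 (tv x y t) :=
    fun x y h1 h2 h3 h4 h5 t => conj_of_commute (Commute.symm
      (Prod.ext (B0.h1 x y h1 h2 h3 h4 h5 t) (B.h1 x y h1 h2 h3 h4 h5 t)))
  obtain ⟨S', hS'⟩ := curtis_tits_graph3 (stD m F hm')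
      (Fin.lastCases (fun t => 𝐜 w (ψ (tv (pl m) (Fin.last _) t))) fun i t => ψ (tv i.castSucc i.succ t))
      (Fin.lastCases (fun t => 𝐜 w (ψ (tv (Fin.last _) (pl m) t))) fun i t => ψ (tv i.succ i.castSucc t)) (fun i l n => by
    by_cases e : i ≠ Fin.last _ ∧ l ≠ Fin.last _
    · refine ⟨ψ2.range, fun p hp t => ?_, graph_prod bl_inj ψ⟩
      obtain ⟨p, rfl⟩ := Fin.exists_castSucc_eq.2 (show p ≠ Fin.last _ by rcases hp with rfl | rfl; exacts [e.1, e.2])
      simp only [s1, Fin.lastCases_castSucc]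
      exact ⟨⟨_, rfl⟩, ⟨_, rfl⟩⟩
    refine ⟨((𝐜 W).toMonoidHom.comp ψ2).range, fun p hp t => ?_,
      graph_prod (α := (𝐜 w0).toMonoidHom.comp (bl F _)) ((𝐜 _).injective.comp bl_inj) ((𝐜 w).toMonoidHom.comp ψ)⟩
    induction p using Fin.lastCases with
    | last => simp only [s2, Fin.lastCases_last]; exact ⟨⟨_, rfl⟩, ⟨_, rfl⟩⟩
    | cast p =>
      have : p.val + 1 = m := by
        rw [cdD_C] at n
        simp only [Set.mem_insert_iff, Set.mem_singleton_iff, Fin.ext_iff, ne_eq, Fin.val_last, Fin.val_castSucc] at e hp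
        split_ifs at n <;> omega
      simp only [s1, Fin.lastCases_castSucc]
      refine ⟨⟨_, hI _ _ ?_ ?_ ?_ ?_ (c p) t⟩, ⟨_, hI _ _ ?_ ?_ ?_ ?_ (c p).symm t⟩⟩ <;>
        simp only [ne_eq, Fin.ext_iff, Fin.val_zero, Fin.val_last, Fin.val_succ, Fin.val_castSucc] <;> omega)
    fun i l n t u => by
      have c2 : ∀ i : Fin (m + 1), i.val + 1 ≠ m → ∀ t u,
          (CM ψ w (tv i.castSucc i.succ t) (tv (pl m) (Fin.last _) u) ∧ CM ψ w (tv i.castSucc i.succ t) (tv (Fin.last _) (pl m) u)) ∧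
          CM ψ w (tv i.succ i.castSucc t) (tv (pl m) (Fin.last _) u) ∧ CM ψ w (tv i.succ i.castSucc t) (tv (Fin.last _) (pl m) u) :=
        fun i h t u => by
          by_cases h0 : i = 0
          · subst h0; exact ⟨⟨(A t u).1.1, (A t u).1.2.1⟩, (A t u).1.2.2⟩
          by_cases h1 : i = Fin.last _
          · subst h1; exact ⟨⟨(A t u).2.1, (A t u).2.2.1⟩, (A t u).2.2.2⟩
          simp only [Fin.ext_iff, Fin.val_zero, Fin.val_last] at h0 h1
          refine ⟨⟨.of (B.h1 _ _ ?_ ?_ ?_ ?_ (c i) t) (tv_commute (c i) db ?_ ?_ _ _),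
            .of (B.h1 _ _ ?_ ?_ ?_ ?_ (c i) t) (tv_commute (c i) db.symm ?_ ?_ _ _)⟩,
            .of (B.h1 _ _ ?_ ?_ ?_ ?_ (c i).symm t) (tv_commute (c i).symm db ?_ ?_ _ _),
            .of (B.h1 _ _ ?_ ?_ ?_ ?_ (c i).symm t) (tv_commute (c i).symm db.symm ?_ ?_ _ _)⟩ <;>
            simp only [ne_eq, Fin.ext_iff, Fin.val_zero, Fin.val_last, Fin.val_succ, Fin.val_castSucc] <;> omega
      rw [cdD_C] at n
      induction i using Fin.lastCases <;> induction l using Fin.lastCases <;>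
        simp only [Fin.lastCases_castSucc, Fin.lastCases_last, Fin.val_last, Fin.val_castSucc, and_true] at n ⊢
      · simp at n
      · rename_i i
        have := c2 i (by split_ifs at n <;> omega) u t
        exact ⟨this.1.1.symm, this.2.1.symm, this.2.2.symm⟩
      · rename_i i
        have := c2 i (by split_ifs at n <;> omega) t u
        exact ⟨this.1.1, this.1.2, this.2.2⟩
      · refine ⟨(tv_commute (c _) (c _) ?_ ?_ _ _).map ψ, (tv_commute (c _) (c _).symm ?_ ?_ _ _).map ψ,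
          (tv_commute (c _).symm (c _).symm ?_ ?_ _ _).map ψ⟩ <;>
          simp only [ne_eq, Fin.ext_iff, Fin.val_succ, Fin.val_castSucc] <;> split_ifs at n <;> omega
  have g1 := ((stD m F hm').pr S').x_mem_Gr
  simp only [St.pr_x] at g1
  have G1 : ∀ g, ψ2 g ∈ ((stD m F hm').pr S').Gr := fun g => (eq_top_of_tv (H := Subgroup.comap ψ2 ((stD m F hm').pr S').Gr) fun a b h =>
    tv_mem_of_simple (fun a b e _ t => by
      obtain ⟨i, rfl, rfl⟩ : ∃ i : Fin (m + 1), a = i.castSucc ∧ b = i.succ := ⟨⟨a, by omega⟩, rfl, Fin.ext e⟩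
      have h1 := g1 ((cdD hm').sim i.castSucc) t
      have h2 := g1 ((cdD hm').neg ((cdD hm').sim i.castSucc)) t
      rw [(s1 i t).1, (hS' _ t).1, Fin.lastCases_castSucc] at h1
      rw [(s1 i t).2, (hS' _ t).2, Fin.lastCases_castSucc] at h2
      exact ⟨h1, h2⟩) h a.2 b.2).ge (Subgroup.mem_top g)
  have G2 : ∀ g, 𝐜 W (ψ2 g) ∈ ((stD m F hm').pr S').Gr := fun g => by
    have k : ∀ t, tv (Fin.last _) (pl m) t ∈ ((stD m F hm').pr S').Gr.comap ((𝐜 W).toMonoidHom.comp ψ2) ∧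
        tv (pl m) (Fin.last _) t ∈ ((stD m F hm').pr S').Gr.comap ((𝐜 W).toMonoidHom.comp ψ2) := fun t => by
      have h1 := g1 ((cdD hm').sim (Fin.last _)) t
      have h2 := g1 ((cdD hm').neg ((cdD hm').sim (Fin.last _))) t
      rw [(s2 t).1, (hS' _ t).1, Fin.lastCases_last] at h1
      rw [(s2 t).2, (hS' _ t).2, Fin.lastCases_last] at h2
      exact ⟨h2, h1⟩
    have k0 : nS F 0 (Fin.last _) ∈ ((stD m F hm').pr S').Gr.comap ((𝐜 W).toMonoidHom.comp ψ2) := by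
      have : 𝐜 W (ψ2 (nS F 0 (Fin.last _))) = ψ2 (nS F 0 (Fin.last _)) :=
        conj_of_commute (Commute.symm (Prod.ext B0.hn B.hn))
      exact Subgroup.mem_comap.2 (this.symm ▸ G1 _)
    refine (hub (K := ((stD m F hm').pr S').Gr.comap ((𝐜 W).toMonoidHom.comp ψ2)) (pl m) fun x hx t => ?_).ge
      (Subgroup.mem_top g)
    by_cases h1 : x = 0
    · have e1 := mul_mem (mul_mem k0 (k t).1) (inv_mem k0)
      have e2 := mul_mem (mul_mem k0 (k t).2) (inv_mem k0)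
      rw [nS_conj ab db.symm] at e1
      rw [nS_conj ab db] at e2
      rw [swap_apply_right, swap_apply_of_ne_of_ne da db] at e1 e2
      rw [h1]
      exact ⟨by simpa [sg, da, ab.symm] using e1, by simpa [sg, da, ab.symm] using e2⟩
    by_cases h2 : x = Fin.last _
    · exact h2 ▸ k t
    exact ⟨Subgroup.mem_comap.2 ((hI _ _ h1 h2 da db hx t).symm ▸ G1 _),
      Subgroup.mem_comap.2 ((hI _ _ da db h1 h2 (Ne.symm hx) t).symm ▸ G1 _)⟩
  refine ⟨((stD m F hm').pr S').Gr, G1, ?_, fun y hy => ?_, fun g hg =>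
    (St0.map_Gr (S := ((stD m F hm').pr S').toSt0) (S' := (stD m F hm').toSt0) (MonoidHom.fst _ _) St0.pr_fst).le
      (Subgroup.mem_map_of_mem (MonoidHom.fst _ _) hg)⟩
  · have e1 : W * W = 1 := Prod.ext (w0_sq ab) ww
    have e2 : W * 𝐜 (ψ2 (sig F ab ca)) (𝐜 (ψ2 (sig F ab ca)) W) = 𝐜 (ψ2 (hS (-1) 1 (pl m))) (𝐜 (ψ2 (sig F ab ca)) W) :=
      Prod.ext B0.r0 B.r0
    have h1 := G1 (sig F ab ca)
    have h2 := G1 (hS (-1) 1 (pl m))
    have h3 := G2 (sig F ab ca)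
    change W ∈ _
    generalize ψ2 (sig F ab ca) = s at *
    generalize ψ2 (hS (-1) 1 (pl m)) = δ at *
    have : W = (δ * s)⁻¹ * (𝐜 W s * 𝐜 W s * (s * s)⁻¹) * (δ * s) := by
      simp only [MulAut.conj_apply] at e2 ⊢
      calc W = (δ * s)⁻¹ * (δ * (s * W * s⁻¹) * δ⁻¹) * (δ * s) := by group
        _ = (δ * s)⁻¹ * (W * s * s * W⁻¹ * (W * W) * (s * s)⁻¹) * (δ * s) := by rw [← e2]; group
        _ = _ := by rw [e1]; group
    rw [this]
    exact mul_mem (mul_mem (inv_mem (mul_mem h2 h1)) (mul_mem (mul_mem h3 h3) (inv_mem (mul_mem h1 h1)))) (mul_mem h2 h1)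
  · have h4 : ((stD m F hm').pr S').R3 := St0.R3.pr stM_r3 (St0_r3 (stD m F hm') S')
    have hz := ((stD m F hm').pr S').mem_Z_of_map (stD m F hm') (MonoidHom.fst _ _) St0.pr_fst hy (one_mem _)
    obtain ⟨e, he⟩ := (((stD m F hm').pr S').range_hh h4).ge hz.1
    have h5 : (stD m F hm').hh stM_r3 e = 1 := by
      rw [← ((stD m F hm').pr S').map_hh (MonoidHom.fst _ _) St0.pr_fst h4 stM_r3, he]; rfl
    obtain ⟨h6, h7, -⟩ := ker_one ((St.hh_mem_Z _ _).1 (h5 ▸ one_mem _)) (hh_zero h5)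
    rw [h7, if_pos rfl, map_mul, St.hh_single, St.hh_single] at he
    have h8 : y = S'.h ((cdD hm').sim (pl m)) (e (Fin.last _)) * S'.h ((cdD hm').sim (Fin.last _)) (e (Fin.last _)) :=
      (congrArg Prod.snd he).symm
    rw [h8, h_of S' ψ db (fun t => by simpa only [Fin.lastCases_castSucc, Fin.succ_last] using hS' (pl m) t),
      h_of S' ((𝐜 w).toMonoidHom.comp ψ) db fun t => by have := hS' (Fin.last _) t; rwa [Fin.lastCases_last, Fin.lastCases_last] at this]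
    rcases (Units.inv_eq_self_iff _).1 (inv_eq_of_mul_eq_one_right ((sq _).symm.trans h6)) with h | h <;> rw [h]
    · simp [show hS (1 : Fˣ) (pl m) (Fin.last _) = 1 from slM_inj (by simp [coe_hS, dz])]
    · rw [hS_symm]
      change _ * 𝐜 w (ψ _) = 1
      rw [conj_of_commute (B.q.2.2.2 ww).symm, ← map_mul, hS_sq, map_one]

end H7.OP
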