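import Cfsg.Agent.H7.OP5
import Cfsg.Agent.H29.LMO

/-! Short presentations of `Ω⁺_{2n}(q)`: the relators. -/

set_option autoImplicit false
set_option linter.unusedSectionVars false
set_option linter.unusedSimpArgs false

namespace H7.OP

open H24 H4 Finset Matrix Sum Equiv Monoid Cfsg
open scoped commutatorElement MatrixGroups Monoid.Coprod

variable {F : Type*} [Field F] {J : Type*} [Group J] {n m : ℕ}

local notation "𝐜" => MulAut.conj

section
variable {κ : Type} [Fintype κ] [DecidableEq κ] {ψ : SpecialLinearGroup κ F →* J} {w : J} {a b c d : κ}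
  {f : Fin m ↪ κ}

theorem emb_ab (ab : a ≠ b) (hf : ∀ i, f i ≠ a ∧ f i ≠ b) (g : SL(m, F)) :
    Commute (nS F a b) (emb F f g) ∧ ∀ l : Fˣ, Commute (hS l a b) (emb F f g) ∧ Commute (hS l b a) (emb F f g) := by
  have k : ∀ {a b : κ}, a ≠ b → (∀ i, f i ≠ a ∧ f i ≠ b) → ∀ t, tv a b t ∈ Subgroup.centralizer {emb F f g} :=
    fun {a b} ab hf t => Subgroup.mem_centralizer_singleton_iff.2 (Commute.symm (mem_C.1 ((eq_top_of_tv
      (H := (Subgroup.centralizer {tv a b t}).comap (emb F f)) fun i j h s => mem_C.2 (by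
        rw [emb_tv _ h]
        exact tv_commute (f.injective.ne h) ab (hf j).1 (hf i).2 _ _)).ge (Subgroup.mem_top g))))
  have k1 := fun t => And.intro (k ab hf t) (k ab.symm (fun i => (hf i).symm) t)
  exact ⟨Subgroup.mem_centralizer_singleton_iff.1 (nS_mem k1), fun l =>
    ⟨Subgroup.mem_centralizer_singleton_iff.1 (hS_mem ab k1 l),
      Subgroup.mem_centralizer_singleton_iff.1 (hS_mem ab.symm (fun t => (k1 t).symm) l)⟩⟩

theorem Base.cemb (B : Base ψ w a b c d) (hf : ∀ i, f i ≠ a ∧ f i ≠ b) (g : SL(m, F)) : Commute (ψ (emb F f g)) w :=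
  mem_C.1 ((eq_top_of_tv (H := (Subgroup.centralizer {w}).comap (ψ.comp (emb F f))) fun i j h s => mem_C.2 (by
    rw [MonoidHom.comp_apply, emb_tv _ h]
    exact B.h1 _ _ (hf i).1 (hf i).2 (hf j).1 (hf j).2 (f.injective.ne h) s)).ge (Subgroup.mem_top g))

theorem h1_of (hf : ∀ x, x ≠ a → x ≠ b → ∃ i, f i = x) (h : ∀ g : SL(m, F), Commute (ψ (emb F f g)) w) :
    ∀ x y, x ≠ a → x ≠ b → y ≠ a → y ≠ b → x ≠ y → ∀ t, Commute (ψ (tv x y t)) w := fun x y h1 h2 h3 h4 h5 t => by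
  obtain ⟨i, rfl⟩ := hf x h1 h2
  obtain ⟨j, rfl⟩ := hf y h3 h4
  rw [← emb_tv _ (fun e => h5 (congrArg f e))]
  exact h _

theorem dih [Finite F] (ab : a ≠ b) (hm : 3 ≤ m) (hf : ∀ i, f i ≠ a ∧ f i ≠ b) {u v : SL(m, F)}
    (huv : Subgroup.closure {u, v} = ⊤) {z : Fˣ} (R1 : 𝐜 w (ψ (hS z b a * emb F f u)) = ψ (hS z a b * emb F f u))
    (R2 : Commute (ψ (nS F a b * emb F f v)) w) (g : SL(m, F)) : Commute (ψ (emb F f g)) w := by
  let N := (Subgroup.centralizer {w}).comap (ψ.comp (emb F f))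
  have hN : ∀ {g}, g ∈ N ↔ 𝐜 w (ψ (emb F f g)) = ψ (emb F f g) := mem_C.trans (commute_iff_eq _ _ |>.trans
    (eq_comm.trans cm_iff))
  have R2' := conj_of_commute R2.symm
  have k : ∀ {h h' : SpecialLinearGroup κ F} {u : SL(m, F)}, (∀ g, Commute h (emb F f g)) → (∀ g, Commute h' (emb F f g)) →
      𝐜 w (ψ (h * emb F f u)) = ψ (h' * emb F f u) → u ∈ Subgroup.normalizer (N : Set SL(m, F)) :=
    fun {h h' u} c c' e => Subgroup.mem_normalizer_fintype fun g hg => hN.2 (by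
      have : ∀ {h : SpecialLinearGroup κ F}, (∀ g, Commute h (emb F f g)) →
          emb F f (u * g * u⁻¹) = 𝐜 (h * emb F f u) (emb F f g) := fun c => by
        rw [← conj_conj, ← map_cj, conj_of_commute (c _)]; rfl
      conv_lhs => rw [this c, map_cj, conj_conj', e, hN.1 hg, ← map_cj, ← this c'])
  have : N.Normal := Subgroup.normalizer_eq_top_iff.1 (eq_top_iff.2 (huv.ge.trans ((Subgroup.closure_le _).2 (by
    rintro _ (rfl | rfl)
    · exact k (fun g => ((emb_ab ab hf g).2 z).2) (fun g => ((emb_ab ab hf g).2 z).1) R1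
    · exact k (fun g => (emb_ab ab hf g).1) (fun g => (emb_ab ab hf g).1) R2'))))
  refine mem_C.1 ((eq_top_of_dih (H22.commutator_SL_eq_top (by simpa using hm)) huv N (hN.2 ?_)).ge (Subgroup.mem_top g))
  have e : ∀ {h : SpecialLinearGroup κ F}, (∀ g, Commute h (emb F f g)) → nS F a b * h * (nS F a b)⁻¹ = h⁻¹ →
      emb F f (v * u * v⁻¹ * u) = 𝐜 (nS F a b * emb F f v) (h * emb F f u) * (h * emb F f u) := fun {h} c e => by
    rw [← conj_conj, map_mul (𝐜 _), conj_of_commute (c v).symm, ← map_cj, map_mul (𝐜 _), MulAut.conj_apply _ h, e,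
      conj_of_commute (emb_ab ab hf _).1, (c _).inv_left.eq, map_mul, mul_assoc _ h⁻¹, inv_mul_cancel_left]
    rfl
  conv_lhs => rw [e (fun g => ((emb_ab ab hf g).2 z).2) (by rw [nS_hS ab, swap_apply_left, swap_apply_right, hS_inv]),
    map_mul, map_mul (𝐜 w), map_cj, conj_conj', R1, R2', ← map_cj, ← map_mul,
    ← e (fun g => ((emb_ab ab hf g).2 z).1) (by rw [nS_hS ab, swap_apply_left, swap_apply_right, hS_inv])]

/-- the six relators for `n ≥ 5` -/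
noncomputable def rel5 (ψ : SpecialLinearGroup κ F →* J) (w : J) (ab : a ≠ b) (ca : c ≠ a) (d : κ) (z : Fˣ)
    (u v : SpecialLinearGroup κ F) : List J :=
  [𝐜 w (ψ (hS z b a * u)) / ψ (hS z a b * u), ⁅ψ (nS F a b * v), w⁆,
    w * 𝐜 (ψ (sig F ab ca)) (𝐜 (ψ (sig F ab ca)) w) / 𝐜 (ψ (hS (-1) c d)) (𝐜 (ψ (sig F ab ca)) w),
    ⁅ψ (tv a c 1 * tv b d 1), 𝐜 w (ψ (tv d b 1))⁆ / (w * w), ⁅ψ (tv a c 1 * tv b d 1), 𝐜 w (ψ (tv b d 1))⁆,
    ⁅ψ (tv c a 1 * tv d b 1), 𝐜 w (ψ (tv d b 1))⁆]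

/-- the seven relators for `n = 4` -/
noncomputable def rel4 (ψ : SpecialLinearGroup κ F →* J) (w : J) (ab : a ≠ b) (ca : c ≠ a) (d : κ) (π : alternatingGroup κ)
    (u v p q : SpecialLinearGroup κ F) : List J :=
  [⁅ψ u, w⁆, ⁅ψ v, w⁆, 𝐜 (w * 𝐜 (ψ (pmS F π)) w) (ψ p) / ψ (itr p), 𝐜 (w * 𝐜 (ψ (pmS F π)) w) (ψ q) / ψ (itr q),
    w * 𝐜 (ψ (sig F ab ca)) (𝐜 (ψ (sig F ab ca)) w) / 𝐜 (ψ (hS (-1) c d)) (𝐜 (ψ (sig F ab ca)) w),
    ⁅ψ (tv a c 1), 𝐜 w (ψ (tv b d 1))⁆ / (w * w), ⁅ψ (tv b d 1), 𝐜 w (ψ (tv b d 1))⁆]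

theorem rel5_map {J' : Type*} [Group J'] (Φ : J →* J') (ab : a ≠ b) (ca : c ≠ a) (z : Fˣ) (u v : SpecialLinearGroup κ F) :
    (rel5 ψ w ab ca d z u v).map Φ = rel5 (Φ.comp ψ) (Φ w) ab ca d z u v := by
  simp only [rel5, List.map_cons, List.map_nil, map_div, map_commutatorElement, map_cj, map_mul Φ, MonoidHom.comp_apply]

theorem rel4_map {J' : Type*} [Group J'] (Φ : J →* J') (ab : a ≠ b) (ca : c ≠ a) (π : alternatingGroup κ)
    (u v p q : SpecialLinearGroup κ F) :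
    (rel4 ψ w ab ca d π u v p q).map Φ = rel4 (Φ.comp ψ) (Φ w) ab ca d π u v p q := by
  simp only [rel4, List.map_cons, List.map_nil, map_div, map_commutatorElement, map_cj, map_mul Φ, MonoidHom.comp_apply]

theorem rel5_of (B : Base ψ w a b c d) (ww : w * w = 1) (A : A8 ψ w a b c d) (hf : ∀ i, f i ≠ a ∧ f i ≠ b) (z : Fˣ)
    (u v : SL(m, F)) : ∀ x ∈ rel5 ψ w B.ab B.ca d z (emb F f u) (emb F f v), x = 1 := by
  simp only [rel5, List.forall_mem_cons, div_eq_one, ww, commutatorElement_eq_one_iff_commute, map_mul]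
  obtain ⟨⟨a1, a2, a3, -⟩, a5, -, a7, a8⟩ := A 1 1
  exact ⟨by rw [B.hh, conj_of_commute (B.cemb hf u).symm], B.hn.mul_left (B.cemb hf v), B.r0, a1.mul_left a7,
    a2.mul_left a8, a3.mul_left a5, by simp⟩

theorem of_rel5 [Finite F] (ab : a ≠ b) (ca : c ≠ a) (cb : c ≠ b) (da : d ≠ a) (db : d ≠ b) (cd : c ≠ d) {k : κ}
    (ka : k ≠ a) (kb : k ≠ b) (kc : k ≠ c) (kd : k ≠ d) (hm : 3 ≤ m) (hf : ∀ i, f i ≠ a ∧ f i ≠ b)
    (hf' : ∀ x, x ≠ a → x ≠ b → ∃ i, f i = x) {u v : SL(m, F)} (huv : Subgroup.closure {u, v} = ⊤) {z : Fˣ}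
    (hz : ∀ l, l ∈ Subgroup.zpowers z) (H : ∀ x ∈ rel5 ψ w ab ca d z (emb F f u) (emb F f v), x = 1) :
    Base ψ w a b c d ∧ w * w = 1 ∧ A8 ψ w a b c d := by
  simp only [rel5, List.forall_mem_cons, div_eq_one, commutatorElement_eq_one_iff_commute] at H
  obtain ⟨R1, R2, R3, K1, K2, K3, -⟩ := H
  have h := dih ab hm hf huv R1 R2
  have B : Base ψ w a b c d := by
    refine ⟨ab, ca, cb, da, db, cd, h1_of hf' h, ?_, fun l => ?_, R3⟩
    · simpa using R2.mul_left (h v).inv_left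
    · obtain ⟨e, rfl⟩ := (mem_powers_iff_mem_zpowers).2 (hz l)
      rw [map_mul, map_mul, map_mul, conj_of_commute (h u).symm, mul_left_inj] at R1
      simp only [← hS_pow, map_pow, R1]
  exact ⟨B, B.five ka kb kc kd K1 K2 K3⟩

theorem of_rel4 [Finite F] (ab : a ≠ b) (ca : c ≠ a) (cb : c ≠ b) (da : d ≠ a) (db : d ≠ b) (cd : c ≠ d)
    {π : alternatingGroup κ} (hπ : π.1 a = c ∧ π.1 c = a ∧ π.1 b = d ∧ π.1 d = b)
    (hf' : ∀ x, x ≠ a → x ≠ b → ∃ i, f i = x) {u v : SL(m, F)} (huv : Subgroup.closure {u, v} = ⊤)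
    {p q : SpecialLinearGroup κ F} (hpq : Subgroup.closure {p, q} = ⊤)
    (H : ∀ x ∈ rel4 ψ w ab ca d π (emb F f u) (emb F f v) p q, x = 1) :
    Base ψ w a b c d ∧ w * w = 1 ∧ A8 ψ w a b c d := by
  simp only [rel4, List.forall_mem_cons, div_eq_one, commutatorElement_eq_one_iff_commute] at H
  obtain ⟨R1, R2, R3, R4, R5, K1, K2, -⟩ := H
  have h1 := h1_of hf' fun g => mem_C.1 ((huv.ge.trans ((Subgroup.closure_le
    ((Subgroup.centralizer {w}).comap (ψ.comp (emb F f)))).2 (by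
      rintro _ (rfl | rfl); exacts [mem_C.2 R1, mem_C.2 R2]))) (Subgroup.mem_top g))
  have H : ∀ g, 𝐜 (w * 𝐜 (ψ (pmS F π)) w) (ψ g) = ψ (itr g) := fun g => (hpq.ge.trans ((Subgroup.closure_le
    (((𝐜 (w * 𝐜 (ψ (pmS F π)) w)).toMonoidHom.comp ψ).eqLocus (ψ.comp itr))).2 (by
      rintro _ (rfl | rfl); exacts [R3, R4]))) (Subgroup.mem_top g)
  have k : ∀ {g}, Commute (ψ g) w → 𝐜 w (ψ (𝐜 (pmS F π) g)) = ψ (itr (𝐜 (pmS F π) g)) := fun {g} e => by
    rw [← H, ← conj_conj, map_cj, ← conj_conj', conj_of_commute e.symm]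
  have c1 := hI (fun t => ⟨h1 c d ca cb da db cd t, h1 d c da db ca cb cd.symm t⟩) cd
  have c2 := hI (fun t => ⟨h1 d c da db ca cb cd.symm t, h1 c d ca cb da db cd t⟩) cd.symm
  have B : Base ψ w a b c d := by
    refine ⟨ab, ca, cb, da, db, cd, h1, ?_, fun l => ?_, R5⟩
    · have := k c1.1
      rw [show 𝐜 (pmS F π) (nS F c d) = nS F a b by
        rw [nS, map_mul, map_mul, MulAut.conj_apply, MulAut.conj_apply, pmS_conj _ cd, pmS_conj _ cd.symm, hπ.2.1,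
          hπ.2.2.2, nS], itr_nS ab] at this
      exact (cm_iff.2 this).symm
    · have := k (c2.2 l)
      rwa [MulAut.conj_apply (pmS F π), pmS_hS, hπ.2.1, hπ.2.2.2, itr_hS'] at this
  exact ⟨B, B.four hπ H K1 K2⟩

end

theorem H_model {a b c d : Fin n} (ab : a ≠ b) (ca : c ≠ a) (cb : c ≠ b) (da : d ≠ a) (db : d ≠ b) (cd : c ≠ d)
    {π : alternatingGroup (Fin n)} (h1 : π.1 a = c) (h2 : π.1 b = d) (h : ∀ x, x = a ∨ x = b ∨ x = c ∨ x = d) (g : SL(n, F)) :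
    𝐜 (pmS F (tau (x := a) (y := b)) * 𝐜 (bl F n (pmS F π)) (pmS F (tau (x := a) (y := b)))) (bl F n g) = bl F n (itr g) := by
  rw [cj_tau, ← map_mul, h1, h2]
  refine DFunLike.congr_fun (tv_ext (f := (𝐜 _).toMonoidHom.comp (bl F n)) (g := (bl F n).comp itr) fun x y e t =>
    sw_bl _ e (fun p _ => ?_) t) g
  change tau.1 (tau.1 p) = _
  have := ca.symm
  have := cb.symm
  have := da.symm
  have := db.symm
  rw [tau_eq ab, tau_eq cd]
  rcases h (ix p) with h | h | h | h <;> simp [*]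

local notation "w0" => pmS F (tau (x := 0) (y := Fin.last (m + 1)))

theorem pg_of [Finite F] (hm : 2 ≤ m) {a r : ℕ} (h : PG SL(m + 2, F) a r) (L : List (SL(m + 2, F) ∗ FreeGroup (Fin 1)))
    (h1 : ∀ x ∈ L.map (Coprod.lift (bl F _) (FreeGroup.lift fun _ => w0)), x = 1)
    (h2 : ∀ (J : Type) [Group J] (ψ : SL(m + 2, F) →* J) (φ : FreeGroup (Fin 1) →* J),
      (∀ x ∈ L.map (Coprod.lift ψ φ), x = 1) → Base ψ (φ (.of 0)) 0 (Fin.last _) 1 (pl m) ∧ φ (.of 0) * φ (.of 0) = 1 ∧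
        A8 ψ (φ (.of 0)) 0 (Fin.last _) 1 (pl m)) :
    PG (Omega F (quadFormPlus (m + 2) F)) (a + 1) (r + L.length) := by
  have hm' : 1 ≤ m := by omega
  obtain ⟨e, -⟩ := exists_plus_equiv (F := F) hm'
  obtain ⟨ab, ca, cb, da, db, cd⟩ := idx hm
  have hB : PG (FreeGroup (Fin 1)) 1 0 := ⟨FreeGroup.of, Pr.intro [] (by simp) fun J _ ρ _ w hw => by
    rw [FreeGroup.lift_of_eq_id, MonoidHom.id_apply] at hw; rw [hw, map_one], FreeGroup.closure_range_of _⟩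
  refine (PG.amalg h hB (bl F _) (FreeGroup.lift fun _ => w0) L (List.forall_mem_map.1 h1) (fun J _ ψ φ H => ?_) ?_).congr e
  · obtain ⟨B, ww, A⟩ := h2 J ψ φ (List.forall_mem_map.2 H)
    obtain ⟨Γ, g1, g2, g3, -⟩ := core hm hm' B ww A
    refine ⟨Γ, g1, fun b => ((FreeGroup.closure_range_of _).ge.trans ((Subgroup.closure_le
      (Γ.comap ((FreeGroup.lift fun _ => w0).prod φ))).2 ?_)) (Subgroup.mem_top b), g3⟩
    rintro _ ⟨i, rfl⟩
    rw [Subsingleton.elim i 0]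
    simpa using g2
  · obtain ⟨Γ, g1, g2, -, g4⟩ := core hm hm' (base_model (F := F) ab ca cb da db cd) (w0_sq ab) (a8_model ab ca cb da db cd)
    obtain ⟨s1, s2⟩ := sim_D (F := F) hm hm'
    refine le_antisymm (sup_le ?_ ?_) (St.Gr_le_of_simple _ fun i t => ?_)
    · rintro _ ⟨g, rfl⟩; exact g4 _ (g1 g)
    · rw [FreeGroup.range_lift_eq_closure, Subgroup.closure_le]
      rintro _ ⟨i, rfl⟩; exact g4 _ g2
    · have k1 : ∀ g, bl F _ g ∈ (bl F (m + 2)).range ⊔ (FreeGroup.lift fun _ : Fin 1 => w0).range :=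
        fun g => Subgroup.mem_sup_left ⟨g, rfl⟩
      have k2 : w0 ∈ (bl F (m + 2)).range ⊔ (FreeGroup.lift fun _ : Fin 1 => w0).range :=
        Subgroup.mem_sup_right ⟨.of 0, by simp⟩
      induction i using Fin.lastCases with
      | last => exact ⟨(s2 t).1 ▸ mul_mem (mul_mem k2 (k1 _)) (inv_mem k2), (s2 t).2 ▸ mul_mem (mul_mem k2 (k1 _)) (inv_mem k2)⟩
      | cast i => exact ⟨(s1 i t).1 ▸ k1 _, (s1 i t).2 ▸ k1 _⟩

/-- the middle indices -/
def mid (m : ℕ) : Fin m ↪ Fin (m + 2) := ⟨fun i => i.castSucc.succ, fun i j h => by simpa using h⟩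

theorem mid_val (i : Fin m) : (mid m i).val = i + 1 := rfl

theorem mid_ne (i : Fin m) : mid m i ≠ 0 ∧ mid m i ≠ Fin.last _ := by
  simp only [ne_eq, Fin.ext_iff, mid_val, Fin.val_zero, Fin.val_last]
  omega

theorem mid_surj (x : Fin (m + 2)) (h1 : x ≠ 0) (h2 : x ≠ Fin.last _) : ∃ i, mid m i = x := by
  simp only [ne_eq, Fin.ext_iff, Fin.val_zero, Fin.val_last] at h1 h2
  exact ⟨⟨x - 1, by omega⟩, Fin.ext (by simp only [mid_val]; omega)⟩

theorem lift_l {A B : Type*} [Group A] [Group B] (ψ : A →* J) (φ : B →* J) : (Coprod.lift ψ φ).comp Coprod.inl = ψ := rfl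

theorem pg_five [Fintype F] (hm : 3 ≤ m) :
    PG (Omega F (quadFormPlus (m + 2) F)) 6 (if m + 2 = 5 then 27 else 29) := by
  have hm2 : 2 ≤ m := by omega
  obtain ⟨z, hz⟩ := IsCyclic.exists_generator (α := Fˣ)
  obtain ⟨u, v, huv⟩ := sl_gen2 (F := F) hm2
  obtain ⟨ab, ca, cb, da, db, cd⟩ := idx hm2
  refine (pg_of hm2 (pg_sl_big (by omega)) (rel5 Coprod.inl (Coprod.inr (.of 0)) ab ca (pl m) z (emb F (mid m) u)
    (emb F (mid m) v)) ?_ fun J _ ψ φ H => ?_).mono le_rfl (by simp only [rel5, List.length]; split_ifs <;> omega)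
  · rw [rel5_map, lift_l, Coprod.lift_apply_inr, FreeGroup.lift_apply_of]
    exact rel5_of (base_model ab ca cb da db cd) (w0_sq ab) (a8_model ab ca cb da db cd) mid_ne z u v
  · rw [rel5_map, lift_l, Coprod.lift_apply_inr] at H
    refine of_rel5 ab ca cb da db cd (k := ⟨2, by omega⟩) ?_ ?_ ?_ ?_ hm mid_ne mid_surj huv hz H <;>
      simp only [ne_eq, Fin.ext_iff, Fin.val_zero, Fin.val_last, Fin.val_one, Fin.val_castSucc] <;> omega

theorem pg_four [Fintype F] : PG (Omega F (quadFormPlus (2 + 2) F)) 5 26 := by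
  obtain ⟨u, v, huv⟩ := sl_gen2 (F := F) (le_refl 2)
  obtain ⟨p, q, hpq⟩ := sl_gen2 (F := F) (n := 2 + 2) (by omega)
  obtain ⟨ab, ca, cb, da, db, cd⟩ := idx (le_refl 2)
  let π : alternatingGroup (Fin (2 + 2)) := ⟨swap 0 1 * swap (Fin.last _) (pl 2), Perm.mem_alternatingGroup.2 (by decide)⟩
  have hπ : π.1 0 = 1 ∧ π.1 1 = 0 ∧ π.1 (Fin.last _) = pl 2 ∧ π.1 (pl 2) = Fin.last _ := by decide
  refine pg_of (le_refl 2) pg_sl4 (rel4 Coprod.inl (Coprod.inr (.of 0)) ab ca (pl 2) π (emb F (mid 2) u)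
    (emb F (mid 2) v) p q) ?_ fun J _ ψ φ H => ?_
  · rw [rel4_map, lift_l, Coprod.lift_apply_inr, FreeGroup.lift_apply_of]
    have B := base_model (F := F) ab ca cb da db cd
    have H := H_model (F := F) ab ca cb da db cd hπ.1 hπ.2.2.1 (by decide)
    obtain ⟨⟨-, a2, -⟩, -, -, -, a8⟩ := a8_model (F := F) ab ca cb da db cd 1 1
    simp only [rel4, List.forall_mem_cons, div_eq_one, w0_sq ab, commutatorElement_eq_one_iff_commute, H]
    exact ⟨B.cemb mid_ne u, B.cemb mid_ne v, trivial, trivial, B.r0, a2, a8, by simp⟩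
  · rw [rel4_map, lift_l, Coprod.lift_apply_inr] at H
    exact of_rel4 ab ca cb da db cd hπ mid_surj huv hpq H

open H22 H23.Form in
theorem cen_cyclic [Fintype F] (hm : 4 ≤ m) : IsCyclic (Subgroup.center (Omega F (quadFormPlus m F))) := by
  classical
  have hΦ := qPlus_nondeg (F := F) m
  have hV : Module.finrank F (Fin m ⊕ Fin m → F) = 2 * m := by simp; ring
  have : Fact (Nat.Prime 2) := ⟨Nat.prime_two⟩
  refine isCyclic_of_card_dvd_prime (p := 2) ?_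
  rw [← coe_qPlus, card_center_congr (commutatorCongr (isomEquiv (qPlus m F)))]
  have h1 := exists_sing_of_three_le hΦ rfl (by omega)
  have h2 := eichSet_le_commutator hΦ rfl (genHyp_of hΦ rfl (.inr (by omega)))
  by_cases h : (2 : F) = 0 ∨ scal (ofQuad (qPlus m F)) (-1) (by simp) ∉ commutator (ofQuad (qPlus m F)).O
  · rw [card_center_quad_eq_one hΦ rfl h1 (by omega) _ h2 h]; simp
  · rw [card_center_quad_eq_two hΦ rfl h1 (by omega) _ h2 (not_or.1 h).1 (not_not.1 (not_or.1 h).2)]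

theorem pg_plus [Fintype F] (hn : 4 ≤ n) : PG (Omega F (quadFormPlus n F)) 8 (if n ≤ 5 then 29 else 31) := by
  rcases hn.eq_or_lt with rfl | h
  · exact pg_four.mono (by omega) (by simp)
  · obtain ⟨m, rfl⟩ : ∃ m, n = m + 2 := ⟨n - 2, by omega⟩
    exact (pg_five (by omega)).mono (by omega) (by split_ifs <;> omega)

end H7.OP
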