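import Cfsg.Agent.H19.Cm
import Cfsg.Agent.H1.PSolv
import Cfsg.Agent.H8.Cyc

/-! Pairs of elements of order `p` generating `p`-solvable groups with abelian Sylow subgroups. -/

set_option autoImplicit false
set_option linter.unusedSectionVars false
open Cfsg H17 H19 Subgroup
open H20 (cent nrm)
open H10 (IsSylowIn)

namespace H7.Pr

variable {G : Type*} [Group G] [Finite G] {p : ℕ} [hp : Fact p.Prime]

theorem map_eq_top (hs : IsPSolvable p G) {T : Subgroup G} (hT : IsSylowIn p T ⊤)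
    (hc : T ≤ cent T) {a b : G} (ha : IsPElt p a) (hb : IsPElt p b)
    (hg : closure {a, b} = ⊤) : T.map (QuotientGroup.mk' (pPrimeCore p G)) = ⊤ := by
  set f := QuotientGroup.mk' (pPrimeCore p G)
  have hf : Function.Surjective f := QuotientGroup.mk'_surjective _
  have hT' := hT.map_top hf
  have h0 := H1.pPrimeCore_quotient_pPrimeCore (G := G) p
  have h1 : pCore p (G ⧸ pPrimeCore p G) ≤ T.map f :=
    hT'.le_of_NN (H1.isPGroup_pCore p) le_top (by rw [normalizer_eq_top]; exact le_top)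
  have h2 : T.map f ≤ pCore p (G ⧸ pPrimeCore p G) := by
    refine le_trans ?_ (H1.IsPSolvable.centralizer_pCore_le (H1.IsPSolvable.quotient hs _) h0)
    rintro _ ⟨x, hx, rfl⟩
    refine mem_centralizer_iff.2 fun y hy => ?_
    obtain ⟨y, hy', rfl⟩ := h1 hy
    rw [← map_mul, ← map_mul, mem_centralizer_iff.1 (hc hx) y hy']
  have h3 : ∀ x : G, IsPElt p x → f x ∈ T.map f := fun x hx =>
    hT'.le_of_le_NN (hx.map f).isPGroup_zpowers le_top
      (by rw [le_antisymm h2 h1, normalizer_eq_top]; exact le_top) (mem_zpowers _)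
  rw [eq_top_iff, ← MonoidHom.range_eq_top.2 hf, MonoidHom.range_eq_map, ← hg, MonoidHom.map_closure,
    closure_le]
  rintro _ ⟨x, rfl | rfl, rfl⟩
  exacts [h3 _ ha, h3 _ hb]

/-- The projection of a two-generated `p`-solvable subgroup into an abelian Sylow subgroup. -/
theorem exists_hom {P : Subgroup G} (hP : IsSylowIn p P ⊤) (hc : P ≤ cent P) {a b : G}
    (ha : IsPElt p a) (hb : IsPElt p b) (hs : IsPSolvable p (closure {a, b} : Subgroup G)) :
    ∃ φ : (closure {a, b} : Subgroup G) →* G, (∀ x, φ x ∈ P) ∧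
      ∀ x, φ x = 1 ↔ ¬ p ∣ orderOf (x : G) := by
  set H : Subgroup G := closure {a, b} with hH
  have ma : a ∈ H := subset_closure (by simp)
  have mb : b ∈ H := subset_closure (by simp)
  obtain ⟨T, hT⟩ := H10.exists_isSylowIn p (⊤ : Subgroup H)
  obtain ⟨c, -, hcT⟩ := hP.exists_cj_le (hT.isPGroup.map H.subtype) le_top
  have hm : ∀ t ∈ T, c * (t : G) * c⁻¹ ∈ P := fun t ht =>
    hcT (H10.mem_cj.2 (by simpa [mul_assoc] using mem_map_of_mem H.subtype ht))
  have hTc : T ≤ cent T := fun t ht => mem_centralizer_iff.2 fun u hu => Subtype.ext (by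
    have := mem_centralizer_iff.1 (hc (hm t ht)) _ (hm u hu)
    simp only [← mul_assoc, inv_mul_cancel_right, mul_left_inj] at this
    simpa [mul_assoc] using this)
  have hg : closure ({⟨a, ma⟩, ⟨b, mb⟩} : Set H) = ⊤ := by
    apply map_injective H.subtype_injective
    rw [MonoidHom.map_closure, ← MonoidHom.range_eq_map, range_subtype, Set.image_pair]
    rfl
  have ht := map_eq_top hs hT hTc ((isPElt_coe_iff (x := ⟨a, ma⟩)).1 ha)
    ((isPElt_coe_iff (x := ⟨b, mb⟩)).1 hb) hg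
  set f := QuotientGroup.mk' (pPrimeCore p H)
  have hO : ∀ x : H, f x = 1 → ¬ p ∣ orderOf x := fun x hx h => by
    have h1 := h.trans (orderOf_dvd_natCard _ ((QuotientGroup.eq_one_iff x).1 hx))
    exact (Nat.Prime.coprime_iff_not_dvd hp.out).1 (H1.coprime_card_pPrimeCore p).symm h1
  let e : T ≃* H ⧸ pPrimeCore p H := MulEquiv.ofBijective (f.comp T.subtype)
    ⟨(injective_iff_map_eq_one _).2 fun t h =>
      Subtype.ext ((isPElt_of_mem hT.isPGroup t.2).eq_one (hO _ h)), fun q => by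
      obtain ⟨t, h1, h2⟩ : q ∈ T.map f := ht ▸ mem_top q
      exact ⟨⟨t, h1⟩, h2⟩⟩
  refine ⟨(MulAut.conj c).toMonoidHom.comp (H.subtype.comp (T.subtype.comp
    (e.symm.toMonoidHom.comp f))), fun x => hm _ (e.symm (f x)).2, fun x => ?_⟩
  have h1 : ((MulAut.conj c).toMonoidHom.comp (H.subtype.comp (T.subtype.comp
      (e.symm.toMonoidHom.comp f)))) x = 1 ↔ f x = 1 := by simp
  rw [h1, orderOf_coe]
  refine ⟨hO x, fun h => ?_⟩
  obtain ⟨t, h1, h2⟩ : f x ∈ T.map f := ht ▸ mem_top _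
  exact (h2 ▸ (isPElt_of_mem hT.isPGroup h1).map f).eq_one (preg_of_dvd h (orderOf_map_dvd f x))

section pair
variable {P : Subgroup G} (hP : IsSylowIn p P ⊤) (hc : P ≤ cent P) {a b : G}
  (ha : orderOf a = p) (hb : orderOf b = p) (hs : IsPSolvable p (closure {a, b} : Subgroup G))
include hP hc ha hb hs

theorem exists_pair : ∃ u ∈ P, ∃ v ∈ P, orderOf u = p ∧ orderOf v = p ∧
    (∀ i : ℕ, u ^ i * v = 1 ↔ ¬ p ∣ orderOf (a ^ i * b)) ∧ ppart p (a * b) ^ p = 1 := by
  obtain ⟨φ, h1, h2⟩ := exists_hom hP hc ⟨1, by rw [ha, pow_one]⟩ ⟨1, by rw [hb, pow_one]⟩ hs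
  let a' : (closure {a, b} : Subgroup G) := ⟨a, subset_closure (by simp)⟩
  let b' : (closure {a, b} : Subgroup G) := ⟨b, subset_closure (by simp)⟩
  have ho : ∀ x : (closure {a, b} : Subgroup G), orderOf (x : G) = p → orderOf (φ x) = p :=
    fun x hx => orderOf_eq_prime (by
      rw [← map_pow, ← hx, orderOf_coe, pow_orderOf_eq_one, map_one])
      fun h => (h2 x).1 h (hx ▸ dvd_rfl)
  refine ⟨φ a', h1 _, φ b', h1 _, ho a' ha, ho b' hb, fun i => ?_, ?_⟩
  · rw [← map_pow, ← map_mul, h2]; rfl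
  have e : a * b = ((a' * b' : (closure {a, b} : Subgroup G)) : G) := rfl
  rw [e, ppart_coe]
  have h3 : φ (ppart p (a' * b')) = φ a' * φ b' := by
    have := (h2 (rpart p (a' * b'))).2 (by rw [orderOf_coe]; exact rpart_reg _)
    rw [← map_mul, ← mul_one (φ (ppart p (a' * b'))), ← this, ← map_mul, ppart_mul_rpart]
  have h4 : Commute (φ a') (φ b') := mem_centralizer_iff.1 (hc (h1 _)) _ (h1 _)
  refine (isPElt_coe_iff.2 (ppart_isPElt _)).pow p |>.eq_one ?_
  rw [← coe_pow, ← h2, map_pow, h3, h4.mul_pow]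
  nth_rw 1 [← ho a' ha]
  rw [pow_orderOf_eq_one, ← ho b' hb, pow_orderOf_eq_one, one_mul]

theorem card_reg_le : ((Finset.Ico 1 p).filter fun i => ¬ p ∣ orderOf (a ^ i * b)).card ≤ 1 := by
  obtain ⟨u, -, v, -, hu, -, h, -⟩ := exists_pair hP hc ha hb hs
  refine Finset.card_le_one.2 fun i hi j hj => ?_
  simp only [Finset.mem_filter, Finset.mem_Ico, ← h] at hi hj
  exact pow_injOn_Iio_orderOf (x := u) (by rw [hu]; exact hi.1.2) (by rw [hu]; exact hj.1.2)
    (mul_right_cancel (hi.2.trans hj.2.symm))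

theorem card_reg_eq (hcy : IsCyclic P) :
    ((Finset.Ico 1 p).filter fun i => ¬ p ∣ orderOf (a ^ i * b)).card = 1 := by
  classical
  refine le_antisymm (card_reg_le hP hc ha hb hs) (Finset.card_pos.2 ?_)
  obtain ⟨u, mu, v, mv, hu, hv, h, -⟩ := exists_pair hP hc ha hb hs
  have := H8.mem_zpowers_of_isCyclic hcy mu (inv_mem mv) (by rw [orderOf_inv, hu, hv])
  obtain ⟨i, hi, e⟩ := Finset.mem_image.1 (mem_zpowers_iff_mem_range_orderOf.1 this)
  refine ⟨i, Finset.mem_filter.2 ⟨Finset.mem_Ico.2 ⟨Nat.pos_of_ne_zero ?_, ?_⟩, (h i).1 ?_⟩⟩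
  · rintro rfl
    rw [pow_zero, eq_comm, inv_eq_one] at e
    exact H10.ne_one_of_orderOf_eq hv e
  · simpa [hu] using hi
  · rw [e, inv_mul_cancel]

end pair

section count
variable [Fintype G] [DecidableEq G]

variable (G p) in
/-- The elements of order `p`. -/
noncomputable def KK : Finset G := Finset.univ.filter fun g => orderOf g = p

theorem mem_KK {g : G} : g ∈ KK G p ↔ orderOf g = p := by simp [KK]

variable (G p) in
/-- The number of pairs of elements of order `p` with `p`-regular product. -/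
noncomputable def RR : ℕ := ∑ a ∈ KK G p, ∑ b ∈ KK G p, if p ∣ orderOf (a * b) then 0 else 1

theorem sum_KK_pow {M : Type*} [AddCommMonoid M] (F : G → M) {i : ℕ} (hi : i ∈ Finset.Ico 1 p) :
    ∑ a ∈ KK G p, F (a ^ i) = ∑ a ∈ KK G p, F a := by
  obtain ⟨h1, h2⟩ := Finset.mem_Ico.1 hi
  have hc : i.Coprime p := (Nat.coprime_of_lt_prime (by omega) h2 hp.out).symm
  obtain ⟨j, -, hj⟩ := Nat.exists_mul_mod_eq_one_of_coprime hc hp.out.one_lt
  have e : ∀ a ∈ KK G p, (a ^ i) ^ j = a := fun a ha => by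
    rw [← pow_mul, ← pow_mod_orderOf, mem_KK.1 ha, hj, pow_one]
  have hm : ∀ a ∈ KK G p, a ^ i ∈ KK G p := fun a ha => by
    rw [mem_KK, Nat.Coprime.orderOf_pow (by rw [mem_KK.1 ha]; exact hc.symm), mem_KK.1 ha]
  have hinj : Set.InjOn (fun a : G => a ^ i) (KK G p) := fun a ha b hb h => by
    rw [← e a ha, ← e b hb]; exact congrArg (· ^ j) h
  exact Finset.sum_nbij (fun a => a ^ i) hm hinj
    (Finset.surjOn_of_injOn_of_card_le _ hm hinj le_rfl) fun _ _ => rfl

theorem mul_RR : (p - 1) * RR G p = ∑ a ∈ KK G p, ∑ b ∈ KK G p,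
    ((Finset.Ico 1 p).filter fun i => ¬ p ∣ orderOf (a ^ i * b)).card := by
  rw [← Nat.card_Ico, ← smul_eq_mul, ← Finset.sum_const, RR]
  rw [Finset.sum_congr rfl fun i hi => (sum_KK_pow
    (fun a => ∑ b ∈ KK G p, if p ∣ orderOf (a * b) then 0 else 1) hi).symm, Finset.sum_comm]
  refine Finset.sum_congr rfl fun a _ => ?_
  rw [Finset.sum_comm]
  refine Finset.sum_congr rfl fun b _ => ?_
  rw [Finset.card_filter]
  exact Finset.sum_congr rfl fun i _ => by split_ifs <;> rfl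

variable {P : Subgroup G} (hP : IsSylowIn p P ⊤) (hc : P ≤ cent P)
  (hs : ∀ a b : G, orderOf a = p → orderOf b = p → IsPSolvable p (closure {a, b} : Subgroup G))
include hP hc hs

theorem mul_RR_le : (p - 1) * RR G p ≤ (KK G p).card ^ 2 := by
  rw [mul_RR, sq, ← smul_eq_mul]
  refine Finset.sum_le_card_nsmul _ _ _ fun a ha => ?_
  rw [← mul_one (Finset.card _), ← smul_eq_mul]
  exact Finset.sum_le_card_nsmul _ _ _ fun b hb =>
    card_reg_le hP hc (mem_KK.1 ha) (mem_KK.1 hb) (hs _ _ (mem_KK.1 ha) (mem_KK.1 hb))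

theorem mul_RR_eq (hcy : IsCyclic P) : (p - 1) * RR G p = (KK G p).card ^ 2 := by
  rw [mul_RR, Finset.sum_congr rfl fun a ha => Finset.sum_congr rfl fun b hb =>
    card_reg_eq hP hc (mem_KK.1 ha) (mem_KK.1 hb) (hs _ _ (mem_KK.1 ha) (mem_KK.1 hb)) hcy]
  simp [sq]

end count

end H7.Pr
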