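import Cfsg.Agent.H7.Pair1

/-! Counting pairs of elements of order `p` through the principal block. -/

set_option autoImplicit false
set_option linter.unusedSectionVars false
open scoped ComplexConjugate
open Cfsg H17 H19 Subgroup
open H20 (cent nrm)
open H10 (IsSylowIn)

namespace H7.Pr

variable {G : Type*} [Group G] [Finite G] {p : ℕ} [hp : Fact p.Prime] {O : ValuationSubring ℂ}
  {P : Subgroup G}

variable (p) in
/-- The indicator function of the elements of order `p`. -/
noncomputable def fK : G → ℂ := fun g => if orderOf g = p then 1 else 0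

theorem fK_class : IsClassFunction G (fK p) :=
  isClassFunction_iff_isConj.2 fun _ _ h => by simp only [fK, orderOf_isConj h]

theorem fK_inv (g : G) : fK p g⁻¹ = fK p g := by simp only [fK, orderOf_inv]

theorem ord_of_fK {g : G} (h : fK p g ≠ 0) : orderOf g = p := by
  by_contra h'; exact h (if_neg h')

theorem fK_of_ord {g : G} (h : orderOf g = p) : fK p g = 1 := if_pos h

theorem pelt_of_ord {g : G} (h : orderOf g = p) : IsPElt p g ∧ g ≠ 1 :=
  ⟨⟨1, by rw [h, pow_one]⟩, H10.ne_one_of_orderOf_eq h⟩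

variable [Fintype P]

variable (p P) in
/-- The sum of a function over the elements of order `p` of `P`. -/
noncomputable def sg (F : G → ℂ) : ℂ := ∑ z : P, fK p (z : G) * F z

theorem sg_inv (F : G → ℂ) : sg p P (fun g => F g⁻¹) = sg p P F := by
  rw [sg, sg, ← Equiv.sum_comp (Equiv.inv P)]
  simp [fK_inv]

theorem sum_conj (h : AF p P) {y : G} (hy : IsPElt p y) (h1 : y ≠ 1)
    [∀ z : P, Decidable (IsConj (z : G) y)] :
    ∑ z : P, (if IsConj (z : G) y then (1 : ℂ) else 0) = (cent P).relIndex (nrm P) := by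
  classical
  have := Fintype.ofFinite (Az P)
  obtain ⟨c, hc⟩ := exists_conj_mem_of_pelt h.syl hy
  have hu : (⟨_, hc⟩ : P) ≠ 1 := fun e => h1 (by simpa [mul_inv_eq_one] using congrArg Subtype.val e)
  have e : ∀ z : P, (if IsConj (z : G) y then (1 : ℂ) else 0) =
      ∑ e : Az P, if (e : P ≃* P) ⟨_, hc⟩ = z then (1 : ℂ) else 0 := fun z => by
    rw [h.sum_fix hu]
    have : IsConj y (c * y * c⁻¹) := isConj_iff.2 ⟨c, rfl⟩
    exact if_congr ⟨fun a => (a.trans this).symm, fun a => (this.trans a).symm⟩ rfl rfl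
  rw [Finset.sum_congr rfl fun z _ => e z, Finset.sum_comm, ← card_Az]
  simp

variable [Fintype G]

theorem sum_P (h : AF p P) {F : G → ℂ} (hF : IsClassFunction G F)
    (hs : ∀ y, F y ≠ 0 → IsPElt p y ∧ y ≠ 1) :
    Nat.card G * ∑ z : P, F z = (cent P).relIndex (nrm P) *
      ∑ y, F y * Nat.card (centralizer ({y} : Set G)) := by
  classical
  have e : ∀ z : P, Nat.card G * F z = ∑ y, (if IsConj (z : G) y then (1 : ℂ) else 0) *
      (F y * Nat.card (centralizer ({y} : Set G))) := fun z => by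
    rw [Finset.sum_congr rfl (g := fun y => if IsConj (z : G) y then
      F z * Nat.card (centralizer ({(z : G)} : Set G)) else 0) fun y _ => by
        split_ifs with a
        · rw [one_mul, hF.of_isConj a, card_centralizer_of_isConj a]
        · rw [zero_mul], ← Finset.sum_filter, Finset.sum_const, H19.card_filter_isConj,
      ← (centralizer ({(z : G)} : Set G)).card_mul_index, nsmul_eq_mul]
    push_cast; ring
  rw [Finset.mul_sum, Finset.sum_congr rfl fun z _ => e z, Finset.sum_comm, Finset.mul_sum]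
  refine Finset.sum_congr rfl fun y _ => ?_
  rw [← Finset.sum_mul]
  by_cases h0 : F y = 0
  · simp [h0]
  · rw [sum_conj h (hs y h0).1 (hs y h0).2]

variable (p P) in
/-- The standing hypotheses. -/
structure PS (c r : ℕ) : Prop where
  af : AF p P
  cent : ∀ z ∈ P, orderOf z = p → Nat.card (centralizer ({z} : Set G)) = c
  num : sg p P (fun _ => 1) = r
  pos : r ≠ 0
  sol : ∀ a b : G, orderOf a = p → orderOf b = p → IsPSolvable p (closure {a, b} : Subgroup G)

namespace PS
variable {c r : ℕ} (h : PS p P c r)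
include h

theorem cent' {y : G} (hy : orderOf y = p) : Nat.card (centralizer ({y} : Set G)) = c := by
  obtain ⟨g, hg⟩ := exists_conj_mem_of_pelt h.af.syl (pelt_of_ord hy).1
  rw [card_centralizer_of_isConj (isConj_iff.2 ⟨g, rfl⟩), h.cent _ hg (by rw [orderOf_conj', hy])]

theorem exists_ord : ∃ z ∈ P, orderOf z = p := by
  obtain ⟨z, -, hz⟩ := Finset.exists_ne_zero_of_sum_ne_zero
    (h.num.trans_ne (Nat.cast_ne_zero.2 h.pos))
  exact ⟨z, z.2, ord_of_fK (left_ne_zero_of_mul hz)⟩

theorem c_ne : (c : ℂ) ≠ 0 := by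
  obtain ⟨z, h1, h2⟩ := h.exists_ord
  rw [← h.cent z h1 h2]; exact card_ne_zero_complex

theorem sum_fK {F : G → ℂ} (hF : IsClassFunction G F) :
    Nat.card G * sg p P F = (H20.cent P).relIndex (nrm P) * c * ∑ y, fK p y * F y := by
  have := sum_P h.af (F := fun y => fK p y * F y) (isClassFunction_iff_isConj.2 fun _ _ a => by
    simp only [fK_class.of_isConj a, hF.of_isConj a])
    fun y hy => pelt_of_ord (ord_of_fK (left_ne_zero_of_mul hy))
  rw [sg, this, mul_assoc, Finset.mul_sum, Finset.mul_sum, Finset.mul_sum]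
  refine Finset.sum_congr rfl fun y _ => ?_
  by_cases h0 : fK p y = 0
  · simp [h0]
  · rw [h.cent' (ord_of_fK h0)]; ring

omit h in
theorem e_ne : (((H20.cent P).relIndex (nrm P) : ℕ) : ℂ) ≠ 0 := by
  rw [← card_Az]; exact card_ne_zero_complex

theorem inner_fK (χ : IrrCharacter G) :
    classInner (fK p) (χ : G → ℂ) = sg p P χ / ((H20.cent P).relIndex (nrm P) * c) := by
  have h1 := h.sum_fK (F := fun g => (χ : G → ℂ) g⁻¹) (isClassFunction_iff_isConj.2 fun _ _ a =>
    by simp only [← irr_conj, (irr_class χ).of_isConj a])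
  rw [sg_inv] at h1
  have := h.c_ne
  have := e_ne (P := P)
  have : (Nat.card G : ℂ) ≠ 0 := card_ne_zero_complex
  simp only [classInner_def, irr_conj]
  field_simp
  linear_combination -h1

variable [DecidableEq G]

omit h in
theorem sum_fK_eq (F : G → ℂ) : ∑ y, fK p y * F y = ∑ y ∈ KK G p, F y := by
  rw [KK, Finset.sum_filter]
  exact Finset.sum_congr rfl fun y _ => by rw [fK]; split_ifs <;> simp

theorem card_KK : (Nat.card G : ℂ) * r = (H20.cent P).relIndex (nrm P) * c * (KK G p).card := by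
  have := h.sum_fK (F := fun _ => 1) (isClassFunction_iff_isConj.2 fun _ _ _ => rfl)
  rw [h.num, sum_fK_eq] at this
  simpa using this

theorem KK_ne : ((KK G p).card : ℂ) ≠ 0 := fun e => by
  have := h.card_KK
  rw [e, mul_zero] at this
  exact mul_ne_zero card_ne_zero_complex (Nat.cast_ne_zero.2 h.pos) this

variable [CharP (kk O) p] [DecidablePred (· ∈ irr (B0 O G))]

theorem theta (u : G) : blockPart (irr (B0 O G)) (conv (fK p) (fK p)) u =
    Nat.card G / ((H20.cent P).relIndex (nrm P) * c) ^ 2 *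
      ∑ χ with χ ∈ irr (B0 O G), (χ : G → ℂ) u * (sg p P χ ^ 2 / (χ : G → ℂ) 1) := by
  rw [blockPart_eq_sum, Finset.mul_sum]
  refine Finset.sum_congr rfl fun χ _ => ?_
  rw [inner_conv fK_class, h.inner_fK]
  ring

omit h in
theorem npc (h : AF p P) {y : G} (hy : IsPElt p y) (h1 : y ≠ 1) :
    HasNormalPComplement p (centralizer ({y} : Set G)) ∧
      Kr (irr (B0 O G)) y y = Nat.card P := by
  classical
  obtain ⟨g, hg⟩ := exists_conj_mem_of_pelt h.syl hy
  have h2 : g * y * g⁻¹ ≠ 1 := fun e => h1 (by simpa [mul_inv_eq_one] using e)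
  have h3 : IsConj y (g * y * g⁻¹) := isConj_iff.2 ⟨g, rfl⟩
  refine ⟨?_, by rw [Kr_isConj _ h3 h3, h.Kr_eq hg hg h2, if_pos (IsConj.refl _)]⟩
  have := H3.hasNormalPComplement_map (MulAut.conj g⁻¹).toMonoidHom (h.npc_cent hg h2)
  have e : (centralizer {g * y * g⁻¹}).map (MulAut.conj g⁻¹).toMonoidHom = centralizer {y} := by
    ext x
    rw [mem_map_equiv, mem_centralizer_singleton_iff, mem_centralizer_singleton_iff]
    simp [mul_assoc]
    simp [← mul_assoc]
  rwa [e] at this

omit h in
theorem card_sec (h : AF p P) {y : G} (hy : IsPElt p y) (h1 : y ≠ 1) :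
    ((Finset.univ.filter fun g => ppart p g = y).card : ℂ) * Nat.card P =
      Nat.card (centralizer ({y} : Set G)) := by
  obtain ⟨O, _⟩ := exists_val p
  classical
  obtain ⟨h2, h3⟩ := npc (O := O) h hy h1
  have h4 := sum_ppart_eq_B0 (O := O) hy h2 (cind_class y)
  rw [Finset.sum_eq_single y, cind_of_isConj (IsConj.refl y), blockPart_eq_sum] at h4
  · simp only [inner_cind, div_mul_eq_mul_div, ← Finset.sum_div, mul_comm ((_ : G → ℂ) y⁻¹)] at h4
    rw [← H19.Kr_eq, h3] at h4
    have : (Nat.card (centralizer ({y} : Set G)) : ℂ) ≠ 0 := card_ne_zero_complex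
    field_simp at h4
    exact h4.symm
  · intro g hg hne
    by_contra a
    obtain ⟨k, hk⟩ := hy
    exact hne ((ppart_eq (isPPart_self ⟨k, by rw [orderOf_isConj (isConj_of_cind a), hk]⟩)).symm.trans
      (Finset.mem_filter.1 hg).2)
  · intro a
    exact (a (Finset.mem_filter.2 ⟨Finset.mem_univ _, ppart_eq (isPPart_self hy)⟩)).elim

theorem theta_zero {u : G} (hu : IsPElt p u) (h1 : u ^ p ≠ 1) :
    blockPart (irr (B0 O G)) (conv (fK p) (fK p)) u = 0 := by
  refine blockPart_eq_zero_of_section (x := u) (fun g z hg hz => ?_) _ (isPPart_self hu)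
    (IsConj.refl u)
  by_contra a
  obtain ⟨x, -, hx⟩ := Finset.exists_ne_zero_of_sum_ne_zero a
  have ha := ord_of_fK (left_ne_zero_of_mul hx)
  have hb := ord_of_fK (right_ne_zero_of_mul hx)
  obtain ⟨-, -, -, -, -, -, -, h5⟩ := exists_pair h.af.syl h.af.comm ha hb (h.sol _ _ ha hb)
  rw [mul_inv_cancel_left, ppart_eq hg, ← orderOf_dvd_iff_pow_eq_one, orderOf_isConj hz,
    orderOf_dvd_iff_pow_eq_one] at h5
  exact h1 h5

theorem vanish {u : G} (hu : IsPElt p u) (h1 : u ^ p ≠ 1) :
    ∑ χ with χ ∈ irr (B0 O G), (χ : G → ℂ) u * (sg p P χ ^ 2 / (χ : G → ℂ) 1) = 0 := by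
  have := h.theta_zero (O := O) hu h1
  rw [h.theta] at this
  exact (mul_eq_zero.1 this).resolve_left (div_ne_zero card_ne_zero_complex
    (pow_ne_zero 2 (mul_ne_zero e_ne h.c_ne)))

theorem count : ((H20.cent P).relIndex (nrm P) : ℂ) * Nat.card P * r ^ 2 *
    ((KK G p).card ^ 2 - RR G p) =
      (KK G p).card ^ 2 * ∑ χ with χ ∈ irr (B0 O G), sg p P χ ^ 3 / (χ : G → ℂ) 1 := by
  classical
  set Θ := blockPart (irr (B0 O G)) (conv (fK p) (fK p)) with hΘ
  have hc : IsClassFunction G Θ := blockPart_isClassFunction _ _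
  have h1 : ((KK G p).card ^ 2 - RR G p : ℂ) =
      ∑ g : G, conv (fK p) (fK p) g * if p ∣ orderOf g then 1 else 0 := by
    rw [sum_conv_mul]
    simp only [mul_assoc, ← Finset.mul_sum, sum_fK_eq]
    rw [sub_eq_iff_eq_add, RR]
    push_cast
    rw [← Finset.sum_add_distrib]
    rw [Finset.sum_congr rfl (g := fun _ => ((KK G p).card : ℂ)) fun a _ => by
      rw [← Finset.sum_add_distrib, Finset.sum_congr rfl (g := fun _ => 1) fun b _ => by
        split_ifs <;> simp]
      simp]
    simp [sq]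
  have h2 : ∀ y : G, Nat.card P * ∑ g with ppart p g = y, (conv (fK p) (fK p) g *
      if p ∣ orderOf g then 1 else 0) = fK p y * Θ y * c := fun y => by
    by_cases hy : IsPElt p y ∧ y ≠ 1
    · rw [Finset.sum_congr rfl (g := conv (fK p) (fK p)) fun g hg => by
        rw [if_pos, mul_one]
        by_contra a
        exact hy.2 ((Finset.mem_filter.1 hg).2 ▸ (isPPart_eq_one_iff (isPPart_ppart g)).2 a),
        sum_ppart_eq_B0 (O := O) hy.1 (npc (O := O) h.af hy.1 hy.2).1
          (conv_class fK_class fK_class), ← mul_assoc, mul_comm (Nat.card P : ℂ),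
        card_sec h.af hy.1 hy.2]
      by_cases ho : orderOf y = p
      · rw [fK_of_ord ho, h.cent' ho, one_mul, mul_comm]
      · rw [hΘ, h.theta_zero hy.1 fun a => ho (orderOf_eq_prime a hy.2)]; simp
    · rw [show fK p y = 0 from if_neg fun a => hy (pelt_of_ord a), zero_mul, zero_mul,
        Finset.sum_eq_zero, mul_zero]
      intro g hg
      rw [if_neg, mul_zero]
      intro a
      refine hy ((Finset.mem_filter.1 hg).2 ▸ ⟨ppart_isPElt g, fun b => ?_⟩)
      exact (isPPart_eq_one_iff (isPPart_ppart g)).1 b a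
  have h3 : (Nat.card P : ℂ) * ((KK G p).card ^ 2 - RR G p) = (∑ y, fK p y * Θ y) * c := by
    rw [h1, ← Finset.sum_fiberwise Finset.univ (ppart p), Finset.mul_sum, Finset.sum_mul]
    exact Finset.sum_congr rfl fun y _ => h2 y
  have h4 := h.sum_fK hc
  have h5 : sg p P Θ = Nat.card G / ((H20.cent P).relIndex (nrm P) * c) ^ 2 *
      ∑ χ with χ ∈ irr (B0 O G), sg p P χ ^ 3 / (χ : G → ℂ) 1 := by
    rw [sg]
    simp only [hΘ, h.theta, mul_left_comm (fK p _)]
    rw [← Finset.mul_sum]
    rw [← sum_col_mul_fun]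
    congr 1
    exact Finset.sum_congr rfl fun χ _ => by rw [← sg]; ring
  have h6 := h.card_KK
  have := h.c_ne
  have := e_ne (P := P)
  rw [h5] at h4
  field_simp at h4
  have h7 : ((KK G p).card : ℂ) = Nat.card G * r / ((H20.cent P).relIndex (nrm P) * c) := by
    field_simp; linear_combination -h6
  rw [mul_right_comm _ (Nat.card P : ℂ), mul_assoc, h3]
  conv_rhs => rw [h7]
  field_simp
  linear_combination (-(r : ℂ) ^ 2) * h4

theorem norm : ∑ χ with χ ∈ irr (B0 O G), sg p P χ ^ 2 =
    r * (H20.cent P).relIndex (nrm P) * Nat.card P := by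
  classical
  have := sum_col_mul (irr (B0 O G)) (fun z : P => (z : G)) (fun z => fK p (z : G))
    (fun z : P => (z : G)) fun z => fK p (z : G)
  rw [← h.num, sg, Finset.sum_mul, Finset.sum_mul]
  refine (Finset.sum_congr rfl fun χ _ => ?_).trans (this.trans (Finset.sum_congr rfl fun z _ => ?_))
  · rw [sq]; congr 1; exact (sg_inv _).symm
  by_cases h0 : fK p (z : G) = 0
  · simp [h0]
  have ho := pelt_of_ord (ord_of_fK h0)
  rw [← sum_conj h.af ho.1 ho.2, Finset.mul_sum, Finset.sum_mul]
  refine Finset.sum_congr rfl fun v _ => ?_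
  rw [h.af.Kr_eq z.2 v.2 ho.2]
  by_cases a : IsConj (z : G) v
  · rw [if_pos a, if_pos a.symm, ← fK_class.of_isConj a, fK_of_ord (ord_of_fK h0)]; ring
  · rw [if_neg a, if_neg fun b => a b.symm]; ring

omit h in
theorem orth : ∑ χ with χ ∈ irr (B0 O G), sg p P χ * (χ : G → ℂ) 1 = 0 := by
  refine sum_col_eq_zero _ (fun z : P => (z : G)) (fun z => fK p (z : G)) _ fun z hz => ?_
  have := Kr_weak' (B0 O G) (g := (z : G)) (h := 1) (ord_of_fK hz ▸ dvd_rfl) preg_one
  rwa [H19.Kr_eq, inv_one] at this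

end PS

end H7.Pr
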