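import Cfsg.Agent.H7.Pair2
import Cfsg.Agent.H20.Nil

/-! Simple groups in which pairs of elements of order `p` generate `p`-solvable groups. -/

set_option autoImplicit false
set_option linter.unusedSectionVars false
open scoped ComplexConjugate
open Cfsg H17 H19 Subgroup
open H20 (cent nrm)
open H10 (IsSylowIn)

namespace H7.Pr

theorem ar_term {s d r e : ℤ} (hd : 0 < d) (hr : 0 < r) (he : 0 < e) (h1 : s ^ 2 ≤ r * e * (r + 1))
    (h2 : (r + 1) * e ≤ r * d - s) : (s : ℚ) ^ 3 / d ≤ r * s ^ 2 / 2 := by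
  have h3 : 2 * s ≤ r * d := by
    rcases le_total s r with a | a
    · nlinarith
    · have : s * r ≤ r * (r * d - s) := by nlinarith
      nlinarith
  have h4 : (2 * s : ℚ) ≤ r * d := by exact_mod_cast h3
  rw [div_le_div_iff₀ (by exact_mod_cast hd) two_pos]
  nlinarith [sq_nonneg (s : ℚ)]

theorem ar_sum {ι : Type*} [DecidableEq ι] {B : Finset ι} {o : ι} (ho : o ∈ B) {s d : ι → ℤ}
    {r e : ℤ} (hd : ∀ i, 0 < d i) (hr : 0 < r) (he : 0 < e) (hs : s o = r) (hdo : d o = 1)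
    (h1 : ∑ i ∈ B, s i ^ 2 = r * e * (r + 1))
    (h2 : ∀ i ∈ B, i ≠ o → (r + 1) * e ≤ r * d i - s i) :
    ∑ i ∈ B, (s i : ℚ) ^ 3 / d i ≤ (r ^ 3 + r ^ 2 * e * (r + 1)) / 2 ∧
      ((∀ i ∈ B, r ∣ s i) → ∑ i ∈ B, s i * d i = 0 →
        ∑ i ∈ B, (s i : ℚ) ^ 3 / d i < r ^ 2 * e * (r + 1) / 2) := by
  have h3 : ∀ i ∈ B, (s i : ℚ) ^ 3 / d i ≤ r * s i ^ 2 / 2 + if i = o then (r : ℚ) ^ 3 / 2 else 0 :=
    fun i hi => by
      split_ifs with a
      · rw [a, hs, hdo]; push_cast; linarith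
      · rw [add_zero]
        exact ar_term (hd i) hr he (h1 ▸ Finset.single_le_sum (f := fun i => s i ^ 2)
          (fun i _ => sq_nonneg _) hi) (h2 i hi a)
  have h4 : ∑ i ∈ B, (r * s i ^ 2 / 2 : ℚ) = r ^ 2 * e * (r + 1) / 2 := by
    rw [← Finset.sum_div, ← Finset.mul_sum]
    have : ∑ i ∈ B, (s i : ℚ) ^ 2 = r * e * (r + 1) := by exact_mod_cast h1
    rw [this]; ring
  refine ⟨(Finset.sum_le_sum h3).trans_eq ?_, fun h5 h6 => ?_⟩
  · rw [Finset.sum_add_distrib, h4, Finset.sum_ite_eq' , if_pos ho]; ring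
  obtain ⟨j, hj, hn⟩ : ∃ j ∈ B, s j < 0 := by
    by_contra! a
    have := Finset.single_le_sum (f := fun i => s i * d i)
      (fun i hi => mul_nonneg (a i hi) (hd i).le) ho
    rw [h6, hs, hdo] at this
    omega
  have hjo : j ≠ o := by rintro rfl; omega
  have h7 : ∑ i ∈ B, (s i : ℚ) ^ 3 / d i < ∑ i ∈ B, ((r : ℚ) * s i ^ 2 / 2 +
      (if i = o then (r : ℚ) ^ 3 / 2 else 0) - if i = j then (r : ℚ) ^ 3 / 2 else 0) := by
    have h8 : (s j : ℚ) ^ 3 / d j < r * s j ^ 2 / 2 + (if j = o then (r : ℚ) ^ 3 / 2 else 0) -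
        if j = j then (r : ℚ) ^ 3 / 2 else 0 := by
      rw [if_neg hjo, if_pos rfl]
      have a : (s j : ℚ) ^ 3 / d j < 0 := div_neg_of_neg_of_pos
        (Odd.pow_neg (by decide) (by exact_mod_cast hn)) (by exact_mod_cast hd j)
      have b : r ≤ -s j := Int.le_of_dvd (by omega) (h5 j hj).neg_right
      have c : r ^ 3 ≤ r * s j ^ 2 := by nlinarith [mul_le_mul b b hr.le (by omega)]
      have c' : (r : ℚ) ^ 3 ≤ r * s j ^ 2 := by exact_mod_cast c
      linarith
    refine Finset.sum_lt_sum (fun i hi => ?_) ⟨j, hj, h8⟩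
    by_cases a : i = j
    · rw [a]; exact h8.le
    · rw [if_neg a, sub_zero]; exact h3 i hi
  rw [Finset.sum_sub_distrib, Finset.sum_add_distrib, h4, Finset.sum_ite_eq', Finset.sum_ite_eq',
    if_pos ho, if_pos hj] at h7
  linarith

variable {G : Type*} [Group G] [Finite G] {p : ℕ} [hp : Fact p.Prime] {O : ValuationSubring ℂ}
  {P : Subgroup G}

theorem eq_triv [IsSimpleGroup G] {χ : IrrCharacter G} {x : G} (hx : x ≠ 1)
    (h : (χ : G → ℂ) x = (χ : G → ℂ) 1) : χ = triv G := by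
  by_contra a
  have := χ.2.charKer_eq_bot_of_simple fun e => a (Subtype.ext e)
  exact hx (mem_bot.1 (this ▸ χ.2.mem_charKer.2 h))

theorem deg_eq_sum [Fintype (P →* ℂˣ)] (h : AF p P) (χ : IrrCharacter G) :
    (charDegree (χ : G → ℂ) : ℤ) = ∑ l : P →* ℂˣ, mu l χ := by
  have := Fintype.ofFinite P
  have := apply_eq_sum_mu h.comm' χ 1
  simp only [map_one, Units.val_one, mul_one, OneMemClass.coe_one, ← cast_deg] at this
  exact_mod_cast this

theorem mu_lconj {l l' : P →* ℂˣ} (h : LConj P l l') (χ : IrrCharacter G) : mu l' χ = mu l χ := by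
  have := Fintype.ofFinite P
  obtain ⟨e, rfl⟩ := lconj_iff.1 h
  exact (mu_comp _ _ (isConj_Az e) χ).symm

theorem e_le [IsSimpleGroup G] (h : AF p P) (h1 : P ≠ ⊥) {χ : IrrCharacter G} (hχ : χ ≠ triv G) :
    ((cent P).relIndex (nrm P) : ℤ) ≤ charDegree (χ : G → ℂ) - mu (1 : P →* ℂˣ) χ := by
  classical
  have := Fintype.ofFinite P
  have := finite_monoidHom_units (G := P)
  have := Fintype.ofFinite (P →* ℂˣ)
  obtain ⟨l, hl, h2⟩ : ∃ l : P →* ℂˣ, l ≠ 1 ∧ mu l χ ≠ 0 := by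
    by_contra! a
    obtain ⟨u, hu⟩ := (P.ne_bot_iff_exists_ne_one).1 h1
    have e : ∀ u : P, (χ : G → ℂ) u = mu (1 : P →* ℂˣ) χ := fun u => by
      rw [apply_eq_sum_mu h.comm', Finset.sum_eq_single 1 (fun l _ hl => by simp [a l hl])
        (by simp)]
      simp
    exact hχ (eq_triv (x := u) (fun e => hu (Subtype.ext e)) ((e u).trans (e 1).symm))
  rw [deg_eq_sum h, ← Finset.sum_erase_eq_sub (Finset.mem_univ _), ← h.card_lconj hl,
    Finset.card_eq_sum_ones]
  push_cast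
  refine (Finset.sum_le_sum fun l' hl' => ?_).trans (Finset.sum_le_sum_of_subset_of_nonneg
    (fun l' hl' => ?_) fun l' _ _ => mu_nonneg l' χ)
  · rw [mu_lconj (Finset.mem_filter.1 hl').2]
    have := mu_nonneg l χ
    omega
  · simpa using (Finset.mem_filter.1 hl').2.ne_one hl

theorem dvd_of_e (h : AF p P) (h1 : P ≠ ⊥) {r : ℕ} (hr : Nat.card P = r + 1)
    (he : (cent P).relIndex (nrm P) = r) (χ : IrrCharacter G) :
    (r : ℤ) ∣ (r + 1) * mu (1 : P →* ℂˣ) χ - charDegree (χ : G → ℂ) := by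
  classical
  have := Fintype.ofFinite P
  have := finite_monoidHom_units (G := P)
  have := Fintype.ofFinite (P →* ℂˣ)
  obtain ⟨l, hl⟩ := h.exists_ne_one (P.one_lt_card_iff_ne_bot.2 h1)
  have h2 : (Finset.univ.erase (1 : P →* ℂˣ)).card = r := by
    rw [Finset.card_erase_of_mem (Finset.mem_univ _), Finset.card_univ, card_units_of_comm h.comm',
      hr]; rfl
  have h3 : Finset.univ.filter (LConj P l) = Finset.univ.erase 1 :=
    Finset.eq_of_subset_of_card_le (fun l' hl' => by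
      simpa using (Finset.mem_filter.1 hl').2.ne_one hl) (by rw [h.card_lconj hl, he, h2])
  rw [deg_eq_sum h, ← Finset.add_sum_erase _ _ (Finset.mem_univ 1),
    Finset.sum_congr rfl (g := fun _ => mu l χ) fun l' hl' =>
      mu_lconj (Finset.mem_filter.1 (h3 ▸ hl')).2 χ, Finset.sum_const, h2]
  exact ⟨mu 1 χ - mu l χ, by simp; ring⟩

theorem e_le_card (h : AF p P) (h1 : P ≠ ⊥) : (cent P).relIndex (nrm P) + 1 ≤ Nat.card P := by
  classical
  have := Fintype.ofFinite P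
  have := finite_monoidHom_units (G := P)
  have := Fintype.ofFinite (P →* ℂˣ)
  obtain ⟨l, hl⟩ := h.exists_ne_one (P.one_lt_card_iff_ne_bot.2 h1)
  rw [← h.card_lconj hl, ← card_units_of_comm h.comm', ← Finset.card_univ]
  exact Finset.card_lt_card (Finset.filter_ssubset.2 ⟨1, Finset.mem_univ _,
    fun a => a.ne_one hl rfl⟩)

theorem two_le_e [IsSimpleGroup G] (hG : ¬ IsMulCommutative G) (h : AF p P) (h1 : P ≠ ⊥) :
    2 ≤ (cent P).relIndex (nrm P) := by
  have h0 : (cent P).relIndex (nrm P) ≠ 0 := by rw [← card_Az]; exact Nat.card_pos.ne'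
  by_contra a
  have h2 := npc_of_nrm_le h.syl (inf_le_right.trans (relIndex_eq_one.1 (by omega)))
  obtain ⟨N, _, h3, h4⟩ := exists_compl (H3.hasNormalPComplement_top.1 h2)
  rcases IsSimpleGroup.eq_bot_or_eq_top_of_normal N inferInstance with rfl | rfl
  · have := h.syl.eq_of_le ((h4.of_equiv QuotientGroup.quotientBot).to_subgroup ⊤) le_top le_rfl
    refine hG ⟨⟨fun a b => ?_⟩⟩
    exact mem_centralizer_iff.1 (h.comm (this ▸ mem_top b)) a (this ▸ mem_top a)
  · exact h3 (H10.dvd_card_of_le h.syl.isPGroup h1 le_top)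

variable [Fintype P]

theorem sg_elem (he : ∀ z ∈ P, z ≠ 1 → orderOf z = p) (F : G → ℂ) :
    sg p P F = ∑ z : P, F z - F 1 := by
  classical
  rw [sg, ← Finset.add_sum_erase _ _ (Finset.mem_univ 1), ← Finset.add_sum_erase _ _
    (Finset.mem_univ 1), Finset.sum_congr rfl (g := fun z : P => F z) fun z hz => by
      rw [fK_of_ord (he _ z.2 fun e => (Finset.mem_erase.1 hz).1 (Subtype.ext e)), one_mul]]
  simp [fK, hp.out.one_lt.ne]

theorem sg_irr (he : ∀ z ∈ P, z ≠ 1 → orderOf z = p) (χ : IrrCharacter G) :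
    sg p P χ = ((Nat.card P * mu (1 : P →* ℂˣ) χ - charDegree (χ : G → ℂ) : ℤ) : ℂ) := by
  push_cast
  rw [sg_elem he, mu_eq_sum, cast_deg]
  have : (Nat.card P : ℂ) ≠ 0 := card_ne_zero_complex
  simp only [MonoidHom.one_apply, Units.val_one, mul_one, ← Finset.mul_sum]
  field_simp

/-- The elementary abelian case. -/
theorem PS.elem [IsSimpleGroup G] {c r : ℕ} (h : PS p P c r)
    (he : ∀ z ∈ P, z ≠ 1 → orderOf z = p) :
    Nat.card P = r + 1 ∧ (H20.cent P).relIndex (nrm P) * (r + 1) * ((p : ℚ) - 3) ≤ r * (p - 1) ∧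
      ((H20.cent P).relIndex (nrm P) = r → p = 2) := by
  obtain ⟨O, _⟩ := exists_val p
  classical
  have := Fintype.ofFinite G
  have hn : Nat.card P = r + 1 := by
    have := h.num
    rw [sg_elem he, sub_eq_iff_eq_add] at this
    simp only [Finset.sum_const, Finset.card_univ, nsmul_eq_mul, mul_one] at this
    rw [Nat.card_eq_fintype_card]
    exact_mod_cast this
  obtain ⟨z, hz, ho⟩ := h.exists_ord
  have h1 : P ≠ ⊥ := fun e => (pelt_of_ord ho).2 (mem_bot.1 (e ▸ hz))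
  set e := (H20.cent P).relIndex (nrm P) with hee
  have e0 : 0 < e := Nat.pos_of_ne_zero (by exact_mod_cast PS.e_ne (P := P))
  have r0 : 0 < r := Nat.pos_of_ne_zero h.pos
  have h2 := h.count (O := O)
  have h3 := h.norm (O := O)
  have h4 := PS.orth (p := p) (P := P) (O := O)
  simp only [sg_irr he, ← cast_deg, hn] at h2 h3 h4
  obtain ⟨h5, h6⟩ := ar_sum (B := Finset.univ.filter (· ∈ irr (B0 O G))) (o := triv G)
    (Finset.mem_filter.2 ⟨Finset.mem_univ _, triv_mem_B0⟩)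
    (s := fun χ => (r + 1) * mu (1 : P →* ℂˣ) χ - charDegree (χ : G → ℂ))
    (d := fun χ => charDegree (χ : G → ℂ)) (r := r) (e := e)
    (fun χ => by exact_mod_cast Nat.pos_of_ne_zero (deg_ne_zero χ)) (by exact_mod_cast r0)
    (by exact_mod_cast e0)
    (by rw [mu_triv, if_pos rfl, charDegree_natCast (n := 1) (by simp [coe_triv])]; simp)
    (by rw [charDegree_natCast (n := 1) (by simp [coe_triv])]; simp)
    (by exact_mod_cast h3) fun χ _ hχ => by
      have := e_le h.af h1 hχ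
      nlinarith
  have h7 : (e : ℚ) * (r + 1) * r ^ 2 * ((KK G p).card ^ 2 - RR G p) = (KK G p).card ^ 2 *
      ∑ χ with χ ∈ irr (B0 O G), (((r + 1) * mu (1 : P →* ℂˣ) χ - charDegree (χ : G → ℂ) : ℤ) : ℚ)
        ^ 3 / ((charDegree (χ : G → ℂ) : ℤ) : ℚ) := by
    apply Rat.cast_injective (α := ℂ)
    push_cast at h2 ⊢
    exact h2
  have h8 : ((p : ℚ) - 1) * RR G p ≤ (KK G p).card ^ 2 := by
    have := mul_RR_le h.af.syl h.af.comm h.sol
    rw [← Nat.cast_pred hp.out.pos]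
    exact_mod_cast this
  have k0 : (0 : ℚ) < (KK G p).card ^ 2 :=
    pow_pos (by exact_mod_cast Nat.pos_of_ne_zero (by exact_mod_cast h.KK_ne)) 2
  have p2 : (2 : ℚ) ≤ p := by exact_mod_cast hp.out.two_le
  have r1 : (0 : ℚ) < r := by exact_mod_cast r0
  have e1 : (0 : ℚ) < e := by exact_mod_cast e0
  generalize (∑ χ with χ ∈ irr (B0 O G), (((r + 1) * mu (1 : P →* ℂˣ) χ -
    charDegree (χ : G → ℂ) : ℤ) : ℚ) ^ 3 / ((charDegree (χ : G → ℂ) : ℤ) : ℚ)) = S at h5 h6 h7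
  have h9 : (e : ℚ) * (r + 1) * r ^ 2 * (p - 2) ≤ (p - 1) * S := by
    refine le_of_mul_le_mul_left ?_ k0
    rw [mul_left_comm _ _ S, ← h7]
    have : (0 : ℚ) ≤ e * (r + 1) * r ^ 2 := by positivity
    nlinarith [mul_le_mul_of_nonneg_left h8 this]
  push_cast at h5 h6
  refine ⟨hn, ?_, fun her => ?_⟩
  · refine le_of_mul_le_mul_left ?_ (pow_pos r1 2)
    nlinarith [mul_le_mul_of_nonneg_left h5 (show (0 : ℚ) ≤ p - 1 by linarith)]
  · have h10 := h6 (fun χ _ => dvd_of_e h.af h1 hn her χ) (by exact_mod_cast h4)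
    have h11 : (p : ℚ) < 3 := by
      by_contra! a
      have : (0 : ℚ) < e * (r + 1) * r ^ 2 := by positivity
      nlinarith [mul_lt_mul_of_pos_left h10 (show (0 : ℚ) < p - 1 by linarith),
        mul_nonneg this.le (sub_nonneg.2 a)]
    have := hp.out.two_le
    have : p < 3 := by exact_mod_cast h11
    omega

end H7.Pr
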