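import Cfsg.Agent.H7.Pair3
import Cfsg.Agent.H19.Exc3

/-! The case of a cyclic Sylow subgroup. -/

set_option autoImplicit false
set_option linter.unusedSectionVars false
open scoped ComplexConjugate
open Cfsg H17 H19 Subgroup
open H20 (cent nrm)
open H10 (IsSylowIn)

namespace H7.Pr

variable {G : Type*} [Group G] [Finite G] {p : ℕ} [hp : Fact p.Prime] {O : ValuationSubring ℂ}
  {P : Subgroup G}

theorem af_of_cyclic (hP : IsSylowIn p P ⊤) (hc : IsCyclic P) : AF p P := by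
  have hcm : P ≤ cent P := fun x hx => mem_centralizer_iff.2 fun y hy =>
    congrArg Subtype.val (hc.isMulCommutative.1.1 ⟨y, hy⟩ ⟨x, hx⟩)
  refine ⟨hP, hcm, fun y hy h1 n hn => ?_⟩
  have h2 : ¬ p ∣ (cent P).relIndex (nrm P) := fun a =>
    (hP.of_le le_normalizer le_top).not_dvd_relIndex (a.trans (relIndex_dvd_of_le_left _ hcm))
  refine H20.mem_cent_of_cyclic hP.isPGroup hc hn.2 h2 ?_ hy h1
    (mul_inv_eq_iff_eq_mul.2 (mem_centralizer_singleton_iff.1 hn.1))
  have : ((cent P).subgroupOf (nrm P)).Normal := normalizerMonoidHom_ker P ▸ inferInstance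
  exact pow_index_mem (H := (cent P).subgroupOf (nrm P)) ⟨n, hn.2⟩

variable [Fintype P]

theorem sg_cyc (hc : IsCyclic P) {z : G} (hz : z ∈ P) (ho : orderOf z = p) (F : G → ℂ) :
    sg p P F = ∑ i ∈ Finset.Ico 1 p, F (z ^ i) := by
  classical
  rw [sg, Finset.sum_congr rfl (g := fun x : P => if orderOf (x : G) = p then F x else 0)
    fun x _ => by rw [fK]; split_ifs <;> simp, ← Finset.sum_filter]
  symm
  refine Finset.sum_bij (fun i _ => (⟨z ^ i, pow_mem hz i⟩ : P)) (fun i hi => ?_)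
    (fun i hi j hj e => ?_) (fun x hx => ?_) fun _ _ => rfl
  · obtain ⟨h1, h2⟩ := Finset.mem_Ico.1 hi
    refine Finset.mem_filter.2 ⟨Finset.mem_univ _, ?_⟩
    rw [Nat.Coprime.orderOf_pow (by rw [ho]; exact Nat.coprime_of_lt_prime (by omega) h2 hp.out), ho]
  · exact pow_injOn_Iio_orderOf (x := z) (by rw [ho]; exact (Finset.mem_Ico.1 hi).2)
      (by rw [ho]; exact (Finset.mem_Ico.1 hj).2) (congrArg Subtype.val e)
  · have h1 := (Finset.mem_filter.1 hx).2
    obtain ⟨i, hi, e⟩ := Finset.mem_image.1 (mem_zpowers_iff_mem_range_orderOf.1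
      (H8.mem_zpowers_of_isCyclic hc hz x.2 (by rw [ho, h1])))
    refine ⟨i, Finset.mem_Ico.2 ⟨Nat.pos_of_ne_zero ?_, by simpa [ho] using hi⟩, Subtype.ext e⟩
    rintro rfl
    exact (pelt_of_ord h1).2 (by rw [← e, pow_zero])

variable (p) in
/-- The sum of a linear character over the elements of order `p`. -/
noncomputable def sl (l : P →* ℂˣ) : ℂ := ∑ z : P, fK p (z : G) * l z

theorem sl_lconj {l l' : P →* ℂˣ} (h : LConj P l l') : sl p l' = sl p l := by
  obtain ⟨e, rfl⟩ := lconj_iff.1 h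
  rw [sl, ← Equiv.sum_comp (e : P ≃* P).toEquiv]
  exact Finset.sum_congr rfl fun z _ => by rw [fK_class.of_isConj (isConj_Az e z)]; rfl

theorem sl_cyc (hc : IsCyclic P) {z : P} (ho : orderOf (z : G) = p) (l : P →* ℂˣ) :
    sl p l = if l z = 1 then (p : ℂ) - 1 else -1 := by
  classical
  have h1 := sg_cyc hc z.2 ho fun g => if h : g ∈ P then (l ⟨g, h⟩ : ℂ) else 0
  have h2 : ∀ i : ℕ, (if h : (z : G) ^ i ∈ P then (l ⟨(z : G) ^ i, h⟩ : ℂ) else 0) = (l z : ℂ) ^ i :=
    fun i => by rw [dif_pos (pow_mem z.2 i), ← Units.val_pow_eq_pow_val, ← map_pow]; rfl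
  simp only [sg, h2, SetLike.coe_mem, dif_pos] at h1
  rw [sl, h1]
  split_ifs with a
  · simp [a, hp.out.one_le]
  · have h3 : (l z : ℂ) ^ p = 1 := by
      rw [← Units.val_pow_eq_pow_val, ← map_pow, ← ho, orderOf_coe, pow_orderOf_eq_one]; simp
    rw [Finset.sum_Ico_eq_sub _ hp.out.one_le, geom_sum_eq (by simpa using a), h3]
    simp

theorem sum_sl [Fintype (P →* ℂˣ)] (h : AF p P) : ∑ l : P →* ℂˣ, sl p l = 0 := by
  simp only [sl]
  rw [Finset.sum_comm]
  refine Finset.sum_eq_zero fun z _ => ?_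
  by_cases a : fK p (z : G) = 0
  · simp [a]
  · rw [← Finset.mul_sum, sum_units_apply h.comm' fun e =>
      (pelt_of_ord (ord_of_fK a)).2 (congrArg Subtype.val e), mul_zero]

theorem sg_eq_neg_sum [Fintype (P →* ℂˣ)] (h : AF p P) (χ : IrrCharacter G) :
    sg p P χ = -∑ l : P →* ℂˣ, ((mu (1 : P →* ℂˣ) χ - mu l χ : ℤ) : ℂ) * sl p l := by
  simp only [sl, Finset.mul_sum]
  rw [Finset.sum_comm, ← Finset.sum_neg_distrib]
  refine Finset.sum_congr rfl fun z _ => ?_
  by_cases a : fK p (z : G) = 0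
  · simp [a]
  · rw [apply_eq_neg_sum_mu h.comm' χ fun e =>
      (pelt_of_ord (ord_of_fK a)).2 (congrArg Subtype.val e), mul_neg, Finset.mul_sum]
    exact congrArg _ (Finset.sum_congr rfl fun l _ => by ring)

theorem ps_of_cyclic (hP : IsSylowIn p P ⊤) (hc : IsCyclic P) {z : G} (hz : z ∈ P)
    (ho : orderOf z = p) (hs : ∀ a b : G, orderOf a = p → orderOf b = p →
      IsPSolvable p (closure {a, b} : Subgroup G)) :
    PS p P (Nat.card (centralizer ({z} : Set G))) (p - 1) := by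
  have e : ∀ x ∈ P, ∀ y ∈ P, orderOf x = p → orderOf y = p →
      centralizer ({x} : Set G) ≤ centralizer {y} := fun x hx y hy h1 h2 g hg => by
    obtain ⟨i, rfl⟩ := H8.mem_zpowers_of_isCyclic hc hx hy (by rw [h1, h2])
    exact mem_centralizer_singleton_iff.2
      (Commute.zpow_right (mem_centralizer_singleton_iff.1 hg) i)
  refine ⟨af_of_cyclic hP hc, fun x hx h => by
    rw [le_antisymm (e x hx z hz h ho) (e z hz x hx ho h)], by rw [sg_cyc hc hz ho]; simp, ?_, hs⟩
  have := hp.out.two_le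
  omega

theorem e_le_pred (h : AF p P) (hc : IsCyclic P) {z : G} (hz : z ∈ P) (ho : orderOf z = p) :
    (cent P).relIndex (nrm P) + 1 ≤ p := by
  classical
  have h1 := sum_conj h (pelt_of_ord ho).1 (pelt_of_ord ho).2
  have h2 := sg_cyc hc hz ho fun x => if IsConj x z then 1 else 0
  rw [sg, Finset.sum_congr rfl (g := fun x : P => if IsConj (x : G) z then (1 : ℂ) else 0)
    fun x _ => by
      split_ifs with a
      · rw [fK_class.of_isConj a, fK_of_ord ho, one_mul]
      · rw [mul_zero], h1, Finset.sum_boole, Nat.cast_inj] at h2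
  have := Finset.card_filter_le (Finset.Ico 1 p) fun i => IsConj (z ^ i) z
  rw [← h2, Nat.card_Ico] at this
  have := hp.out.two_le
  omega

/-- The case of a cyclic Sylow subgroup of composite order. -/
theorem PS.big [IsSimpleGroup G] {c : ℕ} (h : PS p P c (p - 1)) (hc : IsCyclic P) (h2 : p ≠ 2)
    (hn : p * p ≤ Nat.card P) : False := by
  obtain ⟨O, _⟩ := exists_val p
  classical
  have := Fintype.ofFinite G
  have := finite_monoidHom_units (G := P)
  have := Fintype.ofFinite (P →* ℂˣ)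
  obtain ⟨z, hz, ho⟩ := h.exists_ord
  have p2 := hp.out.two_le
  have he := e_le_pred h.af hc hz ho
  have hm : (H20.cent P).relIndex (nrm P) + 1 < Nat.card P := by nlinarith
  obtain ⟨δ, d, ζ, a, X, Y, E⟩ := h.af.exists_exc O hm
  have hd : d = 0 := by
    by_contra h0
    have h3 := E.norm h.af hm
    have h4 := E.card_Y h.af
    have h5 := Finset.single_le_sum (f := fun χ => a χ ^ 2) (fun _ _ => sq_nonneg _)
      (E.triv_mem h.af hm)
    rw [E.a_triv h.af hm] at h5
    have h6 : p + 1 ≤ Y.card := by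
      by_contra! b
      have := Nat.mul_le_mul (Nat.le_of_lt_succ b) (Nat.le_sub_one_of_lt he)
      obtain ⟨q, rfl⟩ : ∃ q, p = q + 1 := ⟨p - 1, by omega⟩
      rw [h4, Nat.add_sub_cancel] at this
      have : (q + 1) * (q + 1) ≤ (q + 1) * q + 1 := by omega
      nlinarith
    have h7 : 1 ≤ d ^ 2 := by nlinarith [sq_pos_of_ne_zero h0]
    have h8 : (p : ℤ) + 1 ≤ Y.card := by exact_mod_cast h6
    have h9 : ((H20.cent P).relIndex (nrm P) : ℤ) + 1 ≤ p := by exact_mod_cast he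
    nlinarith [sq_nonneg (d - δ)]
  subst hd
  set e := (H20.cent P).relIndex (nrm P) with hee
  obtain ⟨l₀, hl₀, hl⟩ := exists_units_ker h.af.comm' (B := (zpowers z).subgroupOf P) fun b => by
    have := card_le_of_le (subgroupOf_eq_top.1 b)
    rw [Nat.card_zpowers, ho] at this
    nlinarith
  have hζ : ∀ l : P →* ℂˣ, l ≠ 1 → sg p P (ζ l) = δ * e * sl p l := fun l hl => by
    rw [hee, ← h.af.card_lconj hl, mul_assoc, ← nsmul_eq_mul, ← Finset.sum_const,
      Finset.sum_congr rfl fun l' hl' => (sl_lconj (Finset.mem_filter.1 hl').2).symm]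
    simp only [sl]
    rw [Finset.sum_comm, Finset.mul_sum]
    refine Finset.sum_congr rfl fun x _ => ?_
    by_cases b : fK p (x : G) = 0
    · simp [b]
    · rw [E.val_Y h.af hl (isPPart_self (h.af.pelt x.2)) (pelt_of_ord (ord_of_fK b)).2,
        ← Finset.mul_sum]
      push_cast; ring
  set D := (ζ l₀ : G → ℂ) 1 with hD
  have D0 : D ≠ 0 := irr_one_ne_zero _
  have hdeg : ∀ l : P →* ℂˣ, l ≠ 1 → (ζ l : G → ℂ) 1 = D := fun l hl =>
    E.reg_eq h.af (E.ζ_mem hl) (E.ζ_mem hl₀) preg_one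
  have hz₀ : l₀ ⟨z, hz⟩ = 1 := hl _ (mem_zpowers z)
  have hδ : (δ : ℂ) * δ = 1 := by exact_mod_cast E.δ_mul
  set W : IrrCharacter G → ℂ := fun χ => sg p P χ ^ 2 / (χ : G → ℂ) 1 with hW
  have h3 := sum_mu_sub_eq_zero (Finset.univ.filter (· ∈ irr (B0 O G))) (1 : P →* ℂˣ) l₀ W
    fun u hu => h.vanish (h.af.pelt u.2) fun b => hu (hl u (H8.mem_zpowers_of_isCyclic hc hz u.2
      (by rw [ho]; exact orderOf_dvd_of_pow_eq_one b))).symm
  have h4 : ∀ l : P →* ℂˣ, ∑ χ with χ ∈ irr (B0 O G),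
      ((mu (1 : P →* ℂˣ) χ - mu l χ : ℤ) : ℂ) * W χ = δ * e ^ 2 / D * ((p - 1) ^ 2 - sl p l ^ 2) :=
    fun l => by
      by_cases b : l = 1
      · simp [b, sl_cyc hc (z := ⟨z, hz⟩) ho]
      rw [E.sum_col hl₀] at h3
      rw [E.sum_col b, sub_eq_zero.1 h3]
      simp only [hW]
      rw [hζ _ hl₀, hζ _ b, hdeg _ b, sl_cyc hc (z := ⟨z, hz⟩) ho l₀, if_pos hz₀, ← hD]
      field_simp
      linear_combination (e : ℂ) ^ 2 * ((p - 1) ^ 2 - sl p l ^ 2) * δ * hδ
  have h5 : ∑ χ with χ ∈ irr (B0 O G), sg p P χ ^ 3 / (χ : G → ℂ) 1 =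
      δ * e ^ 2 / D * (Nat.card P * ((p - 1) * (p - 2))) := by
    rw [Finset.sum_congr rfl (g := fun χ => -∑ l : P →* ℂˣ, sl p l *
      (((mu (1 : P →* ℂˣ) χ - mu l χ : ℤ) : ℂ) * W χ)) fun χ _ => by
        simp only [← mul_assoc, ← Finset.sum_mul]
        simp only [mul_comm (sl p _)]
        rw [← neg_mul, ← sg_eq_neg_sum h.af, hW]; ring, Finset.sum_neg_distrib, Finset.sum_comm]
    simp only [← Finset.mul_sum, h4]
    rw [Finset.sum_congr rfl (g := fun l => δ * e ^ 2 / D * ((p - 2) * sl p l - (p - 1) * (p - 2)))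
      fun l _ => by rw [sl_cyc hc (z := ⟨z, hz⟩) ho]; split_ifs <;> ring, ← Finset.mul_sum,
      Finset.sum_sub_distrib, ← Finset.mul_sum, sum_sl h.af, Finset.sum_const, Finset.card_univ,
      card_units_of_comm h.af.comm', nsmul_eq_mul]
    ring
  have h6 := h.count (O := O)
  have h7 : ((p : ℂ) - 1) * RR G p = (KK G p).card ^ 2 := by
    rw [← Nat.cast_pred hp.out.pos]
    exact_mod_cast mul_RR_eq h.af.syl h.af.comm h.sol hc
  rw [h5, Nat.cast_pred hp.out.pos, ← hee] at h6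
  have h8 : D = δ * e := by
    have k0 := h.KK_ne
    have e0 : (e : ℂ) ≠ 0 := PS.e_ne
    have n0 : (Nat.card P : ℂ) ≠ 0 := card_ne_zero_complex
    have p1 : (p : ℂ) - 1 ≠ 0 := sub_ne_zero.2 (by exact_mod_cast hp.out.one_lt.ne')
    have p2 : (p : ℂ) - 2 ≠ 0 := sub_ne_zero.2 (by exact_mod_cast h2)
    have : (e : ℂ) * Nat.card P * (p - 1) * (p - 2) * (KK G p).card ^ 2 * (D - δ * e) = 0 := by
      field_simp at h6
      linear_combination (e : ℂ) * Nat.card P * (p - 1) * h6 + e * Nat.card P * (p - 1) * D * h7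
    simpa [e0, n0, p1, p2, k0, sub_eq_zero] using this
  have h9 : ζ l₀ = triv G := eq_triv (pelt_of_ord ho).2 (by
    rw [← hD, h8, E.val_Y h.af hl₀ (y := ⟨z, hz⟩) (isPPart_self (pelt_of_ord ho).1)
      (pelt_of_ord ho).2, Finset.sum_congr rfl (g := fun _ => 1) fun l' hl' => by
        have := sl_lconj (p := p) (Finset.mem_filter.1 hl').2
        rw [sl_cyc hc (z := ⟨z, hz⟩) ho, sl_cyc hc (z := ⟨z, hz⟩) ho, if_pos hz₀] at this
        split_ifs at this with b
        · rw [b, Units.val_one]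
        · exact absurd (by linear_combination -this) (Nat.cast_ne_zero.2 hp.out.ne_zero)]
    simp [h.af.card_lconj hl₀, hee])
  exact Finset.disjoint_left.1 E.disj (E.triv_mem h.af hm) (h9 ▸ E.ζ_mem hl₀)

theorem not_cyclic [IsSimpleGroup G] (hG : ¬ IsMulCommutative G) (hP : IsSylowIn p P ⊤)
    (hc : IsCyclic P) (h1 : P ≠ ⊥) (hs : ∀ a b : G, orderOf a = p → orderOf b = p →
      IsPSolvable p (closure {a, b} : Subgroup G)) : False := by
  obtain ⟨z, hz, ho⟩ := H10.exists_orderOf_eq_of_ne_bot hP.isPGroup h1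
  have h := ps_of_cyclic hP hc hz ho hs
  have h2 := two_le_e hG h.af h1
  have h3 := e_le_pred h.af hc hz ho
  obtain ⟨k, hk⟩ := IsPGroup.iff_card.1 hP.isPGroup
  rcases k with _ | _ | k
  · exact h1 (card_eq_one.1 hk)
  · have he : ∀ x ∈ P, x ≠ 1 → orderOf x = p := fun x hx h1 => orderOf_eq_prime (by
      rw [← orderOf_dvd_iff_pow_eq_one]
      have := orderOf_dvd_natCard _ hx
      rwa [hk, zero_add, pow_one] at this) h1
    obtain ⟨-, h4, h5⟩ := h.elem he
    by_cases h6 : (cent P).relIndex (nrm P) = p - 1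
    · have := h5 h6; omega
    have h7 : 5 ≤ p := hp.out.five_le_of_ne_two_of_ne_three (by omega) (by omega)
    have h8 : (5 : ℚ) ≤ p := by exact_mod_cast h7
    have h9 : (2 : ℚ) ≤ (cent P).relIndex (nrm P) := by exact_mod_cast h2
    rw [Nat.cast_pred hp.out.pos] at h4
    nlinarith [mul_le_mul_of_nonneg_right h9 (show (0 : ℚ) ≤ p * (p - 3) by nlinarith)]
  · refine h.big hc (by omega) ?_
    rw [hk, ← sq]
    exact Nat.pow_le_pow_right hp.out.pos (by omega)

end H7.Pr
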