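import Cfsg.Agent.H7.PiClass
import Cfsg.Agent.H7.IrrCyc

/-! Normal `π`-complements from normal `p`-complements. -/

namespace H7

open Subgroup H1 Cfsg
open scoped IsMulCommutative

variable {G : Type*} [Group G] [Finite G]

theorem piResid_spec (π : Set ℕ) (h : ∀ r ∈ π, r.Prime → HasNormalPComplement r G) :
    ∃ N : Subgroup G, N.Normal ∧ (∀ r : ℕ, r.Prime → r ∣ Nat.card N → r ∉ π) ∧
      (∀ r : ℕ, r.Prime → r ∣ N.index → r ∈ π) ∧
      ∀ K : Subgroup G, (∀ r ∈ π, r.Prime → K ≤ pResidual r G) → K ≤ N := by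
  let N : Subgroup G := ⨅ q : {q : ℕ // q.Prime ∧ q ∈ π}, pResidual q G
  refine ⟨N, normal_iInf_normal fun _ => H3.pResidual_normal, fun q hq h1 h2 => ?_,
    fun q hq h1 => ?_, fun K hK => le_iInf fun r => hK r r.2.2 r.2.1⟩
  · have := Fact.mk hq
    have h3 := H3.hasNormalPComplement_iff_coprime.mp (h q h2 hq)
    have h4 : N ≤ pResidual q G :=
      iInf_le (fun q : {q : ℕ // q.Prime ∧ q ∈ π} => pResidual q G) ⟨q, hq, h2⟩
    exact (hq.coprime_iff_not_dvd.mp h3.symm) (h1.trans (card_dvd_of_le h4))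
  · by_contra h2
    have := Fact.mk hq
    let Q : Sylow q G := default
    have h3 : (Q : Subgroup G) ≤ N := le_iInf fun r => H3.le_pResidual_of_coprime (by
      obtain ⟨k, hk⟩ := Q.2.exists_card_eq
      rw [hk]
      refine Nat.Coprime.pow_left k ((Nat.coprime_primes hq r.2.1).mpr ?_)
      rintro rfl
      exact h2 r.2.2)
    exact Q.not_dvd_index (h1.trans (index_dvd_of_le h3))

theorem exists_abelian_hall (π : Set ℕ) (h : ∀ r ∈ π, r.Prime → HasNormalPComplement r G ∧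
    ∃ P : Sylow r G, IsMulCommutative (P : Subgroup G)) :
    ∃ H : Subgroup G, IsPiHall π H ∧ IsMulCommutative H := by
  obtain ⟨N, hN, h1, h2, h3⟩ := piResid_spec π fun r a b => (h r a b).1
  have hc : (Nat.card N).Coprime N.index :=
    Nat.coprime_of_dvd fun q hq a b => h1 q hq a (h2 q hq b)
  obtain ⟨H, hH⟩ := exists_right_complement'_of_coprime hc
  refine ⟨H, ⟨fun q hq a => h2 q hq ?_, fun q hq a b => h1 q hq ?_ a⟩, ?_⟩
  · rwa [hH.symm.index_eq_card]
  · rwa [← hH.index_eq_card]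
  · refine isMulCommutative_of_inf_eq_bot (A := N) ?_ hH.symm.disjoint.eq_bot
    refine Normal.quotient_commutative_iff_commutator_le.2 (h3 _ fun r a b => ?_)
    haveI := Fact.mk b
    obtain ⟨P, hP⟩ := (h r a b).2
    exact H3.commutator_le_pResidual_of_abelian P

theorem kc_pi_le (π : Finset ℕ) (hπ : ∀ r ∈ π, r.Prime) (μ : Finset ℕ) (hμ : μ ⊆ π) (a b : ℕ)
    (h : a * π.prod (fun r => r ^ (Nat.card G).factorization r) <
      b * kc (fun x : G => ∀ r : ℕ, r.Prime → r ∣ orderOf x → r ∈ π)) :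
    a * μ.prod (fun r => r ^ (Nat.card G).factorization r) <
      b * kc (fun x : G => IsPiNat μ (orderOf x)) := by
  classical
  have h1 := kc_union_le (G := G) μ (π \ μ) fun r hr => hπ r (Finset.mem_sdiff.1 hr).1
  rw [← Finset.coe_union, Finset.union_sdiff_of_subset hμ] at h1
  rw [← Finset.prod_sdiff hμ] at h
  have h2 := lt_of_lt_of_le h (Nat.mul_le_mul_left b h1)
  rw [mul_comm ((π \ μ).prod _), ← mul_assoc, ← mul_assoc] at h2
  exact lt_of_mul_lt_mul_right h2 (Nat.zero_le _)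

theorem kc_prime_le (π : Finset ℕ) (hπ : ∀ r ∈ π, r.Prime) {r : ℕ} [Fact r.Prime] (hr : r ∈ π)
    (P : Sylow r G) (a b : ℕ)
    (h : a * π.prod (fun r => r ^ (Nat.card G).factorization r) <
      b * kc (fun x : G => ∀ r : ℕ, r.Prime → r ∣ orderOf x → r ∈ π)) :
    a * Nat.card (P : Subgroup G) < b * kc (fun x : G => ∃ k, orderOf x = r ^ k) := by
  have := kc_pi_le π hπ {r} (by simpa using hr) a b h
  rwa [Finset.prod_singleton, ← P.card_eq_multiplicity, Finset.coe_singleton,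
    kc_singleton Fact.out] at this

variable {p : ℕ} [hp : Fact p.Prime]

theorem WkEl.le_centralizer {P : Subgroup G} {x : G} (hx : x ∈ P) (h : WkEl P x) :
    P ≤ centralizer {x} := fun g hg => by
  rw [mem_centralizer_singleton_iff]
  exact mul_inv_eq_iff_eq_mul.1 (h g (mul_mem (mul_mem hg hx) (inv_mem hg)))

theorem WkEl.conj_eq (P : Sylow p G) {x : G} (hx : x ∈ (P : Subgroup G)) (h : WkEl P x) (n : ℕ)
    (g : G) (hc : Commute x (g * x ^ n * g⁻¹)) : g * x ^ n * g⁻¹ = x ^ n := by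
  have h1 : (P : Subgroup G) ≤ centralizer {x ^ n} := fun y hy => by
    have := mem_centralizer_singleton_iff.1 (h.le_centralizer hx hy)
    rw [mem_centralizer_singleton_iff]
    exact (Commute.pow_right this n).eq
  have h2 : g⁻¹ * x * g ∈ centralizer {x ^ n} := by
    rw [mem_centralizer_singleton_iff]
    calc g⁻¹ * x * g * x ^ n = g⁻¹ * (x * (g * x ^ n * g⁻¹)) * g := by group
      _ = _ := by rw [hc.eq]; group
  obtain ⟨k, hk⟩ := H10.orderOf_eq_pow_of_mem P.2 hx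
  obtain ⟨c, hc1, hc2⟩ := (H10.isSylowIn_of_sylow_le P h1).exists_cj_le
    (H10.isPGroup_zpowers_of_orderOf (x := g⁻¹ * x * g) (k := k)
      (by rw [← hk]; exact isConj_orderOf (isConj_iff.2 ⟨g, by group⟩))) (zpowers_le.2 h2)
  have h3 := h (c * g⁻¹) (by
    have := hc2 (conj_mem_cj (mem_zpowers _))
    simpa only [mul_inv_rev, inv_inv, mul_assoc] using this)
  have h4 : c * g⁻¹ * x ^ n * (c * g⁻¹)⁻¹ = x ^ n := by rw [← conj_pow, h3]
  have h5 : c * x ^ n = x ^ n * c := mem_centralizer_singleton_iff.1 hc1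
  have h6 : g⁻¹ * x ^ n * g = x ^ n := by
    calc g⁻¹ * x ^ n * g = c⁻¹ * (c * g⁻¹ * x ^ n * (c * g⁻¹)⁻¹) * c := by group
      _ = c⁻¹ * (x ^ n * c) := by rw [h4]; group
      _ = _ := by rw [← h5]; group
  conv_lhs => rw [← h6]
  group

theorem WkEl.pow (P : Sylow p G) {x : G} (hx : x ∈ (P : Subgroup G)) (h : WkEl P x) (n : ℕ) :
    WkEl P (x ^ n) := fun g hg =>
  h.conj_eq P hx n g (mem_centralizer_singleton_iff.1 (h.le_centralizer hx hg)).symm

theorem orderOf_map_pow {G' : Type*} [Group G'] (f : G →* G') {x : G}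
    (h : ∃ k, orderOf x = p ^ k) : ∃ k, orderOf (f x) = p ^ k := by
  obtain ⟨k, hk⟩ := h
  obtain ⟨j, -, hj⟩ := (Nat.dvd_prime_pow hp.out).1 (hk ▸ orderOf_map_dvd f x)
  exact ⟨j, hj⟩

theorem kc_le_mul_quotient (N : Subgroup G) [N.Normal] :
    kc (fun x : G => ∃ k, orderOf x = p ^ k) ≤
      Nat.card N * kc (fun x : G ⧸ N => ∃ k, orderOf x = p ^ k) := by
  classical
  obtain ⟨T, h1, -, h3⟩ := exists_cov (S := fun x : G ⧸ N => ∃ k, orderOf x = p ^ k)
    fun x y h hx => by rwa [← isConj_orderOf h]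
  letI := Fintype.ofFinite N
  refine (kc_le_of_cov ((Finset.univ ×ˢ T).image fun z : N × (G ⧸ N) => z.2.out * z.1)
    fun x hx => ?_).trans (Finset.card_image_le.trans ?_)
  · obtain ⟨t, ht, e⟩ := h3 _ (orderOf_map_pow (QuotientGroup.mk' N) hx)
    obtain ⟨c, hc⟩ := isConj_iff.1 e
    obtain ⟨c, rfl⟩ := QuotientGroup.mk_surjective c
    have h4 : t.out⁻¹ * (c * x * c⁻¹) ∈ N := by
      rw [← QuotientGroup.eq, QuotientGroup.out_eq', ← hc]; simp
    exact ⟨_, Finset.mem_image.2 ⟨(⟨_, h4⟩, t), by simp [ht], rfl⟩, isConj_iff.2 ⟨c, by simp⟩⟩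
  · rw [Finset.card_product, Finset.card_univ, Nat.card_eq_fintype_card]
    exact Nat.mul_le_mul_left _ h1

theorem kc_le_quotient (N : Subgroup G) [N.Normal] (hN : (Nat.card N).Coprime p) :
    kc (fun x : G => ∃ k, orderOf x = p ^ k) ≤ kc (fun x : G ⧸ N => ∃ k, orderOf x = p ^ k) := by
  classical
  obtain ⟨T, h1, h2, h3⟩ := exists_cov (S := fun x : G ⧸ N => ∃ k, orderOf x = p ^ k)
    fun x y h hx => by rwa [← isConj_orderOf h]
  have hl : ∀ t : G ⧸ N, ∃ y : G, (∃ k, orderOf t = p ^ k) →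
      (∃ k, orderOf y = p ^ k) ∧ (y : G ⧸ N) = t := by
    intro t
    obtain ⟨g, rfl⟩ := QuotientGroup.mk_surjective t
    obtain ⟨a, b, h4, h5, h6⟩ := H3.exists_pPart_mul_pPrimePart (p := p) g (orderOf_pos g).ne'
    refine ⟨g ^ a, fun ⟨k, hk⟩ => ⟨h4, ?_⟩⟩
    have h7 : ((g ^ b : G) : G ⧸ N) = 1 := by
      refine H3.eq_one_of_pow_of_coprime (p := p) (k := k) ?_
        (h5.of_dvd_left (orderOf_map_dvd (QuotientGroup.mk' N) _))
      rw [QuotientGroup.mk_pow, ← pow_mul, mul_comm, pow_mul, ← hk, pow_orderOf_eq_one, one_pow]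
    conv_rhs => rw [← h6, QuotientGroup.mk_mul, h7, mul_one]
  choose l hl using hl
  refine (kc_le_of_cov (T.image l) fun x hx => ?_).trans (Finset.card_image_le.trans h1)
  obtain ⟨t, ht, e⟩ := h3 _ (orderOf_map_pow (QuotientGroup.mk' N) hx)
  obtain ⟨c, hc⟩ := isConj_iff.1 e
  obtain ⟨c, rfl⟩ := QuotientGroup.mk_surjective c
  obtain ⟨⟨k, hk⟩, h5⟩ := hl t (h2 t ht)
  obtain ⟨j, hj⟩ := hx
  have h6 : ((c * x * c⁻¹ : G) : G ⧸ N) = l t := by rw [h5, ← hc]; simp
  obtain ⟨n, hn, h7⟩ := exists_conj_le_of_le_sup (N := N) (P := zpowers (l t))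
    (Q := zpowers (c * x * c⁻¹)) le_normalizer_of_normal hN (H10.isPGroup_zpowers_of_orderOf hk)
    (H10.isPGroup_zpowers_of_orderOf (k := j)
      (by rw [← hj]; exact (isConj_orderOf (isConj_iff.2 ⟨c, rfl⟩)).symm)) (by
      rw [zpowers_le]
      have h8 := QuotientGroup.eq.1 h6.symm
      rw [← mul_inv_cancel_left (l t) (c * x * c⁻¹)]
      exact mul_mem (mem_sup_right (mem_zpowers _)) (mem_sup_left h8))
  have h8 := h7 (conj_mem_cj (mem_zpowers _))
  refine ⟨l t, Finset.mem_image_of_mem _ ht, isConj_iff.2 ⟨n * c, ?_⟩⟩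
  have h9 : (l t)⁻¹ * (n * (c * x * c⁻¹) * n⁻¹) ∈ zpowers (l t) ⊓ N := by
    refine mem_inf.2 ⟨mul_mem (inv_mem (mem_zpowers _)) h8, ?_⟩
    rw [← QuotientGroup.eq, ← h6]
    simp [(QuotientGroup.eq_one_iff n).2 hn]
  rw [inf_eq_bot_of_isPGroup_of_coprime (H10.isPGroup_zpowers_of_orderOf hk) hN, mem_bot,
    inv_mul_eq_one] at h9
  rw [h9]; group

end H7
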