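import Cfsg.Agent.H7.PiClass2
import Cfsg.Agent.H19.BS3

/-! Many classes of `2`-elements force `2`-nilpotency. -/

namespace H7

open Subgroup H1 Cfsg

theorem npc_two_of_kc.{u} {G : Type u} [Group G] [Finite G] (P : Sylow 2 G)
    (h : Nat.card (P : Subgroup G) < 2 * kc (fun x : G => ∃ k, orderOf x = 2 ^ k)) :
    HasNormalPComplement 2 G := by
  induction hn : Nat.card G using Nat.strong_induction_on generalizing G with
  | _ n ih =>
  by_cases hO : pPrimeCore 2 G = ⊥
  swap
  · refine H3.hasNormalPComplement_of_quotient_coprime _ (coprime_card_pPrimeCore 2)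
      (ih _ (hn ▸ card_quotient_lt hO) (P.mapSurjective (QuotientGroup.mk'_surjective _)) ?_ rfl)
    have h1 := kc_le_quotient (p := 2) (pPrimeCore 2 G) (coprime_card_pPrimeCore 2)
    have h2 := Nat.le_of_dvd Nat.card_pos
      (card_map_dvd (P : Subgroup G) (QuotientGroup.mk' (pPrimeCore 2 G)))
    rw [Sylow.coe_mapSurjective]
    omega
  by_cases hP : (P : Subgroup G) = ⊥
  · refine H3.hasNormalPComplement_of_coprime ?_
    have := H3.sylow_index_coprime P
    rwa [hP, index_bot] at this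
  have h1 := two_mul_kc_le P
  obtain ⟨j, hj⟩ := H10.dvd_card_of_isPGroup_ne_bot P.2 hP
  haveI : Nontrivial {x : (P : Subgroup G) // WkEl P (x : G)} :=
    Finite.one_lt_card_iff_nontrivial.1 (by omega)
  obtain ⟨x, hx⟩ := exists_ne (⟨1, fun g _ => by simp⟩ : {x : (P : Subgroup G) // WkEl P (x : G)})
  obtain ⟨⟨x, hxP⟩, hw⟩ := x
  have hx1 : x ≠ 1 := fun e => hx (Subtype.ext (Subtype.ext e))
  obtain ⟨k, hk⟩ := H10.orderOf_eq_pow_of_mem P.2 hxP
  obtain ⟨k, rfl⟩ : ∃ m, k = m + 1 := Nat.exists_eq_succ_of_ne_zero fun e => hx1 (by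
    rwa [e, pow_zero, orderOf_eq_one_iff] at hk)
  have hz : orderOf (x ^ 2 ^ k) = 2 := by
    rw [orderOf_pow_of_dvd (by positivity) (hk ▸ pow_dvd_pow 2 k.le_succ), hk, pow_succ,
      Nat.mul_div_cancel_left _ (by positivity)]
  have hzP : x ^ 2 ^ k ∈ (P : Subgroup G) := pow_mem hxP _
  have hc := H19.zstar_center (u := x ^ 2 ^ k) ⟨hz, fun g hg => by
    simpa using (WkEl.pow P hxP hw (2 ^ k)).conj_eq P hzP 1 g (by simpa using hg)⟩ hO
  set z := x ^ 2 ^ k
  have hZ : zpowers z ≤ center G := zpowers_le.2 hc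
  haveI : (zpowers z).Normal := ⟨fun a ha g => by
    rw [mem_center_iff.1 (hZ ha) g]; simpa using ha⟩
  have hcard : Nat.card (zpowers z) = 2 := by rw [Nat.card_zpowers, hz]
  have hne : zpowers z ≠ ⊥ := by intro e; rw [e, card_bot] at hcard; omega
  refine H3.hasNormalPComplement_of_quotient_central _ hZ (ih _ (hn ▸ card_quotient_lt hne)
    (P.mapSurjective (QuotientGroup.mk'_surjective _)) ?_ rfl)
  · have h2 := kc_le_mul_quotient (p := 2) (zpowers z)
    have h3 := card_map_mk_mul (zpowers z) P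
    rw [inf_eq_left.2 (zpowers_le.2 hzP), hcard] at h3
    rw [Sylow.coe_mapSurjective]
    rw [hcard] at h2
    omega

end H7
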