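import Cfsg.Agent.H7.PiClass2
import Cfsg.Agent.H1.ClassNum
import Cfsg.Agent.H8.Elt

/-! Class counting for `{2, r}`-elements. -/

namespace H7

open Subgroup H1 Cfsg
open scoped IsMulCommutative

variable {G : Type*} [Group G] [Finite G] {p : ℕ} [hp : Fact p.Prime]

theorem mul_card_le_of_not_le {A R K : Subgroup G} (hR : IsPGroup p R) (hRK : R ≤ K) (hAK : A ≤ K)
    (h : ¬ R ≤ A) : p * Nat.card A ≤ Nat.card K := by
  have h1 := card_mul_card_le A R
  have h2 := mul_card_le_of_lt hR (inf_lt_right.2 h)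
  have h3 := card_le_of_le (sup_le hAK hRK)
  have h4 : 0 < Nat.card R := Nat.card_pos
  refine le_of_mul_le_mul_right ?_ h4
  calc p * Nat.card A * Nat.card R = p * (Nat.card A * Nat.card R) := by ring
    _ ≤ p * (Nat.card K * Nat.card (A ⊓ R : Subgroup G)) :=
      Nat.mul_le_mul_left _ (h1.trans (Nat.mul_le_mul_right _ h3))
    _ = Nat.card K * (p * Nat.card (A ⊓ R : Subgroup G)) := by ring
    _ ≤ _ := Nat.mul_le_mul_left _ h2

theorem two_mul_card_le_of_ne_top {A : Subgroup G} (h : A ≠ ⊤) : 2 * Nat.card A ≤ Nat.card G := by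
  rw [← A.card_mul_index, mul_comm]
  exact Nat.mul_le_mul_left _ (one_lt_index_of_ne_top h)

theorem two_mul_card_conjClasses_le (hp2 : p ≠ 2) {R : Subgroup G} (hR : IsPGroup p R)
    [IsMulCommutative R] (h : centralizer (R : Set G) ≠ ⊤) :
    2 * Nat.card (ConjClasses G) ≤ Nat.card G := by
  classical
  letI := Fintype.ofFinite G
  have hp3 : 3 ≤ p := by have := hp.out.two_le; omega
  have h1 := sum_card_centralizer (G := G)
  have h2 : ∀ x : G, 6 * Nat.card (centralizer ({x} : Set G)) ≤ Nat.card G *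
      (2 + (if x ∈ centralizer (R : Set G) then 1 else 0) + 3 * if x ∈ center G then 1 else 0) := by
    intro x
    by_cases hx : x ∈ center G
    · have := card_le_card_group (centralizer ({x} : Set G))
      rw [if_pos hx, if_pos (center_le_centralizer _ hx)]
      omega
    rw [if_neg hx]
    by_cases hx' : x ∈ centralizer (R : Set G)
    · have := two_mul_card_le_of_ne_top (A := centralizer ({x} : Set G)) fun e => hx (by
        rw [mem_center_iff]
        intro g
        exact mem_centralizer_singleton_iff.1 (e ▸ mem_top g))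
      rw [if_pos hx']
      omega
    · have := mul_card_le_of_not_le hR le_top (le_top (a := centralizer ({x} : Set G)))
        fun e => hx' fun g hg => mem_centralizer_singleton_iff.1 (e hg)
      rw [if_neg hx', card_top] at *
      nlinarith
  have h3 := Finset.sum_le_sum fun x (_ : x ∈ Finset.univ) => h2 x
  rw [← Finset.mul_sum, h1, ← Finset.mul_sum, Finset.sum_add_distrib, Finset.sum_add_distrib,
    ← Finset.mul_sum, ← Finset.card_filter, ← Finset.card_filter, Finset.sum_const,
    Finset.card_univ, ← Fintype.card_subtype, ← Fintype.card_subtype,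
    ← Nat.card_eq_fintype_card, ← Nat.card_eq_fintype_card, ← Nat.card_eq_fintype_card,
    smul_eq_mul] at h3
  have h4 := two_mul_card_le_of_ne_top h
  have h5 := mul_card_le_of_not_le hR R.le_centralizer (center_le_centralizer (R : Set G))
    fun e => h (eq_top_iff.2 fun g _ r hr => (mem_center_iff.1 (e hr) g).symm)
  have h6 : 0 < Nat.card G := Nat.card_pos
  have h7 : 6 * Nat.card (ConjClasses G) ≤ Nat.card G * 2 + Nat.card (centralizer (R : Set G)) +
      3 * Nat.card (center G) := by
    refine le_of_mul_le_mul_left ?_ h6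
    refine le_trans (le_of_eq (by ring)) h3
  nlinarith

theorem mul_kc_le (P : Sylow p G) {N : Subgroup G} (hPN : (P : Subgroup G) ≤ N)
    (hN : N ≤ normalizer ((P : Subgroup G) : Set G)) (m : ℕ)
    (h : ∀ x ∈ (P : Subgroup G), x ∉ centralizer (N : Set G) →
      m + 1 ≤ (centralizer ({x} : Set G)).relIndex N) :
    (m + 1) * kc (fun x : G => ∃ k, orderOf x = p ^ k) ≤ Nat.card (P : Subgroup G) +
      m * Nat.card ((P : Subgroup G) ⊓ centralizer (N : Set G) : Subgroup G) := by
  have h1 := fiber_count (sylClass P) (sylClass_surjective P)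
    (fun x => (x : G) ∈ centralizer (N : Set G)) m fun a ha => by
      refine (h a a.2 ha).trans ?_
      have h2 := H8.card_conj_class (⟨a, hPN a.2⟩ : N)
      have h3 : centralizer ({(⟨a, hPN a.2⟩ : N)} : Set N) =
          (centralizer ({(a : G)} : Set G)).subgroupOf N := by
        ext y
        rw [mem_subgroupOf, mem_centralizer_singleton_iff, mem_centralizer_singleton_iff,
          Subtype.ext_iff]
        rfl
      rw [relIndex, ← h3, ← h2]
      refine Nat.card_le_card_of_injective (fun y => ⟨⟨y.1, ?_⟩, ?_⟩) ?_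
      · obtain ⟨c, hc⟩ := isConj_iff.1 y.2
        rw [← hc]
        exact conj_mem_of_mem_normalizer (hN c.2) a.2
      · exact (sylClass_eq_iff P).2 (N.subtype.map_isConj y.2).symm
      · intro y z e
        exact Subtype.ext (Subtype.ext (Subtype.mk.inj (Subtype.mk.inj e)))
  refine h1.trans (Nat.add_le_add_left (Nat.mul_le_mul_left _ ?_) _)
  refine Nat.card_le_card_of_injective (fun x => ⟨x.1.1, x.1.2, x.2⟩) fun a b e => ?_
  exact Subtype.ext (Subtype.ext (Subtype.mk.inj e))

theorem comm_of_kc (hp2 : p ≠ 2) (P : Sylow p G)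
    (h : Nat.card (P : Subgroup G) < 2 * kc (fun x : G => ∃ k, orderOf x = p ^ k)) :
    IsMulCommutative (P : Subgroup G) := by
  have hp3 : 3 ≤ p := by have := hp.out.two_le; omega
  have h1 := mul_kc_le P le_rfl le_normalizer 2 fun x hx hx' => by
    have h2 := mul_card_le_of_lt P.2 (inf_lt_right.2 fun e => hx' fun g hg =>
      mem_centralizer_singleton_iff.1 (e hg) : centralizer {x} ⊓ (P : Subgroup G) < P)
    rw [← card_inf_mul_relIndex (centralizer {x}) P, mul_comm] at h2
    have := le_of_mul_le_mul_left h2 Nat.card_pos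
    omega
  by_contra hc
  have h2 := sq_le_index_center P.2 hc
  have h3 := (center (P : Subgroup G)).card_mul_index
  have h4 : Nat.card ((P : Subgroup G) ⊓ centralizer ((P : Subgroup G) : Set G) : Subgroup G) =
      Nat.card (center (P : Subgroup G)) := by
    rw [← H5.map_center_subtype, card_map_of_injective (subtype_injective _)]
  rw [h4] at h1
  have h5 : 9 ≤ (center (P : Subgroup G)).index := le_trans (by nlinarith) h2
  nlinarith

theorem npc_of_kc_of_two (hp2 : p ≠ 2) (P : Sylow p G) [IsMulCommutative (P : Subgroup G)]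
    (S : Sylow 2 G) (hS : (S : Subgroup G) ≤ centralizer ((P : Subgroup G) : Set G))
    (h : Nat.card (P : Subgroup G) < 2 * kc (fun x : G => ∃ k, orderOf x = p ^ k)) :
    HasNormalPComplement p G := by
  apply H3.hasNormalPComplement_of_normalizer_le_centralizer P
  show normalizer ((P : Subgroup G) : Set G) ≤ centralizer ((P : Subgroup G) : Set G)
  rw [le_centralizer_iff, ← inf_eq_left]
  by_contra hne
  have h1 := mul_card_le_of_lt P.2 (lt_of_le_of_ne inf_le_left hne)
  have key : ∀ x ∈ (P : Subgroup G), x ∉ centralizer (normalizer ((P : Subgroup G) : Set G) : Set G) →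
      ∀ m, m = (centralizer ({x} : Set G)).relIndex (normalizer ((P : Subgroup G) : Set G)) →
        m ≠ 0 ∧ m ≠ 1 ∧ ¬ 2 ∣ m ∧ ¬ p ∣ m := by
    rintro x hx hx' m rfl
    have h2 : centralizer ((P : Subgroup G) : Set G) ≤
        centralizer {x} ⊓ normalizer ((P : Subgroup G) : Set G) :=
      le_inf (centralizer_le (by simpa using hx)) (centralizer_le_normalizer _)
    have h3 : (centralizer ({x} : Set G)).relIndex (normalizer ((P : Subgroup G) : Set G)) ∣
        (centralizer ((P : Subgroup G) : Set G)).index := by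
      rw [← inf_relIndex_right]
      exact (relIndex_dvd_index_of_le inf_le_right).trans (index_dvd_of_le h2)
    refine ⟨FiniteIndex.index_ne_zero, fun e => hx' fun g hg => ?_,
      fun e => S.not_dvd_index ((e.trans h3).trans (index_dvd_of_le hS)),
      fun e => P.not_dvd_index ((e.trans h3).trans (index_dvd_of_le (le_centralizer _)))⟩
    exact mem_centralizer_singleton_iff.1 (relIndex_eq_one.1 e hg)
  by_cases hp3 : p = 3
  · subst hp3
    have h2 := mul_kc_le P le_normalizer le_rfl 4 fun x hx hx' => by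
      have := key x hx hx' _ rfl
      omega
    omega
  · have h2 := mul_kc_le P le_normalizer le_rfl 2 fun x hx hx' => by
      have := key x hx hx' _ rfl
      omega
    have hp5 : 5 ≤ p := hp.out.five_le_of_ne_two_of_ne_three hp2 hp3
    nlinarith

theorem kc_two_le (hp2 : p ≠ 2) (S : Sylow 2 G) (h2 : HasNormalPComplement 2 G) {R : Subgroup G}
    (hR : IsPiHallOf {p} R (pResidual 2 G)) (hSR : (S : Subgroup G) ≤ normalizer (R : Set G)) :
    kc (fun x : G => IsPiNat {2, p} (orderOf x)) ≤
      Nat.card (ConjClasses ((S : Subgroup G) ⊔ R : Subgroup G)) := by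
  classical
  set H := (S : Subgroup G) ⊔ R
  choose f hf using fun c : ConjClasses H => ConjClasses.mk_surjective c
  letI := Fintype.ofFinite (ConjClasses H)
  refine (kc_le_of_cov (Finset.univ.image fun c => (f c : G)) fun z hz => ?_).trans
    (Finset.card_image_le.trans (by simp))
  suffices hs : ∃ g, g * z * g⁻¹ ∈ H by
    obtain ⟨g, hg⟩ := hs
    refine ⟨_, Finset.mem_image_of_mem _ (Finset.mem_univ (ConjClasses.mk ⟨_, hg⟩)),
      (isConj_iff.2 ⟨g, rfl⟩).trans ?_⟩
    exact H.subtype.map_isConj (ConjClasses.mk_eq_mk_iff_isConj.1 (hf (ConjClasses.mk ⟨_, hg⟩)).symm)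
  obtain ⟨x, hx, y, hy, e, h3, h4⟩ := exists_pi_part {2} z
  obtain ⟨k, hk⟩ := (isPiNat_singleton_iff Nat.prime_two (orderOf_pos x).ne').1 h3
  obtain ⟨g, hg⟩ := H3.exists_conj_le_sylow S (H10.isPGroup_zpowers_of_orderOf hk)
  have h5 := hg x (mem_zpowers x)
  have hO := H3.hasNormalPComplement_iff_coprime.1 h2
  have h6 := sylowOf_inf_centralizer (A := zpowers (g⁻¹ * x * g)) le_normalizer_of_normal
    (IsPGroup.coprime_card (S.2.to_le (zpowers_le.2 h5)) hO)
    (Or.inl (isSolvable_of_comm' inferInstance)) hR ((zpowers_le.2 h5).trans hSR)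
  have h7 : orderOf (g⁻¹ * y * g) = orderOf y := isConj_orderOf (isConj_iff.2 ⟨g, by group⟩)
  obtain ⟨j, hj⟩ := (isPiNat_singleton_iff hp.out (orderOf_pos y).ne').1 fun r hr hd =>
    (hz r hr (hd.trans (orderOf_dvd_of_mem_zpowers hy))).resolve_left (h4 r hr hd)
  have hc := commute_of_mem_zpowers hx hy
  obtain ⟨c, ⟨-, hc2⟩, h8⟩ := exists_conj_le_sylowOf (U := zpowers (g⁻¹ * y * g)) (by
    rw [zpowers_le, H5.centralizer_zpowers]
    refine mem_inf.2 ⟨H3.mem_pResidual_of_coprime ?_, ?_⟩
    · rw [h7]; exact (isPiNat_compl_singleton_iff Nat.prime_two).1 h4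
    · rw [mem_centralizer_singleton_iff]
      calc g⁻¹ * y * g * (g⁻¹ * x * g) = g⁻¹ * (y * x) * g := by group
        _ = _ := by rw [← hc.eq]; group) (H10.isPGroup_zpowers_of_orderOf (h7.trans hj)) h6
  have h9 := (h8 (conj_mem_conj_smul (mem_zpowers _))).1
  have h10 : g⁻¹ * x * g * c = c * (g⁻¹ * x * g) := hc2 _ (mem_zpowers _)
  refine ⟨c * g⁻¹, ?_⟩
  have : c * g⁻¹ * z * (c * g⁻¹)⁻¹ = (g⁻¹ * x * g) * (c * (g⁻¹ * y * g) * c⁻¹) := by
    calc _ = c * (g⁻¹ * x * g) * (g⁻¹ * y * g) * c⁻¹ := by rw [← e]; group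
      _ = _ := by rw [← h10]; group
  rw [this]
  exact mul_mem (mem_sup_left h5) (mem_sup_right h9)

end H7
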