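import Cfsg.Agent.H7.UP3
import Cfsg.Agent.H7.FPA4
import Cfsg.Agent.H7.TG7
import Cfsg.Agent.Lead.Phb2
import Cfsg.Agent.H27.Pre

/-! Presentations of unitary groups: tools. -/

set_option autoImplicit false
set_option linter.unusedSectionVars false

namespace H7.SUP

open Monoid Equiv Lead.Pha Cfsg Function Subgroup
open Matrix hiding of swap_mul_self swap SpecialLinearGroup
open scoped Monoid.Coprod commutatorElement

section Df
variable {C G : Type} [Group C] [Group G] {ρ0 : C →* G} {P Q : ∀ (K : Type) [Group K], (C →* K) → Prop}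
  {r s : ℕ}

/-- a property forced by at most `r` relators that hold for `ρ0` -/
def Df (ρ0 : C →* G) (P : ∀ (K : Type) [Group K], (C →* K) → Prop) (r : ℕ) : Prop :=
  ∃ L : List C, L.length ≤ r ∧ (∀ w ∈ L, ρ0 w = 1) ∧
    ∀ (K : Type) [Group K] (ρ : C →* K), (∀ w ∈ L, ρ w = 1) → P K ρ

theorem Df.and (h : Df ρ0 P r) (h' : Df ρ0 Q s) : Df ρ0 (fun K _ ρ => P K ρ ∧ Q K ρ) (r + s) := by
  obtain ⟨L, l1, l2, l3⟩ := h
  obtain ⟨M, m1, m2, m3⟩ := h'
  refine ⟨L ++ M, by simp; omega, List.forall_mem_append.2 ⟨l2, m2⟩, fun K _ ρ h => ?_⟩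
  rw [List.forall_mem_append] at h
  exact ⟨l3 K ρ h.1, m3 K ρ h.2⟩

theorem Df.mono (h : Df ρ0 P r) (h' : ∀ (K : Type) [Group K] (ρ : C →* K), P K ρ → Q K ρ) (hr : r ≤ s) :
    Df ρ0 Q s :=
  let ⟨L, l1, l2, l3⟩ := h; ⟨L, l1.trans hr, l2, fun K _ ρ h => h' K ρ (l3 K ρ h)⟩

theorem Df.imp (p : Prop) [Decidable p] (h : Df ρ0 P r) :
    Df ρ0 (fun K _ ρ => p → P K ρ) (if p then r else 0) := by
  split_ifs with hp
  · exact h.mono (fun _ _ _ h _ => h) le_rfl
  · exact ⟨[], le_rfl, by simp, fun _ _ _ _ h => absurd h hp⟩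

/-- `T` is inside the subgroup generated by `c` of its elements -/
def Gn {D : Type*} [Group D] (T : Set D) (c : ℕ) : Prop :=
  ∃ S : List D, S.length ≤ c ∧ (∀ s ∈ S, s ∈ T) ∧ ∀ t ∈ T, t ∈ closure {s | s ∈ S}

theorem Gn.two {D : Type*} [Group D] {a b : D} (h : closure {a, b} = ⊤) : Gn (Set.univ : Set D) 2 :=
  ⟨[a, b], le_rfl, fun _ _ => trivial, fun t _ => closure_mono (fun x hx => by simpa using hx) (h.ge (mem_top t))⟩

theorem Gn.ofPG {D : Type*} [Group D] (h : PG D 2 r) : Gn (Set.univ : Set D) 2 := by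
  obtain ⟨x, -, hx⟩ := h
  refine Gn.two (a := x 0) (b := x 1) (top_unique (hx.ge.trans (closure_mono ?_)))
  rintro _ ⟨i, rfl⟩
  fin_cases i <;> simp

theorem Df.eq {D : Type*} [Group D] {T : Set D} (g : Gn T r) (u v : D →* C) (h : ∀ t ∈ T, ρ0 (u t) = ρ0 (v t)) :
    Df ρ0 (fun _ _ ρ => ∀ t ∈ T, ρ (u t) = ρ (v t)) r := by
  obtain ⟨S, s1, s2, s3⟩ := g
  refine ⟨S.map fun s => u s * (v s)⁻¹, by simpa, ?_, fun K _ ρ hρ t ht => ?_⟩
  · simp only [List.mem_map, forall_exists_index, and_imp, forall_apply_eq_imp_iff₂, map_mul, map_inv,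
      mul_inv_eq_one]
    exact fun s hs => h s (s2 s hs)
  · simp only [List.mem_map, forall_exists_index, and_imp, forall_apply_eq_imp_iff₂, map_mul, map_inv,
      mul_inv_eq_one] at hρ
    exact (closure_le ((ρ.comp u).eqLocus (ρ.comp v))).2 hρ (s3 t ht)

theorem Df.comm {D E : Type*} [Group D] [Group E] {T : Set D} {T' : Set E} (g : Gn T r) (g' : Gn T' s)
    (u : D →* C) (v : E →* C) (h : ∀ t ∈ T, ∀ t' ∈ T', Commute (ρ0 (u t)) (ρ0 (v t'))) :
    Df ρ0 (fun _ _ ρ => ∀ t ∈ T, ∀ t' ∈ T', Commute (ρ (u t)) (ρ (v t'))) (r * s) := by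
  obtain ⟨S, s1, s2, s3⟩ := g
  obtain ⟨S', s1', s2', s3'⟩ := g'
  refine ⟨(S ×ˢ S').map fun p => ⁅u p.1, v p.2⁆, by
    rw [List.length_map, List.length_product]; exact Nat.mul_le_mul s1 s1', ?_,
    fun K _ ρ hρ t ht t' ht' => ?_⟩
  · simp only [List.mem_map, forall_exists_index, and_imp, forall_apply_eq_imp_iff₂, map_commutatorElement,
      commutatorElement_eq_one_iff_commute]
    exact fun p hp => h _ (s2 _ (List.pair_mem_product.1 hp).1) _ (s2' _ (List.pair_mem_product.1 hp).2)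
  · simp only [List.mem_map, forall_exists_index, and_imp, forall_apply_eq_imp_iff₂, map_commutatorElement,
      commutatorElement_eq_one_iff_commute] at hρ
    exact commute_of_closure (ρ.comp u) (fun a ha => (commute_of_closure (ρ.comp v)
      (fun b hb => (hρ (a, b) (List.pair_mem_product.2 ⟨ha, hb⟩)).symm) (s3' t' ht')).symm) (s3 t ht)

theorem PG.df {A B : Type} [Group A] [Group B] {a b t : ℕ} (hA : PG A a r) (hB : PG B b s) {ρ0 : A ∗ B →* G}
    {P : ∀ (K : Type) [Group K], (A ∗ B →* K) → Prop} (D : Df ρ0 P t)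
    (h : ∀ (K : Type) [Group K] (π : K →* G) (ρ : A ∗ B →* K), (∀ w, π (ρ w) = ρ0 w) → P K ρ →
      (∀ y ∈ ρ.range, π y = 1 → y = 1) ∧ ρ0.range = ⊤) : PG G (a + b) (r + s + t) := by
  obtain ⟨L, l1, l2, l3⟩ := D
  have e : Coprod.lift (ρ0.comp Coprod.inl) (ρ0.comp Coprod.inr) = ρ0 := by ext <;> simp
  refine ((PG.amalg hA hB (ρ0.comp Coprod.inl) (ρ0.comp Coprod.inr) L (by rwa [e]) (fun J _ ψ φ hJ => ?_)
    (K := ⊤) ?_).congr topEquiv).mono le_rfl (by omega)
  · have := (h _ (MonoidHom.fst G J) (ρ0.prod (Coprod.lift ψ φ)) (fun _ => rfl)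
      (l3 _ _ fun w hw => Prod.ext (l2 w hw) (hJ w hw))).1
    exact ⟨(ρ0.prod (Coprod.lift ψ φ)).range, fun a => ⟨Coprod.inl a, by simp⟩, fun a => ⟨Coprod.inr a, by simp⟩,
      fun y hy => congrArg Prod.snd (this _ hy rfl)⟩
  · rw [← Coprod.range_lift, e, (h G (MonoidHom.id G) ρ0 (fun _ => rfl) (l3 G ρ0 l2)).2]

end Df

theorem pg_of_pres {G : Type} [Group G] {k m : ℕ} {R : List (List ℕ)} (a : H28.Pres.{0} k R m) {xs : List G}
    (hl : xs.length = k) (r : H28.Rels xs R) (ht : H27.cl xs = ⊤) (hm : m ≤ Nat.card G) : PG G k R.length := by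
  have U := H28.Univ.of_pres a hl r (by rwa [ht, card_top])
  subst hl
  let fs : List (FreeGroup (Fin xs.length)) := List.ofFn FreeGroup.of
  have e : fs.map (FreeGroup.lift xs.get) = xs := by simp [fs, List.map_ofFn, comp_def]
  refine ⟨xs.get, ?_, by rw [← ht, H27.cl]; congr 1; ext; simp [List.mem_iff_get]⟩
  rw [← List.length_map (H28.ev fs)]
  refine Pr.of_graph _ (List.forall_mem_map.2 fun w hw => ?_) fun J _ ρ hρ => ?_
  · rw [← H28.ev_map, e, r w hw]
  · refine ⟨(H27.cl ((fs.map ρ).zip xs)).comap (MulEquiv.prodComm (M := G) (N := J)).toMonoidHom,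
      fun i => H27.mem_cl (List.mem_iff_getElem.2 ⟨i, by simp [fs], by simp [fs]⟩),
      fun j hj => U.2 J _ (by simp [fs]) (fun w hw => ?_) _ hj rfl⟩
    rw [H28.ev_map, hρ _ (List.mem_map_of_mem hw)]

theorem pg_of_model {G : Type} [Group G] {k m : ℕ} {R : List (List ℕ)} (a : H28.Pres.{0} k R m) (M : H29.Model G)
    {L : List ℕ} (hv : ∀ c ∈ L, M.In ⊤ c) (hL : L.length = k) (hR : H29.relsZ M.mul M.one L [M.one] R = true)
    [Finite G] (hm : Nat.card G = m) (ht : m ≤ Nat.card (M.cl L)) : PG G k R.length := by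
  obtain ⟨ys, l1, l2⟩ := H29.exists_list_R hv
  have e : ∀ w, M.R (H29.prodL M.mul M.one (H29.lgetD M.one L) w) (H28.ev ys w) := fun w =>
    M.R_prodL (φ := fun i => ys.getD i 1) fun i _ => l2 i
  refine pg_of_pres a (l1.trans hL) (fun w hw => M.unique (e w) ?_) (top_unique ?_) hm.ge
  · rw [List.mem_singleton.1 (H29.relsZ_spec hR w hw)]; exact M.R_one
  · rw [← eq_top_of_le_card _ (hm.le.trans ht)]
    refine H29.Model.cl_le' fun c hc g hg => ?_
    obtain ⟨i, -, rfl⟩ := H29.exists_lgetD M.one hc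
    rw [M.unique hg (l2 i), ← H28.ev_single]
    exact H28.ev_mem_cl _ _

variable {N k q n : ℕ} {F : Type} [Field F] [Fintype F] (hF : Fintype.card F = q ^ 2)

theorem PM_perm (σ : Perm (Fin N)) : PM F σ * (PM F σ)ᵀ = 1 := mul_eq_one_comm.1 (PM_one σ.injective)

theorem det_PM (σ : Perm (Fin N)) : (PM F σ).det = ((Perm.sign σ : ℤ) : F) := by
  have : PM F σ = (1 : Matrix (Fin N) (Fin N) F).submatrix id σ := by ext i j; simp [PM, one_apply]
  rw [this, det_permute', det_one, mul_one]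

variable {A : Type} [Group A] (ι : A →* Perm (Fin N)) (hι : ∀ a, ((Perm.sign (ι a) : ℤ) : F) = 1)

/-- permutation matrices -/
def pm : A →* SU N F q :=
  MonoidHom.mk' (fun a => ⟨⟨PM F (ι a), (det_PM _).trans (hι a)⟩, (H14.Wall.mem_SU_ct hF).2 (by
    change H14.Wall.ct _ (PM F _) * PM F _ = 1
    rw [H14.Wall.ct, PM_map, PM_one (ι a).injective])⟩)
    fun a b => su_ext (by change PM F (ι (a * b)) = PM F _ * PM F _; rw [map_mul, ← PM_comp]; rfl)

theorem pm_val (a : A) : (pm hF ι hι a).1.1 = PM F (ι a) := rfl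

theorem pm_bb (a : A) (i : Fin N) : p0 N q F (pm hF ι hι a) (bb i) = bb (ι a i) := by
  ext j; rw [p0_bb, pm_val]; simp [PM, bb, Pi.single_apply]

theorem pm_em (a : A) {f g : Fin k → Fin N} (hf : Injective f) (hg : Injective g) (h : ∀ i, ι a (f i) = g i)
    (x : SU k F q) : pm hF ι hι a * em hF hf x * (pm hF ι hι a)⁻¹ = em hF hg x := by
  obtain rfl : ι a ∘ f = g := funext h
  rw [mul_inv_eq_iff_eq_mul]
  refine su_ext ?_
  change PM F _ * emM f _ = emM _ _ * PM F _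
  rw [← emM_comp]
  simp only [emM, Matrix.add_mul, Matrix.mul_assoc, PM_one (ι a).injective, add_sub_cancel_left, Matrix.mul_add,
    Matrix.mul_one, Matrix.one_mul]

theorem em_pm {B : Type} [Group B] (ι' : B →* Perm (Fin k)) (hι' : ∀ a, ((Perm.sign (ι' a) : ℤ) : F) = 1)
    {f : Fin k → Fin N} (hf : Injective f) (a : A) (b : B) (h : ∀ i, ι a (f i) = f (ι' b i))
    (h' : ∀ i, i ∉ Set.range f → ι a i = i) : em hF hf (pm hF ι' hι' b) = pm hF ι hι a := by
  obtain ⟨y, hy⟩ := (mem_em hF hf (pm hF ι hι a)).2 (Fx_iff.2 fun i hi => by rw [pm_bb, h' i hi])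
  rw [← hy]
  congr 1
  refine su_ext ?_
  rw [← emM_back hf y.1.1, ← em_val hF hf, hy, pm_val, pm_val, Matrix.mul_assoc, ← PM_comp,
    show ι a ∘ f = f ∘ ι' b from funext h, PM_comp, ← Matrix.mul_assoc, PM_one hf, Matrix.one_mul]

theorem em_em {l : ℕ} {f : Fin k → Fin N} {g : Fin l → Fin k} {h : Fin l → Fin N} (hf : Injective f) (hg : Injective g)
    (hh : Injective h) (e : ∀ i, f (g i) = h i) (x : SU l F q) : em hF hf (em hF hg x) = em hF hh x :=
  su_ext ((emM_comp _ _ _).trans (by rw [show f ∘ g = h from funext e]; rfl))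

theorem em_comm {l : ℕ} {f : Fin k → Fin N} {g : Fin l → Fin N} (hf : Injective f) (hg : Injective g)
    (h : ∀ a b, f a ≠ g b) (x : SU k F q) (y : SU l F q) : Commute (em hF hf x) (em hF hg y) :=
  su_ext (emM_comm h _ _)

include hF in
theorem cen_SU (hn : 2 ≤ N) : IsCyclic (center (SU N F q)) := by
  obtain ⟨c, hc0, hc⟩ := H23.exists_trace_zero_ne_zero hF
  have hΦ := H22.hForm_nondeg hF N
  have h : ∀ z : center (SU N F q), ∃ a : F, z.1.1.1 = a • 1 := fun z => by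
    obtain ⟨a, ha⟩ := H22.scalar_of_mem_center hΦ ⟨c, hc0, by simpa using hc, by simp⟩
      (H22.exists_sing_herm hF _ hΦ rfl rfl (by simpa using hn)) _ (H22.eichSet_le_SO hΦ) (H22.suEquiv hF N z.1)
      (mem_center_iff.2 fun g => by
        obtain ⟨g, rfl⟩ := (H22.suEquiv hF N).surjective g
        rw [← map_mul, mem_center_iff.1 z.2, map_mul])
    refine ⟨a, Matrix.ext fun i j => ?_⟩
    have : (z.1.1.1 *ᵥ Pi.single j 1) i = _ := congrFun (ha (Pi.single j 1)) i
    simpa [one_apply, Pi.single_apply] using this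
  let i : Fin N := ⟨0, by omega⟩
  refine isCyclic_of_subgroup_isDomain (R := F) ⟨⟨fun z => z.1.1.1 i i, one_apply_eq i⟩, fun x y => ?_⟩ fun x y e => ?_
  · obtain ⟨a, ha⟩ := h x
    change (x.1.1.1 * y.1.1.1) i i = _
    simp [ha]
  · obtain ⟨a, ha⟩ := h x
    obtain ⟨b, hb⟩ := h y
    have : x.1.1.1 i i = y.1.1.1 i i := e
    refine Subtype.ext (su_ext ?_)
    rw [ha, hb] at this ⊢
    simp at this
    rw [this]

theorem sl2_gen {K : Type} [Field K] [Fintype K] :
    ∃ a b : Matrix.SpecialLinearGroup (Fin 2) K, closure {a, b} = ⊤ := by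
  obtain ⟨w, hw⟩ := exists_cycSL (F := K) 1
  have h01 : (0 : Fin (1 + 1)) ≠ 1 := zero_ne_one
  have hx : (tv 0 1 1 : Matrix.SpecialLinearGroup (Fin (1 + 1)) K).1 = transvection 0 1 1 := coe_tv (F := K) h01 1
  have c : ∀ z ∈ center (Matrix.SpecialLinearGroup (Fin 2) K), z * z = 1 ∧ (z = 1 ∨ z = w * w) := fun z hz => by
    obtain ⟨r, h1, h2⟩ := Matrix.SpecialLinearGroup.mem_center_iff.1 hz
    rw [Fintype.card_fin] at h1
    refine ⟨Subtype.ext ?_, (sq_eq_one_iff.1 h1).imp (fun h => Subtype.ext ?_) fun h => Subtype.ext ?_⟩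
    · rw [Matrix.SpecialLinearGroup.coe_mul, ← h2, ← map_mul, ← sq, h1, map_one]; rfl
    · rw [← h2, h, map_one]; rfl
    · rw [Matrix.SpecialLinearGroup.coe_mul, ← h2, h, hw]
      ext i j; fin_cases i <;> fin_cases j <;> simp [mul_apply, Fin.sum_univ_two]
  obtain ⟨u, v, h⟩ : ∃ u v : Matrix.SpecialLinearGroup (Fin (1 + 1)) K, closure {u, v} ⊔ center _ = ⊤ := by
    by_cases h3 : Fintype.card K ≤ 3
    · exact ⟨_, _, Cfsg.Agent.S2403.result h3 1 le_rfl _ _ hx hw⟩
    obtain ⟨z, hz⟩ := IsCyclic.exists_generator (α := Kˣ)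
    refine ⟨_, _, Cfsg.Agent.S2402.result (not_le.1 h3) 1 le_rfl z hz (hS z 0 1) _ _ ?_ hx hw⟩
    refine (coe_hS z 0 1).trans ?_
    congr 1; ext i
    fin_cases i <;> simp [dz]
  refine ⟨u, v, (sup_eq_left.2 fun z hz => ?_).symm.trans h⟩
  obtain ⟨-, rfl | rfl⟩ := c z hz
  · exact one_mem _
  obtain ⟨a, ha, y, hy, rfl⟩ := mem_sup_of_normal_right.1 (h.ge (mem_top w))
  rw [mul_assoc, ← mul_assoc y, ← mem_center_iff.1 hy, mul_assoc, (c y hy).1, mul_one]
  exact mul_mem ha ha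

include hF in
theorem gn_su2 : Gn (Set.univ : Set (SU 2 F q)) 2 := by
  obtain ⟨K, -, ε, -, -⟩ := exists_eps hF
  have := Fintype.ofFinite K
  obtain ⟨a, b, h⟩ := two_gen_surj ε.toMonoidHom ε.surjective sl2_gen
  exact Gn.two h

theorem alt_gen (K : Subgroup (alternatingGroup (Fin (n + 1))))
    (h : ∀ i j : Fin n, (i : ℕ) + 1 = j → ∀ a : alternatingGroup (Fin (n + 1)),
      a.1 = swap i.castSucc i.succ * swap j.castSucc j.succ → a ∈ K) : K = ⊤ := by
  let K' := K.map (alternatingGroup _).subtype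
  let s : Fin n → Perm (Fin (n + 1)) := fun i => swap i.castSucc i.succ
  have h1 : ∀ (d : ℕ) (i j : Fin n), (i : ℕ) + d = j → s i * s j ∈ K' := fun d => by
    induction d with
    | zero => intro i j e; rw [show i = j from Fin.ext e, swap_mul_self]; exact one_mem _
    | succ d ih =>
      intro i j e
      have := mul_mem (ih i ⟨i + d, by omega⟩ rfl) (mem_map_of_mem (alternatingGroup _).subtype
        (h ⟨i + d, by omega⟩ j e ⟨_, by simp [Fin.castSucc_lt_succ.ne]⟩ rfl))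
      rwa [coe_subtype, mul_assoc, swap_mul_self_mul] at this
  have h2 : ∀ i j, s i * s j ∈ K' := fun i j => by
    rcases le_total (i : ℕ) j with l | l
    · exact h1 (j - i) i j (by omega)
    · simpa [s] using inv_mem (h1 (i - j) j i (by omega))
  refine eq_top_iff.2 fun a _ => ?_
  have : ∀ σ ∈ Submonoid.closure (Set.range s), σ ∈ K' ∨ ∃ i, σ * s i ∈ K' := fun σ hσ => by
    induction hσ using Submonoid.closure_induction_right with
    | one => exact .inl (one_mem _)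
    | mul_right σ _ _ hi ih =>
      obtain ⟨i, rfl⟩ := hi
      rcases ih with ih | ⟨j, ih⟩
      · exact .inr ⟨i, by rwa [mul_assoc, swap_mul_self, mul_one]⟩
      · have := mul_mem ih (h2 j i)
        rw [mul_assoc, swap_mul_self_mul] at this
        exact .inl this
  rcases this a.1 ((Perm.mclosure_swap_castSucc_succ n).ge trivial) with ⟨b, hb, e⟩ | ⟨i, b, -, e⟩
  · exact Subtype.ext e ▸ hb
  · have := congrArg Perm.sign e
    rw [coe_subtype, Perm.mem_alternatingGroup.1 b.2, map_mul, Perm.mem_alternatingGroup.1 a.2,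
      Perm.sign_swap Fin.castSucc_lt_succ.ne] at this
    exact absurd this (by decide)

theorem exists_altk (hk : k + 2 ≤ N) {f g : Fin k → Fin N} (hf : Injective f) (hg : Injective g) :
    ∃ σ : alternatingGroup (Fin N), ∀ i, σ.1 (f i) = g i := by
  obtain ⟨σ, hσ⟩ : ∃ σ : Perm (Fin N), ∀ i, σ (f i) = g i :=
    ⟨((Embedding.mk f hf).toEquivRange.symm.trans (Embedding.mk g hg).toEquivRange).extendSubtype, fun i => by
      rw [Equiv.extendSubtype_apply_of_mem _ _ ⟨i, rfl⟩]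
      exact congrArg (fun j => ((Embedding.mk g hg).toEquivRange j).1)
        ((Embedding.mk f hf).toEquivRange.symm_apply_apply i)⟩
  rcases Int.units_eq_one_or (Perm.sign σ) with h | h
  · exact ⟨⟨σ, h⟩, hσ⟩
  obtain ⟨a, ha⟩ := exists_notMem_of_lt (List.ofFn f) (by simp; omega)
  obtain ⟨b, hb⟩ := exists_notMem_of_lt (a :: List.ofFn f) (by simp; omega)
  simp only [List.mem_cons, List.mem_ofFn, not_or, not_exists] at ha hb
  exact ⟨⟨σ * swap b a, by simp [h, hb.1]⟩, fun i => by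
    simp only [Perm.mul_apply, swap_apply_of_ne_of_ne (hb.2 i) (ha i), hσ]⟩

end H7.SUP
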