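import Cfsg.Agent.H7.SU1

/-! Presentations of unitary groups: the amalgam of `A_n` and `SU_3` or `SU_4`. -/

set_option autoImplicit false
set_option linter.unusedSectionVars false

namespace H7.SUP

open Monoid Equiv Lead.Pha Cfsg Function Subgroup
open scoped Monoid.Coprod commutatorElement

variable {N k q n : ℕ} {F : Type} [Field F] [Fintype F] (hF : Fintype.card F = q ^ 2)

local notation "𝐀" => alternatingGroup (Fin (n + 1))

variable (N) in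
/-- even permutation matrices -/
def pa : alternatingGroup (Fin N) →* SU N F q :=
  pm hF (alternatingGroup _).subtype fun a => by simp [Perm.mem_alternatingGroup.1 a.2]

/-- product of two swaps -/
def sw (a b c d : Fin N) (h : a ≠ b := by decide) (h' : c ≠ d := by decide) : alternatingGroup (Fin N) :=
  ⟨swap a b * swap c d, by simp [h, h']⟩

theorem inj2 {a b : Fin N} (h : a ≠ b) : Injective ![a, b] := fun i j => by
  fin_cases i <;> fin_cases j <;> simp [h, h.symm]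

theorem rep_em {f : Fin k → Fin N} (hf : Injective f) {K : Type*} [Group K] {π : K →* SU N F q} {Ψ : SU k F q →* K}
    (h : ∀ x, π (Ψ x) = em hF hf x) : Inj ((p0 N q F).comp π) Ψ.range ∧ Rep hF ((p0 N q F).comp π) Ψ.range (Set.range f) := by
  refine ⟨?_, ?_, fun g g1 g2 => ?_⟩
  · rintro _ ⟨x, rfl⟩ c
    rw [show x = 1 from em_inj hF hf ((h x).symm.trans ((p0_inj (c.trans (map_one _).symm)).trans (map_one _).symm)),
      map_one]
  · rintro _ ⟨x, rfl⟩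
    exact (mem_em hF hf _).1 ⟨x, (h x).symm⟩
  · obtain ⟨X, rfl⟩ := p0_sur hF g1
    obtain ⟨x, rfl⟩ := (mem_em hF hf _).2 g2
    exact ⟨_, ⟨x, rfl⟩, congrArg (p0 N q F) (h x)⟩

variable (hn : 3 ≤ n)

/-- the first four points -/
def oo (i : Fin 4) : Fin (n + 1) := Fin.castLE (Nat.succ_le_succ hn) i

theorem o_ne {i j : Fin 4} (h : i ≠ j := by decide) : oo hn i ≠ oo hn j := (Fin.castLE_injective _).ne h

theorem o_inj : Injective (oo hn) := Fin.castLE_injective (Nat.succ_le_succ hn)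

theorem o3_inj : Injective (oo hn ∘ ![0, 1, 2]) := (o_inj hn).comp (by decide)

theorem ex4 (i j : Fin n) (h : (i : ℕ) + 2 ≤ j) : ∃ σ : 𝐀, ∀ t, σ.1 (oo hn t) = ![i.castSucc, i.succ, j.castSucc, j.succ] t := by
  obtain rfl | rfl | h5 : n = 3 ∨ n = 4 ∨ 5 ≤ n := by omega
  · refine ⟨1, fun t => ?_⟩
    revert i j t hn; decide
  · have : ∀ i j : Fin 4, (i : ℕ) + 2 ≤ j → ∃ σ ∈ [1, sw 2 3 3 4, sw (0 : Fin 5) 1 1 2 * sw 2 3 3 4], ∀ t,
        σ.1 (oo hn t) = ![i.castSucc, i.succ, j.castSucc, j.succ] t := by revert hn; decide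
    exact (this i j h).imp fun _ h => h.2
  · exact exists_altk (by omega) (o_inj hn) fun a b => by
      fin_cases a <;> fin_cases b <;> simp [Fin.ext_iff] <;> omega

variable {K : Type} [Group K] (π : K →* SU (n + 1) F q) (ψ : alternatingGroup (Fin (n + 1)) →* K) (φ : SU 3 F q →* K)

/-- the conjugates of the first block -/
def Vv (σ : 𝐀) : SU 2 F q →* K := (MulAut.conj (ψ σ)).toMonoidHom.comp (φ.comp (e01 hF))

/-- the common relations -/
structure Cm : Prop where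
  hψ : ∀ a, π (ψ a) = pa (n + 1) hF a
  hφ : ∀ b, π (φ b) = em hF (o3_inj hn) b
  r1 : ∀ τ : 𝐀, τ.1 (oo hn 0) = oo hn 0 → τ.1 (oo hn 1) = oo hn 1 → ∀ x, Commute (ψ τ) (φ (e01 hF x))
  r2 : ψ (sw _ _ _ _ (o_ne hn (i := 0) (j := 1)) (o_ne hn (i := 1) (j := 2))) = φ (pa 3 hF (sw 0 1 1 2))
  r3 : ∀ x y, Commute (φ (e01 hF x)) (Vv hF ψ φ (sw _ _ _ _ (o_ne hn (i := 0) (j := 2)) (o_ne hn (i := 1) (j := 3))) y)
  r4 : n = 3 → ∀ x, Vv hF ψ φ (sw _ _ _ _ (o_ne hn (i := 0) (j := 1)) (o_ne hn (i := 2) (j := 3))) x =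
    φ (em hF (inj2 one_ne_zero) x)

theorem sw_o {a b c d : Fin 4} (h : a ≠ b) (h' : c ≠ d) (i : Fin 4) :
    (sw _ _ _ _ (o_ne hn h) (o_ne hn h')).1 (oo hn i) = oo hn ((sw a b c d h h').1 i) := by
  simp only [sw, Perm.mul_apply, (o_inj hn).swap_apply]

variable {hF hn π ψ φ}

theorem Vv_mul (σ τ : 𝐀) (x : SU 2 F q) : Vv hF ψ φ (σ * τ) x = ψ σ * Vv hF ψ φ τ x * (ψ σ)⁻¹ := by
  simp [Vv, mul_assoc]

namespace Cm
variable (h : Cm hF hn π ψ φ)
include h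

theorem eqV {σ τ : 𝐀} (h0 : σ.1 (oo hn 0) = τ.1 (oo hn 0)) (h1 : σ.1 (oo hn 1) = τ.1 (oo hn 1)) :
    Vv hF ψ φ σ = Vv hF ψ φ τ := MonoidHom.ext fun x =>
  fam_conj ψ (x := (oo hn 0, oo hn 1)) (fun τ e => h.r1 τ (congrArg Prod.fst e) (congrArg Prod.snd e) x) (Prod.ext h0 h1)

theorem piV {σ : 𝐀} {a b : Fin (n + 1)} (hab : a ≠ b) (h0 : σ.1 (oo hn 0) = a) (h1 : σ.1 (oo hn 1) = b) (x : SU 2 F q) :
    π (Vv hF ψ φ σ x) = em hF (inj2 hab) x := by
  rw [Vv, MonoidHom.comp_apply, MonoidHom.comp_apply, MulEquiv.coe_toMonoidHom, MulAut.conj_apply, map_mul, map_mul,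
    map_inv, h.hψ, h.hφ, em_em hF _ i01 ((o3_inj hn).comp i01) fun _ => rfl]
  exact pm_em hF _ _ σ _ _ (fun i => by fin_cases i <;> assumption) x

theorem win (i j : Fin n) (e : (i : ℕ) + 1 = j) : ∃ (Ψ : SU 3 F q →* K) (σ τ : 𝐀) (g : Fin 3 → Fin (n + 1))
    (hg : Injective g), σ.1 (oo hn 0) = i.castSucc ∧ σ.1 (oo hn 1) = i.succ ∧ τ.1 (oo hn 0) = j.castSucc ∧
      τ.1 (oo hn 1) = j.succ ∧ Ψ.comp (e01 hF) = Vv hF ψ φ σ ∧ Ψ.comp (e12 hF) = Vv hF ψ φ τ ∧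
      (∀ x, π (Ψ x) = em hF hg x) ∧
      ∀ a : 𝐀, a.1 = swap i.castSucc i.succ * swap j.castSucc j.succ → ψ a ∈ Ψ.range := by
  have e' : j.castSucc = i.succ := Fin.ext (by simp [e])
  set c := sw _ _ _ _ (o_ne hn (i := 0) (j := 1)) (o_ne hn (i := 1) (j := 2)) with hc
  have k : ∀ (σ : 𝐀) x, π ((MulAut.conj (ψ σ)).toMonoidHom.comp φ x) = em hF (σ.1.injective.comp (o3_inj hn)) x :=
    fun σ x => by
      rw [MonoidHom.comp_apply, MulEquiv.coe_toMonoidHom, MulAut.conj_apply, map_mul, map_mul, map_inv, h.hψ, h.hφ]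
      exact pm_em hF _ _ σ _ _ (fun _ => rfl) x
  by_cases h3 : n = 3 ∧ (i : ℕ) = 1
  · obtain ⟨rfl, h1⟩ := h3
    obtain rfl : i = 1 := Fin.ext h1
    obtain rfl : j = 2 := Fin.ext e.symm
    have s : Injective (![1, 0, 2] : Fin 3 → Fin 3) := by decide
    let σ : alternatingGroup (Fin 4) := sw 0 2 2 3
    let t : alternatingGroup (Fin 4) := sw _ _ _ _ (o_ne hn (i := 0) (j := 1)) (o_ne hn (i := 2) (j := 3))
    refine ⟨((MulAut.conj (ψ σ)).toMonoidHom.comp φ).comp (em hF s), σ * t, σ * (c⁻¹ * t), _,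
      (σ.1.injective.comp (o3_inj hn)).comp s, rfl, rfl, rfl, rfl, ?_, ?_, fun x => (k σ _).trans (em_em hF _ _ _ (fun _ => rfl) x), fun a ha => ?_⟩
    · ext1 x
      rw [Vv_mul, h.r4 rfl, ← em_em hF s i01 _ fun i => by fin_cases i <;> rfl]
      rfl
    · ext1 x
      rw [Vv_mul, Vv_mul, h.r4 rfl, map_inv, h.r2, ← map_inv φ, ← map_inv φ, ← map_mul φ, ← map_mul φ, ← map_inv (pa 3 hF),
        pa, pm_em hF _ _ _ _ (s.comp i12) (by decide), ← em_em hF s i12 _ fun _ => rfl]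
      rfl
    · refine ⟨pa 3 hF (sw 0 1 1 2), ?_⟩
      rw [show a = σ * c⁻¹ * σ⁻¹ from Subtype.ext (ha.trans (by ext x; fin_cases x <;> rfl)), map_mul, map_mul, map_inv,
        map_inv, h.r2, ← map_inv φ, ← map_inv (pa 3 hF), pa,
        ← em_pm hF _ _ (alternatingGroup _).subtype (fun a => by simp [Perm.mem_alternatingGroup.1 a.2]) s
          (sw (0 : Fin 3) 1 1 2)⁻¹ (sw (0 : Fin 3) 1 1 2) (by decide) (by decide)]
      rfl
  obtain ⟨σ, hσ⟩ : ∃ σ : 𝐀, ∀ t, σ.1 ((oo hn ∘ ![0, 1, 2]) t) = ![i.castSucc, i.succ, j.succ] t := by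
    by_cases h4 : n = 3
    · subst h4
      obtain rfl : i = 0 := Fin.ext (by omega)
      obtain rfl : j = 1 := Fin.ext e.symm
      exact ⟨1, fun t => by fin_cases t <;> rfl⟩
    · exact exists_altk (by omega) (o3_inj hn) fun a b => by
        fin_cases a <;> fin_cases b <;> simp [Fin.ext_iff] <;> omega
  refine ⟨(MulAut.conj (ψ σ)).toMonoidHom.comp φ, σ, σ * c, _, σ.1.injective.comp (o3_inj hn), hσ 0, hσ 1,
    ((congrArg σ.1 (sw_o hn (a := 0) (b := 1) (c := 1) (d := 2) (by decide) (by decide) 0)).trans (hσ 1)).trans e'.symm, (congrArg σ.1 (sw_o hn (a := 0) (b := 1) (c := 1) (d := 2) (by decide) (by decide) 1)).trans (hσ 2), rfl, ?_,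
    k σ, fun a ha => ⟨pa 3 hF (sw 0 1 1 2), ?_⟩⟩
  · ext1 x
    rw [Vv_mul, Vv, MonoidHom.comp_apply _ (φ.comp _), MulEquiv.coe_toMonoidHom, MulAut.conj_apply, h.r2,
      MonoidHom.comp_apply φ, ← map_inv φ, ← map_mul φ, ← map_mul φ, pa, pm_em hF _ _ _ _ i12 (by decide)]
    rfl
  · rw [show a = σ * c * σ⁻¹ from Subtype.ext (ha.trans ?_), map_mul, map_mul, map_inv, h.r2]
    · rfl
    change _ = σ.1 * (_ * _) * σ.1⁻¹
    rw [e', ← conj_mul, ← swap_apply_apply, ← swap_apply_apply]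
    exact congrArg₂ _ (congrArg₂ _ (hσ 0).symm (hσ 1).symm) (congrArg₂ _ (hσ 1).symm (hσ 2).symm)

theorem fin (hq : 3 ≤ q) : ∃ U : Fin n → Subgroup K,
    (∀ i (σ : 𝐀), σ.1 (oo hn 0) = i.castSucc → σ.1 (oo hn 1) = i.succ → U i = (Vv hF ψ φ σ).range) ∧
    (∀ i, Rep hF ((p0 (n + 1) q F).comp π) (U i) {i.castSucc, i.succ}) ∧
    (∀ i j : Fin n, (i : ℕ) + 1 = j → Inj ((p0 (n + 1) q F).comp π) (U i ⊔ U j)) ∧
    (∀ i j : Fin n, (i : ℕ) + 2 ≤ j → ∀ x ∈ U i, ∀ y ∈ U j, Commute x y) ∧ Gam U n = ψ.range ⊔ φ.range := by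
  choose σ s0 s1 using fun i : Fin n => exists_alt2 (n := n + 1) (by omega) (o_ne hn (i := 0) (j := 1))
    (Fin.castSucc_lt_succ (i := i)).ne
  have e : ∀ i (τ : 𝐀), τ.1 (oo hn 0) = i.castSucc → τ.1 (oo hn 1) = i.succ →
      (Vv hF ψ φ (σ i)).range = (Vv hF ψ φ τ).range := fun i τ h0 h1 => by
    rw [h.eqV ((s0 i).trans h0.symm) ((s1 i).trans h1.symm)]
  have w : ∀ i j : Fin n, (i : ℕ) + 1 = j → ∃ (Ψ : SU 3 F q →* K), Inj ((p0 (n + 1) q F).comp π) Ψ.range ∧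
      Ψ.range = (Vv hF ψ φ (σ i)).range ⊔ (Vv hF ψ φ (σ j)).range ∧
      ∀ a : 𝐀, a.1 = swap i.castSucc i.succ * swap j.castSucc j.succ → ψ a ∈ Ψ.range := fun i j hij => by
    obtain ⟨Ψ, a, b, g, hg, a0, a1, b0, b1, e1, e2, e3, e4⟩ := h.win i j hij
    refine ⟨Ψ, (rep_em hF hg e3).1, ?_, e4⟩
    rw [e i a a0 a1, e j b b0 b1, ← e1, ← e2, MonoidHom.range_comp, MonoidHom.range_comp, ← Subgroup.map_sup,
      sup_range3 hF hq, MonoidHom.range_eq_map]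
  have l : ∀ i, (Vv hF ψ φ (σ i)).range ≤ Gam (fun i => (Vv hF ψ φ (σ i)).range) n := fun i =>
    U_le (fun i => (Vv hF ψ φ (σ i)).range) i.2
  have m : ∀ a, ψ a ∈ Gam (fun i => (Vv hF ψ φ (σ i)).range) n := fun a =>
    (alt_gen ((Gam (fun i => (Vv hF ψ φ (σ i)).range) n).comap ψ) fun i j hij a ha => by
      obtain ⟨Ψ, -, e1, e2⟩ := w i j hij
      exact sup_le (l i) (l j) (e1 ▸ e2 a ha)).ge (mem_top a)
  refine ⟨fun i => (Vv hF ψ φ (σ i)).range, e, fun i => ?_, fun i j hij => ?_, fun i j hij => ?_, le_antisymm ?_ ?_⟩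
  · have := (rep_em hF _ (h.piV Fin.castSucc_lt_succ.ne (s0 i) (s1 i))).2
    rwa [Matrix.range_cons, Matrix.range_cons, Matrix.range_empty, Set.union_empty] at this
  · obtain ⟨Ψ, e0, e1, -⟩ := w i j hij
    exact e1 ▸ e0
  · obtain ⟨τ, hτ⟩ := ex4 hn i j hij
    dsimp only
    rw [e i τ (hτ 0) (hτ 1), e j (τ * sw _ _ _ _ (o_ne hn (i := 0) (j := 2)) (o_ne hn (i := 1) (j := 3)))
      ((congrArg τ.1 (sw_o hn (a := 0) (b := 2) (c := 1) (d := 3) (by decide) (by decide) 0)).trans (hτ 2))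
      ((congrArg τ.1 (sw_o hn (a := 0) (b := 2) (c := 1) (d := 3) (by decide) (by decide) 1)).trans (hτ 3))]
    rintro _ ⟨x, rfl⟩ _ ⟨y, rfl⟩
    rw [Vv_mul]
    exact (h.r3 x y).map (MulAut.conj (ψ τ))
  · refine iSup₂_le fun i _ => ?_
    rintro _ ⟨x, rfl⟩
    exact mul_mem (mul_mem (mem_sup_left ⟨_, rfl⟩) (mem_sup_right ⟨_, rfl⟩)) (inv_mem (mem_sup_left ⟨_, rfl⟩))
  · refine sup_le (by rintro _ ⟨a, rfl⟩; exact m a) ?_
    rw [MonoidHom.range_eq_map, ← sup_range3 hF hq, Subgroup.map_sup, ← MonoidHom.range_comp, ← MonoidHom.range_comp]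
    have k : ∀ x, φ (e01 hF x) ∈ Gam (fun i => (Vv hF ψ φ (σ i)).range) n := fun x => by
      have := mul_mem (mul_mem (inv_mem (m (σ ⟨0, by omega⟩))) (l ⟨0, by omega⟩ ⟨x, rfl⟩)) (m (σ ⟨0, by omega⟩))
      simpa [Vv, mul_assoc] using this
    refine sup_le ?_ ?_ <;> rintro _ ⟨x, rfl⟩
    · exact k x
    · rw [MonoidHom.comp_apply, ← pm_em hF (alternatingGroup _).subtype (fun a => by simp [Perm.mem_alternatingGroup.1 a.2])
        (sw (0 : Fin 3) 1 1 2) i01 i12 (by decide), map_mul, map_mul, map_inv, ← pa, ← h.r2]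
      exact mul_mem (mul_mem (m _) (k x)) (inv_mem (m _))

end Cm

theorem concl {C : Type} [Group C] {ρ : C →* K} {ρ0 : C →* SU (n + 1) F q} (e : ∀ w, π (ρ w) = ρ0 w)
    (h : Inj ((p0 (n + 1) q F).comp π) ρ.range ∧ Rep hF ((p0 (n + 1) q F).comp π) ρ.range Set.univ) :
    (∀ y ∈ ρ.range, π y = 1 → y = 1) ∧ ρ0.range = ⊤ := by
  refine ⟨fun y hy c => h.1 y hy (by rw [MonoidHom.comp_apply, c, map_one]), eq_top_iff.2 fun g _ => ?_⟩
  obtain ⟨_, ⟨w, rfl⟩, c⟩ := h.2.sur _ (p0_si hF g) (Fx_iff.2 fun i hi => (hi trivial).elim)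
  exact ⟨w, (e w).symm.trans (p0_inj c)⟩

theorem range_cop {A B : Type} [Group A] [Group B] (ρ : A ∗ B →* K) :
    ρ.range = (ρ.comp Coprod.inl).range ⊔ (ρ.comp Coprod.inr).range := by
  rw [← Coprod.range_lift]; congr 1; ext <;> simp

variable (hn) in
theorem gn_stab : Gn {τ : 𝐀 | τ.1 (oo hn 0) = oo hn 0 ∧ τ.1 (oo hn 1) = oo hn 1}
    (if n = 3 then 0 else if n = 4 then 1 else 2) := by
  obtain ⟨S, s1, s2, s3, s4, s5⟩ := exists_stab _ _ (o_ne hn (i := 0) (j := 1))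
  exact ⟨S, by split_ifs <;> omega, s4, fun t ht => s5 t ht.1 ht.2⟩

theorem Df.one {C G : Type} [Group C] [Group G] {ρ0 : C →* G} {a b : C} (h : ρ0 a = ρ0 b) :
    Df ρ0 (fun _ _ ρ => ρ a = ρ b) 1 :=
  ⟨[a * b⁻¹], le_rfl, by simpa [mul_inv_eq_one], fun _ _ _ h => by simpa [mul_inv_eq_one] using h⟩

variable (hF hn)

theorem pa_o {a b c d : Fin 4} (h : a ≠ b) (h' : c ≠ d) :
    em hF (o_inj hn) (pa 4 hF (sw a b c d h h')) = pa (n + 1) hF (sw _ _ _ _ (o_ne hn h) (o_ne hn h')) :=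
  em_pm hF _ _ _ _ _ _ _ (sw_o hn h h') fun i hi => by
    have : ∀ x, i ≠ oo hn x := fun x e => hi ⟨x, e.symm⟩
    simp [sw, swap_apply_of_ne_of_ne, this]

theorem k3 : Injective (![0, 1, 2] : Fin 3 → Fin 4) := by decide

theorem pa_3 : em hF k3 (pa 3 hF (sw 0 1 1 2)) = pa 4 hF (sw 0 1 1 2) :=
  em_pm hF _ _ _ _ _ _ _ (by decide) (by decide)

theorem df1 {B : Type} [Group B] (φ0 : B →* SU (n + 1) F q) (e : SU 2 F q →* B)
    (he : ∀ x, φ0 (e x) = em hF ((o3_inj hn).comp i01) x) :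
    Df (Coprod.lift (pa (n + 1) hF) φ0) (fun _ _ ρ => ∀ τ : 𝐀, τ.1 (oo hn 0) = oo hn 0 → τ.1 (oo hn 1) = oo hn 1 →
      ∀ x, Commute (ρ (.inl τ)) (ρ (.inr (e x)))) ((if n = 3 then 0 else if n = 4 then 1 else 2) * 2) :=
  (Df.comm (gn_stab hn) (gn_su2 hF) Coprod.inl (Coprod.inr.comp e) fun τ hτ x _ => by
    simp only [MonoidHom.comp_apply, Coprod.lift_apply_inl, Coprod.lift_apply_inr, he]
    exact mul_inv_eq_iff_eq_mul.1 (pm_em hF _ _ τ _ _ (fun i => by fin_cases i; exacts [hτ.1, hτ.2]) x)).mono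
    (fun _ _ _ h τ h0 h1 x => h τ ⟨h0, h1⟩ x trivial) le_rfl

include hF hn in
theorem pg_big (hq : 4 ≤ q) {a r : ℕ} (hA : PG 𝐀 a r) :
    PG (SU (n + 1) F q) (a + 3) (r + 21 + ((if n = 3 then 0 else if n = 4 then 1 else 2) * 2 + 1 + 2 * 2 +
      if n = 3 then 2 else 0)) := by
  have e1 := em_em hF (o3_inj hn) i01 ((o3_inj hn).comp i01) fun _ => rfl
  have e2 : ∀ {a b c d : Fin 4} (h : a ≠ b) (h' : c ≠ d) {g : Fin 2 → Fin (n + 1)} (hg : Injective g),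
      (∀ i, oo hn ((sw a b c d h h').1 (![0, 1] i)) = g i) → ∀ x,
      Coprod.lift (pa (n + 1) hF) (em hF (o3_inj hn)) (Vv hF Coprod.inl Coprod.inr
        (sw _ _ _ _ (o_ne hn h) (o_ne hn h')) x) = em hF hg x := fun h h' g hg e x => by
    simp only [Vv, MonoidHom.comp_apply, MulEquiv.coe_toMonoidHom, MulAut.conj_apply, map_mul, map_inv,
      Coprod.lift_apply_inl, Coprod.lift_apply_inr, e1]
    exact pm_em hF _ _ _ _ _ (fun i => by rw [← e, ← sw_o]; fin_cases i <;> rfl) x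
  refine PG.df hA (UP.pg_U hF hq) ((((df1 hF hn _ (e01 hF) e1).and (Df.one
    (a := .inl (sw _ _ _ _ (o_ne hn (i := 0) (j := 1)) (o_ne hn (i := 1) (j := 2)))) (b := .inr (pa 3 hF (sw 0 1 1 2)))
      ?_)).and (Df.comm (gn_su2 hF) (gn_su2 hF) (Coprod.inr.comp (e01 hF)) (Vv hF Coprod.inl Coprod.inr
        (sw _ _ _ _ (o_ne hn (i := 0) (j := 2)) (o_ne hn (i := 1) (j := 3)))) fun x _ y _ => ?_)).and
      (Df.imp (n = 3) (Df.eq (gn_su2 hF) (Vv hF Coprod.inl Coprod.inr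
        (sw _ _ _ _ (o_ne hn (i := 0) (j := 1)) (o_ne hn (i := 2) (j := 3))))
        (Coprod.inr.comp (em hF (inj2 one_ne_zero))) fun x _ => ?_))) fun K _ π ρ e ⟨⟨⟨r1, r2⟩, r3⟩, r4⟩ => concl (hF := hF) e ?_
  · rw [Coprod.lift_apply_inl, Coprod.lift_apply_inr, ← pa_o hF hn (by decide) (by decide), ← pa_3,
      em_em hF _ k3 (o3_inj hn) fun _ => rfl]
  · rw [e2 (by decide) (by decide) (inj2 (o_ne hn (i := 2) (j := 3))) (fun i => by fin_cases i <;> rfl), MonoidHom.comp_apply,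
      Coprod.lift_apply_inr, e1]
    exact em_comm hF _ _ (fun a b => by fin_cases a <;> fin_cases b <;> exact o_ne hn) _ _
  · rw [e2 (by decide) (by decide) (inj2 (o_ne hn (i := 1) (j := 0))) (fun i => by fin_cases i <;> rfl), MonoidHom.comp_apply,
      Coprod.lift_apply_inr, em_em hF _ _ (inj2 (o_ne hn (i := 1) (j := 0))) fun i => by fin_cases i <;> rfl]
  have v : ∀ σ x, ρ (Vv hF Coprod.inl Coprod.inr σ x) = Vv hF (ρ.comp Coprod.inl) (ρ.comp Coprod.inr) σ x :=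
    fun σ x => by simp [Vv]
  obtain ⟨U, -, u1, u2, u3, u4⟩ := Cm.fin (hn := hn) (π := π) (ψ := ρ.comp Coprod.inl) (φ := ρ.comp Coprod.inr)
    ⟨fun a => e _, fun a => e _, r1, r2, fun x y => v _ _ ▸ r3 x trivial y trivial,
      fun h x => v _ _ ▸ r4 h x trivial⟩ (by omega)
  rw [range_cop, ← u4]
  exact main (π := (p0 (n + 1) q F).comp π) hq (fun k => p0_si hF (π k)) U u1 u2 u3 (Nat.le_of_succ_le hn)

include hF hn in
theorem pg_mid (hq : 3 ≤ q) (h4 : 4 ≤ n) {a r b s : ℕ} (hA : PG 𝐀 a r) (hB : PG (SU 4 F q) b s) :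
    PG (SU (n + 1) F q) (a + b) (r + s + ((if n = 3 then 0 else if n = 4 then 1 else 2) * 2 + 1 + 1)) := by
  have c1 := em_em hF k3 i01 j01 fun i => by fin_cases i <;> rfl
  refine PG.df hA hB (((df1 hF hn (em hF (o_inj hn)) (em hF j01)
    (em_em hF _ _ _ fun i => by fin_cases i <;> rfl)).and (Df.one
    (a := .inl (sw _ _ _ _ (o_ne hn (i := 0) (j := 1)) (o_ne hn (i := 1) (j := 2)))) (b := .inr (pa 4 hF (sw 0 1 1 2)))
      ?_)).and (Df.one (a := .inl (sw _ _ _ _ (o_ne hn (i := 0) (j := 2)) (o_ne hn (i := 1) (j := 3))))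
        (b := .inr (pa 4 hF (sw 0 2 1 3))) ?_)) fun K _ π ρ e ⟨⟨r1, r2⟩, r3⟩ => concl (hF := hF) e ?_
  · rw [Coprod.lift_apply_inl, Coprod.lift_apply_inr, ← pa_o hF hn (by decide) (by decide)]
  · rw [Coprod.lift_apply_inl, Coprod.lift_apply_inr, ← pa_o hF hn (by decide) (by decide)]
  set ψ := ρ.comp Coprod.inl
  set φ := ρ.comp Coprod.inr
  replace r2 : ψ _ = φ _ := r2
  replace r3 : ψ _ = φ _ := r3
  have v : ∀ {a b c d : Fin 4} (h : a ≠ b) (h' : c ≠ d) {g : Fin 2 → Fin 4} (hg : Injective g),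
      ψ (sw _ _ _ _ (o_ne hn h) (o_ne hn h')) = φ (pa 4 hF (sw a b c d h h')) →
      (∀ i, (sw a b c d h h').1 (![0, 1] i) = g i) → ∀ x,
      Vv hF ψ (φ.comp (em hF k3)) (sw _ _ _ _ (o_ne hn h) (o_ne hn h')) x = φ (em hF hg x) := fun h h' g hg e e' x => by
    simp only [Vv, MonoidHom.comp_apply, MulEquiv.coe_toMonoidHom, MulAut.conj_apply, e, c1]
    rw [← map_inv, ← map_mul, ← map_mul, pa, pm_em hF _ _ _ _ hg e']
  have H : Cm hF hn π ψ (φ.comp (em hF k3)) := ⟨fun a => e _, fun a => (e _).trans (em_em hF (o_inj hn) k3 _ (fun _ => rfl) _),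
    fun τ h0 h1 x => by rw [MonoidHom.comp_apply φ, c1]; exact r1 τ h0 h1 x, by rw [MonoidHom.comp_apply φ, pa_3, r2],
    fun x y => by
      rw [v (by decide) (by decide) j23 r3 (by decide), MonoidHom.comp_apply φ, c1]
      exact (em_comm hF _ _ (by decide) _ _).map φ, fun h => by omega⟩
  obtain ⟨U, u0, u1, -, u3, u4⟩ := H.fin hq
  have t : (em hF k3).range ⊔ (em hF j23).range = ⊤ := by
    have := sur3 (π := (p0 4 q F).comp (MonoidHom.id _)) (p := 2) (r := 0) (m := 3) hq (by decide) (by decide) (by decide)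
      (by decide) (rep_em hF k3 (Ψ := em hF k3) fun _ => rfl).2 (by
        have := (rep_em hF j23 (π := MonoidHom.id _) (Ψ := em hF j23) fun _ => rfl).2
        rwa [Matrix.range_cons, Matrix.range_cons, Matrix.range_empty, Set.union_empty] at this)
    refine eq_top_iff.2 fun x _ => ?_
    obtain ⟨y, hy, e⟩ := this.sur _ (p0_si hF x) (Fx_iff.2 fun i hi => (hi (by revert i; decide)).elim)
    exact p0_inj e ▸ hy
  have : ρ.range = Gam U n := by
    rw [range_cop, u4]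
    refine le_antisymm (sup_le le_sup_left ?_) (sup_le_sup_left (by rintro _ ⟨x, rfl⟩; exact ⟨_, rfl⟩) _)
    rw [MonoidHom.range_eq_map, ← t, Subgroup.map_sup, ← MonoidHom.range_comp, ← MonoidHom.range_comp]
    refine sup_le le_sup_right ?_
    rintro _ ⟨x, rfl⟩
    rw [MonoidHom.comp_apply, ← v (by decide) (by decide) j23 r3 (by decide)]
    exact mul_mem (mul_mem (mem_sup_left ⟨_, rfl⟩) (mem_sup_right ⟨_, rfl⟩)) (inv_mem (mem_sup_left ⟨_, rfl⟩))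
  rw [this]
  refine main3 (π := (p0 (n + 1) q F).comp π) hq (fun k => p0_si hF (π k)) U u1 (fun i j k hij hjk => ?_) u3 (by omega)
  obtain ⟨σ, hσ⟩ := ex4 hn i k (by omega)
  have I := (rep_em hF (σ.1.injective.comp (o_inj hn)) (π := π) (Ψ := (MulAut.conj (ψ σ)).toMonoidHom.comp φ) fun x => by
    rw [MonoidHom.comp_apply, MulEquiv.coe_toMonoidHom, MulAut.conj_apply, map_mul, map_mul, map_inv, H.hψ,
      show π (φ x) = em hF (o_inj hn) x from e _]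
    exact pm_em hF _ _ σ _ _ (fun _ => rfl) x).1
  refine fun x hx => I x ((show U i ⊔ U j ⊔ U k ≤ _ from sup_le (sup_le ?_ ?_) ?_) hx)
  · rw [u0 i σ (hσ 0) (hσ 1)]
    rintro _ ⟨x, rfl⟩
    exact ⟨_, rfl⟩
  · rw [u0 j (σ * sw _ _ _ _ (o_ne hn (i := 0) (j := 1)) (o_ne hn (i := 1) (j := 2)))
      (((congrArg σ.1 (sw_o hn (a := 0) (b := 1) (c := 1) (d := 2) (by decide) (by decide) 0)).trans (hσ 1)).trans (Fin.ext (by simp [hij])))
      (((congrArg σ.1 (sw_o hn (a := 0) (b := 1) (c := 1) (d := 2) (by decide) (by decide) 1)).trans (hσ 2)).trans (Fin.ext (by simp [hjk])))]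
    rintro _ ⟨x, rfl⟩
    rw [Vv_mul, v (by decide) (by decide) j12 r2 (by decide)]
    exact ⟨_, rfl⟩
  · rw [u0 k (σ * sw _ _ _ _ (o_ne hn (i := 0) (j := 2)) (o_ne hn (i := 1) (j := 3)))
      ((congrArg σ.1 (sw_o hn (a := 0) (b := 2) (c := 1) (d := 3) (by decide) (by decide) 0)).trans (hσ 2))
      ((congrArg σ.1 (sw_o hn (a := 0) (b := 2) (c := 1) (d := 3) (by decide) (by decide) 1)).trans (hσ 3))]
    rintro _ ⟨x, rfl⟩
    rw [Vv_mul, v (by decide) (by decide) j23 r3 (by decide)]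
    exact ⟨_, rfl⟩

end H7.SUP
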