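import Cfsg.Agent.H7.SU2
import Cfsg.Agent.H7.UC3
import Cfsg.Agent.H7.UM

/-! Presentations of unitary groups: `q ≥ 3`. -/

set_option autoImplicit false
set_option linter.unusedSectionVars false
set_option maxRecDepth 100000

namespace H7.SUP

open Cfsg H29

variable {q n : ℕ} {F : Type} [Field F] [Fintype F]

set_option synthInstance.maxSize 4096 in
theorem pg_33 (hF : Fintype.card F = 3 ^ 2) : PG (SU 3 F 3) 6 13 := by
  obtain ⟨fm⟩ := exists_fm9 hF
  have hv := FM.in_SU (fm := fm) (a := a3_6) (n := 3) (L := q7a1_g) (by norm_num)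
    (fr := fun c => [0, 1, 2, 6, 7, 8, 3, 4, 5].getD c 0) (Q := 9) (q := 3) (j := 1) (by norm_num) (by decide +kernel)
    (by decide +kernel)
  have hN := Nat.eq_of_mul_eq_mul_left (by norm_num : 0 < 3 + 1) ((H22.card_SU (q := 3) hF 3 (by norm_num)).trans
    (show _ = (3 + 1) * 6048 by decide +kernel))
  exact pg_of_model H28.q7v3_pres _ hv rfl
    (show relsZ a3_6.mul a3_6.one q7a1_g [a3_6.one] H28.q7v3_R = true by decide +kernel) hN (q7a_low hv)

set_option synthInstance.maxSize 4096 in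
theorem pg_43 (hF : Fintype.card F = 3 ^ 2) : PG (SU 4 F 3) 2 23 := by
  obtain ⟨fm⟩ := exists_fm9 hF
  have hv := FM.in_SU (fm := fm) (a := a3_8) (n := 4) (L := q7b1_g) (by norm_num)
    (fr := fun c => [0, 1, 2, 6, 7, 8, 3, 4, 5].getD c 0) (Q := 9) (q := 3) (j := 1) (by norm_num) (by decide +kernel)
    (by decide +kernel)
  have hN := Nat.eq_of_mul_eq_mul_left (by norm_num : 0 < 3 + 1) ((H22.card_SU (q := 3) hF 4 (by norm_num)).trans
    (show _ = (3 + 1) * 13063680 by decide +kernel))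
  obtain ⟨a, b, h⟩ := su_two_gen0 (m := 1) hF (by omega)
  exact (pg_of_model H28.q7v4_pres _ hv rfl
    (show relsZ a3_8.mul a3_8.one q7b1_g [a3_8.one] H28.q7v4_R = true by decide +kernel) hN (q7b_low hv)).two h

theorem pg_ge3 (hF : Fintype.card F = q ^ 2) (hq : 3 ≤ q) (hn : 3 ≤ n) :
    PG (SU (n + 1) F q) 6 (if n ≤ 4 then 35 else 37) := by
  have a5 : 4 ≤ n → PG (alternatingGroup (Fin (n + 1))) 3 7 := fun h =>
    let ⟨x, h1, h2⟩ := (p3_big (n + 1) (by omega)).2; ⟨x, h1, P3.top h2⟩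
  obtain rfl | h4 := hq.eq_or_lt
  · obtain rfl | h := hn.eq_or_lt
    · exact (pg_43 hF).mono (by omega) (by norm_num)
    · exact (pg_mid hF hn le_rfl h (a5 h) (pg_43 hF)).mono (by omega) (by split_ifs <;> omega)
  obtain rfl | h := hn.eq_or_lt
  · exact (pg_big hF hn h4 p2_a4).mono (by omega) (by norm_num)
  · exact (pg_big hF hn h4 (a5 h)).mono (by omega) (by split_ifs <;> omega)

end H7.SUP
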