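import Cfsg.Agent.Lead.Pha2
import Cfsg.Agent.H23.Hyperbolic

/-! Presentations of unitary groups: an induction step through orthogonal unit vectors. -/

set_option autoImplicit false
set_option linter.unusedSectionVars false

namespace H7.SUP

open Lead.Pha Function Subgroup
open H23 (conj)

variable {N q : ℕ} {F : Type*} [Field F] [Fintype F] {hF : Fintype.card F = q ^ 2}
  {K : Type*} [Group K] {π : K →* ((Fin N → F) ≃ₗ[F] (Fin N → F))}

local notation "⟪" u ", " v "⟫" => hm hF u v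
local notation "V" => Fin N → F

theorem dim5 (u w : Fin 5 → F) : ∃ d, ⟪d, d⟫ = 1 ∧ ⟪d, u⟫ = 0 ∧ ⟪d, w⟫ = 0 := by
  classical
  have nd := H23.huForm_nondeg hF 5
  have h1 := nd.finrank_perp_add (Submodule.span F ({u, w} : Finset (Fin 5 → F)))
  have h2 := (finrank_span_finset_le_card (R := F) ({u, w} : Finset (Fin 5 → F))).trans Finset.card_le_two
  set T := (H23.huForm hF 5).perp (Submodule.span F ({u, w} : Finset (Fin 5 → F)))
  obtain ⟨v, hv, h0⟩ : ∃ v ∈ T, ⟪v, v⟫ ≠ 0 := by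
    by_contra! hc
    obtain ⟨a, ha⟩ := DFunLike.ne_iff.1 (H23.conj_ne_id hF)
    have := nd.two_mul_finrank_le (W := T) ⟨fun x hx y hy => ?_, fun x _ => H23.huForm_Q hF 5 x⟩
    · simp only [Set.finrank, Module.finrank_fin_fun] at h1 h2 this
      omega
    have h1 := hc (x + y) (T.add_mem hx hy)
    have h2 := hc (x + a • y) (T.add_mem hx (T.smul_mem a hy))
    simp only [map_add, LinearMap.add_apply, hc x hx, hc y hy, map_smulₛₗ, LinearMap.smul_apply, smul_eq_mul,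
      RingHom.id_apply] at h1 h2 ha
    rw [hm_B]
    exact mul_left_cancel₀ (sub_ne_zero.2 ha) (by linear_combination conj hF a * h1 - h2)
  obtain ⟨c, -, -, h3⟩ := scale h0
  have := T.smul_mem c⁻¹ hv
  exact ⟨_, h3, hm_zero hF (this u (Submodule.subset_span (by simp))), hm_zero hF (this w (Submodule.subset_span (by simp)))⟩

theorem orth2 {f : Fin 5 → Fin N} (hf : Injective f) (x y : V) :
    ∃ z ∈ HJ F (Set.range f), ⟪z, z⟫ = 1 ∧ ⟪z, x⟫ = 0 ∧ ⟪z, y⟫ = 0 := by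
  obtain ⟨d, d1, d2, d3⟩ := dim5 (hF := hF) (x ∘ f) (y ∘ f)
  have e : ∀ w : V, ⟪∑ a, d a • bb (f a), w⟫ = ⟪d, w ∘ f⟫ := fun w => by
    rw [hm_eq hF d]
    simp [hm_l, -H23.conj_apply]
  refine ⟨∑ a, d a • bb (f a), Submodule.sum_mem _ fun a _ => Submodule.smul_mem _ _ (bb_mem ⟨a, rfl⟩), ?_,
    (e x).trans d2, (e y).trans d3⟩
  rw [e, show (∑ a, d a • bb (f a)) ∘ f = d by ext a; simp [bb, Pi.single_apply, hf.eq_iff]]
  exact d1

variable (hF π) in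
/-- the data for surjectivity -/
structure S0 (J : Set (Fin N)) (p r m : Fin N) (A : Subgroup K) (s : K) : Prop where
  si : ∀ k, SI hF (π k)
  pJ : p ∈ J
  rJ : r ∈ J
  pr : p ≠ r
  mJ : m ∉ J
  rA : Rep hF π A J
  s1 : π s (bb m) = bb p
  s2 : Fx {p, m} (π s)

namespace S0
variable {J : Set (Fin N)} {p r m : Fin N} {A : Subgroup K} {s : K} (h : S0 hF π J p r m A s)
include h

local notation "e" => (bb m : V)
local notation "e'" => (bb p : V)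

theorem iso (k : K) : Iso hF (π k) := (h.si k).1
theorem ae {a : K} (ha : a ∈ A) : π a e = e := h.rA.sat a ha _ (bb_mem h.mJ)
theorem un (x : K) (i : Fin N) : ⟪π x (bb i), π x (bb i)⟫ = 1 := by rw [h.iso, hm_bb]

theorem fx : A ⊔ zpowers s ≤ FxS π (insert m J) :=
  sup_le (fun a ha => (h.rA.sat a ha).mono (Set.subset_insert _ _))
    (zpowers_le.2 (h.s2.mono (by simp [Set.insert_subset_iff, h.pJ])))

/-- the double coset -/
def K0 (_ : S0 hF π J p r m A s) (x : K) : Prop := ∃ a ∈ A, ∃ b ∈ A, x = a * s * b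

theorem K0_all {x : K} (hx : h.K0 x) : x ∈ A ⊔ zpowers s := by
  obtain ⟨a, ha, b, hb, rfl⟩ := hx
  exact mul_mem (mul_mem (mem_sup_left ha) (mem_sup_right (mem_zpowers s))) (mem_sup_left hb)

theorem K0_mem {x : K} (hx : h.K0 x) : π x e ∈ HJ F J := by
  obtain ⟨a, ha, b, hb, rfl⟩ := hx
  rw [act_mul, act_mul, h.ae hb, h.s1]
  exact (h.rA.sat a ha).map (h.iso a) (bb_mem h.pJ)

theorem memJ {z : V} (hz : z ∈ HJ F (insert m J)) (c : ⟪e, z⟫ = 0) : z ∈ HJ F J := by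
  simpa [← hm_l hF m z, c] using sub_mem_HJ hz

theorem K0_sur {g : V ≃ₗ[F] V} (hi : SI hF g) (hg : Fx (insert m J) g) (c : ⟪e, g e⟫ = 0) :
    ∃ x, h.K0 x ∧ π x = g := by
  obtain ⟨a, a1, a2, a3⟩ := witt h.pJ h.rJ h.pr (h.memJ (hg.map hi.1 (bb_mem (Set.mem_insert _ _))) c)
    (by rw [hi.1, hm_bb])
  obtain ⟨a, ha, rfl⟩ := h.rA.sur a a1 a2
  obtain ⟨b, hb, k⟩ := h.rA.sur _ ((h.si (a * s)).inv.mul hi) (Fx.erase (m := m) (fun k hk c => hk.resolve_left c)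
    ((Fx.inv (h.fx (mul_mem (mem_sup_left ha) (mem_sup_right (mem_zpowers s))))).mul hg)
    (by rw [LinearEquiv.mul_apply]; exact inv_app (by rw [act_mul, h.s1, a3])))
  exact ⟨_, ⟨a, ha, b, hb, rfl⟩, by rw [map_mul, k, mul_inv_cancel_left]⟩

theorem K0_to {z : V} (hz : z ∈ HJ F J) (z1 : ⟪z, z⟫ = 1) : ∃ x, h.K0 x ∧ π x e = z := by
  obtain ⟨a, a1, a2, a3⟩ := witt h.pJ h.rJ h.pr hz z1
  obtain ⟨a, ha, rfl⟩ := h.rA.sur a a1 a2
  exact ⟨_, ⟨a, ha, 1, one_mem _, rfl⟩, by rw [mul_one, act_mul, h.s1, a3]⟩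

theorem sur {f : Fin 5 → Fin N} (hf : Injective f) (hJ : Set.range f ⊆ insert m J) :
    Rep hF π (A ⊔ zpowers s) (insert m J) := ⟨fun _ hx => h.fx hx, fun g hi hg => by
  obtain ⟨z, hz, z1, z2, z3⟩ := orth2 (hF := hF) hf e (g e)
  obtain ⟨x, hx, rfl⟩ := h.K0_to (h.memJ (HJ_mono hJ hz) (hm_zero hF z2)) z1
  obtain ⟨y, hy, k⟩ := h.K0_sur ((h.si x).inv.mul hi) ((Fx.inv (h.fx (h.K0_all hx))).mul hg)
    (by rw [LinearEquiv.mul_apply, (h.iso x).inv_r, z3])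
  exact ⟨x * y, mul_mem (h.K0_all hx) (h.K0_all hy), by rw [map_mul, k, mul_inv_cancel_left]⟩⟩

theorem inj {f : Fin 5 → Fin N} (hf : Injective f) (hJ : Set.range f ⊆ J \ {p}) (iA : Inj π A)
    (c : ∀ a ∈ A, π a e' = e' → Commute a s) (ss : s * s = 1) {t : K} (ht : t ∈ A) (t1 : π t e' = bb r)
    (br : s * t * s = t * s * t) : Inj π (A ⊔ zpowers s) := by
  have si : s⁻¹ = s := inv_eq_of_mul_eq_one_right ss
  have K0_inv : ∀ {x}, h.K0 x → h.K0 x⁻¹ := by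
    rintro _ ⟨a, ha, b, hb, rfl⟩
    exact ⟨_, inv_mem hb, _, inv_mem ha, by rw [mul_inv_rev, mul_inv_rev, si, mul_assoc]⟩
  have K0_inj : ∀ {x y}, h.K0 x → h.K0 y → π x = π y → x = y := by
    rintro _ _ ⟨a1, ha1, b1, hb1, rfl⟩ ⟨a2, ha2, b2, hb2, rfl⟩ k
    have ha := mul_mem (inv_mem ha2) ha1
    have k1 := LinearEquiv.congr_fun k e
    simp only [act_mul, h.ae hb1, h.ae hb2, h.s1] at k1
    have e1 : a1 * s * b1 = a2 * s * (a2⁻¹ * a1 * b1) := by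
      rw [mul_assoc a2, ← mul_assoc s, ← (c _ ha (by rw [act_mul, k1]; exact act_inv rfl)).eq]; group
    rw [e1] at k ⊢
    rw [iA.eq (mul_mem ha hb1) hb2 (by rwa [map_mul, map_mul π _ b2, mul_right_inj] at k)]
  have K0_mul : ∀ {x y}, h.K0 x → h.K0 y → ⟪e, π (x * y) e⟫ = 0 → h.K0 (x * y) := by
    rintro _ _ ⟨a1, ha1, b1, hb1, rfl⟩ ⟨a2, ha2, b2, hb2, rfl⟩ k
    have ha := mul_mem hb1 ha2
    have k1 : ⟪e', π (b1 * a2) e'⟫ = 0 := by
      rw [← (h.iso (a1 * s)⁻¹) e, ← act_mul, mul_inv_rev, act_mul, h.ae (inv_mem ha1), si, h.s1,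
        show s * a1⁻¹ * (a1 * s * b1 * (a2 * s * b2)) = s * s * (b1 * a2) * s * b2 by group, ss, one_mul, act_mul,
        act_mul, h.ae hb2, h.s1] at k
      exact k
    have m1 : π (b1 * a2) e' ∈ HJ F (J \ {p}) := fun i hi => by
      by_cases d : i = p
      · exact d ▸ (hm_l hF p _).symm.trans k1
      · exact (h.rA.sat _ ha).map (h.iso _) (bb_mem h.pJ) i fun c => hi ⟨c, d⟩
    obtain ⟨r', r1, r2⟩ : ∃ r' ∈ J \ {p}, r ≠ r' := by
      by_cases c : r = f 0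
      exacts [⟨_, hJ ⟨1, rfl⟩, c ▸ hf.ne zero_ne_one⟩, ⟨_, hJ ⟨0, rfl⟩, c⟩]
    obtain ⟨u, u1, u2, u3⟩ := witt (J := J \ {p}) ⟨h.rJ, h.pr.symm⟩ r1 r2 m1 (h.un _ _)
    obtain ⟨u, hu, rfl⟩ := h.rA.sur u u1 (u2.mono Set.diff_subset)
    have hu' := mul_mem (inv_mem (mul_mem hu ht)) ha
    have c1 := (c u hu (u2 _ (bb_mem (by simp)))).eq
    have c2 := (c _ hu' (by rw [act_mul]; exact act_inv (by rw [act_mul, t1, u3]))).eq
    refine ⟨_, mul_mem (mul_mem ha1 hu) ht, _, mul_mem (mul_mem ht hu') hb2, ?_⟩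
    calc _ = a1 * (s * u) * t * ((u * t)⁻¹ * (b1 * a2) * s) * b2 := by group
      _ = a1 * u * (s * t * s) * ((u * t)⁻¹ * (b1 * a2)) * b2 := by rw [← c1, c2]; group
      _ = _ := by rw [br]; group
  have om : ∀ x y, ⟪π x e, π y e⟫ = 0 → ⟪e, π (x⁻¹ * y) e⟫ = 0 := fun x y k => by
    rw [act_mul, map_inv, (h.iso x).inv_r, k]
  have triple : ∀ {a b c}, h.K0 a → h.K0 b → h.K0 c → ∃ x y, h.K0 x ∧ h.K0 y ∧ a * b * c = x * y := by
    intro a b d ha hb hd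
    obtain ⟨g, g1, g2, g3⟩ := witt h.pJ h.rJ h.pr (h.K0_mem ha) (h.un _ _)
    obtain ⟨z, hz, z1, z2, z3⟩ := orth2 (hF := hF) hf (g⁻¹ (π (a * b) e)) (g⁻¹ (π (a * b * d) e))
    obtain ⟨x, hx, k⟩ := h.K0_to (g2.map g1.1 (HJ_mono (hJ.trans Set.diff_subset) hz)) (by rw [g1.1, z1])
    rw [g1.1.inv_r, ← k] at z2 z3
    have k1 := K0_mul (K0_inv hx) ha (om _ _ (by
      rw [k, ← g3, g1.1]
      exact hm_zero hF ((hm_l hF _ _).trans (hz p fun c => (hJ c).2 rfl))))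
    have k2 := K0_mul k1 hb (by rw [mul_assoc]; exact om _ _ z2)
    have k3 := K0_mul k2 hd (by rw [mul_assoc, mul_assoc, ← mul_assoc a]; exact om _ _ z3)
    exact ⟨x, _, hx, k3, by group⟩
  have ks : h.K0 s := ⟨1, one_mem _, 1, one_mem _, by simp⟩
  let K2 : Subgroup K :=
    { carrier := {x | ∃ a b, h.K0 a ∧ h.K0 b ∧ x = a * b}
      one_mem' := ⟨s, s, ks, ks, ss.symm⟩
      inv_mem' := by
        rintro _ ⟨a, b, ha, hb, rfl⟩
        exact ⟨_, _, K0_inv hb, K0_inv ha, by group⟩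
      mul_mem' := by
        rintro _ _ ⟨a, b, ha, hb, rfl⟩ ⟨c, d, hc, hd, rfl⟩
        obtain ⟨x, y, hx, hy, e1⟩ := triple ha hb hc
        obtain ⟨x', y', hx', hy', e2⟩ := triple hx hy hd
        exact ⟨x', y', hx', hy', by rw [← e2, ← e1]; group⟩ }
  intro x hx k
  obtain ⟨a, b, ha, hb, rfl⟩ := (sup_le (fun x hx => ⟨x * s, s, ⟨x, hx, 1, one_mem _, by simp⟩, ks, by
    rw [mul_assoc, ss, mul_one]⟩) (zpowers_le.2 (by
      obtain ⟨x, y, hx, hy, e1⟩ := triple ks ks ks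
      exact ⟨x, y, hx, hy, by rw [← e1, ss, one_mul]⟩)) : _ ≤ K2) hx
  rw [K0_inj hb (K0_inv ha) (by rw [map_mul] at k; rw [map_inv, eq_inv_of_mul_eq_one_right k]), mul_inv_cancel]

end S0

end H7.SUP
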