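import Cfsg.Agent.H7.SU3
import Cfsg.Agent.H7.SU4
import Cfsg.Agent.H7.UC2b

/-! Presentations of unitary groups: `q = 2`. -/

set_option autoImplicit false
set_option linter.unusedSectionVars false
set_option maxRecDepth 100000

namespace H7.SUP

open Monoid Equiv Lead.Pha Cfsg Function Subgroup
open H28 (ev Rels Pres)
open H27 (cl)
open scoped Monoid.Coprod

variable {N M k n : ℕ} {F : Type} [Field F] [Fintype F] (hF : Fintype.card F = 2 ^ 2)

theorem R_of {G : Type*} [Group G] {M : H29.Model G} {L : List ℕ} {ys : List G} (h : List.Forall₂ M.R L ys) :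
    (∀ i, M.R (H29.lgetD M.one L i) (ys.getD i 1)) ∧ M.cl L ≤ cl ys := by
  induction h with
  | nil => exact ⟨fun _ => M.R_one, H29.Model.cl_le' (by simp)⟩
  | cons h _ ih =>
    refine ⟨fun i => by cases i; exacts [h, ih.1 _], H29.Model.cl_le' fun c hc g hg => ?_⟩
    rcases List.mem_cons.1 hc with rfl | hc
    · exact H27.mem_cl (M.unique h hg ▸ List.mem_cons_self)
    · exact closure_mono (fun _ => List.mem_cons_of_mem _) (ih.2 (subset_closure ⟨c, hc, hg⟩))

theorem rels_of {G : Type*} [Group G] {M : H29.Model G} {L : List ℕ} {ys : List G} (h : List.Forall₂ M.R L ys)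
    {R : List (List ℕ)} (hR : H29.relsZ M.mul M.one L [M.one] R = true) : Rels ys R := fun w hw =>
  M.unique (M.R_prodL (φ := fun i => ys.getD i 1) fun i _ => (R_of h).1 i)
    (by rw [List.mem_singleton.1 (H29.relsZ_spec hR w hw)]; exact M.R_one)

variable (N) in
/-- permutation matrices in characteristic two -/
def ps : Perm (Fin N) →* SU N F 2 := pm hF (MonoidHom.id _) fun a => by
  have : (2 : F) = 0 := H29.cast_eq_zero_of_card (p := 2) hF
  rcases Int.units_eq_one_or (Perm.sign a) with h | h <;> simp [h]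
  linear_combination -this

theorem ps_bb (a : Perm (Fin N)) (i : Fin N) : p0 N 2 F (ps N hF a) (bb i) = bb (a i) := pm_bb hF _ _ a i

theorem ps_inj : Injective (ps N hF) := (injective_iff_map_eq_one _).2 fun a h => Equiv.ext fun i => by
  have := congrFun (ps_bb hF a i) i
  rw [h, map_one] at this
  by_contra c
  simp [bb, Pi.single_apply] at this
  exact c this.symm

variable (N) in
/-- adjacent transpositions -/
def sa (i : ℕ) : Perm (Fin N) := if h : i + 1 < N then swap ⟨i, Nat.lt_of_succ_lt h⟩ ⟨i + 1, h⟩ else 1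

/-- the generators -/
def ys (h : 4 ≤ N) (d t : SU 4 F 2) (k : ℕ) : List (SU N F 2) :=
  em hF (Fin.castLE_injective h) d :: em hF (Fin.castLE_injective h) t :: (List.range k).map fun i => ps N hF (sa N i)

theorem ys_map (h : 4 ≤ M) (h' : M ≤ N) (hk : k < M) (d t : SU 4 F 2) :
    (ys hF h d t k).map (em hF (Fin.castLE_injective h')) = ys hF (h.trans h') d t k := by
  have e := em_em hF (Fin.castLE_injective h') (Fin.castLE_injective h) (Fin.castLE_injective (h.trans h')) fun _ => rfl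
  rw [ys, ys, List.map_cons, List.map_cons, List.map_map, e, e]
  refine congrArg _ (congrArg _ (List.map_congr_left fun i hi => ?_))
  have := List.mem_range.1 hi
  refine em_pm hF _ _ _ _ _ _ _ (fun j => ?_) fun j hj => ?_ <;>
    simp only [sa, MonoidHom.id_apply, dif_pos (show i + 1 < M by omega), dif_pos (show i + 1 < N by omega)]
  · exact (Fin.castLE_injective h').swap_apply ⟨i, by omega⟩ ⟨i + 1, by omega⟩ j
  · exact swap_apply_of_ne_of_ne (fun e => hj ⟨⟨i, by omega⟩, e.symm⟩) fun e => hj ⟨⟨i + 1, by omega⟩, e.symm⟩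

theorem rels_tr {d t : SU 4 F 2} {R : List (List ℕ)} (h3 : 3 ≤ k) (h5 : k ≤ 5) (hk : k < N)
    (h : Rels (ys hF (show 4 ≤ 6 by omega) d t k) R) : Rels (ys hF (show 4 ≤ N by omega) d t k) R := by
  rw [← ys_map hF (M := k + 1) (by omega) hk (by omega)]
  refine H28.Rels.map _ fun w hw => em_inj hF (Fin.castLE_injective (show k + 1 ≤ 6 by omega)) ?_
  rw [← H28.ev_map, ys_map hF _ _ (by omega), h w hw, map_one]

include hF in
theorem card_su : Nat.card (SU 4 F 2) = 25920 ∧ Nat.card (SU 5 F 2) = 13685760 ∧ Nat.card (SU 6 F 2) = 27590492160 :=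
  ⟨Nat.eq_of_mul_eq_mul_left (by norm_num : 0 < 2 + 1) ((H22.card_SU hF 4 (by norm_num)).trans (by decide +kernel)),
    Nat.eq_of_mul_eq_mul_left (by norm_num : 0 < 2 + 1) ((H22.card_SU hF 5 (by norm_num)).trans (by decide +kernel)),
    Nat.eq_of_mul_eq_mul_left (by norm_num : 0 < 2 + 1) ((H22.card_SU hF 6 (by norm_num)).trans (by decide +kernel))⟩

open H29 in
set_option synthInstance.maxSize 4096 in
theorem base2 : ∃ d t : SU 4 F 2, cl (ys hF le_rfl d t 3) = ⊤ ∧ Rels (ys hF (show 4 ≤ 6 by omega) d t 3) H28.q7u4_R ∧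
    Rels (ys hF (show 4 ≤ 6 by omega) d t 4) H28.q7u5_R ∧ Rels (ys hF (show 4 ≤ 6 by omega) d t 5) H28.q7u6_R := by
  obtain ⟨fm⟩ := exists_fm4 hF
  have hv := FM.in_SU (fm := fm) (a := a2_12) (n := 6) (L := q7c_L) (by norm_num)
    (fr := fun c => [0, 1, 3, 2].getD c 0) (Q := 4) (q := 2) (j := 1) (by norm_num) (by decide +kernel)
    (by decide +kernel)
  have e1 : ∀ X, a2_12.okB (n := 6) (k := 2) (blk2 2 1 1) X = true → (∀ i j : Fin 6, 4 ≤ i.val →
      blkM 2 2 (blk2 2 1 1) (a2_12.cf (n := 6) (k := 2) X j i) = if j = i then 1 else 0) → X ∈ q7c_L →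
      ∃ d, (fm.model (Equiv.refl _) a2_12 (suM 6 F 2) suM_inj).R X
        (em hF (Fin.castLE_injective (show 4 ≤ 6 by omega)) d) := fun X h1 h2 h3 => by
    obtain ⟨D, -, hD⟩ := hv X h3
    obtain ⟨d, rfl⟩ := (mem_em hF (Fin.castLE_injective (show 4 ≤ 6 by omega)) D).2 (Fx_iff.2 fun i hi => by
      have k : D.1.1 = fm.mkM (Equiv.refl _) (a2_12.cf (n := 6) (k := 2) X) := FM.C.eq (X := X) (Y := X)
        (show fm.C (Equiv.refl _) a2_12 X D.1.1 from hD) (FM.C.okB h1) (Nat.beq_refl X)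
      ext j
      rw [p0_bb, k]
      refine fm.φ.injective (((fm.phi' _).trans (h2 i j ?_)).trans (by simp [bb, Pi.single_apply, apply_ite fm.φ]))
      by_contra c
      exact hi ⟨⟨i, by omega⟩, rfl⟩)
    exact ⟨d, hD⟩
  have e2 : ∀ X (σ : Perm (Fin 6)), a2_12.okB (n := 6) (k := 2) (blk2 2 1 1) X = true → (∀ i j : Fin 6,
      blkM 2 2 (blk2 2 1 1) (a2_12.cf (n := 6) (k := 2) X i j) = if i = σ j then 1 else 0) →
      (fm.model (Equiv.refl _) a2_12 (suM 6 F 2) suM_inj).R X (ps 6 hF σ) := fun X σ h1 h2 => by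
    have := FM.C.okB (fm := fm) (e := Equiv.refl _) h1
    rwa [← fm.mkM_eq _ (A := PM F σ) fun x y => by simp [h2, PM, apply_ite fm.φ]] at this
  obtain ⟨d, hd⟩ := e1 (lgetD 0 q7c_L 0) (by decide +kernel) (by decide +kernel) (by decide +kernel)
  obtain ⟨t, ht⟩ := e1 (lgetD 0 q7c_L 1) (by decide +kernel) (by decide +kernel) (by decide +kernel)
  have H : List.Forall₂ _ q7c_L (ys hF (show 4 ≤ 6 by omega) d t 5) := .cons hd (.cons ht
    (.cons (e2 _ (sa 6 0) (by decide +kernel) (by decide +kernel))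
    (.cons (e2 _ (sa 6 1) (by decide +kernel) (by decide +kernel))
    (.cons (e2 _ (sa 6 2) (by decide +kernel) (by decide +kernel))
    (.cons (e2 _ (sa 6 3) (by decide +kernel) (by decide +kernel))
    (.cons (e2 _ (sa 6 4) (by decide +kernel) (by decide +kernel)) .nil))))))
  have H3 : List.Forall₂ _ q7c1_g (ys hF (show 4 ≤ 6 by omega) d t 3) := List.forall₂_take 5 H
  have H4 : List.Forall₂ _ (q7c_L.take 6) (ys hF (show 4 ≤ 6 by omega) d t 4) := List.forall₂_take 6 H
  refine ⟨d, t, eq_top_of_le_card _ ?_,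
    rels_of H3 (show relsZ a2_12.mul a2_12.one _ [a2_12.one] _ = true by decide +kernel),
    rels_of H4 (show relsZ a2_12.mul a2_12.one _ [a2_12.one] _ = true by decide +kernel),
    rels_of H (show relsZ a2_12.mul a2_12.one _ [a2_12.one] _ = true by decide +kernel)⟩
  have := (q7c_low fun c hc => hv c (List.mem_of_mem_take (i := 5) hc)).trans (card_le_of_le (R_of H3).2)
  rwa [← ys_map hF le_rfl (show 4 ≤ 6 by omega) (by omega), H28.cl_map, card_map_of_injective (em_inj hF _), ← (card_su hF).1] at this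

theorem ev_congr {G : Type*} [Group G] {xs zs : List G} {w : List ℕ} (h : ∀ g ∈ w, xs.getD g 1 = zs.getD g 1) :
    ev xs w = ev zs w := by
  induction w with
  | nil => rfl
  | cons g w ih => rw [H28.ev_cons, H28.ev_cons, h g List.mem_cons_self, ih fun g hg => h g (List.mem_cons_of_mem _ hg)]

theorem gn_fix {l : ℕ} (f : Fin l → Fin N) : Gn {τ : Perm (Fin N) | ∀ i, τ (f i) = f i} 2 := by
  classical
  let p : Fin N → Prop := fun x => x ∉ Set.range f
  obtain ⟨S, s1, -, s3⟩ := Gn.ofPG (PG.congr (p2_all _).1 (Fintype.equivFin {x // p x}).symm.permCongrHom)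
  refine ⟨S.map Perm.ofSubtype, by simpa, List.forall_mem_map.2 fun s _ i => Perm.ofSubtype_apply_of_not_mem _
    (by simp [p]), fun τ h => ?_⟩
  have h1 : ∀ x, p (τ x) ↔ p x := fun x => not_congr ⟨fun ⟨i, e⟩ => ⟨i, τ.injective ((h i).trans e)⟩, by
    rintro ⟨i, rfl⟩; exact ⟨i, (h i).symm⟩⟩
  have := mem_map_of_mem Perm.ofSubtype (s3 (τ.subtypePerm h1) trivial)
  rw [Perm.ofSubtype_subtypePerm h1 (fun x hx => by rintro ⟨i, rfl⟩; exact hx (h i)), MonoidHom.map_closure] at this
  exact closure_mono (by rintro _ ⟨s, h, rfl⟩; exact List.mem_map_of_mem h) this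

theorem inj_of_card {q : ℕ} (hF : Fintype.card F = q ^ 2) {f : Fin k → Fin N} (hf : Injective f) {K : Type*} [Group K]
    {π : K →* ((Fin N → F) ≃ₗ[F] (Fin N → F))} {X : Subgroup K} (h : Rep hF π X (Set.range f))
    (b : H28.Bd X (Nat.card (SU k F q))) : Inj π X := by
  choose g g1 g2 using fun y => h.sur _ (p0_si hF (em hF hf y)) ((mem_em hF hf _).1 ⟨y, rfl⟩)
  have := b.1
  have s := (Injective.bijective_of_nat_card_le (f := fun y => (⟨g y, g1 y⟩ : X)) (fun a b e =>
    em_inj hF hf (p0_inj (by rw [← g2, ← g2, show g a = g b from congrArg Subtype.val e]))) b.2).2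
  have k : ∀ x ∈ X, π x = 1 → x = g 1 := fun x hx c => by
    obtain ⟨y, hy⟩ := s ⟨x, hx⟩
    obtain rfl : g y = x := congrArg Subtype.val hy
    rw [show y = 1 from em_inj hF hf (p0_inj (by rw [← g2, c, map_one, map_one]))]
  exact fun x hx c => (k x hx c).trans (k 1 (one_mem _) (map_one π)).symm

theorem braid_sw {a b c : Fin N} (h : a ≠ b) (h' : a ≠ c) (h'' : b ≠ c) :
    swap b c * swap a b * swap b c = swap a b * swap b c * swap a b := by
  rw [swap_mul_swap_mul_swap h h', swap_comm a b, swap_comm b c, swap_mul_swap_mul_swap h''.symm h'.symm, swap_comm]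

/-- the letters -/
def lt (N k : ℕ) : List (Perm (Fin N) ∗ FreeGroup (Fin 2)) :=
  .inr (.of 0) :: .inr (.of 1) :: (List.range k).map fun i => .inl (sa N i)

theorem cl_succ {G : Type*} [Group G] (a b : G) (f : ℕ → G) (j : ℕ) :
    cl (a :: b :: (List.range (j + 1)).map f) = cl (a :: b :: (List.range j).map f) ⊔ zpowers (f j) := by
  rw [zpowers_eq_closure, cl, cl, ← Subgroup.closure_union]
  congr 1; ext; simp [List.range_succ, or_comm, or_left_comm, or_assoc]

include hF in
theorem pg_two (h3 : 3 ≤ k) (h5 : k ≤ 5) (hk : k ≤ n) (hk' : k = n ∨ k = 5) {R : List (List ℕ)} {d t : SU 4 F 2}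
    (P : Pres.{0} (k + 2) R (Nat.card (SU (k + 1) F 2))) (h0 : cl (ys hF le_rfl d t 3) = ⊤)
    (hR : Rels (ys hF (show 4 ≤ 6 by omega) d t k) R) :
    PG (SU (n + 1) F 2) (2 + 2) (7 + 0 + ((R.filter fun w => w.any (· < 2)).length + 2 * 2)) := by
  have h4 : 4 ≤ n + 1 := by omega
  have hB : PG (FreeGroup (Fin 2)) 2 0 := ⟨FreeGroup.of, Pr.intro [] (by simp) fun J _ ρ _ w hw => by
    rw [FreeGroup.lift_of_eq_id] at hw; rw [show w = 1 from hw, map_one], FreeGroup.closure_range_of _⟩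
  let ρ0 := Coprod.lift (ps (n + 1) hF) (FreeGroup.lift ![em hF (Fin.castLE_injective h4) d, em hF (Fin.castLE_injective h4) t])
  have e0 : ∀ j, (lt (n + 1) j).map ρ0 = ys hF h4 d t j := fun j => by simp [lt, ys, ρ0, comp_def]
  replace hR : Rels ((lt (n + 1) k).map ρ0) R := e0 k ▸ rels_tr hF h3 h5 (by omega) hR
  have D1 : Df ρ0 (fun _ _ ρ => Rels ((lt (n + 1) k).map ρ) R) (R.filter fun w => w.any (· < 2)).length := by
    refine ⟨(R.filter fun w => w.any (· < 2)).map (ev (lt (n + 1) k)), by simp, List.forall_mem_map.2 fun w hw => ?_,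
      fun K _ ρ h w hw => ?_⟩
    · rw [← H28.ev_map, hR w (List.mem_of_mem_filter hw)]
    rw [H28.ev_map]
    by_cases c : w.any (· < 2) = true
    · exact h _ (List.mem_map_of_mem (List.mem_filter.2 ⟨hw, c⟩))
    have e : ev (lt (n + 1) k) w = .inl (ev (1 :: 1 :: (List.range k).map (sa (n + 1))) w) := by
      rw [← H28.ev_map]
      refine ev_congr fun g hg => ?_
      obtain ⟨g, rfl⟩ : ∃ j, g = j + 2 := ⟨g - 2, by have := List.any_eq_false.1 (Bool.eq_false_iff.2 c) g hg; simp at this; omega⟩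
      simp [lt, comp_def]
    have := hR w hw
    rw [H28.ev_map, e] at this
    rw [e, ps_inj hF (this.trans (map_one _).symm), map_one, map_one]
  refine PG.df (p2_all _).1 hB (D1.and (Df.comm (gn_fix (Fin.castLE h4)) (Gn.ofPG hB) Coprod.inl Coprod.inr
    fun τ hτ w _ => ?_)) fun K _ π ρ e ⟨r1, r2⟩ => concl (hF := hF) e ?_
  · refine (commute_of_closure (ρ0.comp Coprod.inr) (S := [.of 0, .of 1]) (fun s hs => ?_) (closure_mono (by
      rintro _ ⟨i, rfl⟩; fin_cases i <;> simp) ((FreeGroup.closure_range_of _).ge (mem_top w)))).symm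
    have := fun x => (show Commute (ps _ hF τ) _ from mul_inv_eq_iff_eq_mul.1
      (pm_em hF (MonoidHom.id _) _ τ (Fin.castLE_injective h4) (Fin.castLE_injective h4) hτ x)).symm
    simp only [List.mem_cons, List.not_mem_nil, or_false] at hs
    rcases hs with rfl | rfl <;> simpa [ρ0] using this _
  set π' := (p0 (n + 1) 2 F).comp π
  let s : ℕ → K := fun i => ρ (.inl (sa (n + 1) i))
  let Γ : ℕ → Subgroup K := fun j => cl (ρ (.inr (.of 0)) :: ρ (.inr (.of 1)) :: (List.range j).map s)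
  have eΓ : ∀ j, cl ((lt (n + 1) j).map ρ) = Γ j := fun j => by simp [lt, Γ, s, comp_def]
  let J : ℕ → Set (Fin (n + 1)) := fun j => {x | x.val ≤ j}
  have eJ : ∀ j (h : j + 1 ≤ n + 1), Set.range (Fin.castLE h) = J j := fun j h => by
    ext x; simp [J, Nat.lt_succ_iff]
  have sb : ∀ σ i, π' (ρ (.inl σ)) (bb i) = bb (σ i) := fun σ i => by
    rw [MonoidHom.comp_apply, e]; exact ps_bb hF σ i
  have st : ∀ j (h : j + 1 < n), Rep hF π' (Γ (j + 1)) (J (j + 1)) →
      S0 hF π' (J (j + 1)) ⟨j + 1, by omega⟩ ⟨j, by omega⟩ ⟨j + 2, by omega⟩ (Γ (j + 1)) (s (j + 1)) := fun j h r =>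
    ⟨fun k => p0_si hF (π k), by simp [J], by simp [J], by simp, by simp [J], r, by
      rw [sb, sa, dif_pos (by omega), swap_apply_right], Fx_iff.2 fun i hi => by
      rw [sb, sa, dif_pos (by omega), swap_apply_of_ne_of_ne] <;> rintro rfl <;> simp at hi⟩
  have iJ : ∀ j (h : j + 1 < n + 1), insert ⟨j + 1, h⟩ (J j) = J (j + 1) := fun j h => by
    ext x; simp [J, Fin.ext_iff]; omega
  have rp : ∀ j, 3 ≤ j → j ≤ n → Rep hF π' (Γ j) (J j) := fun j hj => by
    induction j, hj using Nat.le_induction with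
    | base =>
      intro _
      have : (Γ 3).map π = (em hF (Fin.castLE_injective h4)).range := by
        rw [← eΓ, ← H28.cl_map, List.map_map, show π ∘ ρ = ρ0 from funext e, e0, ← ys_map hF le_rfl h4 (by omega),
          H28.cl_map, h0, MonoidHom.range_eq_map]
      rw [← eJ 3 h4]
      refine ⟨fun x hx => (mem_em hF _ _).1 (this.le (mem_map_of_mem π hx)), fun g g1 g2 => ?_⟩
      obtain ⟨X, rfl⟩ := p0_sur hF g1
      obtain ⟨x, hx, rfl⟩ := this.ge ((mem_em hF _ _).2 g2)
      exact ⟨x, hx, rfl⟩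
    | succ j hj ih =>
      intro h
      obtain ⟨j, rfl⟩ : ∃ i, j = i + 1 := ⟨j - 1, by omega⟩
      have := (st j h (ih (by omega))).sur (Fin.castLE_injective (show 5 ≤ n + 1 by omega)) (by
        rw [iJ, eJ]; intro x hx; exact le_trans (show x.val ≤ 4 from hx) (by omega))
      rwa [iJ, ← cl_succ] at this
  have ij : ∀ j, k ≤ j → j ≤ n → Inj π' (Γ j) := fun j hj => by
    induction j, hj using Nat.le_induction with
    | base =>
      intro _
      exact inj_of_card hF (Fin.castLE_injective (show k + 1 ≤ n + 1 by omega)) (eJ k _ ▸ rp k h3 hk)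
        (eΓ k ▸ P K _ (by simp [lt]) r1)
    | succ j hj ih =>
      intro h
      obtain ⟨j, rfl⟩ : ∃ i, j = i + 1 := ⟨j - 1, by omega⟩
      have S := st j h (rp _ (by omega) (by omega))
      have le : Γ j ⊔ zpowers (s j) = Γ (j + 1) := (cl_succ _ _ _ _).symm
      change Inj π' (cl _)
      rw [cl_succ]
      refine S.inj (Fin.castLE_injective (show 5 ≤ n + 1 by omega)) (by
        rintro _ ⟨x, rfl⟩; have := x.2; simp [J, Fin.ext_iff]; omega) (ih (by omega)) (fun a ha c => ?_) ?_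
        (le.le (mem_sup_right (mem_zpowers _))) (by rw [sb, sa, dif_pos (by omega), swap_apply_right]) ?_
      · obtain ⟨x, hx, c⟩ := (rp j (by omega) (by omega)).sur _ (S.si a) (Fx.erase (m := ⟨j + 1, by omega⟩)
          (fun x hx c => by simp [J, Fin.ext_iff] at hx c ⊢; omega) (S.rA.sat a ha) c)
        rw [← (ih (by omega)).eq (le.le (mem_sup_left hx)) ha c]
        refine commute_of_closure (MonoidHom.id K) (fun y hy => ?_) hx
        have k : ∀ i, sa (n + 1) (j + 1) (Fin.castLE h4 i) = Fin.castLE h4 i := fun i => by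
          have := i.2
          rw [sa, dif_pos (by omega), swap_apply_of_ne_of_ne] <;> simp [Fin.ext_iff] <;> omega
        simp only [List.mem_cons, List.mem_map, List.mem_range] at hy
        obtain rfl | rfl | ⟨i, hi, rfl⟩ := hy
        · exact (r2 _ k _ trivial).symm
        · exact (r2 _ k _ trivial).symm
        refine (Commute.map (f := ρ.comp Coprod.inl) ?_ :)
        rw [sa, sa, dif_pos (by omega), dif_pos (by omega)]
        exact (Perm.disjoint_swap_swap (by simp; omega)).commute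
      · rw [← map_mul, ← map_mul, sa, dif_pos (by omega), swap_mul_self, map_one, map_one]
      · simp only [s, ← map_mul]
        rw [sa, sa, dif_pos (by omega), dif_pos (by omega), braid_sw (by simp) (by simp [Fin.ext_iff]; omega) (by simp)]
  have : ρ.range = Γ n := by
    refine le_antisymm ?_ (eΓ n ▸ H27.cl_le (List.forall_mem_map.2 fun w _ => ⟨w, rfl⟩))
    rw [range_cop]
    refine sup_le ?_ ?_ <;> rintro _ ⟨x, rfl⟩
    · refine (Submonoid.closure_le.2 ?_ : _ ≤ ((Γ n).comap (ρ.comp Coprod.inl)).toSubmonoid)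
        ((Perm.mclosure_swap_castSucc_succ n).ge (Submonoid.mem_top x))
      rintro _ ⟨i, rfl⟩
      refine H27.mem_cl (List.mem_cons_of_mem _ (List.mem_cons_of_mem _ (List.mem_map.2 ⟨i, List.mem_range.2 i.2, ?_⟩)))
      simp only [s, sa, dif_pos (Nat.succ_lt_succ i.2)]
      rfl
    · refine ((closure_le ((Γ n).comap (ρ.comp Coprod.inr))).2 ?_) ((FreeGroup.closure_range_of _).ge (mem_top x))
      rintro _ ⟨i, rfl⟩
      fin_cases i <;> exact H27.mem_cl (by simp)
  rw [this, show Set.univ = J n by ext x; simp [J, Nat.lt_succ_iff.1 x.2]]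
  exact ⟨ij n hk le_rfl, rp n (by omega) le_rfl⟩

theorem pg_q2 (hF : Fintype.card F = 2 ^ 2) (hn : 3 ≤ n) : PG (SU (n + 1) F 2) 4 29 := by
  obtain ⟨d, t, h0, h4, h5, h6⟩ := base2 hF
  obtain ⟨c4, c5, c6⟩ := card_su hF
  obtain rfl | rfl | h : n = 3 ∨ n = 4 ∨ 5 ≤ n := by omega
  · exact (pg_two hF le_rfl (by omega) le_rfl (.inl rfl) (c4 ▸ H28.q7u4_pres) h0 h4).mono le_rfl (by decide)
  · exact (pg_two hF hn (by omega) le_rfl (.inl rfl) (c5 ▸ H28.q7u5_pres) h0 h5).mono le_rfl (by decide)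
  · exact (pg_two hF (by omega) le_rfl h (.inr rfl) (c6 ▸ H28.q7u6_pres) h0 h6).mono le_rfl (by decide)

theorem pg_SU {F : Type*} [Field F] [Fintype F] {q : ℕ} (hF : Fintype.card F = q ^ 2) (hn : 4 ≤ n) :
    PG (SU n F q) 6 (if n ≤ 5 then 35 else 37) ∧ IsCyclic (center (SU n F q)) := by
  let e := Shrink.ringEquiv.{0} F
  have := Fintype.ofEquiv F e.symm.toEquiv
  have hK := (Fintype.card_congr e.toEquiv).trans hF
  refine ⟨PG.congr ?_ (H22.suCongr e n q), (centerCongr (H22.suCongr e n q)).isCyclic.1 (cen_SU hK (by omega))⟩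
  obtain ⟨n, rfl⟩ : ∃ m, n = m + 1 := ⟨n - 1, by omega⟩
  obtain rfl | h := (H23.two_le_of_card_eq_sq hF).eq_or_lt
  · exact (pg_q2 hK (by omega)).mono (by omega) (by split_ifs <;> omega)
  · exact (pg_ge3 hK h (by omega)).mono le_rfl (by split_ifs <;> omega)

theorem pg_SU3 {F : Type*} [Field F] [Fintype F] {q : ℕ} (hF : Fintype.card F = q ^ 2) (hq : q ≠ 2) :
    PG (SU 3 F q) 6 24 := by
  have := H23.two_le_of_card_eq_sq hF
  obtain rfl | h := (show 3 ≤ q by omega).eq_or_lt
  · let e := Shrink.ringEquiv.{0} F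
    have := Fintype.ofEquiv F e.symm.toEquiv
    exact ((pg_33 ((Fintype.card_congr e.toEquiv).trans hF)).congr (H22.suCongr e 3 3)).mono le_rfl (by omega)
  · exact (UP.pg_U hF h).mono (by omega) (by omega)

end H7.SUP
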