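import Cfsg.Agent.H3.S8h
import Cfsg.Prelude.Def_Local

/-! The set-up step of the 3-local identification of `Sym(8)`. -/

set_option autoImplicit false
open Subgroup Equiv H3S
open scoped Pointwise

namespace H7.Set8

abbrev c3 : Perm (Fin 3) := swap 0 1 * swap 1 2
abbrev c5 : Perm (Fin 5) := swap 0 1 * swap 1 2

theorem d1 : ∀ a : Perm (Fin 5), a ^ 3 = 1 →
    (∀ p ∈ [swap (0 : Fin 5) 1, swap 1 2, swap 2 3, swap 3 4], p * a * p⁻¹ = a ∨ p * a * p⁻¹ = a * a ∨ p * a * p⁻¹ = 1) → a = 1 := by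
  decide +kernel
theorem d2 : ∀ a : Perm (Fin 3), a ^ 3 = 1 → a = 1 ∨ a = c3 ∨ a = c3⁻¹ := by decide +kernel
theorem d3 : ∀ a : Perm (Fin 5), a ^ 3 = 1 → a ≠ 1 → ∃ w : Perm (Fin 5), w * c5 * w⁻¹ = a := by decide +kernel
def N5 : Subgroup (Perm (Fin 5)) := MulAction.stabilizer (Perm (Fin 5)) ({3, 4} : Finset (Fin 5))
instance : DecidablePred (· ∈ N5) := fun w => decidable_of_iff (w • ({3, 4} : Finset (Fin 5)) = {3, 4}) Iff.rfl
theorem d4 : Nat.card N5 = 12 := by rw [Nat.card_eq_fintype_card]; decide +kernel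
theorem d5 : ∀ w : Perm (Fin 5), w ∈ N5 ↔ (w * c5 * w⁻¹ = c5 ∨ w * c5 * w⁻¹ = c5⁻¹) := by decide +kernel
theorem d6 : ∀ a : Perm (Fin 3), a * a = 1 → a * c3 = c3 * a → a = 1 := by decide +kernel
theorem d7 : ∀ a : Perm (Fin 5), a * a = 1 → a * c5 = c5 * a → a = 1 ∨ a = swap 3 4 := by decide +kernel
theorem d8 : ∀ a : Perm (Fin 5), a * a = 1 → a * c5 * a = c5⁻¹ → ∃ k ∈ [0, 1, 2], c5 ^ k * a * (c5 ^ k)⁻¹ = swap 0 1 ∨
    c5 ^ k * a * (c5 ^ k)⁻¹ = swap 0 1 * swap 3 4 := by decide +kernel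
theorem d9 : ∀ a : Perm (Fin 3), a * c3 * a⁻¹ = c3 ∨ a * c3 * a⁻¹ = c3⁻¹ := by decide +kernel


theorem z3 {H : Type*} [Group H] {x a : H} (h : x ^ 3 = 1) (ha : a ∈ zpowers x) : a = 1 ∨ a = x ∨ a = x⁻¹ := by
  obtain ⟨k, rfl⟩ := ha
  have e : x ^ k = x ^ (k % 3) := zpow_eq_zpow_emod k (by exact_mod_cast h)
  have h3 : k % 3 = 0 ∨ k % 3 = 1 ∨ k % 3 = 2 := by omega
  simp only [e]
  rcases h3 with h3 | h3 | h3 <;> rw [h3]
  · simp
  · simp
  · exact .inr (.inr (eq_inv_of_mul_eq_one_left (by rw [← h]; group)))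

theorem cz {H : Type*} [Group H] {x a p : H} (h : p * x * p⁻¹ = x ∨ p * x * p⁻¹ = x⁻¹) (ha : a ∈ zpowers x) :
    p * a * p⁻¹ ∈ zpowers x := by
  obtain ⟨k, rfl⟩ := ha
  simp only
  rw [← conj_zpow]
  rcases h with h | h <;> rw [h]
  · exact zpow_mem (mem_zpowers x) k
  · exact zpow_mem (inv_mem (mem_zpowers x)) k

variable {G : Type*} [Group G] [Finite G]

theorem stepA {D : Subgroup G} {y z : G} (hgen : closure {y, z} = D) (hcard : Nat.card D = 9) (hexp : ∀ a ∈ D, a ^ 3 = 1)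
    (eL : normalizer (zpowers z : Set G) ≃* Perm (Fin 3) × Perm (Fin 5)) :
    ∃ φ : P →* G, Function.Injective φ ∧ φ.range = normalizer (zpowers z : Set G) ∧ zpowers (φ z0) = zpowers z ∧
      ∃ a : Perm (Fin 3), a ^ 3 = 1 ∧ y = φ (a, c5) := by
  have : Fact (Nat.Prime 3) := ⟨by norm_num⟩
  have yD : y ∈ D := hgen ▸ subset_closure (by simp)
  have zD : z ∈ D := hgen ▸ subset_closure (by simp)
  have cm : y * z = z * y := congrArg Subtype.val
    ((IsPGroup.isMulCommutative_of_card_eq_prime_sq (p := 3) (G := D) hcard).1.1 ⟨y, yD⟩ ⟨z, zD⟩)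
  have c3' : ∀ x ∈ D, ¬ D ≤ zpowers x := fun x hx h => by
    have h1 := card_le_of_le h
    rw [hcard, Nat.card_zpowers] at h1
    have := orderOf_le_of_pow_eq_one (by norm_num) (hexp x hx)
    omega
  have yz : y ∉ zpowers z := fun h => c3' z zD (by
    rw [← hgen, closure_le]; rintro _ (rfl | rfl)
    exacts [h, mem_zpowers _])
  have z1' : z ≠ 1 := fun h => c3' y yD (by
    rw [← hgen, closure_le]; rintro _ (rfl | rfl)
    exacts [mem_zpowers _, h ▸ one_mem _])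
  have zL : z ∈ normalizer (zpowers z : Set G) := le_normalizer (mem_zpowers z)
  have yL : y ∈ normalizer (zpowers z : Set G) :=
    mem_normalizer_fintype fun n hn => cz (.inl (by rw [cm]; group)) hn
  let φ0 : P →* G := (normalizer (zpowers z : Set G)).subtype.comp eL.symm.toMonoidHom
  have i0 : Function.Injective φ0 := Subtype.val_injective.comp eL.symm.injective
  have r0' : φ0.range = normalizer (zpowers z : Set G) := by
    ext g
    exact ⟨by rintro ⟨p, rfl⟩; exact (eL.symm p).2, fun h => ⟨eL ⟨g, h⟩, by simp [φ0]⟩⟩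
  obtain ⟨⟨a1, a2⟩, ha⟩ : z ∈ φ0.range := r0' ▸ zL
  obtain ⟨⟨b1, b2⟩, hb⟩ : y ∈ φ0.range := r0' ▸ yL
  have a3 : ((a1, a2) : P) ^ 3 = 1 := i0 (by rw [map_pow, ha, map_one, hexp z zD])
  have b3 : ((b1, b2) : P) ^ 3 = 1 := i0 (by rw [map_pow, hb, map_one, hexp y yD])
  have e2 : a2 = 1 := by
    refine d1 a2 (congrArg Prod.snd a3) fun p _ => ?_
    have h1 : φ0 (1, p) ∈ normalizer (zpowers z : Set G) := r0' ▸ ⟨_, rfl⟩
    have h2 := (h1 z).1 (mem_zpowers z)
    rcases z3 (hexp z zD) h2 with h | h | h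
    · rw [← ha, ← map_inv, ← map_mul, ← map_mul, ← map_one φ0] at h
      exact .inr (.inr (congrArg Prod.snd (i0 h)))
    · rw [← ha, ← map_inv, ← map_mul, ← map_mul] at h
      exact .inl (congrArg Prod.snd (i0 h))
    · rw [← ha, ← map_inv, ← map_mul, ← map_mul, ← map_inv] at h
      refine .inr (.inl ((congrArg Prod.snd (i0 h)).trans ?_))
      have : a2 ^ 3 = 1 := congrArg Prod.snd a3
      exact (eq_inv_of_mul_eq_one_left ((pow_three' a2).symm.trans this)).symm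
  subst e2
  have zz : zpowers (φ0 z0) = zpowers z := by
    rcases d2 a1 (congrArg Prod.fst a3) with h | h | h
    · exact (z1' (by rw [← ha, h]; exact map_one φ0)).elim
    · rw [← ha, h]; rfl
    · rw [← ha, h, show ((c3⁻¹, 1) : P) = z0⁻¹ from rfl, map_inv, zpowers_inv]
  have n2 : b2 ≠ 1 := fun h => yz (by
    rw [← zz, ← hb, h]
    rcases d2 b1 (congrArg Prod.fst b3) with h | h | h <;> rw [h]
    · exact (map_one φ0).symm ▸ one_mem _
    · exact mem_zpowers _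
    · rw [show ((c3⁻¹, 1) : P) = z0⁻¹ from rfl, map_inv]; exact inv_mem (mem_zpowers _))
  obtain ⟨w, hw⟩ := d3 b2 (congrArg Prod.snd b3) n2
  refine ⟨φ0.comp (MulAut.conj ((1, w) : P)).toMonoidHom, i0.comp (MulAut.conj _).injective, ?_, ?_, b1,
    congrArg Prod.fst b3, ?_⟩
  · rw [← r0', MonoidHom.range_comp, MonoidHom.range_eq_top.2 (MulAut.conj _).surjective, ← MonoidHom.range_eq_map]
  · have : ((1, w) : P) * z0 * ((1, w) : P)⁻¹ = z0 := by simp [z0]
    show zpowers (φ0 (((1, w) : P) * z0 * ((1, w) : P)⁻¹)) = _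
    rw [this, zz]
  · rw [← hb, ← hw]; simp

def D0 : Subgroup P := (zpowers c3).prod (zpowers c5)

theorem stepB {D : Subgroup G} {φ : P →* G} (inj : Function.Injective φ) (hD : D = D0.map φ)
    (hN : Nat.card (normalizer (D : Set G)) = 144) :
    (φ.range.subgroupOf (normalizer (D : Set G))).index = 2 ∧
      ∀ p : P, p.2 ∈ N5 → φ p ∈ normalizer (D : Set G) := by
  have h1 : ∀ p : P, p.2 ∈ N5 → φ p ∈ normalizer (D : Set G) := fun p hp =>
    mem_normalizer_fintype (by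
      rw [hD]
      rintro _ ⟨q, hq, rfl⟩
      exact ⟨p * q * p⁻¹, ⟨cz (d9 _) hq.1, cz ((d5 _).1 hp) hq.2⟩, by simp⟩)
  refine ⟨?_, h1⟩
  have h2 : φ.range ⊓ normalizer (D : Set G) = ((⊤ : Subgroup (Perm (Fin 3))).prod N5).map φ := by
    ext g
    constructor
    · rintro ⟨⟨p, rfl⟩, hp⟩
      refine ⟨p, ⟨mem_top _, (d5 _).2 ?_⟩, rfl⟩
      have a : φ z1 ∈ D := hD ▸ ⟨z1, ⟨one_mem _, mem_zpowers _⟩, rfl⟩
      have b := (hp _).1 a
      rw [hD, ← map_inv, ← map_mul, ← map_mul] at b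
      obtain ⟨q, hq, e⟩ := b
      have := hq.2
      rw [inj e] at this
      rcases z3 (x := c5) (by decide) this with h | h | h
      · exact absurd (by simpa [z1] using h) (show ¬ c5 = 1 by decide)
      · exact .inl h
      · exact .inr h
    · rintro ⟨p, hp, rfl⟩
      exact ⟨⟨p, rfl⟩, h1 p hp.2⟩
  have h3 : Nat.card (φ.range.subgroupOf (normalizer (D : Set G))) = 72 := by
    rw [← inf_subgroupOf_right, Nat.card_congr (subgroupOfEquivOfLe inf_le_right).toEquiv, h2,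
      card_map_of_injective inj, Nat.card_congr (prodEquiv _ _).toEquiv, Nat.card_prod, d4, card_top,
      Nat.card_perm]
    simp; rfl
  have := card_mul_index (φ.range.subgroupOf (normalizer (D : Set G)))
  rw [h3, hN] at this
  omega

theorem stepC {D : Subgroup G} {φ : P →* G} (inj : Function.Injective φ) (hD : D = D0.map φ)
    (hL : φ.range = normalizer (zpowers (φ z0) : Set G))
    (hN : Nat.card (normalizer (D : Set G)) = 144) :
    ∃ n : G, n * φ z0 * n⁻¹ = φ z1 ∧ n * φ z1 * n⁻¹ = φ z0 := by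
  obtain ⟨i2, h1⟩ := stepB inj hD hN
  have nm := normal_of_index_eq_two i2
  obtain ⟨n, hn⟩ : ∃ n : normalizer (D : Set G), n.1 ∉ φ.range := by
    by_contra h
    push Not at h
    have : φ.range.subgroupOf (normalizer (D : Set G)) = ⊤ := eq_top_iff.2 fun n _ => h n
    rw [this, index_top] at i2
    omega
  have pm : ∀ g ∈ φ.range, g * φ z0 * g⁻¹ = φ z0 ∨ g * φ z0 * g⁻¹ = (φ z0)⁻¹ := by
    rintro _ ⟨p, rfl⟩
    rw [← map_inv, ← map_mul, ← map_mul, ← map_inv]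
    rcases d9 p.1 with h | h
    · exact .inl (congrArg φ (Prod.ext h (by simp [z0])))
    · exact .inr (congrArg φ (Prod.ext h (by simp [z0])))
  have zD : φ z0 ∈ D := hD ▸ ⟨z0, ⟨mem_zpowers _, one_mem _⟩, rfl⟩
  have hx : n.1 * φ z0 * n.1⁻¹ ∈ D0.map φ := hD.le ((n.2 _).1 zD)
  obtain ⟨⟨a, b⟩, ⟨ha, hb⟩, e⟩ := hx
  have m : n.1⁻¹ * φ r0 * n.1 ∈ φ.range := by
    have := nm.conj_mem ⟨φ r0, h1 r0 (one_mem _)⟩ ⟨r0, rfl⟩ n⁻¹
    simpa [mem_subgroupOf] using this
  have k : r0 * (a, b) * r0⁻¹ = (a, b) ∨ r0 * (a, b) * r0⁻¹ = (a, b)⁻¹ := by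
    rcases pm _ m with h | h
    · refine .inl (inj ?_)
      rw [map_mul, map_mul, map_inv, e]
      conv_rhs => rw [← h]
      group
    · refine .inr (inj ?_)
      rw [map_mul, map_mul, map_inv, map_inv, e, show (n.1 * φ z0 * n.1⁻¹)⁻¹ = n.1 * (φ z0)⁻¹ * n.1⁻¹ by group, ← h]
      group
  have b1 : b ≠ 1 := fun h => hn (by
    rw [hL]
    refine mem_normalizer_fintype fun x hx => ?_
    obtain ⟨j, rfl⟩ := hx
    simp only [SetLike.mem_coe]
    rw [← conj_zpow, ← e, h]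
    obtain ⟨i, rfl⟩ := ha
    exact zpow_mem (show _ ∈ zpowers (φ z0) from ⟨i, by simp only [← map_zpow]; congr 1; simp [z0]⟩) j)
  have s2 := pm (n.1 * n.1) (mul_self_mem_of_index_two i2 n)
  have f : n.1 * φ z0 * n.1⁻¹ = φ z1 ∨ n.1 * φ z0 * n.1⁻¹ = (φ z1)⁻¹ := by
    rw [← e, ← map_inv]
    rcases z3 (x := c3) (by decide) ha with rfl | rfl | rfl <;>
      rcases z3 (x := c5) (by decide) hb with rfl | rfl | rfl <;>
      first | exact absurd rfl b1 | exact .inl rfl | exact .inr rfl | exact absurd k (by decide)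
  have r0z0 : φ r0 * (φ z0)⁻¹ * (φ r0)⁻¹ = φ z0 := by simp only [← map_inv, ← map_mul]; congr 1; decide
  have r0z1 : φ r0 * φ z1 * (φ r0)⁻¹ = φ z1 := by simp only [← map_inv, ← map_mul]; congr 1; decide
  have r1z0 : φ r1 * φ z0 * (φ r1)⁻¹ = φ z0 := by simp only [← map_inv, ← map_mul]; congr 1; decide
  have r1z1 : φ r1 * (φ z1)⁻¹ * (φ r1)⁻¹ = φ z1 := by simp only [← map_inv, ← map_mul]; congr 1; decide
  generalize n.1 = u at s2 f
  generalize φ z0 = z at *
  generalize φ z1 = z' at *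
  generalize φ r0 = r at *
  generalize φ r1 = r' at *
  have c2 : ∀ u v a : G, (u * v) * a * (u * v)⁻¹ = u * (v * a * v⁻¹) * u⁻¹ := fun u v a => by group
  have ci : ∀ u a : G, u * a⁻¹ * u⁻¹ = (u * a * u⁻¹)⁻¹ := fun u a => by group
  rcases f with f | f <;> rcases s2 with s | s <;> rw [c2, f] at s
  · exact ⟨u, f, s⟩
  · exact ⟨r * u, by rw [c2, f, r0z1], by rw [c2, s, r0z0]⟩
  · rw [ci, inv_eq_iff_eq_inv] at s
    exact ⟨r * (r' * u), by rw [c2 r, c2 r', f, r1z1, r0z1], by rw [c2 r, c2 r', s, ci r', r1z0, r0z0]⟩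
  · rw [ci, inv_inj] at s
    exact ⟨r' * u, by rw [c2, f, r1z1], by rw [c2, s, r1z0]⟩

theorem set {D : Subgroup G} {y z : G} (hP : ¬ 27 ∣ Nat.card G) (hgen : closure {y, z} = D) (hcard : Nat.card D = 9) (hexp : ∀ a ∈ D, a ^ 3 = 1) (hN : Nat.card (normalizer (D : Set G)) = 144) (hycard : Nat.card (centralizer ({y} : Set G)) = 36) (hysq : ∀ g ∈ centralizer ({y} : Set G), g ^ 2 ∈ D) (eL : normalizer (zpowers z : Set G) ≃* Perm (Fin 3) × Perm (Fin 5)) : ∃ (φ : P →* G) (σ : G), Hy φ σ ∧ (σ * φ r0 * σ = φ r1 ∨ σ * φ r0 * σ = φ (r1 * t0)) := by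
  obtain ⟨φ, inj, hL, zz, a, a3, ey⟩ := stepA hgen hcard hexp eL
  rw [← zz] at hL
  have yD : y ∈ D := hgen ▸ subset_closure (by simp)
  have zD : zpowers (φ z0) ≤ D := by rw [zz, zpowers_le]; exact hgen ▸ subset_closure (by simp)
  have az : a ∈ zpowers c3 := by
    rcases d2 a a3 with h | h | h <;> rw [h]
    exacts [one_mem _, mem_zpowers _, inv_mem (mem_zpowers _)]
  have pz : ∀ b ∈ zpowers c3, φ (b, 1) ∈ zpowers (φ z0) := by
    rintro _ ⟨i, rfl⟩
    exact ⟨i, by simp only [← map_zpow]; congr 1; simp [z0]⟩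
  have hD : D = D0.map φ := by
    apply le_antisymm
    · rw [← hgen, closure_le]
      rintro x (h | h)
      · exact ⟨(a, c5), ⟨az, mem_zpowers _⟩, (h.trans ey).symm⟩
      · have := mem_zpowers z
        rw [← zz] at this
        rw [show x = z from h]
        exact (show zpowers (φ z0) ≤ D0.map φ from zpowers_le.2 ⟨z0, ⟨mem_zpowers _, one_mem _⟩, rfl⟩) this
    · rintro _ ⟨⟨b, _⟩, ⟨hb, ⟨j, rfl⟩⟩, rfl⟩
      have e1 : φ (1, c5) = (φ (a, 1))⁻¹ * y := by rw [ey, ← map_inv, ← map_mul]; congr 1; simp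
      have e2 : φ (b, c5 ^ j) = φ (b, 1) * φ (1, c5) ^ j := by rw [← map_zpow, ← map_mul]; congr 1; simp
      simp only
      rw [e2, e1]
      exact mul_mem (zD (pz b hb)) (zpow_mem (mul_mem (inv_mem (zD (pz a az))) yD) j)
  obtain ⟨n, n0, n1⟩ := stepC inj hD hL hN
  obtain ⟨-, h1⟩ := stepB inj hD hN
  have cm : ∀ p q : P, p * q = q * p → φ p * φ q = φ q * φ p := fun p q h => by rw [← map_mul, h, map_mul]
  have nz : ∀ g, g * φ z0 * g⁻¹ ∈ zpowers (φ z0) → g ∈ φ.range := fun g hg => by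
    rw [hL]
    refine mem_normalizer_fintype fun x hx => ?_
    obtain ⟨j, rfl⟩ := hx
    simp only [SetLike.mem_coe]
    rw [← conj_zpow]
    exact zpow_mem hg j
  obtain ⟨g, g5, eg⟩ : ∃ g : P, g.2 ∈ N5 ∧ y = φ g * (φ z0 * φ z1) * (φ g)⁻¹ := by
    rcases d2 a a3 with h | h | h
    · exfalso
      let q : P := (1, swap 0 1 * swap 1 2 * swap 2 3 * swap 3 4)
      have hq : n * φ q * n⁻¹ ∈ centralizer ({y} : Set G) := by
        rw [mem_centralizer_singleton_iff, ey, h, show ((1, c5) : P) = z1 from rfl, ← n0]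
        have := cm q z0 (by decide)
        calc _ = n * (φ q * φ z0) * n⁻¹ := by group
          _ = _ := by rw [this]; group
      have h36 := congrArg Subtype.val (pow_card_eq_one' (x := (⟨_, hq⟩ : centralizer ({y} : Set G))))
      simp only [hycard, SubmonoidClass.mk_pow, OneMemClass.coe_one, conj_pow, ← map_pow, conj_eq_one_iff,
        map_eq_one_iff φ inj] at h36
      exact absurd h36 (by decide +kernel)
    · exact ⟨1, one_mem _, by rw [ey, h, map_one, one_mul, inv_one, mul_one, ← map_mul]; congr 1⟩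
    · exact ⟨r0, one_mem _, by rw [ey, h]; simp only [← map_inv, ← map_mul]; congr 1; decide⟩
  have c01 := cm z0 z1 (by decide)
  have cy : Nat.card (centralizer ({φ z0 * φ z1} : Set G)) = 36 := by
    rw [← hycard, ← card_map_of_injective (f := (MulAut.conj (φ g)).toMonoidHom) (MulAut.conj _).injective]
    congr 2
    ext x
    simp only [mem_map, mem_centralizer_singleton_iff, eg]
    constructor
    · rintro ⟨w, hw, rfl⟩
      simp only [MulEquiv.coe_toMonoidHom, MulAut.conj_apply]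
      calc _ = φ g * (w * (φ z0 * φ z1)) * (φ g)⁻¹ := by group
        _ = _ := by rw [hw]; group
    · intro h
      refine ⟨(φ g)⁻¹ * x * φ g, ?_, by simp [mul_assoc]⟩
      calc _ = (φ g)⁻¹ * (x * (φ g * (φ z0 * φ z1) * (φ g)⁻¹)) * φ g := by group
        _ = _ := by rw [h]; group
  have ny : n * (φ z0 * φ z1) * n⁻¹ = φ z0 * φ z1 := by
    calc _ = (n * φ z0 * n⁻¹) * (n * φ z1 * n⁻¹) := by group
      _ = _ := by rw [n0, n1, c01]
  have n6 : (n ^ 2) ^ 3 = 1 := by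
    refine hexp _ ((h1 g g5 _).2 ?_)
    have := hysq (φ g * n * (φ g)⁻¹) (by
      rw [mem_centralizer_singleton_iff, eg]
      conv_rhs => rw [← ny]
      group)
    rwa [conj_pow] at this
  have ss : n ^ 3 * n ^ 3 = 1 := by rw [← n6]; group
  have s0 : n ^ 3 * φ z0 * (n ^ 3)⁻¹ = φ z1 := by
    conv_rhs => rw [← n0, ← n1, ← n0]
    rw [pow_three']; group
  generalize n ^ 3 = s at ss s0
  have si : s⁻¹ = s := inv_eq_of_mul_eq_one_right ss
  have s1 : s * φ z1 * s⁻¹ = φ z0 := by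
    rw [← s0]
    calc _ = (s * s) * φ z0 * (s * s)⁻¹ := by group
      _ = _ := by rw [ss]; group
  have key : ∀ p : P, p * z1 = z1 * p → p * p = 1 → ∃ q : Perm (Fin 5), s * φ p * s⁻¹ = φ (1, q) ∧ q * q = 1 := by
    intro p hp pp
    have c : s * φ p * s⁻¹ * φ z0 * (s * φ p * s⁻¹)⁻¹ = φ z0 := by
      rw [← s1]
      calc _ = s * (φ p * φ z1) * (φ p)⁻¹ * s⁻¹ := by group
        _ = _ := by rw [cm p z1 hp]; group
    obtain ⟨⟨q1, q2⟩, hq⟩ := nz _ (by rw [c]; exact mem_zpowers _)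
    have qq : ((q1, q2) : P) * (q1, q2) = 1 := inj (by
      rw [map_mul, hq, map_one]
      calc _ = s * (φ p * φ p) * s⁻¹ := by group
        _ = _ := by rw [← map_mul, pp, map_one]; group)
    rw [← hq, ← map_inv, ← map_mul, ← map_mul] at c
    have := d6 q1 (congrArg Prod.fst qq) (mul_inv_eq_iff_eq_mul.1 (congrArg Prod.fst (inj c)))
    subst this
    exact ⟨q2, hq.symm, congrArg Prod.snd qq⟩
  have st : s * φ t0 * s⁻¹ = φ t0 := by
    obtain ⟨q, hq, qq⟩ := key t0 (by decide) (by decide)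
    have c : φ (1, q) * φ z1 = φ z1 * φ (1, q) := by
      rw [← hq, ← s0]
      calc _ = s * (φ t0 * φ z0) * s⁻¹ := by group
        _ = _ := by rw [cm t0 z0 (by decide)]; group
    rw [← map_mul, ← map_mul] at c
    rcases d7 q qq (congrArg Prod.snd (inj c)) with h | h
    · rw [h, show ((1, 1) : P) = 1 from rfl, map_one, conj_eq_one_iff, map_eq_one_iff φ inj] at hq
      exact absurd hq (by decide)
    · rw [hq, h]; rfl
  obtain ⟨q, hq, qq⟩ := key r0 (by decide) (by decide)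
  have c : φ (1, q) * φ z1 * φ (1, q) = (φ z1)⁻¹ := by
    have : φ r0 * φ z0 * φ r0 = (φ z0)⁻¹ := by simp only [← map_inv, ← map_mul]; congr 1; decide
    rw [← hq, ← s0]
    calc _ = s * (φ r0 * φ z0 * φ r0) * s⁻¹ := by group
      _ = _ := by rw [this]; group
  rw [← map_mul, ← map_mul, ← map_inv] at c
  obtain ⟨k, -, hk⟩ := d8 q qq (congrArg Prod.snd (inj c))
  have dc : ∀ p : P, p * z1 = z1 * p → (φ (z1 ^ k))⁻¹ * φ p * φ (z1 ^ k) = φ p := fun p hp => by
    have : Commute p (z1 ^ k) := Commute.pow_right hp k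
    rw [mul_assoc, cm p _ this]; group
  have tr : ∀ p : P, p * z1 = z1 * p → φ (z1 ^ k) * s * (φ (z1 ^ k))⁻¹ * φ p * (φ (z1 ^ k) * s * (φ (z1 ^ k))⁻¹) =
      φ (z1 ^ k) * (s * φ p * s⁻¹) * (φ (z1 ^ k))⁻¹ := fun p hp => by
    rw [si]; conv_rhs => rw [← dc p hp]
    group
  have dc' : ∀ p : P, p * z1 = z1 * p → φ (z1 ^ k) * φ p * (φ (z1 ^ k))⁻¹ = φ p := fun p hp => by
    conv_lhs => rw [← dc p hp]
    group
  refine ⟨φ, φ (z1 ^ k) * s * (φ (z1 ^ k))⁻¹, ⟨inj, nz, ?_, ?_, ?_, hP, cy⟩, ?_⟩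
  · calc _ = φ (z1 ^ k) * (s * s) * (φ (z1 ^ k))⁻¹ := by group
      _ = _ := by rw [ss]; group
  · rw [tr z0 (by decide), s0, dc' z1 rfl]
  · rw [tr t0 (by decide), st, dc' t0 (by decide)]
  · rw [tr r0 (by decide), hq, ← map_inv, ← map_mul, ← map_mul]
    rcases hk with h | h
    · exact .inl (congrArg φ (Prod.ext (by simp [z1, r1]) h))
    · exact .inr (congrArg φ (Prod.ext (by simp [z1, r1, t0]) h))

end H7.Set8
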