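import Cfsg.Agent.H7.SpP2

/-! Short presentations of `SU₃(q)`: abstract lemmas. -/

set_option autoImplicit false
set_option linter.unusedSectionVars false
set_option linter.unusedSimpArgs false

namespace H7.UP

open Polynomial

variable {G : Type*} [Group G]

theorem intro2 {ι : Type} {x : ι → G} (L : List (FreeGroup ι)) (h1 : ∀ w ∈ L, FreeGroup.lift x w = 1)
    (h2 : ∀ (J : Type) [Group J] (ρ : FreeGroup ι →* J) (π : J →* G), Function.Surjective ρ →
      π.comp ρ = FreeGroup.lift x → (∀ w ∈ L, ρ w = 1) → ∀ j, π j = 1 → j = 1) : Pr x L.length := by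
  classical
  have k : Subgroup.normalClosure (L.toFinset : Set (FreeGroup ι)) ≤ (FreeGroup.lift x).ker :=
    Subgroup.normalClosure_le_normal fun w hw => h1 w (by simpa using hw)
  refine ⟨L.toFinset, L.toFinset_card_le, le_antisymm (fun w hw => ?_) k⟩
  exact (QuotientGroup.eq_one_iff _).1 (h2 _ (QuotientGroup.mk' _) (QuotientGroup.lift _ _ k)
    (QuotientGroup.mk'_surjective _) rfl
    (fun w hw => (QuotientGroup.eq_one_iff _).2 (Subgroup.subset_normalClosure (by simpa using hw))) w hw)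

theorem pw_mem' {H : Subgroup G} {u h : G} (hu : ∀ i : ℕ, h ^ i * u * (h ^ i)⁻¹ ∈ H) (g : ℤ[X]) : pw u h g ∈ H :=
  H.list_prod_mem fun x hx => by
    obtain ⟨i, -, rfl⟩ := List.mem_map.1 hx
    exact zpow_mem (hu i) _

theorem cstep {a b c d : G} (h1 : Commute (a * b) (c * d)) (h2 : Commute b (c * d)) (h3 : Commute a c) : Commute a d := by
  have c2 := h1.mul_left h2.inv_left
  rw [mul_inv_cancel_right] at c2
  have := h3.inv_right.mul_right c2
  rwa [inv_mul_cancel_left] at this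

theorem cj_comm {a b : G} (h : Commute a b) (g : G) : Commute (g * a * g⁻¹) (g * b * g⁻¹) := h.map (MulAut.conj g)

/-- Baumslag's trick with two generators -/
theorem baum2 {u h s : G} {l : ℕ} (hs : Commute h s) (r1 : s ^ l * u * (s ^ l)⁻¹ = u * (s * u * s⁻¹))
    (r2 : Commute u (s * u * s⁻¹)) (c0 : Commute u (h * u * h⁻¹)) (c1 : Commute u (s * (h * u * h⁻¹) * s⁻¹))
    {f g : ℤ[X]} (r4 : h * (h * u * h⁻¹) * h⁻¹ = pw u s f * pw (h * u * h⁻¹) s g) (i : ℕ) :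
    Commute u (h ^ i * u * (h ^ i)⁻¹) := by
  have e0 : ∀ (k : ℕ) x, h * (s ^ k * x * (s ^ k)⁻¹) * h⁻¹ = s ^ k * (h * x * h⁻¹) * (s ^ k)⁻¹ := fun k x => by
    have := (hs.pow_right k).eq
    calc _ = (h * s ^ k) * x * (h * s ^ k)⁻¹ := by group
      _ = _ := by rw [this]; group
  generalize hv : h * u * h⁻¹ = v at *
  have r1' : s ^ l * v * (s ^ l)⁻¹ = v * (s * v * s⁻¹) := by
    have := e0 1 u
    rw [pow_one, hv] at this
    rw [← this, ← hv, ← e0, r1]; group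
  have key : ∀ j : ℕ, Commute u (s ^ j * v * (s ^ j)⁻¹) ∧ Commute u (s ^ (j + 1) * v * (s ^ (j + 1))⁻¹) := fun j => by
    induction j with
    | zero => simpa using ⟨c0, c1⟩
    | succ j ih =>
      have e : ∀ k : ℕ, s * (s ^ k * v * (s ^ k)⁻¹) * s⁻¹ = s ^ (k + 1) * v * (s ^ (k + 1))⁻¹ := fun k => by group
      have c := cj_comm ih.2 (s ^ l)
      rw [r1, show s ^ l * (s ^ (j + 1) * v * (s ^ (j + 1))⁻¹) * (s ^ l)⁻¹ =
        s ^ (j + 1) * (s ^ l * v * (s ^ l)⁻¹) * (s ^ (j + 1))⁻¹ by group, r1',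
        show s ^ (j + 1) * (v * (s * v * s⁻¹)) * (s ^ (j + 1))⁻¹ =
          s ^ (j + 1) * v * (s ^ (j + 1))⁻¹ * (s ^ (j + 1 + 1) * v * (s ^ (j + 1 + 1))⁻¹) by group] at c
      exact ⟨ih.2, cstep c ((e j ▸ cj_comm ih.1 s).mul_right (e _ ▸ cj_comm ih.2 s)) ih.2⟩
  let V := Subgroup.closure (Set.range (fun k : ℕ => s ^ k * u * (s ^ k)⁻¹) ∪ Set.range fun k : ℕ => s ^ k * v * (s ^ k)⁻¹)
  have m1 : ∀ k : ℕ, s ^ k * u * (s ^ k)⁻¹ ∈ V := fun k => Subgroup.subset_closure (.inl ⟨k, rfl⟩)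
  have m2 : ∀ k : ℕ, s ^ k * v * (s ^ k)⁻¹ ∈ V := fun k => Subgroup.subset_closure (.inr ⟨k, rfl⟩)
  have h1 : V ≤ Subgroup.centralizer {u} := (Subgroup.closure_le _).2 (by
    rintro _ (⟨k, rfl⟩ | ⟨k, rfl⟩) <;> refine Subgroup.mem_centralizer_singleton_iff.2 (Commute.symm ?_)
    exacts [baumslag_one r2 r1 k, (key k).1])
  have h2 : V ≤ V.comap (MulAut.conj h).toMonoidHom := (Subgroup.closure_le _).2 (by
    rintro _ (⟨k, rfl⟩ | ⟨k, rfl⟩) <;> change h * _ * h⁻¹ ∈ V <;> rw [e0]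
    · exact hv ▸ m2 k
    · rw [r4, ← conj_mul, conj_pw, conj_pw, mul_assoc _ s, ((Commute.refl s).pow_right k).inv_right.eq, mul_inv_cancel_left]
      refine mul_mem (pw_mem' (fun i => ?_) _) (pw_mem' (fun i => ?_) _)
      · convert m1 (i + k) using 1; group
      · convert m2 (i + k) using 1; group)
  have h3 : h ^ i * u * (h ^ i)⁻¹ ∈ V := by
    induction i with
    | zero => simpa using m1 0
    | succ i ih => convert (show h * _ * h⁻¹ ∈ V from h2 ih) using 1; group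
  exact (Subgroup.mem_centralizer_singleton_iff.1 (h1 h3)).symm

section
variable {u h : G} (hc : ∀ i : ℕ, Commute u (h ^ i * u * (h ^ i)⁻¹))
include hc

theorem pw_Xpow (k : ℕ) (f : ℤ[X]) : pw u h (X ^ k * f) = h ^ k * pw u h f * (h ^ k)⁻¹ := by
  induction k with
  | zero => simp
  | succ k ih => rw [pow_succ', mul_assoc, pw_X_mul hc, ih]; group

/-- the subgroup of polynomial words -/
def pwS : Subgroup G where
  carrier := Set.range (pw u h)
  mul_mem' := by rintro _ _ ⟨f, rfl⟩ ⟨g, rfl⟩; exact ⟨_, pw_add hc f g⟩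
  one_mem' := ⟨0, pw_zero⟩
  inv_mem' := by rintro _ ⟨f, rfl⟩; exact ⟨_, pw_neg hc f⟩

theorem nf {n : ℕ} (hn : h ^ (n + 1) = 1) (ht : Subgroup.closure {h, u} = ⊤) (j : G) :
    ∃ (f : ℤ[X]) (k : ℕ), j = pw u h f * h ^ k := by
  let S : Subgroup G :=
    { carrier := {j | ∃ (f : ℤ[X]) (k : ℕ), j = pw u h f * h ^ k}
      mul_mem' := by
        rintro _ _ ⟨f, k, rfl⟩ ⟨g, l, rfl⟩
        exact ⟨f + X ^ k * g, k + l, by rw [pw_add hc, pw_Xpow hc]; group⟩
      one_mem' := ⟨0, 0, by simp [pw_zero]⟩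
      inv_mem' := by
        rintro _ ⟨f, k, rfl⟩
        refine ⟨X ^ (n * k) * -f, n * k, ?_⟩
        rw [pw_Xpow hc, pw_neg hc, inv_mul_cancel_right, mul_inv_rev, mul_left_inj, inv_eq_iff_mul_eq_one, ← pow_add,
          show k + n * k = (n + 1) * k by ring, pow_mul, hn, one_pow] }
  refine (ht.ge.trans ((Subgroup.closure_le S).2 ?_)) (Subgroup.mem_top j)
  rintro _ (rfl | rfl)
  · exact ⟨0, 1, by simp [pw_zero]⟩
  · exact ⟨C 1, 0, by rw [pw_C]; simp⟩

theorem cen4 {F : Type*} [CommRing F] {ν : F} (hk : ∀ g : ℤ[X], aeval ν g = 0 → pw u h g = 1) {a l : ℕ}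
    (ha : ν ^ a = ν ^ 2) (hl : ν ^ l = 1 + ν) {y : G} {g : ℤ[X]}
    (r : (h ^ a) ^ l * y * ((h ^ a) ^ l)⁻¹ = y * (h ^ a * y * (h ^ a)⁻¹) * pw u h g)
    (c : ∀ i ≤ 3, Commute y (h ^ i * u * (h ^ i)⁻¹)) (f : ℤ[X]) : Commute y (pw u h f) := by
  have e : ∀ {f g : ℤ[X]}, aeval ν f = aeval ν g → pw u h f = pw u h g := fun {f g} e => by
    rw [show f = g + (f - g) by ring, pw_add hc, hk (f - g) (by rw [map_sub, e, sub_self]), mul_one]
  have key : ∀ n, ∀ i ≤ n + 3, Commute y (pw u h (X ^ i)) := fun n => by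
    induction n with
    | zero => intro i hi; rw [pw_X_pow]; exact c i hi
    | succ n ih =>
      intro i hi
      rcases hi.eq_or_lt with rfl | hi
      swap
      · exact ih i (by omega)
      have c1 := cj_comm (ih (n + 2) (by omega)) ((h ^ a) ^ l)
      have c2 := cj_comm (((ih n (by omega)).mul_right (ih (n + 1) (by omega))).mul_right
        ((ih (n + 1) (by omega)).mul_right (ih (n + 2) (by omega)))) (h ^ a)
      have c3 := ((ih (n + 2) (by omega)).mul_right (ih (n + 3) le_rfl)).mul_right (ih (n + 3) le_rfl)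
      rw [r, ← pow_mul, ← pw_Xpow hc, e (f := _ * _) (g := (X ^ (n + 2) + X ^ (n + 3) + X ^ (n + 3)) + X ^ (n + 1 + 3)) (by
        simp only [map_mul, map_pow, map_add, aeval_X, pow_mul, ha, pow_right_comm ν 2 l, hl]; ring), pw_add hc] at c1
      rw [← pw_add hc, ← pw_add hc, ← pw_add hc, ← pw_Xpow hc,
        e (g := (X ^ (n + 2) + X ^ (n + 3) + X ^ (n + 3)) + X ^ (n + 1 + 3)) (by
        simp only [map_mul, map_pow, map_add, aeval_X, ha]; ring), pw_add hc] at c2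
      rw [← pw_add hc, ← pw_add hc] at c3
      rw [mul_assoc] at c1
      refine cstep c1 (c2.mul_left ?_) c3
      rw [← pw_add hc, Commute, SemiconjBy, ← pw_add hc, ← pw_add hc, add_comm]
  exact commute_pw (fun i => by rw [← pw_X_pow]; exact key i i (by omega)) f

end

theorem dc_sub (B : Subgroup G) {W : G} (hW : W * W = 1)
    (h : ∀ b ∈ B, W * b * W ∈ B ∨ ∃ b1 ∈ B, ∃ b2 ∈ B, W * b * W = b1 * W * b2) :
    ∃ Γ : Subgroup G, B ≤ Γ ∧ W ∈ Γ ∧ ∀ g ∈ Γ, g ∈ B ∨ ∃ b1 ∈ B, ∃ b2 ∈ B, g = b1 * W * b2 := by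
  refine ⟨Subgroup.closure (insert W B), fun b hb => Subgroup.subset_closure (.inr hb),
    Subgroup.subset_closure (.inl rfl), fun g hg => ?_⟩
  have k : ∀ x ∈ insert W (B : Set G), ∀ g, (g ∈ B ∨ ∃ b1 ∈ B, ∃ b2 ∈ B, g = b1 * W * b2) →
      x * g ∈ B ∨ ∃ b1 ∈ B, ∃ b2 ∈ B, x * g = b1 * W * b2 := by
    rintro x (rfl | hx) g (hg | ⟨b1, h1, b2, h2, rfl⟩)
    · exact .inr ⟨1, one_mem _, g, hg, by rw [one_mul]⟩
    · rcases h b1 h1 with h | ⟨b3, h3, b4, h4, h⟩
      · exact .inl (by simpa only [mul_assoc] using mul_mem h h2)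
      · exact .inr ⟨b3, h3, b4 * b2, mul_mem h4 h2, by rw [← mul_assoc, ← mul_assoc, ← mul_assoc, h]⟩
    · exact .inl (mul_mem hx hg)
    · exact .inr ⟨x * b1, mul_mem hx h1, b2, h2, by simp only [mul_assoc]⟩
  induction hg using Subgroup.closure_induction_left with
  | one => exact .inl (one_mem _)
  | mul_left x hx g _ ih => exact k x hx g ih
  | inv_mul_cancel x hx g _ ih =>
    refine k _ ?_ g ih
    rcases hx with rfl | hx
    exacts [.inl (inv_eq_of_mul_eq_one_right hW), .inr (inv_mem hx)]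

end H7.UP
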