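import Cfsg.Agent.H7.UP1
import Cfsg.Agent.H18.Su3

/-! Short presentations of `SU₃(q)`: the Borel subgroup. -/

set_option autoImplicit false
set_option linter.unusedSectionVars false
set_option linter.unusedSimpArgs false

namespace H7.UP

open Polynomial H18.Su H23
open scoped commutatorElement

attribute [-simp] H23.conj_apply

section
variable {J : Type*} [Group J] {J' : Type*} [Group J']

/-- the relators of `U / Z` -/
noncomputable def wq (h u : J) (a l : ℕ) (p : ℤ) (m f g : ℤ[X]) : Fin 6 → J :=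
  ![(u * (h ^ a * u * (h ^ a)⁻¹))⁻¹ * ((h ^ a) ^ l * u * ((h ^ a) ^ l)⁻¹), ⁅u, h ^ a * u * (h ^ a)⁻¹⁆,
    ⁅u, h ^ a * (h * u * h⁻¹) * (h ^ a)⁻¹⁆, h * (h * u * h⁻¹) * h⁻¹ / (pw u (h ^ a) f * pw (h * u * h⁻¹) (h ^ a) g),
    pw u h (C p), pw u h m]

theorem map_wq (φ : J →* J') (h u : J) (a l : ℕ) (p : ℤ) (m f g : ℤ[X]) (i : Fin 6) :
    φ (wq h u a l p m f g i) = wq (φ h) (φ u) a l p m f g i := by
  fin_cases i <;> simp [wq, map_pw, map_commutatorElement]

/-- the relators of the Borel subgroup -/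
noncomputable def relB (h u z : J) (n a l : ℕ) (p : ℤ) (m' m f g : ℤ[X]) (G : Fin 6 → ℤ[X]) : List J :=
  [h ^ (n + 1), ⁅z, h * z * h⁻¹⁆, h ^ l * z * (h ^ l)⁻¹ / (z * (h * z * h⁻¹)), pw z h (C p), pw z h m'] ++
    List.ofFn (fun i : Fin 4 => ⁅u, h ^ i.val * z * (h ^ i.val)⁻¹⁆) ++ List.ofFn fun i => wq h u a l p m f g i / pw z h (G i)

theorem relB_map (φ : J →* J') (h u z : J) (n a l : ℕ) (p : ℤ) (m' m f g : ℤ[X]) (G : Fin 6 → ℤ[X]) :
    (relB h u z n a l p m' m f g G).map φ = relB (φ h) (φ u) (φ z) n a l p m' m f g G := by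
  simp only [relB, List.map_append, List.map_cons, List.map_nil, List.map_ofFn, Function.comp_def, map_pow, map_mul,
    map_inv, _root_.map_div, map_pw, map_commutatorElement, map_wq]

theorem relB_iff {h u z : J} {n a l : ℕ} {p : ℤ} {m' m f g : ℤ[X]} {G : Fin 6 → ℤ[X]} :
    (∀ x ∈ relB h u z n a l p m' m f g G, x = 1) ↔ (h ^ (n + 1) = 1 ∧ Commute z (h * z * h⁻¹) ∧
      h ^ l * z * (h ^ l)⁻¹ = z * (h * z * h⁻¹) ∧ pw z h (C p) = 1 ∧ pw z h m' = 1) ∧
      (∀ i : Fin 4, Commute u (h ^ i.val * z * (h ^ i.val)⁻¹)) ∧ ∀ i, wq h u a l p m f g i = pw z h (G i) := by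
  simp only [relB, List.forall_mem_append, List.forall_mem_cons, List.forall_mem_ofFn_iff, div_eq_one,
    commutatorElement_eq_one_iff_commute, List.not_mem_nil, false_imp_iff, implies_true, and_true, and_assoc]

variable {F : Type*} [CommRing F] {μ : F} {x : F → J} {h : J} (h1 : ∀ s t, x (s + t) = x s * x t)
  (h2 : ∀ t, h * x t * h⁻¹ = x (μ * t))

include h2 in
theorem cj_pow (k : ℕ) (t : F) : h ^ k * x t * (h ^ k)⁻¹ = x (μ ^ k * t) := by
  induction k with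
  | zero => simp
  | succ k ih => rw [pow_succ' μ, mul_assoc μ, ← h2, ← ih]; group

include h1 in
theorem x_zero : x 0 = 1 := by simpa using h1 0 0

include h1 in
theorem x_comm (s t : F) : Commute (x s) (x t) := by rw [Commute, SemiconjBy, ← h1, ← h1, add_comm]

include h1 h2 in
theorem wq_one {a l : ℕ} {p : ℤ} {m f g : ℤ[X]} (hl : (μ ^ a) ^ l = 1 + μ ^ a) (hp : (p : F) = 0) (hm : aeval μ m = 0)
    (hf : μ ^ 2 = aeval (μ ^ a) f + aeval (μ ^ a) g * μ) (i : Fin 6) : wq h (x 1) a l p m f g i = 1 := by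
  have e := pw_eq_of (x := fun t => x (t * μ)) (c := μ ^ a) (h := h ^ a) (fun s t => by rw [add_mul, h1])
    (fun t => by rw [cj_pow h2, mul_assoc]) g
  rw [one_mul] at e
  fin_cases i <;> simp only [wq, Fin.zero_eta, Fin.mk_one, Fin.reduceFinMk, Matrix.cons_val, h2, cj_pow h2,
    cj_pow (cj_pow h2 a), commutatorElement_eq_one_iff_commute, x_comm h1, mul_one, pw_eq_of h1 h2, div_eq_one,
    pw_eq_of h1 (cj_pow h2 a), e, ← h1, inv_mul_eq_one, hl, hm, x_zero h1]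
  · rw [← hf, sq]
  · simp [hp, x_zero h1]

end

variable {F : Type*} [Field F] [Fintype F] {q : ℕ} {hF : Fintype.card F = q ^ 2}

/-- unipotent elements of the Borel subgroup -/
def xb (c b : F) (h : b + conj hF b = c * conj hF c) : BB hF := ⟨xx c b h, xx_mem c b h⟩

variable (hF) in
/-- torus elements of the Borel subgroup -/
def tb : Fˣ →* BB hF := (tH hF).codRestrict _ tt_mem

theorem xb_congr {c b c' b' : F} {h : b + conj hF b = c * conj hF c} {h' : b' + conj hF b' = c' * conj hF c'}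
    (e1 : c = c') (e2 : b = b') : xb c b h = xb c' b' h' := by subst e1 e2; rfl

theorem xb_zero : xb (hF := hF) 0 0 (by simp) = 1 := Subtype.ext xx_zero

theorem xb_mul {c b c' b' : F} (h : b + conj hF b = c * conj hF c) (h' : b' + conj hF b' = c' * conj hF c') :
    xb c b h * xb c' b' h' = xb (c + c') (b + b' + conj hF c * c') (by
      simp only [map_add, map_mul, H23.conj_conj]; linear_combination h + h') := Subtype.ext (xx_mul h h')

theorem nrm_ok (l : Fˣ) {c b : F} (h : b + conj hF b = c * conj hF c) : l * conj hF l * b + conj hF (l * conj hF l * b) =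
    (conj hF l ^ 2 / l * c) * conj hF (conj hF l ^ 2 / l * c) := by
  have := conj_ne (hF := hF) l.ne_zero
  have := l.ne_zero
  simp only [map_mul, map_div₀, map_pow, H23.conj_conj]
  field_simp
  linear_combination h

theorem tb_xb (l : Fˣ) {c b : F} (h : b + conj hF b = c * conj hF c) :
    tb hF l * xb c b h * (tb hF l)⁻¹ = xb (conj hF l ^ 2 / l * c) (l * conj hF l * b) (nrm_ok l h) :=
  mul_inv_eq_of_eq_mul (Subtype.ext (tt_xx l h))

theorem nfB (g : BB hF) : ∃ (l : Fˣ) (c b : F) (h : b + conj hF b = c * conj hF c), g = xb c b h * tb hF l :=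
  let ⟨l, c, b, h, e⟩ := exists_of_mem_BB g.2; ⟨l, c, b, h, Subtype.ext e⟩

theorem xt_inj {c b c' b' : F} {h : b + conj hF b = c * conj hF c} {h' : b' + conj hF b' = c' * conj hF c'} {l : Fˣ}
    (e : xb c b h * tb hF l = xb c' b' h') : l = 1 ∧ c = c' ∧ b = b' := by
  have e1 := chi_xt (g := xb c b h * tb hF l) (h := h) (l := l) rfl
  rw [e, chi_xt (l := 1) (h := h') (by rw [tt_one, mul_one]; rfl)] at e1
  rw [← e1, map_one, mul_one] at e
  exact ⟨e1.symm, xx_inj (h := h) (h' := h') (congrArg Subtype.val e)⟩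

variable (hF) in
/-- the long root subgroup -/
def Z0 : Subgroup (BB hF) where
  carrier := {g | ∃ b h, g = xb 0 b h}
  mul_mem' := by
    rintro _ _ ⟨b, h, rfl⟩ ⟨b', h', rfl⟩
    exact ⟨b + b', by rw [map_add]; linear_combination h + h',
      (xb_mul h h').trans (xb_congr (add_zero _) (by simp))⟩
  one_mem' := ⟨0, _, xb_zero.symm⟩
  inv_mem' := by
    rintro _ ⟨b, h, rfl⟩
    refine ⟨-b, by rw [map_neg]; linear_combination -h, inv_eq_of_mul_eq_one_right ?_⟩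
    rw [xb_mul]
    exact (xb_congr (by simp) (by simp)).trans xb_zero

instance : (Z0 hF).Normal := ⟨by
  rintro _ ⟨b, h, rfl⟩ g
  obtain ⟨b', h', e, -⟩ := conj_xx g h
  exact ⟨b', by simpa using h', (Subtype.ext e :  _ = xb _ _ h').trans (xb_congr (mul_zero _) rfl)⟩⟩

theorem mk_xb {c b b' : F} (h : b + conj hF b = c * conj hF c) (h' : b' + conj hF b' = c * conj hF c) :
    QuotientGroup.mk' (Z0 hF) (xb c b h) = QuotientGroup.mk' (Z0 hF) (xb c b' h') := by
  have k : b' - b + conj hF (b' - b) = 0 * conj hF 0 := by rw [map_sub]; linear_combination h' - h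
  refine (QuotientGroup.mk'_eq_mk' _).2 ⟨xb 0 _ k, ⟨_, k, rfl⟩, ?_⟩
  rw [xb_mul]
  exact xb_congr (by simp) (by simp)

/-- a section of `U → U / Z` -/
def xs {b0 : F} (h0 : b0 + conj hF b0 = 1) (c : F) : BB hF :=
  xb c (c * conj hF c * b0) (by simp only [map_mul, H23.conj_conj]; linear_combination c * conj hF c * h0)

variable (hF) in
/-- long root elements -/
def zx (θ t : F) : BB hF := xb 0 (t * θ - conj hF (t * θ)) (by simp [H23.conj_conj])

theorem zx_add (θ s t : F) : zx hF θ (s + t) = zx hF θ s * zx hF θ t := by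
  rw [zx, zx, zx, xb_mul]
  exact xb_congr (by simp) (by simp; ring)

theorem tb_zx (θ : F) (l : Fˣ) (t : F) : tb hF l * zx hF θ t * (tb hF l)⁻¹ = zx hF θ (l * conj hF l * t) := by
  rw [zx, zx, tb_xb]
  exact xb_congr (by simp) (by simp [H23.conj_conj]; ring)

theorem tb_xs {b0 : F} (h0 : b0 + conj hF b0 = 1) (l : Fˣ) (c : F) :
    tb hF l * xs h0 c * (tb hF l)⁻¹ = xs h0 (conj hF l ^ 2 / l * c) := by
  have := conj_ne (hF := hF) l.ne_zero
  have := l.ne_zero
  rw [xs, xs, tb_xb]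
  refine xb_congr rfl ?_
  simp only [map_mul, map_div₀, map_pow, H23.conj_conj]
  field_simp

theorem xs_comm {b0 : F} (h0 : b0 + conj hF b0 = 1) (c : F) : ⁅xs h0 1, xs h0 c⁆ = zx hF c 1 := by
  rw [commutatorElement_def, mul_inv_eq_iff_eq_mul, mul_inv_eq_iff_eq_mul, xs, xs, zx, xb_mul, xb_mul, xb_mul]
  exact xb_congr (by ring) (by simp; ring)

theorem xs_zx {b0 : F} (h0 : b0 + conj hF b0 = 1) (c θ t : F) : Commute (xs h0 c) (zx hF θ t) := by
  rw [Commute, SemiconjBy, xs, zx, xb_mul, xb_mul]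
  exact xb_congr (by ring) (by simp; ring)

section
variable {ζ : Fˣ} (hz : ∀ x, x ∈ Subgroup.zpowers ζ)
include hz

theorem ord_z (hF : Fintype.card F = q ^ 2) : orderOf ζ = (q + 1) * (q - 1) := by
  rw [orderOf_eq_card_of_forall_mem_zpowers hz, card_units_eq hF]

theorem ex_pow {t : F} (h : t ≠ 0) : ∃ k : ℕ, t = ζ ^ k := by
  obtain ⟨k, hk⟩ := (mem_powers_iff_mem_zpowers).2 (hz (Units.mk0 t h))
  exact ⟨k, by simpa using (congrArg Units.val hk).symm⟩

theorem fix_pow {t : F} (h : t ≠ 0) (ht : conj hF t = t) : ∃ k : ℕ, t = (ζ * conj hF ζ) ^ k := by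
  obtain ⟨x, rfl⟩ := exists_norm_eq hF (μ := t) ht
  obtain ⟨k, rfl⟩ := ex_pow hz (t := x) (by rintro rfl; simp at h)
  exact ⟨k, by rw [conj_apply]; ring⟩

theorem fix_aeval {t : F} (ht : conj hF t = t) : ∃ g : ℤ[X], aeval (ζ * conj hF ζ : F) g = t := by
  by_cases h : t = 0
  · exact ⟨0, by simp [h]⟩
  · obtain ⟨k, rfl⟩ := fix_pow hz h ht
    exact ⟨X ^ k, by simp⟩

theorem nu_ne (hq : 4 ≤ q) : (1 + ζ * conj hF ζ : F) ≠ 0 := fun h => by
  have : ζ ^ ((q + 1) * 2) = 1 := Units.ext (by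
    rw [conj_apply] at h
    rw [Units.val_pow_eq_pow_val, pow_mul, pow_succ', Units.val_one]
    linear_combination ((ζ : F) * ζ ^ q - 1) * h)
  have := Nat.le_of_dvd (by omega) (Nat.dvd_of_mul_dvd_mul_left (by omega) (ord_z hz hF ▸ orderOf_dvd_of_pow_eq_one this))
  omega

theorem mu_ne (hq : 4 ≤ q) : (conj hF ζ ^ 2 / ζ - conj hF (conj hF ζ ^ 2 / ζ) : F) ≠ 0 := fun h => by
  have h1 := conj_ne (hF := hF) ζ.ne_zero
  have h2 := ζ.ne_zero
  obtain ⟨r, rfl⟩ : ∃ r, q = r + 1 := ⟨q - 1, by omega⟩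
  have : ζ ^ (3 * r) = 1 := Units.ext (by
    simp only [map_div₀, map_pow, H23.conj_conj] at h
    field_simp at h
    rw [conj_apply] at h
    rw [Units.val_pow_eq_pow_val, Units.val_one]
    refine mul_left_cancel₀ (pow_ne_zero 3 h2) ?_
    linear_combination h)
  have := Nat.le_of_dvd (by omega) (Nat.dvd_of_mul_dvd_mul_right (by omega)
    (ord_z hz hF ▸ orderOf_dvd_of_pow_eq_one this : (r + 1 + 1) * r ∣ 3 * r))
  omega

theorem mem_Z0 {θ : F} (hθ : θ - conj hF θ ≠ 0) {g : BB hF} (hg : g ∈ Z0 hF) : ∃ f, g = pw (zx hF θ 1) (tb hF ζ) f := by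
  obtain ⟨b, h, rfl⟩ := hg
  have h' : conj hF (θ - conj hF θ) = -(θ - conj hF θ) := by simp [H23.conj_conj]
  have k : conj hF (b / (θ - conj hF θ)) = b / (θ - conj hF θ) := by
    rw [map_div₀, h', show conj hF b = -b by linear_combination h, neg_div_neg_eq]
  obtain ⟨f, hf⟩ := fix_aeval hz k
  refine ⟨f, ?_⟩
  rw [pw_eq_of (zx_add θ) (tb_zx θ ζ), hf, zx]
  exact xb_congr rfl (by rw [map_mul, k]; field_simp)

end

theorem mu_pow (l : Fˣ) : (conj hF l ^ 2 / l : F) ^ (q + 1) = l * conj hF l := by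
  have h1 := conj_ne (hF := hF) l.ne_zero
  have h2 := l.ne_zero
  rw [pow_succ, ← conj_apply hF]
  simp only [map_div₀, map_pow, H23.conj_conj]
  field_simp

theorem aeval_fix {ν : F} (h : conj hF ν = ν) (g : ℤ[X]) : conj hF (aeval ν g) = aeval ν g := by
  conv_rhs => rw [← h]
  exact (aeval_algHom_apply (conj hF).toIntAlgHom ν g).symm

theorem split {μ : F} (h : μ - conj hF μ ≠ 0) (t : F) : ∃ r s : F, conj hF r = r ∧ conj hF s = s ∧ t = r + s * μ := by
  have h' : conj hF μ - μ ≠ 0 := fun e => h (by linear_combination -e)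
  refine ⟨(μ * conj hF t - conj hF μ * t) / (μ - conj hF μ), (t - conj hF t) / (μ - conj hF μ), ?_, ?_, ?_⟩ <;>
    (try simp only [map_div₀, map_sub, map_mul, H23.conj_conj]) <;> field_simp <;> ring

theorem cmem {J : Type*} [Group J] {K : Subgroup J} {x y : J} (h : x ∈ K) (h' : y ∈ K) : ⁅x, y⁆ ∈ K :=
  mul_mem (mul_mem (mul_mem h h') (inv_mem h)) (inv_mem h')

theorem normal_pwS {J : Type*} [Group J] {h u z : J} (hc : ∀ i : ℕ, Commute z (h ^ i * z * (h ^ i)⁻¹)) {n : ℕ}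
    (hn : h ^ (n + 1) = 1) (ht : Subgroup.closure {h, u} = ⊤) (c : ∀ f, Commute u (pw z h f)) : (pwS hc).Normal := by
  refine ⟨fun g hg j => ?_⟩
  induction (ht.ge (Subgroup.mem_top j)) using Subgroup.closure_induction_left with
  | one => simpa using hg
  | mul_left x hx j _ ih =>
    obtain ⟨f, hf⟩ := ih
    rw [show x * j * g * (x * j)⁻¹ = x * (j * g * j⁻¹) * x⁻¹ by group, ← hf]
    rcases hx with rfl | rfl
    · exact ⟨_, pw_X_mul hc f⟩
    · exact ⟨f, by rw [(c f).eq, mul_inv_cancel_right]⟩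
  | inv_mul_cancel x hx j _ ih =>
    obtain ⟨f, hf⟩ := ih
    rw [show x⁻¹ * j * g * (x⁻¹ * j)⁻¹ = x⁻¹ * (j * g * j⁻¹) * x⁻¹⁻¹ by group, ← hf]
    rcases hx with rfl | rfl
    · exact ⟨_, by rw [pw_Xpow hc n f, ← inv_eq_of_mul_eq_one_left ((pow_succ _ _).symm.trans hn)]⟩
    · exact ⟨f, by rw [(c f).inv_left.eq, mul_inv_cancel_right]⟩

theorem pg_B (hq : 4 ≤ q) : PG (BB hF) 2 15 := by
  obtain ⟨ζ, hz⟩ := IsCyclic.exists_generator (α := Fˣ)
  obtain ⟨⟨b0, h0⟩⟩ : Nonempty {x : F // x + x ^ q = 1} :=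
    (Nat.card_pos_iff.1 (by rw [card_trace_eq hF (one_pow _)]; omega)).1
  rw [← conj_apply hF] at h0
  obtain ⟨p, -, hp, hpF, -⟩ := exists_pow_of_card_eq_sq hF
  have := Fact.mk hp
  set ν : F := ζ * conj hF ζ with hν
  set μ : F := conj hF ζ ^ 2 / ζ with hμ
  have νf : conj hF ν = ν := by rw [hν, map_mul, H23.conj_conj, mul_comm]
  have μν : μ ^ (q + 1) = ν := mu_pow ζ
  have μn : μ - conj hF μ ≠ 0 := mu_ne hz hq
  obtain ⟨l, hl⟩ := fix_pow hz (nu_ne (hF := hF) hz hq) (by rw [map_add, map_one, νf])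
  rw [← hν] at hl
  obtain ⟨m', m1, m2⟩ := exists_two_gen ν p
  obtain ⟨m, m3, m4⟩ := exists_two_gen μ p
  obtain ⟨r, s, hr, hs, e⟩ := split μn (μ ^ 2)
  obtain ⟨f, rfl⟩ := fix_aeval hz hr
  obtain ⟨g, rfl⟩ := fix_aeval hz hs
  obtain ⟨n, hn⟩ : ∃ n, orderOf ζ = n + 1 := ⟨_, (Nat.succ_pred_eq_of_pos (orderOf_pos ζ)).symm⟩
  let mk := QuotientGroup.mk' (Z0 hF)
  have x1 : ∀ s t, mk (xs h0 (s + t)) = mk (xs h0 s) * mk (xs h0 t) := fun s t => by
    rw [← map_mul, xs, xs, xs, xb_mul]; exact mk_xb _ _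
  have x2 : ∀ t, mk (tb hF ζ) * mk (xs h0 t) * (mk (tb hF ζ))⁻¹ = mk (xs h0 (μ * t)) := fun t => by
    rw [← map_inv, ← map_mul, ← map_mul, tb_xs]
  have hv : ⁅xs h0 1, tb hF ζ * xs h0 1 * (tb hF ζ)⁻¹⁆ = zx hF μ 1 := by rw [tb_xs, mul_one, xs_comm]
  have w1 : ∀ i, ∃ G, wq (tb hF ζ) (xs h0 1) (q + 1) l p m f g i = pw (zx hF μ 1) (tb hF ζ) G := fun i =>
    mem_Z0 hz μn ((QuotientGroup.eq_one_iff _).1 ((map_wq mk _ _ _ _ _ _ _ _ i).trans
      (wq_one (x := fun t => mk (xs h0 t)) x1 x2 (by rw [μν, hl]) (by simp) m3 (by rw [μν]; exact e) i)))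
  choose G hG using w1
  have gen : ∀ t : F, ∃ f : ℤ[X], aeval μ f = t := fun t => by
    obtain ⟨r, s, hr, hs, rfl⟩ := split μn t
    obtain ⟨f, rfl⟩ := fix_aeval hz hr
    obtain ⟨g, rfl⟩ := fix_aeval hz hs
    exact ⟨f.comp (X ^ (q + 1)) + g.comp (X ^ (q + 1)) * X, by simp [aeval_comp, μν, hν]⟩
  let L := relB (FreeGroup.of (0 : Fin 2)) (.of 1) ⁅FreeGroup.of (1 : Fin 2), FreeGroup.of (0 : Fin 2) * .of 1 * (.of 0)⁻¹⁆ n (q + 1) l p m' m f g G
  refine ⟨![tb hF ζ, xs h0 1], (intro2 L ((List.forall_mem_map (P := (· = 1))).1 ?_) fun J _ ρ π hρ hπ H j hj => ?_).mono (by simp [L, relB]), ?_⟩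
  · rw [relB_map, relB_iff]
    simp only [map_commutatorElement, map_mul, map_inv, FreeGroup.lift_apply_of, Matrix.cons_val_zero, Matrix.cons_val_one,
      hv, hG, tb_zx, cj_pow (tb_zx μ ζ), pw_eq_of (zx_add μ) (tb_zx μ ζ), x_comm (zx_add μ), xs_zx, ← hν, m1, ← zx_add, ← hl]
    simp [← map_pow, ← hn, pow_orderOf_eq_one, x_zero (zx_add μ)]
  · have H := (List.forall_mem_map (P := (· = 1))).2 H
    rw [relB_map, relB_iff] at H
    simp only [map_commutatorElement, map_mul, map_inv] at H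
    have πh : π (ρ (.of 0)) = tb hF ζ := by rw [← MonoidHom.comp_apply, hπ]; simp
    have πu : π (ρ (.of 1)) = xs h0 1 := by rw [← MonoidHom.comp_apply, hπ]; simp
    have ht : Subgroup.closure {ρ (.of 0), ρ (.of 1)} = ⊤ := by
      rw [eq_top_iff, ← Subgroup.map_top_of_surjective ρ hρ, ← FreeGroup.closure_range_of, MonoidHom.map_closure]
      refine Subgroup.closure_mono ?_
      rintro _ ⟨_, ⟨i, rfl⟩, rfl⟩
      fin_cases i <;> simp
    generalize ρ (.of 0) = h at *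
    generalize ρ (.of 1) = u at *
    have πz : π ⁅u, h * u * h⁻¹⁆ = zx hF μ 1 := by simp only [map_commutatorElement, map_mul, map_inv, πh, πu, hv]
    generalize hz' : ⁅u, h * u * h⁻¹⁆ = z at *
    obtain ⟨⟨R1, R2, R3, R4, R5⟩, R6, R7⟩ := H
    have hc := baumslag_one R2 R3
    have hk : ∀ g, aeval ν g = 0 → pw z h g = 1 := m2 (pwI hc) R4 R5
    have cen := cen4 hc hk (a := q + 1) (by rw [pow_succ, ← conj_apply hF, νf, sq]) hl.symm
      (eq_mul_of_inv_mul_eq (R7 0)) fun i hi => R6 ⟨i, by omega⟩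
    have := normal_pwS hc R1 ht cen
    let mj := QuotientGroup.mk' (pwS hc)
    have R8 : ∀ i, wq (mj h) (mj u) (q + 1) l p m f g i = 1 := fun i => by
      rw [← map_wq, R7]; exact (QuotientGroup.eq_one_iff _).2 ⟨_, rfl⟩
    have hq := baum2 (h := mj h) (u := mj u) (s := mj h ^ (q + 1)) ((Commute.refl _).pow_right _)
      (inv_mul_eq_one.1 (R8 0)).symm (commutatorElement_eq_one_iff_commute.1 (R8 1)) (by
        rw [← commutatorElement_eq_one_iff_commute, ← map_inv, ← map_mul, ← map_mul, ← map_commutatorElement, hz']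
        exact (QuotientGroup.eq_one_iff _).2 ⟨C 1, by rw [pw_C, zpow_one]⟩)
      (commutatorElement_eq_one_iff_commute.1 (R8 2)) (div_eq_one.1 (R8 3))
    have fin : ∀ j ∈ pwS hc, π j = 1 → j = 1 := by
      rintro _ ⟨f, rfl⟩ hj
      rw [map_pw, πz, πh, pw_eq_of (zx_add μ) (tb_zx μ ζ), zx, ← xb_zero] at hj
      have := (xx_inj (hF := hF) (h := by simp [H23.conj_conj]) (h' := by simp) (congrArg Subtype.val hj)).2
      rw [map_mul, aeval_fix νf, ← mul_sub] at this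
      exact hk f ((mul_eq_zero.1 this).resolve_right μn)
    obtain ⟨f', k, e⟩ := nf hq (n := n) (by rw [← map_pow, R1, map_one]) (by
      rw [← Set.image_pair, ← MonoidHom.map_closure, ht]
      exact Subgroup.map_top_of_surjective _ (QuotientGroup.mk'_surjective _)) (mj j)
    have e1 := e
    rw [← map_pw, ← map_pow, ← map_mul] at e1
    obtain ⟨_, ⟨g', rfl⟩, e2⟩ := (QuotientGroup.mk'_eq_mk' _).1 e1
    have e3 := congrArg (mk.comp π) e2
    simp only [MonoidHom.comp_apply, map_mul, hj, map_pw π, map_pow π, πz, πh, πu, pw_eq_of (zx_add μ) (tb_zx μ ζ),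
      map_one, one_mul] at e3
    rw [show mk (zx hF μ (aeval (ζ * conj hF ζ : F) g')) = 1 from (QuotientGroup.eq_one_iff _).2 ⟨_, _, rfl⟩, map_pw,
      pw_eq_of (x := fun t => mk (xs h0 t)) x1 x2, ← map_pow, ← map_mul] at e3
    obtain ⟨b, hb, e4⟩ := (QuotientGroup.eq_one_iff _).1 e3.symm
    obtain ⟨e5, e6, -⟩ := xt_inj e4
    obtain ⟨k, rfl⟩ := hn ▸ orderOf_dvd_of_pow_eq_one e5
    rw [m4 (pwI hq) (R8 4) (R8 5) f' e6, ← map_pow, pow_mul, R1, one_pow, map_one, one_mul] at e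
    exact fin j ((QuotientGroup.eq_one_iff _).1 e) hj
  · refine eq_top_iff.2 fun x _ => ?_
    have k1 : tb hF ζ ∈ Subgroup.closure (Set.range ![tb hF ζ, xs h0 1]) := Subgroup.subset_closure ⟨0, rfl⟩
    have k2 : xs h0 1 ∈ Subgroup.closure (Set.range ![tb hF ζ, xs h0 1]) := Subgroup.subset_closure ⟨1, rfl⟩
    obtain ⟨t, c, b, h, rfl⟩ := nfB x
    obtain ⟨f, rfl⟩ := gen c
    obtain ⟨k, rfl⟩ := hz t
    have : mk (pw (xs h0 1) (tb hF ζ) f) = mk (xb _ b h) := by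
      rw [map_pw, pw_eq_of (x := fun t => mk (xs h0 t)) x1 x2]; exact mk_xb _ _
    obtain ⟨y, hy, e⟩ := (QuotientGroup.mk'_eq_mk' _).1 this
    obtain ⟨g, rfl⟩ := mem_Z0 hz μn hy
    rw [← e, map_zpow, ← hv]
    exact mul_mem (mul_mem (pw_mem k2 k1 _) (pw_mem (cmem k2 (mul_mem (mul_mem k1 k2) (inv_mem k1))) k1 _)) (zpow_mem k1 _)

end H7.UP
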