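import Cfsg.Agent.H7.UP2
import Cfsg.Agent.H22.SpSu

/-! Short presentations of `SU₃(q)`: the rank one step. -/

set_option autoImplicit false
set_option linter.unusedSectionVars false
set_option linter.unusedSimpArgs false

namespace H7.UP

open H18.Su H23 Monoid Matrix Cfsg
open scoped commutatorElement Monoid.Coprod

attribute [-simp] H23.conj_apply

variable {F : Type*} [Field F] [Fintype F] {q : ℕ} {hF : Fintype.card F = q ^ 2} {J : Type*} [Group J]

theorem ww_sq : ww hF * ww hF = 1 := by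
  apply mt_ext
  rw [mt_mul, mt_ww, mt_one]
  ext i j; fin_cases i <;> fin_cases j <;> simp [Matrix.mul_apply, Fin.sum_univ_three]

theorem ww_not : ww hF ∉ BB hF := fun ⟨k, hk⟩ => by simpa [ac_ww, e0] using congrFun hk 2

theorem tor {τ : BB hF} (h : ww hF * τ * ww hF ∈ BB hF) : ∃ l, τ = tb hF l := by
  obtain ⟨l, c, b, hb, rfl⟩ := nfB τ
  obtain ⟨k, hk⟩ := h
  change ac (ww hF * (xx c b hb * tt hF l) * ww hF) e0 = _ at hk
  have := conj_ne (hF := hF) l.ne_zero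
  simp only [ac_mul, ac_ww, ac_xx, ac_tt] at hk
  obtain rfl : c = 0 := by simpa [e0, this] using congrFun hk 1
  obtain rfl : b = 0 := by simpa [e0, this] using congrFun hk 2
  exact ⟨l, by rw [xb_zero, one_mul]⟩

theorem inv_ok {c b : F} (h : b + conj hF b = c * conj hF c) (hb : b ≠ 0) :
    b⁻¹ + conj hF b⁻¹ = -c / b * conj hF (-c / b) ∧ b⁻¹ + conj hF b⁻¹ = -c / conj hF b * conj hF (-c / conj hF b) := by
  have := conj_ne (hF := hF) hb
  constructor <;> simp only [map_inv₀, map_div₀, map_neg, H23.conj_conj] <;> field_simp <;> linear_combination h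

theorem wxw {c b : F} (h : b + conj hF b = c * conj hF c) (hb : b ≠ 0) : ww hF * xb c b h * ww hF =
    ↑(xb _ _ (inv_ok h hb).1 * tb hF (Units.mk0 _ (conj_ne (hF := hF) hb))⁻¹) * ww hF * xb _ _ (inv_ok h hb).2 := by
  have := conj_ne (hF := hF) hb
  apply mt_ext
  change mt (ww hF * xx c b h * ww hF) = mt (xx _ _ (inv_ok h hb).1 * tt hF _ * ww hF * xx _ _ (inv_ok h hb).2)
  simp only [mt_mul, mt_ww, mt_xx, mt_tt, Units.val_inv_eq_inv_val, Units.val_mk0, map_inv₀, map_div₀, map_neg, H23.conj_conj]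
  ext i j; fin_cases i <;> fin_cases j <;> simp [Matrix.mul_apply, Fin.sum_univ_three] <;> field_simp <;>
    first | linear_combination h | linear_combination -h | ring

/-- the Steinberg relation for `x` -/
def DD (φ : BB hF →* J) (w : J) (x : BB hF) : Prop :=
  ∃ β γ : BB hF, ww hF * x * ww hF = β * ww hF * γ ∧ w * φ x * w = φ β * w * φ γ

/-- the Steinberg relations on a class modulo the fixed field -/
def PC (φ : BB hF →* J) (w : J) (θ : F) : Prop :=
  ∀ c b h, b ≠ 0 → conj hF b * θ = b * conj hF θ → DD φ w (xb c b h)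

section
variable {φ : BB hF →* J} {w : J} (hw : w * w = 1) (ht : ∀ l, φ (tb hF l) * w = w * φ (tb hF (cu hF l)⁻¹))

theorem tw (l : Fˣ) : (tb hF l : UU hF) * ww hF = ww hF * tb hF (cu hF l)⁻¹ := tt_ww l

theorem cu_cu (l : Fˣ) : (cu hF (cu hF l)⁻¹)⁻¹ = l := Units.ext (by simp [cu_val, H23.conj_conj])

include ht in
theorem DD.norm {x β γ : BB hF} (h : DD φ w x) (e : ww hF * x * ww hF = β * ww hF * γ) : w * φ x * w = φ β * w * φ γ := by
  obtain ⟨β', γ', e1, e2⟩ := h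
  have e3 : ww hF * ↑(β'⁻¹ * β) * ww hF = ww hF * ww hF * ↑(γ' * γ⁻¹) := by
    push_cast
    calc _ = ww hF * (β' : UU hF)⁻¹ * (β * ww hF * γ) * (γ : UU hF)⁻¹ := by group
      _ = _ := by rw [← e, e1]; group
  rw [ww_sq, one_mul] at e3
  obtain ⟨l, hl⟩ := tor (e3 ▸ (γ' * γ⁻¹).2)
  rw [hl, mul_assoc, tw, ← mul_assoc, ww_sq, one_mul] at e3
  have e4 : γ' = tb hF (cu hF l)⁻¹ * γ := eq_mul_of_mul_inv_eq (Subtype.ext e3).symm
  rw [e2, eq_mul_of_inv_mul_eq hl, e4, map_mul, map_mul, mul_assoc (φ β') _ w, ht]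
  group

include ht in
theorem DD.mul_tb {x : BB hF} (h : DD φ w x) (l : Fˣ) : DD φ w (x * tb hF l) := by
  obtain ⟨β, γ, e1, e2⟩ := h
  refine ⟨β, γ * tb hF (cu hF l)⁻¹, ?_, ?_⟩
  · rw [Subgroup.coe_mul, Subgroup.coe_mul, ← mul_assoc, ← mul_assoc, ← e1, mul_assoc _ _ (ww hF), tw, ← mul_assoc]
  · rw [map_mul, map_mul, ← mul_assoc, ← mul_assoc, ← e2, mul_assoc _ _ w, ht, ← mul_assoc]

include ht in
theorem DD.tb_mul {x : BB hF} (h : DD φ w x) (l : Fˣ) : DD φ w (tb hF l * x) := by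
  obtain ⟨β, γ, e1, e2⟩ := h
  refine ⟨tb hF (cu hF l)⁻¹ * β, γ, ?_, ?_⟩
  · have := tw (hF := hF) (cu hF l)⁻¹
    rw [cu_cu] at this
    rw [Subgroup.coe_mul, Subgroup.coe_mul, ← mul_assoc, ← this, mul_assoc, mul_assoc, ← mul_assoc (ww hF), e1]
    group
  · have := ht (cu hF l)⁻¹
    rw [cu_cu] at this
    rw [map_mul, map_mul, ← mul_assoc, ← this, mul_assoc, mul_assoc, ← mul_assoc w, e2]
    group

include ht in
theorem DD.cj {x : BB hF} (h : DD φ w x) (l : Fˣ) : DD φ w (tb hF l * x * (tb hF l)⁻¹) :=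
  map_inv (tb hF) l ▸ (h.tb_mul ht l).mul_tb ht _

include hw ht

theorem DD.comp {x y β γ β' γ' : BB hF} (h : DD φ w x) (h' : DD φ w y) (e : ww hF * x * ww hF = β * ww hF * γ)
    (e' : ww hF * y * ww hF = β' * ww hF * γ') (k : DD φ w (γ * β')) : DD φ w (x * y) := by
  obtain ⟨δ, ε, e1, e2⟩ := k
  refine ⟨β * δ, ε * γ', ?_, ?_⟩
  · push_cast at e1 ⊢
    calc _ = ww hF * x * (ww hF * ww hF) * y * ww hF := by rw [ww_sq]; group
      _ = (ww hF * x * ww hF) * (ww hF * y * ww hF) := by group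
      _ = β * (ww hF * (γ * β') * ww hF) * γ' := by rw [e, e']; group
      _ = _ := by rw [e1]; group
  · simp only [map_mul] at e2 ⊢
    calc _ = w * φ x * (w * w) * φ y * w := by rw [hw]; group
      _ = (w * φ x * w) * (w * φ y * w) := by group
      _ = φ β * (w * (φ γ * φ β') * w) * φ γ' := by rw [h.norm ht e, h'.norm ht e']; group
      _ = _ := by rw [e2]; group

theorem PC.step {ε θ η ξ : F} (he : conj hF ε = -ε) (h0 : ε ≠ 0) (h1 : θ ≠ 0) (h2 : ξ ≠ 0)
    (k0 : PC φ w ε) (k1 : PC φ w θ) (k2 : PC φ w η) (e : conj hF ξ * (θ * η) = -(ξ * (conj hF θ * conj hF η))) :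
    PC φ w ξ := fun c b h hb hx => by
  have e' : conj hF b * (θ * η) = -(b * (conj hF θ * conj hF η)) :=
    mul_left_cancel₀ h2 (by linear_combination θ * η * hx + b * e)
  by_cases t1 : b + conj hF b = 0
  · exact k0 c b h hb (by rw [he]; linear_combination ε * t1)
  by_cases t2 : θ + conj hF θ = 0
  · exact k2 c b h hb (mul_left_cancel₀ h1 (by linear_combination e' - b * conj hF η * t2))
  obtain ⟨r, hr⟩ : ∃ r, r = (b + conj hF b) / (θ + conj hF θ) := ⟨_, rfl⟩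
  have r1 : conj hF r = r := by rw [hr]; simp [H23.conj_conj, add_comm]
  have r2 : r * (θ + conj hF θ) = b + conj hF b := by rw [hr]; field_simp
  have r3 : r * θ ≠ 0 := mul_ne_zero (by rintro rfl; exact t1 (by simpa using r2.symm)) h1
  have h' : r * θ + conj hF (r * θ) = c * conj hF c := by rw [map_mul, r1]; linear_combination r2 + h
  have d1 := k1 c _ h' r3 (by rw [map_mul, r1]; ring)
  by_cases t3 : b - r * θ = 0
  · exact xb_congr (h := h') rfl (sub_eq_zero.1 t3).symm ▸ d1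
  obtain ⟨s, hs⟩ : ∃ s, s = b - r * θ := ⟨_, rfl⟩
  rw [← hs] at t3
  have s1 : conj hF s = -s := by rw [hs, map_sub, map_mul, r1]; linear_combination -r2
  have h'' : s + conj hF s = 0 * conj hF 0 := by simp [s1]
  have := d1.comp hw ht (k0 0 _ h'' t3 (by rw [he, s1]; ring)) (wxw h' r3) (wxw h'' t3) (by
    have := left_ne_zero_of_mul r3
    rw [← mul_assoc, xb_mul]
    have e1 : (r * θ)⁻¹ + s⁻¹ + conj hF (-c / conj hF (r * θ)) * (-0 / s) = b / (r * θ * s) := by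
      field_simp; rw [hs]; ring
    refine DD.mul_tb ht (k2 _ _ _ (by rw [e1]; exact div_ne_zero hb (mul_ne_zero r3 t3)) ?_) _
    have := conj_ne (hF := hF) h1
    rw [e1, map_div₀, map_mul, map_mul, r1, s1]
    field_simp
    linear_combination -e')
  rw [xb_mul] at this
  rwa [xb_congr (h' := h) (add_zero c) (by rw [hs]; ring)] at this

theorem all_DD {ζ : Fˣ} (hz : ∀ x, x ∈ Subgroup.zpowers ζ) {ε : F} (he : conj hF ε = -ε) (h0 : ε ≠ 0)
    (d0 : DD φ w (xb 0 ε (by simp [he]))) {b0 : F} (hb : b0 + conj hF b0 = 1)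
    (e0 : conj hF b0 * (ζ * ε) = b0 * conj hF (ζ * ε)) (d1 : ∀ i : Fin 3, DD φ w (xs hb (ζ ^ i.val)))
    {c b : F} (h : b + conj hF b = c * conj hF c) (hb0 : b ≠ 0) : DD φ w (xb c b h) := by
  have k0 : PC φ w ε := fun c b h h1 h2 => by
    have b1 : conj hF b = -b := mul_right_cancel₀ h0 (by rw [h2, he]; ring)
    obtain rfl : c = 0 := by simpa [b1] using h
    obtain ⟨k, hk⟩ := fix_pow (hF := hF) hz (div_ne_zero h1 h0) (by rw [map_div₀, b1, he, neg_div_neg_eq])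
    have := d0.cj ht (ζ ^ k)
    rw [tb_xb] at this
    refine xb_congr (h' := h) (mul_zero _) ?_ ▸ this
    rw [Units.val_pow_eq_pow_val, map_pow, ← mul_pow, ← hk, div_mul_cancel₀ _ h0]
  have k1 : PC φ w (ζ * ε) := fun c b h h1 h2 => by
    have b1 : b = c * conj hF c * b0 := by
      refine mul_right_cancel₀ (mul_ne_zero ζ.ne_zero h0) ?_
      rw [← h]
      linear_combination -b0 * h2 + b * e0 - b * (ζ * ε) * hb
    obtain ⟨k, rfl⟩ := ex_pow hz (t := c) (by rintro rfl; simp [h1] at b1)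
    have := (d1 ⟨k % 3, by omega⟩).cj ht (cu hF (ζ ^ (k / 3)) ^ 2 * ζ ^ (k / 3))
    rw [tb_xs] at this
    have h3 := conj_ne (hF := hF) ζ.ne_zero
    have h4 := ζ.ne_zero
    have e : (conj hF ↑(cu hF (ζ ^ (k / 3)) ^ 2 * ζ ^ (k / 3)) ^ 2 / ↑(cu hF (ζ ^ (k / 3)) ^ 2 * ζ ^ (k / 3)) *
        (ζ : F) ^ (k % 3)) = ζ ^ k := by
      simp only [Units.val_mul, Units.val_pow_eq_pow_val, cu_val, map_mul, map_pow, H23.conj_conj]
      conv_rhs => rw [← Nat.div_add_mod k 3]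
      field_simp
      ring
    rw [e] at this
    exact xb_congr (h' := h) rfl b1.symm ▸ this
  have k2 : ∀ k : ℕ, PC φ w (ζ ^ k * ε) := fun k => by
    induction k with
    | zero => simpa using k0
    | succ k ih =>
      refine PC.step hw ht he h0 (mul_ne_zero ζ.ne_zero h0) (mul_ne_zero (pow_ne_zero _ ζ.ne_zero) h0) k0 k1 ih ?_
      simp only [map_mul, map_pow, he]; ring
  obtain ⟨k, hk⟩ := ex_pow hz (div_ne_zero hb0 h0)
  exact k2 k c b h hb0 (by rw [← hk, div_mul_cancel₀ _ h0, mul_comm])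

end

/-- the relators involving the Weyl element -/
def rel6 (φ : BB hF →* J) (w : J) (ζ : Fˣ) (x β γ : Fin 4 → BB hF) : List J :=
  [w * w, φ (tb hF ζ) * w / (w * φ (tb hF (cu hF ζ)⁻¹))] ++ List.ofFn fun i => w * φ (x i) * w / (φ (β i) * w * φ (γ i))

theorem rel6_map {J' : Type*} [Group J'] (Φ : J →* J') (φ : BB hF →* J) (w : J) (ζ : Fˣ) (x β γ : Fin 4 → BB hF) :
    (rel6 φ w ζ x β γ).map Φ = rel6 (Φ.comp φ) (Φ w) ζ x β γ := by
  simp only [rel6, List.map_append, List.map_cons, List.map_nil, List.map_ofFn, Function.comp_def, map_mul Φ, map_div,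
    MonoidHom.comp_apply]

theorem rel6_iff {φ : BB hF →* J} {w : J} {ζ : Fˣ} {x β γ : Fin 4 → BB hF} : (∀ y ∈ rel6 φ w ζ x β γ, y = 1) ↔
    w * w = 1 ∧ φ (tb hF ζ) * w = w * φ (tb hF (cu hF ζ)⁻¹) ∧ ∀ i, w * φ (x i) * w = φ (β i) * w * φ (γ i) := by
  simp only [rel6, List.forall_mem_append, List.forall_mem_cons, List.forall_mem_ofFn_iff, div_eq_one,
    List.not_mem_nil, false_imp_iff, implies_true, and_true, and_assoc]

theorem pg_U (hF : Fintype.card F = q ^ 2) (hq : 4 ≤ q) : PG (SU 3 F q) 3 21 := by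
  obtain ⟨ζ, hz⟩ := IsCyclic.exists_generator (α := Fˣ)
  obtain ⟨e⟩ := exists_equiv hF
  obtain ⟨ε, h0, he⟩ := exists_trace_zero_ne_zero hF
  replace he : conj hF ε = -ε := by rw [conj_apply]; linear_combination he
  have t0 : ζ * ε + conj hF (ζ * ε) ≠ 0 := fun h => mu_ne (hF := hF) hz hq (by
    have : conj hF ζ = ζ := mul_right_cancel₀ h0 (by rw [map_mul, he] at h; linear_combination -h)
    simp [this])
  obtain ⟨b0, hb, e0⟩ : ∃ b0 : F, b0 + conj hF b0 = 1 ∧ conj hF b0 * (ζ * ε) = b0 * conj hF (ζ * ε) := by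
    have : conj hF (ζ * ε + conj hF (ζ * ε)) = ζ * ε + conj hF (ζ * ε) := by rw [map_add, H23.conj_conj, add_comm]
    refine ⟨ζ * ε / (ζ * ε + conj hF (ζ * ε)), ?_, ?_⟩ <;> rw [map_div₀, this] <;> field_simp
  have b1 : b0 ≠ 0 := by rintro rfl; simp at hb
  let x : Fin 4 → BB hF := Fin.cons (xb 0 ε (by simp [he])) fun i : Fin 3 => xs hb (ζ ^ i.val)
  have hx : ∀ i, ∃ β γ : BB hF, ww hF * x i * ww hF = β * ww hF * γ := fun i => by
    induction i using Fin.cases with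
    | zero => exact ⟨_, _, wxw _ h0⟩
    | succ i => exact ⟨_, _, wxw _ (mul_ne_zero (mul_ne_zero (pow_ne_zero _ ζ.ne_zero) (conj_ne (pow_ne_zero _ ζ.ne_zero))) b1)⟩
  choose β γ hβ using hx
  have hB : PG (FreeGroup (Fin 1)) 1 0 := ⟨FreeGroup.of, Pr.intro [] (by simp) fun J _ ρ _ w hw => by
    rw [FreeGroup.lift_of_eq_id, MonoidHom.id_apply] at hw; rw [hw, map_one], FreeGroup.closure_range_of _⟩
  refine (PG.amalg (pg_B (hF := hF) hq) hB (BB hF).subtype (FreeGroup.lift fun _ => ww hF)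
    (rel6 Coprod.inl (Coprod.inr (.of 0)) ζ x β γ) ((List.forall_mem_map (P := (· = 1))).1 ?_) (fun J _ φ ρ H => ?_)
      (K := ⊤) ?_).congr (Subgroup.topEquiv.trans e)
  · rw [rel6_map, rel6_iff, Coprod.lift_apply_inr, FreeGroup.lift_apply_of]
    exact ⟨ww_sq, tw ζ, hβ⟩
  · have H := (List.forall_mem_map (P := (· = 1))).2 H
    rw [rel6_map, rel6_iff, Coprod.lift_apply_inr, Coprod.lift_comp_inl] at H
    obtain ⟨hw, h1, h2⟩ := H
    have ht : ∀ l, φ (tb hF l) * ρ (.of 0) = ρ (.of 0) * φ (tb hF (cu hF l)⁻¹) := fun l => by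
      obtain ⟨k, rfl⟩ := hz l
      simpa only [map_zpow, map_inv, _root_.inv_zpow] using (SemiconjBy.zpow_right h1.symm k).symm
    obtain ⟨Γ, g1, g2, g3⟩ := dc_sub ((BB hF).subtype.prod φ).range (W := (ww hF, ρ (.of 0))) (Prod.ext ww_sq hw) (by
      rintro _ ⟨g, rfl⟩
      obtain ⟨l, c, b, h, rfl⟩ := nfB g
      by_cases hb0 : b = 0
      · subst hb0
        obtain rfl : c = 0 := by simpa using h
        refine .inl ⟨tb hF (cu hF l)⁻¹, Prod.ext ?_ ?_⟩ <;> rw [xb_zero, one_mul]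
        · change _ = ww hF * tb hF l * ww hF
          rw [mul_assoc, tw, ← mul_assoc, ww_sq, one_mul]; rfl
        · change _ = ρ _ * φ (tb hF l) * ρ _
          rw [mul_assoc, ht, ← mul_assoc, hw, one_mul]; rfl
      obtain ⟨β, γ, e1, e2⟩ := (all_DD hw ht hz he h0 ⟨_, _, hβ 0, h2 0⟩ hb e0 (fun i => ⟨_, _, hβ i.succ, h2 i.succ⟩)
        h hb0).mul_tb ht l
      exact .inr ⟨_, ⟨β, rfl⟩, _, ⟨γ, rfl⟩, Prod.ext e1 e2⟩)
    refine ⟨Γ, fun a => g1 ⟨a, rfl⟩, fun b => ((FreeGroup.closure_range_of _).ge.trans ((Subgroup.closure_le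
      (Γ.comap ((FreeGroup.lift fun _ => ww hF).prod ρ))).2 ?_)) (Subgroup.mem_top b), fun y hy => ?_⟩
    · rintro _ ⟨i, rfl⟩
      rw [Subsingleton.elim i 0]
      simpa using g2
    · rcases g3 _ hy with ⟨g, hg⟩ | ⟨_, ⟨β, rfl⟩, _, ⟨γ, rfl⟩, hg⟩
      · obtain rfl : g = 1 := Subtype.ext (congrArg Prod.fst hg)
        exact (congrArg Prod.snd hg).symm.trans (map_one φ)
      · have : (1 : UU hF) = β * ww hF * γ := congrArg Prod.fst hg
        refine absurd ?_ (ww_not (hF := hF))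
        rw [show ww hF = (β : UU hF)⁻¹ * (β * ww hF * γ) * (γ : UU hF)⁻¹ by group, ← this, mul_one]
        exact mul_mem (inv_mem β.2) (inv_mem γ.2)
  · have k1 : ∀ g ∈ BB hF, g ∈ (BB hF).subtype.range ⊔ (FreeGroup.lift fun _ : Fin 1 => ww hF).range :=
      fun g hg => Subgroup.mem_sup_left ⟨⟨g, hg⟩, rfl⟩
    refine eq_top_iff.2 fun g _ => ?_
    rcases bruhat g with h | ⟨b1, h1, b2, h2, rfl⟩
    · exact k1 g h
    · exact mul_mem (mul_mem (k1 _ h1) (Subgroup.mem_sup_right ⟨.of 0, by simp⟩)) (k1 _ h2)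

theorem cen_U (hF : Fintype.card F = q ^ 2) : IsCyclic (Subgroup.center (SU 3 F q)) :=
  have : Fact (Nat.Prime 3) := ⟨Nat.prime_three⟩
  isCyclic_of_card_dvd_prime (p := 3) (by rw [H22.card_center_SU hF 3 (by omega)]; exact Nat.gcd_dvd_left _ _)

end H7.UP
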