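import Cfsg.Agent.H1.PSolv
import Cfsg.Agent.H1.Super

/-! Weakly closed elements form a direct factor of `Z(S)`. -/

set_option autoImplicit false
set_option linter.unusedSectionVars false

open Cfsg Subgroup

namespace H7

theorem exists_norm_hom {L M : Type*} [Group L] [Finite L] [CommGroup M]
    (φ : L →* MulAut M) (T : Subgroup L) :
    ∃ f : M →* M, (∀ c, (∀ t ∈ T, φ t c = c) → ∀ l, φ l (f c) = f c) ∧
      ∀ c, (∀ l, φ l c = c) → f c = c ^ T.index := by
  classical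
  have : Fintype (L ⧸ T) := Fintype.ofFinite _
  refine ⟨∏ q : L ⧸ T, (φ q.out).toMonoidHom, fun c hc l => ?_, fun c hc => ?_⟩
  · have hq : ∀ l : L, φ ((l : L ⧸ T).out) c = φ l c := fun l => by
      obtain ⟨t, ht⟩ := QuotientGroup.mk_out_eq_mul T l
      rw [ht, map_mul, MulAut.mul_apply, hc t t.2]
    simp only [MonoidHom.finset_prod_apply, map_prod, MulEquiv.coe_toMonoidHom]
    refine Fintype.prod_equiv (MulAction.toPerm l) _ _ fun q => ?_
    rw [← MulAut.mul_apply, ← map_mul, ← hq]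
    congr 3
    conv_rhs => rw [← q.out_eq']
    rfl
  · simp only [MonoidHom.finset_prod_apply, MulEquiv.coe_toMonoidHom, hc, Finset.prod_const,
      Finset.card_univ]
    rw [← Nat.card_eq_fintype_card, ← index]

variable {G : Type*} [Group G] [Finite G]

open scoped IsMulCommutative in
theorem exists_direct_factor {V S N : Subgroup G} [IsMulCommutative V] (hSN : S ≤ N)
    (hN : N ≤ normalizer (V : Set G)) (hc : (Nat.card V).Coprime (S.relIndex N)) :
    ∃ K ≤ V ⊓ centralizer (S : Set G), (V ⊓ centralizer (N : Set G)) ⊓ K = ⊥ ∧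
      (V ⊓ centralizer (N : Set G)) ⊔ K = V ⊓ centralizer (S : Set G) := by
  let φ : N →* MulAut V := V.normalizerMonoidHom.comp (inclusion hN)
  have hφ : ∀ (n : N) (v : V), φ n v = v ↔ (n : G) * v = v * n := fun n v => by
    rw [Subtype.ext_iff, ← mul_inv_eq_iff_eq_mul]; rfl
  obtain ⟨f, h1, h2⟩ := exists_norm_hom φ (S.subgroupOf N)
  have hb := hc.pow_left_bijective
  refine ⟨f.ker.map V.subtype ⊓ centralizer (S : Set G),
    inf_le_inf_right _ (map_subtype_le _), ?_, le_antisymm (sup_le (inf_le_inf_left _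
      (centralizer_le (SetLike.coe_subset_coe.2 hSN))) (inf_le_inf_right _ (map_subtype_le _))) ?_⟩
  · rw [eq_bot_iff]
    rintro _ ⟨⟨-, a1⟩, ⟨v, hv, rfl⟩, -⟩
    have := h2 v fun l => (hφ l v).2 (a1 l l.2)
    rw [show f v = 1 from hv] at this
    have h3 : v = 1 := hb.1 (by simpa [relIndex] using this.symm)
    rw [h3]; exact one_mem _
  · rintro z ⟨hz, hzS⟩
    have h3 := h1 ⟨z, hz⟩ fun t ht => (hφ t _).2 (hzS t ht)
    obtain ⟨w, hw⟩ := hb.2 (f ⟨z, hz⟩)
    have h4 : ∀ l, φ l w = w := fun l => hb.1 (by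
      simp only at hw ⊢
      rw [← map_pow, hw, h3])
    have h5 : (w : G) ∈ centralizer (N : Set G) := fun n hn => (hφ ⟨n, hn⟩ w).1 (h4 _)
    rw [← mul_inv_cancel_left (w : G) z]
    refine mul_mem (mem_sup_left ⟨w.2, h5⟩) (mem_sup_right ⟨⟨w⁻¹ * ⟨z, hz⟩, ?_, rfl⟩, ?_⟩)
    · simp only at hw
      rw [SetLike.mem_coe, MonoidHom.mem_ker, map_mul, map_inv, h2 w h4, ← hw]
      exact inv_mul_cancel _
    · exact Subgroup.mul_mem _ (Subgroup.inv_mem _
        (centralizer_le (SetLike.coe_subset_coe.2 hSN) h5)) hzS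

theorem weaklyClosed_direct_factor {p : ℕ} [hp : Fact p.Prime] (S : Sylow p G) {T : Subgroup G}
    (hT : T ≤ S) (hZ : (S : Subgroup G) ⊓ centralizer ((S : Subgroup G) : Set G) ≤ T)
    (hN : (S : Subgroup G) ≤ normalizer (T : Set G))
    (h : ∀ x ∈ T, x ∈ centralizer (normalizer (T : Set G) : Set G) → ∀ g : G,
      g * x * g⁻¹ ∈ (S : Subgroup G) → g * x * g⁻¹ = x) :
    ∃ W K : Subgroup G, (∀ x : G, x ∈ W ↔ (x ∈ (S : Subgroup G) ∧
        ∀ g : G, g * x * g⁻¹ ∈ (S : Subgroup G) → g * x * g⁻¹ = x)) ∧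
      K ≤ ((S : Subgroup G) ⊓ centralizer ((S : Subgroup G) : Set G)) ∧ W ⊓ K = ⊥ ∧
      W ⊔ K = ((S : Subgroup G) ⊓ centralizer ((S : Subgroup G) : Set G)) := by
  set V := T ⊓ centralizer (T : Set G) with hV
  have : IsMulCommutative V := H1.isMulCommutative_iff'.2 fun a ha b hb => hb.2 a ha.1
  obtain ⟨K, h1, h2, h3⟩ := exists_direct_factor (V := V) hN
    (H1.le_normalizer_inf le_rfl (H1.le_normalizer_centralizer le_rfl))
    (H1.IsPGroup.coprime_card (S.isPGroup'.to_le (inf_le_left.trans hT))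
      ((Nat.Prime.coprime_iff_not_dvd hp.out).2 fun hd => S.not_dvd_index
        (hd.trans (relIndex_dvd_index_of_le hN))).symm)
  have e : V ⊓ centralizer ((S : Subgroup G) : Set G) =
      (S : Subgroup G) ⊓ centralizer ((S : Subgroup G) : Set G) :=
    le_antisymm (inf_le_inf_right _ (inf_le_left.trans hT)) (le_inf (le_inf hZ
      (inf_le_right.trans (centralizer_le (SetLike.coe_subset_coe.2 hT)))) inf_le_right)
  refine ⟨V ⊓ centralizer (normalizer (T : Set G) : Set G), K, fun x => ⟨fun hx => ⟨hT hx.1.1, h x hx.1.1 hx.2⟩, fun ⟨a1, a2⟩ => ?_⟩,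
    e ▸ h1, h2, e ▸ h3⟩
  have a3 : x ∈ V := (e.ge ⟨a1, fun s hs => mul_inv_eq_iff_eq_mul.1
    (a2 s (mul_mem (mul_mem hs a1) (inv_mem hs)))⟩).1
  exact ⟨a3, fun g hg => mul_inv_eq_iff_eq_mul.1
    (a2 g (hT (H1.conj_mem_of_mem_normalizer hg a3.1)))⟩

theorem weaklyClosed_direct_factor_of_le {p : ℕ} [hp : Fact p.Prime] (S : Sylow p G)
    (hZ : (S : Subgroup G) ⊓ centralizer ((S : Subgroup G) : Set G) ≤ pPrimePCore p G) :
    ∃ W K : Subgroup G, (∀ x : G, x ∈ W ↔ (x ∈ (S : Subgroup G) ∧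
        ∀ g : G, g * x * g⁻¹ ∈ (S : Subgroup G) → g * x * g⁻¹ = x)) ∧
      K ≤ ((S : Subgroup G) ⊓ centralizer ((S : Subgroup G) : Set G)) ∧ W ⊓ K = ⊥ ∧
      W ⊔ K = ((S : Subgroup G) ⊓ centralizer ((S : Subgroup G) : Set G)) := by
  have hS : IsPiHallOf {p} (S : Subgroup G) ⊤ := H1.isPiHallOf_singleton_iff.2
    ⟨le_top, S.isPGroup', by rw [relIndex_top_right]; exact S.not_dvd_index⟩
  have hT := H1.IsPiHallOf.inf hS (le_top : pPrimePCore p G ≤ ⊤) le_normalizer_of_normal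
  refine weaklyClosed_direct_factor S (T := S ⊓ pPrimePCore p G) inf_le_left
    (le_inf inf_le_left hZ) (H1.le_normalizer_inf le_normalizer le_normalizer_of_normal)
    fun x hx hc g hg => ?_
  obtain ⟨k, hk, n, hn, rfl⟩ := H1.sylowOf_frattini hT (g := g) (le_normalizer_of_normal (mem_top g))
  rw [← H1.sylowOf_sup_pPrimeCore hT, sup_comm] at hk
  obtain ⟨o, ho, t, ht, rfl⟩ := (H1.mem_sup_of_le_normalizer_left le_normalizer_of_normal).1 hk
  have e : o * t * n * x * (o * t * n)⁻¹ = o * x * o⁻¹ := by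
    have := hc _ (mul_mem (le_normalizer ht) hn)
    calc _ = o * (t * n * x) * (t * n)⁻¹ * o⁻¹ := by group
      _ = _ := by rw [this]; group
  rw [e] at hg ⊢
  have : o * x * o⁻¹ * x⁻¹ ∈ (S : Subgroup G) ⊓ pPrimeCore p G := ⟨Subgroup.mul_mem _ hg
      (Subgroup.inv_mem _ hx.1), by
    simpa [mul_assoc] using mul_mem ho
      ((inferInstance : (pPrimeCore p G).Normal).conj_mem _ (inv_mem ho) x)⟩
  rwa [H1.inf_eq_bot_of_isPGroup_of_coprime S.isPGroup' (H1.coprime_card_pPrimeCore p), mem_bot,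
    mul_inv_eq_one] at this

end H7
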